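import Mathlib
import Cfsg.Agent.S4206
import Cfsg.Agent.Helper17.CharP

set_option autoImplicit false

namespace Cfsg.Agent.Helper17

open scoped commutatorElement

theorem three_subgroups_rel {G : Type*} [Group G] (N A B C : Subgroup G)
    (hA : A ≤ Subgroup.normalizer (N : Set G)) (hB : B ≤ Subgroup.normalizer (N : Set G))
    (hC : C ≤ Subgroup.normalizer (N : Set G))
    (h1 : ⁅⁅B, C⁆, A⁆ ≤ N) (h2 : ⁅⁅C, A⁆, B⁆ ≤ N) : ⁅⁅A, B⁆, C⁆ ≤ N := by
  haveI : (N.subgroupOf (Subgroup.normalizer (N : Set G))).Normal := Subgroup.normal_in_normalizer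
  have key : ∀ X Y Z : Subgroup G, X ≤ Subgroup.normalizer (N : Set G) →
      Y ≤ Subgroup.normalizer (N : Set G) → Z ≤ Subgroup.normalizer (N : Set G) →
      (⁅⁅X.subgroupOf (Subgroup.normalizer (N : Set G)),
        Y.subgroupOf (Subgroup.normalizer (N : Set G))⁆,
        Z.subgroupOf (Subgroup.normalizer (N : Set G))⁆).map
          (Subgroup.normalizer (N : Set G)).subtype = ⁅⁅X, Y⁆, Z⁆ := by
    intro X Y Z hX hY hZ
    rw [Subgroup.map_commutator, Subgroup.map_commutator, Subgroup.map_subgroupOf_eq_of_le hX,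
      Subgroup.map_subgroupOf_eq_of_le hY, Subgroup.map_subgroupOf_eq_of_le hZ]
  have h1' : ⁅⁅B.subgroupOf (Subgroup.normalizer (N : Set G)),
      C.subgroupOf (Subgroup.normalizer (N : Set G))⁆,
      A.subgroupOf (Subgroup.normalizer (N : Set G))⁆ ≤
      N.subgroupOf (Subgroup.normalizer (N : Set G)) := by
    refine Subgroup.map_le_iff_le_comap.mp ?_
    rw [key B C A hB hC hA]; exact h1
  have h2' : ⁅⁅C.subgroupOf (Subgroup.normalizer (N : Set G)),
      A.subgroupOf (Subgroup.normalizer (N : Set G))⁆,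
      B.subgroupOf (Subgroup.normalizer (N : Set G))⁆ ≤
      N.subgroupOf (Subgroup.normalizer (N : Set G)) := by
    refine Subgroup.map_le_iff_le_comap.mp ?_
    rw [key C A B hC hA hB]; exact h2
  have h3 := Cfsg.Agent.S4206.three_subgroups_normal _ _ _ _ h1' h2'
  rw [← key A B C hA hB hC]
  exact Subgroup.map_le_iff_le_comap.mpr h3

theorem le_normalizer_commutator_self_left {G : Type*} [Group G] (H K : Subgroup G) :
    H ≤ Subgroup.normalizer ((⁅H, K⁆ : Subgroup G) : Set G) := by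
  apply le_normalizer_of_conj_mem
  intro h hh
  have h1 : ⁅H, K⁆ ≤ (⁅H, K⁆).comap (MulAut.conj h).toMonoidHom := by
    rw [Subgroup.commutator_le]
    intro g₁ hg₁ g₂ hg₂
    rw [Subgroup.mem_comap]
    have e : (MulAut.conj h).toMonoidHom ⁅g₁, g₂⁆ = ⁅h * g₁, g₂⁆ * ⁅h, g₂⁆⁻¹ := by
      simp only [MulEquiv.coe_toMonoidHom, MulAut.conj_apply, commutatorElement_def]; group
    rw [e]
    exact Subgroup.mul_mem _ (Subgroup.commutator_mem_commutator (H.mul_mem hh hg₁) hg₂)
      (Subgroup.inv_mem _ (Subgroup.commutator_mem_commutator hh hg₂))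
  intro x hx
  have h2 := h1 hx
  rw [Subgroup.mem_comap] at h2
  simpa using h2

end Cfsg.Agent.Helper17
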