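import Mathlib
import Cfsg.Prelude.Def_Local
import Cfsg.Prelude.Def_CaseTheorems
import Cfsg.Agent.Helper4.Burnside
import Cfsg.Agent.Helper9.Fitting

/-!
Centric–radical criterion: for a normal `p`-subgroup `H` of a finite group `M` with `C = C_M(H)`
and `N/C = O_p(M/C)`, `H` is a Sylow `p`-subgroup of `N` iff `C_S(H) ≤ H` and
`O_{p',p}(M) = H C`.
-/

set_option autoImplicit false

namespace Cfsg.Agent.Helper17

/-- If `S ∩ C ≤ H` for a Sylow `S` and normal `H`, `C`, then every `p`-subgroup of `C` lies in `H`. -/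
theorem cr_psub_le_of_sylow {M : Type*} [Group M] [Finite M] {p : ℕ} [Fact p.Prime]
    (S : Sylow p M) (H C : Subgroup M) [hHn : H.Normal] [hCn : C.Normal]
    (hSC : (S : Subgroup M) ⊓ C ≤ H) (Q : Subgroup M) (hQ : IsPGroup p Q) (hQC : Q ≤ C) :
    Q ≤ H := by
  obtain ⟨S', hS'⟩ := hQ.exists_le_sylow
  obtain ⟨g, rfl⟩ := MulAction.exists_smul_eq M S S'
  intro q hq
  have h1 : q ∈ ((g • S : Sylow p M) : Subgroup M) := hS' hq
  rw [Sylow.coe_subgroup_smul, Subgroup.mem_pointwise_smul_iff_inv_smul_mem] at h1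
  have h2 : g⁻¹ * q * g ∈ (S : Subgroup M) := by
    simpa [MulAut.smul_def, MulAut.conj_apply] using h1
  have h3 : g⁻¹ * q * g ∈ C := by
    have := hCn.conj_mem q (hQC hq) g⁻¹
    simpa using this
  have h4 := hSC ⟨h2, h3⟩
  have h5 := hHn.conj_mem _ h4 g
  have e : g * (g⁻¹ * q * g) * g⁻¹ = q := by group
  rwa [e] at h5

/-- If the normal `p`-subgroup `H` has `p'`-index in `N`, it contains all `p`-subgroups of `N`. -/
theorem cr_pSub_le {M : Type*} [Group M] [Finite M] {p : ℕ} [Fact p.Prime]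
    (H N Q : Subgroup M) [hHn : H.Normal] (hH : IsPGroup p H) (hHN : H ≤ N)
    (hidx : ¬ p ∣ H.relIndex N) (hQN : Q ≤ N) (hQ : IsPGroup p Q) : Q ≤ H := by
  have hHQ : IsPGroup p ↥(H ⊔ Q) := IsPGroup.to_sup_of_normal_left hH hQ
  have h1 : H.relIndex (H ⊔ Q) ∣ H.relIndex N :=
    Dvd.intro _ (Subgroup.relIndex_mul_relIndex _ _ _ le_sup_left (sup_le hHN hQN))
  have h2 : H.relIndex (H ⊔ Q) ∣ Nat.card ↥(H ⊔ Q) := Subgroup.relIndex_dvd_card _ _
  obtain ⟨k, hk⟩ := IsPGroup.iff_card.mp hHQ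
  rw [hk] at h2
  obtain ⟨j, -, hj⟩ := (Nat.dvd_prime_pow Fact.out).mp h2
  have hj0 : j = 0 := by
    by_contra hne
    apply hidx
    refine dvd_trans ?_ h1
    rw [hj]
    exact dvd_pow_self p hne
  rw [hj0, pow_zero, Subgroup.relIndex_eq_one] at hj
  exact le_sup_right.trans hj

/-- If `H` is a normal Sylow `p`-subgroup of `N` and `N/C` is a `p`-group then `N ≤ H C`. -/
theorem cr_N_le {M : Type*} [Group M] [Finite M] {p : ℕ} [Fact p.Prime]
    (H C N : Subgroup M) [hHn : H.Normal] (hH : IsPGroup p H) (hHN : H ≤ N)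
    (hidx : ¬ p ∣ H.relIndex N) (hN3 : ∀ x ∈ N, ∃ a : ℕ, x ^ p ^ a ∈ C) : N ≤ H ⊔ C := by
  intro x hx
  obtain ⟨a, ha⟩ := hN3 x hx
  have hp : p.Prime := Fact.out
  have hpos : 0 < orderOf x := orderOf_pos x
  obtain ⟨e, m, hm, hem⟩ := Nat.exists_eq_pow_mul_and_not_dvd hpos.ne' p hp.ne_one
  have hu : x ^ m ∈ H := by
    have h1 : (x ^ m) ^ p ^ e = 1 := by
      rw [← pow_mul, mul_comm, ← hem, pow_orderOf_eq_one]
    obtain ⟨j, -, hj⟩ := (Nat.dvd_prime_pow hp).mp (orderOf_dvd_of_pow_eq_one h1)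
    have hQ : IsPGroup p ↥(Subgroup.zpowers (x ^ m)) := by
      apply IsPGroup.of_card (n := j)
      rw [Nat.card_zpowers, hj]
    have h2 := cr_pSub_le H N (Subgroup.zpowers (x ^ m)) hH hHN hidx
      (by rw [Subgroup.zpowers_le]; exact N.pow_mem hx m) hQ
    exact h2 (Subgroup.mem_zpowers _)
  have hcop : IsCoprime (m : ℤ) ((p ^ a : ℕ) : ℤ) := by
    rw [Nat.isCoprime_iff_coprime]
    exact Nat.Coprime.pow_right a ((Nat.Prime.coprime_iff_not_dvd hp).mpr hm).symm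
  obtain ⟨i, j, hij⟩ := hcop
  have hx1 : x = (x ^ m) ^ i * (x ^ p ^ a) ^ j := by
    rw [← zpow_natCast x m, ← zpow_natCast x (p ^ a), ← zpow_mul, ← zpow_mul, ← zpow_add,
      mul_comm (m : ℤ), mul_comm ((p ^ a : ℕ) : ℤ), hij, zpow_one]
  rw [hx1]
  exact Subgroup.mul_mem_sup (H.zpow_mem hu i) (C.zpow_mem ha j)

/-- Burnside splitting: if `C` centralises `H` and every `p`-subgroup of `C` lies in `H`, then
`C = (H ∩ C) K` for a normal `p'`-subgroup `K` of the whole group. -/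
theorem cr_split {M : Type*} [Group M] [Finite M] {p : ℕ} [Fact p.Prime]
    (H C : Subgroup M) [hCn : C.Normal]
    (hC : ∀ x ∈ C, ∀ h ∈ H, h * x = x * h)
    (hQ : ∀ Q : Subgroup M, IsPGroup p Q → Q ≤ C → Q ≤ H) :
    ∃ K : Subgroup M, K.Normal ∧ K ≤ C ∧ (Nat.card K).Coprime p ∧
      ∀ c ∈ C, ∃ z ∈ H ⊓ C, ∃ k ∈ K, c = z * k := by
  have hp : p.Prime := Fact.out
  obtain ⟨T⟩ : Nonempty (Sylow p ↥C) := inferInstance
  have hTH : ∀ t ∈ (T : Subgroup ↥C), (t : M) ∈ H := by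
    intro t ht
    have h1 : (T : Subgroup ↥C).map C.subtype ≤ H :=
      hQ _ (T.isPGroup'.map _) (by rintro _ ⟨y, _, rfl⟩; exact y.2)
    exact h1 ⟨t, ht, rfl⟩
  have hcent : Subgroup.normalizer ((T : Subgroup ↥C) : Set ↥C) ≤
      Subgroup.centralizer ((T : Subgroup ↥C) : Set ↥C) := by
    intro c _
    rw [Subgroup.mem_centralizer_iff]
    intro t ht
    exact Subtype.ext (hC c.1 c.2 t.1 (hTH t ht))
  obtain ⟨K₀, hK₀n, hK₀c, hK₀p, -⟩ := Cfsg.Agent.Helper4.burnside_complement T hcent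
  have hchar : ∀ c : ↥C, (orderOf c).Coprime p → c ∈ K₀ := by
    intro c hc
    obtain ⟨k, hk⟩ := IsPGroup.iff_card.mp T.isPGroup'
    have hidx : K₀.index = p ^ k := by rw [hK₀c.symm.index_eq_card, hk]
    have h1 : orderOf (QuotientGroup.mk c : ↥C ⧸ K₀) ∣ p ^ k := by
      have := orderOf_dvd_natCard (QuotientGroup.mk c : ↥C ⧸ K₀)
      rwa [← Subgroup.index_eq_card, hidx] at this
    have h2 : orderOf (QuotientGroup.mk c : ↥C ⧸ K₀) ∣ orderOf c :=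
      orderOf_dvd_of_pow_eq_one (by rw [← QuotientGroup.mk_pow, pow_orderOf_eq_one]; rfl)
    have h5 : orderOf (QuotientGroup.mk c : ↥C ⧸ K₀) = 1 :=
      Nat.eq_one_of_dvd_coprimes (Nat.Coprime.pow_right k hc) h2 h1
    rw [orderOf_eq_one_iff] at h5
    exact (QuotientGroup.eq_one_iff c).mp h5
  refine ⟨K₀.map C.subtype, ?_, ?_, ?_, ?_⟩
  · constructor
    rintro _ ⟨k, hk, rfl⟩ m
    have hmem : m * (k : M) * m⁻¹ ∈ C := hCn.conj_mem _ k.2 m
    refine ⟨⟨m * (k : M) * m⁻¹, hmem⟩, hchar _ ?_, rfl⟩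
    have h1 : orderOf (⟨m * (k : M) * m⁻¹, hmem⟩ : ↥C) = orderOf k := by
      rw [← Subgroup.orderOf_coe, ← Subgroup.orderOf_coe k]
      exact (MulAut.conj m).orderOf_eq (k : M)
    rw [h1]
    have h2 : orderOf k ∣ Nat.card K₀ := by
      have := orderOf_dvd_natCard (⟨k, hk⟩ : K₀)
      rwa [Subgroup.orderOf_mk] at this
    exact Nat.Coprime.coprime_dvd_left h2 ((Nat.Prime.coprime_iff_not_dvd hp).mpr hK₀p).symm
  · rintro _ ⟨k, _, rfl⟩
    exact k.2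
  · rw [Subgroup.card_map_of_injective (Subgroup.subtype_injective C)]
    exact ((Nat.Prime.coprime_iff_not_dvd hp).mpr hK₀p).symm
  · intro c hc
    obtain ⟨⟨⟨k, hk⟩, ⟨t, ht⟩⟩, hkt, -⟩ := hK₀c.existsUnique ⟨c, hc⟩
    have hkt' : (k : M) * (t : M) = c := congrArg Subtype.val hkt
    refine ⟨t, ⟨hTH t ht, t.2⟩, k, ⟨k, hk, rfl⟩, ?_⟩
    rw [← hkt']
    exact (hC k.1 k.2 t.1 (hTH t ht)).symm

/-- The abstract criterion, with `N`, `R = O_{p'}`, `L = O_{p',p}` given by their universal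
properties. -/
theorem cr_core {M : Type*} [Group M] [Finite M] {p : ℕ} [Fact p.Prime]
    (S : Sylow p M) (H C N R L : Subgroup M) [hHn : H.Normal] [hCn : C.Normal]
    (hH : IsPGroup p H)
    (hC : ∀ x, x ∈ C ↔ ∀ h ∈ H, h * x = x * h)
    (hN1 : N.Normal) (hN2 : C ≤ N) (hN3 : ∀ x ∈ N, ∃ a : ℕ, x ^ p ^ a ∈ C)
    (hN4 : ∀ N' : Subgroup M, N'.Normal → (∀ x ∈ N', ∃ a : ℕ, x ^ p ^ a ∈ C) → N' ≤ N)
    (hR1 : R.Normal) (hR2 : (Nat.card R).Coprime p)
    (hR4 : ∀ R' : Subgroup M, R'.Normal → (Nat.card R').Coprime p → R' ≤ R)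
    (hL1 : L.Normal) (hL3 : ∀ x ∈ L, ∃ a : ℕ, x ^ p ^ a ∈ R)
    (hL4 : ∀ L' : Subgroup M, L'.Normal → (∀ x ∈ L', ∃ a : ℕ, x ^ p ^ a ∈ R) → L' ≤ L) :
    H ≤ N ∧ ((¬ p ∣ H.relIndex N) ↔ ((S : Subgroup M) ⊓ C ≤ H ∧ L = H ⊔ C)) := by
  have hp : p.Prime := Fact.out
  have hHN : H ≤ N := hN4 H hHn (fun x hx => by
    obtain ⟨a, ha⟩ := hH ⟨x, hx⟩
    refine ⟨a, ?_⟩
    have h1 : x ^ p ^ a = 1 := by simpa using congrArg Subtype.val ha
    rw [h1]
    exact C.one_mem)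
  refine ⟨hHN, ?_⟩
  have key : (S : Subgroup M) ⊓ C ≤ H → ∃ K : Subgroup M, K.Normal ∧ K ≤ C ∧
      (Nat.card K).Coprime p ∧ (∀ c ∈ C, ∃ z ∈ H ⊓ C, ∃ k ∈ K, c = z * k) ∧ N ≤ L := by
    intro hSC
    obtain ⟨K, hKn, hKC, hKp, hdec⟩ := cr_split H C (fun x hx => (hC x).mp hx)
      (cr_psub_le_of_sylow S H C hSC)
    refine ⟨K, hKn, hKC, hKp, hdec, ?_⟩
    have hKR : K ≤ R := hR4 K hKn hKp
    apply hL4 N hN1
    intro x hx
    obtain ⟨a, ha⟩ := hN3 x hx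
    obtain ⟨z, hz, k, hk, hzk⟩ := hdec _ ha
    obtain ⟨b, hb⟩ := hH ⟨z, hz.1⟩
    have hb' : z ^ p ^ b = 1 := by simpa using congrArg Subtype.val hb
    refine ⟨a + b, ?_⟩
    have hcomm : Commute z k := (hC k).mp (hKC hk) z hz.1
    rw [pow_add, pow_mul, hzk, hcomm.mul_pow, hb', one_mul]
    exact hKR (K.pow_mem hk _)
  constructor
  · intro hidx
    have hSC : (S : Subgroup M) ⊓ C ≤ H :=
      cr_pSub_le H N _ hH hHN hidx (inf_le_right.trans hN2) (S.isPGroup'.to_le inf_le_left)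
    obtain ⟨K, hKn, hKC, hKp, hdec, hNL⟩ := key hSC
    refine ⟨hSC, ?_⟩
    have hNHC : N ≤ H ⊔ C := cr_N_le H C N hH hHN hidx hN3
    have hRC : R ≤ C := by
      intro r hr
      rw [hC]
      intro h hh
      have h1 : h * r * h⁻¹ * r⁻¹ ∈ R ⊓ H := ⟨R.mul_mem (hR1.conj_mem r hr h) (R.inv_mem hr), by
        have e : h * r * h⁻¹ * r⁻¹ = h * (r * h⁻¹ * r⁻¹) := by group
        rw [e]
        exact H.mul_mem hh (hHn.conj_mem _ (H.inv_mem hh) r)⟩
      have h2 : R ⊓ H = ⊥ := by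
        obtain ⟨n, hn⟩ := IsPGroup.iff_card.mp hH
        apply (Subgroup.disjoint_of_coprime_natCard _).eq_bot
        rw [hn]
        exact Nat.Coprime.pow_right n hR2
      rw [h2, Subgroup.mem_bot] at h1
      calc h * r = (h * r * h⁻¹ * r⁻¹) * (r * h) := by group
        _ = r * h := by rw [h1, one_mul]
    have hLN : L ≤ N := hN4 L hL1 (fun x hx => by
      obtain ⟨a, ha⟩ := hL3 x hx
      exact ⟨a, hRC ha⟩)
    exact le_antisymm (hLN.trans hNHC) ((sup_le hHN hN2).trans hNL)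
  · rintro ⟨hSC, hL⟩
    obtain ⟨K, hKn, hKC, hKp, hdec, hNL⟩ := key hSC
    have hCHK : C ≤ H ⊔ K := by
      intro c hc
      obtain ⟨z, hz, k, hk, rfl⟩ := hdec c hc
      exact Subgroup.mul_mem_sup hz.1 hk
    have hNHK : N ≤ H ⊔ K := by
      rw [hL] at hNL
      exact hNL.trans (sup_le le_sup_left hCHK)
    have h1 : H.relIndex N ∣ H.relIndex (H ⊔ K) :=
      Dvd.intro _ (Subgroup.relIndex_mul_relIndex _ _ _ hHN hNHK)
    rw [Subgroup.relIndex_sup_left] at h1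
    intro hdvd
    have h2 : p ∣ Nat.card K := (hdvd.trans h1).trans (Subgroup.relIndex_dvd_card _ _)
    exact (Nat.Prime.coprime_iff_not_dvd hp).mp hKp.symm h2

/-- Universal property of the preimage of `O_p(M/C)`. -/
theorem cr_comap_spec {M : Type*} [Group M] [Finite M] {p : ℕ} [Fact p.Prime]
    (C : Subgroup M) [C.Normal] :
    ((Cfsg.pCore p (M ⧸ C)).comap (QuotientGroup.mk' C)).Normal ∧
    C ≤ (Cfsg.pCore p (M ⧸ C)).comap (QuotientGroup.mk' C) ∧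
    (∀ x ∈ (Cfsg.pCore p (M ⧸ C)).comap (QuotientGroup.mk' C), ∃ a : ℕ, x ^ p ^ a ∈ C) ∧
    ∀ N' : Subgroup M, N'.Normal → (∀ x ∈ N', ∃ a : ℕ, x ^ p ^ a ∈ C) →
      N' ≤ (Cfsg.pCore p (M ⧸ C)).comap (QuotientGroup.mk' C) := by
  refine ⟨Subgroup.Normal.comap (Cfsg.pCore_normal p _) _, ?_, ?_, ?_⟩
  · intro x hx
    rw [Subgroup.mem_comap]
    have h1 : QuotientGroup.mk' C x = 1 := (QuotientGroup.eq_one_iff x).mpr hx
    rw [h1]
    exact Subgroup.one_mem _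
  · intro x hx
    rw [Subgroup.mem_comap] at hx
    obtain ⟨a, ha⟩ := Cfsg.Agent.Helper9.pCore_isPGroup p ⟨_, hx⟩
    refine ⟨a, ?_⟩
    have h1 : (QuotientGroup.mk' C x) ^ p ^ a = 1 := by simpa using congrArg Subtype.val ha
    rw [← map_pow] at h1
    exact (QuotientGroup.eq_one_iff _).mp h1
  · intro N' hN' h x hx
    rw [Subgroup.mem_comap]
    have hn : (N'.map (QuotientGroup.mk' C)).Normal :=
      Subgroup.Normal.map hN' _ (QuotientGroup.mk'_surjective C)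
    have hpg : IsPGroup p ↥(N'.map (QuotientGroup.mk' C)) := by
      rintro ⟨_, y, hy, rfl⟩
      obtain ⟨a, ha⟩ := h y hy
      refine ⟨a, Subtype.ext ?_⟩
      show (QuotientGroup.mk' C y) ^ p ^ a = 1
      rw [← map_pow]
      exact (QuotientGroup.eq_one_iff _).mpr ha
    exact Cfsg.Agent.Helper9.le_pCore hn hpg (Subgroup.mem_map_of_mem _ hx)

/-- The criterion inside a finite group `M` with normal `p`-subgroup `H` and `C = C_M(H)`. -/
theorem cr_main {M : Type*} [Group M] [Finite M] {p : ℕ} [Fact p.Prime]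
    (S : Sylow p M) (H C : Subgroup M) [H.Normal] [C.Normal] (hH : IsPGroup p H)
    (hC : ∀ x, x ∈ C ↔ ∀ h ∈ H, h * x = x * h) :
    H ≤ (Cfsg.pCore p (M ⧸ C)).comap (QuotientGroup.mk' C) ∧
    ((¬ p ∣ H.relIndex ((Cfsg.pCore p (M ⧸ C)).comap (QuotientGroup.mk' C))) ↔
      ((S : Subgroup M) ⊓ C ≤ H ∧ Cfsg.pPrimePCore p M = H ⊔ C)) := by
  obtain ⟨hN1, hN2, hN3, hN4⟩ := cr_comap_spec (p := p) C
  obtain ⟨hL1, -, hL3, hL4⟩ := cr_comap_spec (p := p) (Cfsg.pPrimeCore p M)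
  exact cr_core S H C _ (Cfsg.pPrimeCore p M) (Cfsg.pPrimePCore p M) hH hC hN1 hN2 hN3 hN4
    (Cfsg.pPrimeCore_normal p M) (Cfsg.Agent.Helper9.pPrimeCore_coprime p)
    (fun R' h1 h2 => Cfsg.Agent.Helper9.le_pPrimeCore h1 h2) hL1 hL3 hL4

/-- Transfer of `cr_main` to a subgroup `Mg` of `G` containing `H` and `C_G(H)`, in which `H`
is normal. -/
theorem cr_transfer {G : Type*} [Group G] [Finite G] {p : ℕ} [Fact p.Prime]
    (P : Sylow p G) (H Mg : Subgroup G) (hHP : H ≤ (P : Subgroup G)) (hHM : H ≤ Mg)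
    (hCM : Subgroup.centralizer (H : Set G) ≤ Mg)
    [hHn : (H.subgroupOf Mg).Normal]
    (hSyl : ¬ p ∣ ((P : Subgroup G) ⊓ Mg).relIndex Mg)
    [hC : ((Subgroup.centralizer (H : Set G)).subgroupOf Mg).Normal] :
    (H ≤ ((Cfsg.pCore p (↥Mg ⧸ (Subgroup.centralizer (H : Set G)).subgroupOf Mg)).comap
            (QuotientGroup.mk' _)).map Mg.subtype ∧
      ¬ p ∣ H.relIndex (((Cfsg.pCore p (↥Mg ⧸ (Subgroup.centralizer (H : Set G)).subgroupOf Mg)).comap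
            (QuotientGroup.mk' _)).map Mg.subtype)) ↔
    ((P : Subgroup G) ⊓ Subgroup.centralizer (H : Set G) ≤ H ∧
      (Cfsg.pPrimePCore p ↥Mg).map Mg.subtype = H ⊔ Subgroup.centralizer (H : Set G)) := by
  have hSp : IsPGroup p ↥(((P : Subgroup G) ⊓ Mg).subgroupOf Mg) :=
    (P.isPGroup'.to_le inf_le_left).comap_subtype
  obtain ⟨S, hS⟩ : ∃ S : Sylow p ↥Mg, (S : Subgroup ↥Mg) = ((P : Subgroup G) ⊓ Mg).subgroupOf Mg :=
    ⟨hSp.toSylow hSyl, IsPGroup.toSylow_coe _ _⟩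
  have hHp : IsPGroup p ↥(H.subgroupOf Mg) := (P.isPGroup'.to_le hHP).comap_subtype
  have hCchar : ∀ x : ↥Mg, x ∈ (Subgroup.centralizer (H : Set G)).subgroupOf Mg ↔
      ∀ h ∈ H.subgroupOf Mg, h * x = x * h := by
    intro x
    rw [Subgroup.mem_subgroupOf, Subgroup.mem_centralizer_iff]
    constructor
    · intro hx h hh
      exact Subtype.ext (hx h.1 (Subgroup.mem_subgroupOf.mp hh))
    · intro hx h hh
      have h1 := hx ⟨h, hHM hh⟩ (Subgroup.mem_subgroupOf.mpr hh)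
      exact congrArg Subtype.val h1
  obtain ⟨h1, h2⟩ := cr_main S (H.subgroupOf Mg)
    ((Subgroup.centralizer (H : Set G)).subgroupOf Mg) hHp hCchar
  have eH : (H.subgroupOf Mg).map Mg.subtype = H := by
    rw [Subgroup.subgroupOf_map_subtype, inf_of_le_left hHM]
  have eC : ((Subgroup.centralizer (H : Set G)).subgroupOf Mg).map Mg.subtype =
      Subgroup.centralizer (H : Set G) := by
    rw [Subgroup.subgroupOf_map_subtype, inf_of_le_left hCM]
  have eidx : H.relIndex (((Cfsg.pCore p (↥Mg ⧸ (Subgroup.centralizer (H : Set G)).subgroupOf Mg)).comap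
            (QuotientGroup.mk' _)).map Mg.subtype) =
      (H.subgroupOf Mg).relIndex ((Cfsg.pCore p (↥Mg ⧸ (Subgroup.centralizer (H : Set G)).subgroupOf Mg)).comap
            (QuotientGroup.mk' _)) := by
    have h3 := Subgroup.relIndex_map_map_of_injective (H.subgroupOf Mg)
      ((Cfsg.pCore p (↥Mg ⧸ (Subgroup.centralizer (H : Set G)).subgroupOf Mg)).comap
            (QuotientGroup.mk' _)) (Subgroup.subtype_injective Mg)
    rw [eH] at h3
    exact h3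
  have eS : ((S : Subgroup ↥Mg) ⊓ (Subgroup.centralizer (H : Set G)).subgroupOf Mg ≤ H.subgroupOf Mg) ↔
      ((P : Subgroup G) ⊓ Subgroup.centralizer (H : Set G) ≤ H) := by
    rw [hS]
    constructor
    · rintro h x ⟨hxP, hxC⟩
      have h3 : (⟨x, hCM hxC⟩ : ↥Mg) ∈ H.subgroupOf Mg :=
        h ⟨Subgroup.mem_subgroupOf.mpr ⟨hxP, hCM hxC⟩, Subgroup.mem_subgroupOf.mpr hxC⟩
      exact Subgroup.mem_subgroupOf.mp h3
    · rintro h y ⟨hy1, hy2⟩
      have hy1' : (y : G) ∈ (P : Subgroup G) ⊓ Mg := Subgroup.mem_subgroupOf.mp hy1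
      have hy2' : (y : G) ∈ Subgroup.centralizer (H : Set G) := Subgroup.mem_subgroupOf.mp hy2
      exact Subgroup.mem_subgroupOf.mpr (h ⟨hy1'.1, hy2'⟩)
  have eL : (Cfsg.pPrimePCore p ↥Mg = H.subgroupOf Mg ⊔ (Subgroup.centralizer (H : Set G)).subgroupOf Mg) ↔
      ((Cfsg.pPrimePCore p ↥Mg).map Mg.subtype = H ⊔ Subgroup.centralizer (H : Set G)) := by
    constructor
    · intro h
      rw [h, Subgroup.map_sup, eH, eC]
    · intro h
      apply Subgroup.map_injective (Subgroup.subtype_injective Mg)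
      rw [h, Subgroup.map_sup, eH, eC]
  constructor
  · rintro ⟨_, hidx⟩
    rw [eidx] at hidx
    obtain ⟨a, b⟩ := h2.mp hidx
    exact ⟨eS.mp a, eL.mp b⟩
  · rintro ⟨a, b⟩
    refine ⟨?_, ?_⟩
    · intro h hh
      exact ⟨⟨h, hHM hh⟩, h1 (Subgroup.mem_subgroupOf.mpr hh), rfl⟩
    · rw [eidx]
      exact h2.mpr ⟨eS.mpr a, eL.mpr b⟩

end Cfsg.Agent.Helper17
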