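import Mathlib
import Cfsg.Prelude.Def_DStar
import Cfsg.Agent.Helper17.Basic

set_option autoImplicit false

namespace Cfsg.Agent.Helper17

open scoped commutatorElement

variable {S : Type*} [Group S]

/-- A group generated by a set whose commutators are central has class at most two. -/
theorem class_two_of_gens (X : Set S)
    (h : ∀ x ∈ X, ∀ y ∈ X, ⁅x, y⁆ ∈ Subgroup.centralizer X) :
    ⁅⁅Subgroup.closure X, Subgroup.closure X⁆, Subgroup.closure X⁆ = ⊥ := by
  have hZ : Subgroup.centralizer (Subgroup.closure X : Set S) = Subgroup.centralizer X :=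
    Subgroup.centralizer_closure X
  have hc : ∀ z ∈ Subgroup.centralizer X, ∀ g ∈ Subgroup.closure X, g * z = z * g := by
    intro z hz g hg
    rw [← hZ] at hz
    exact Subgroup.mem_centralizer_iff.mp hz g hg
  have step1 : ∀ g ∈ Subgroup.closure X, ∀ y ∈ X, ⁅g, y⁆ ∈ Subgroup.centralizer X := by
    intro g hg y hy
    induction hg using Subgroup.closure_induction with
    | mem x hx => exact h x hx y hy
    | one => rw [commutatorElement_one_left]; exact Subgroup.one_mem _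
    | mul g g' hg hg' ih ih' =>
      have e : ⁅g * g', y⁆ = g * ⁅g', y⁆ * g⁻¹ * ⁅g, y⁆ := by
        simp only [commutatorElement_def]; group
      rw [e, hc _ ih' g hg, mul_inv_cancel_right]
      exact Subgroup.mul_mem _ ih' ih
    | inv g hg ih =>
      have e : ⁅g⁻¹, y⁆ = g⁻¹ * ⁅g, y⁆⁻¹ * g := by
        simp only [commutatorElement_def]; group
      have hi := Subgroup.inv_mem _ ih
      rw [e, mul_assoc, ← hc _ hi g hg, inv_mul_cancel_left]
      exact hi
  have step2 : ∀ g ∈ Subgroup.closure X, ∀ k ∈ Subgroup.closure X,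
      ⁅g, k⁆ ∈ Subgroup.centralizer X := by
    intro g hg k hk
    induction hk using Subgroup.closure_induction with
    | mem x hx => exact step1 g hg x hx
    | one => rw [commutatorElement_one_right]; exact Subgroup.one_mem _
    | mul k k' hk hk' ih ih' =>
      have e : ⁅g, k * k'⁆ = ⁅g, k⁆ * (k * ⁅g, k'⁆ * k⁻¹) := by
        simp only [commutatorElement_def]; group
      rw [e, hc _ ih' k hk, mul_inv_cancel_right]
      exact Subgroup.mul_mem _ ih ih'
    | inv k hk ih =>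
      have e : ⁅g, k⁻¹⁆ = k⁻¹ * ⁅g, k⁆⁻¹ * k := by
        simp only [commutatorElement_def]; group
      have hi := Subgroup.inv_mem _ ih
      rw [e, mul_assoc, ← hc _ hi k hk, inv_mul_cancel_left]
      exact hi
  rw [Subgroup.commutator_eq_bot_iff_le_centralizer, hZ, Subgroup.commutator_le]
  exact step2

theorem exists_last_of_not {P : ℕ → Prop} (h0 : P 0) {n : ℕ} (hn : ¬ P n) :
    ∃ i, P i ∧ ¬ P (i + 1) := by
  by_contra hno
  apply hn
  have : ∀ i, P i := by
    intro i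
    induction i with
    | zero => exact h0
    | succ i ih =>
      by_contra h
      exact hno ⟨i, ih, h⟩
  exact this n

/-- A member of the `D*` family centralizes every abelian subgroup it normalizes. -/
theorem dstar_comm_of_normalizes [Finite S] {p : ℕ} [Fact p.Prime] (hS : IsPGroup p S)
    {B : Subgroup S} (hB : B ∈ Cfsg.dStarFamily S) (A : Subgroup S) (hA : IsMulCommutative A)
    (hBA : ∀ b ∈ B, ∀ a ∈ A, b * a * b⁻¹ ∈ A) : ∀ a ∈ A, ∀ b ∈ B, a * b = b * a := by
  by_contra hcon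
  push Not at hcon
  obtain ⟨a₀, ha₀, b₀, hb₀, hne⟩ := hcon
  have hnil : Group.IsNilpotent S := hS.isNilpotent
  obtain ⟨n, hn⟩ := Subgroup.nilpotent_iff_lowerCentralSeries.mp hnil
  have hP0 : ∃ x ∈ A, x ∉ Subgroup.centralizer (B : Set S) ∧
      x ∈ (⊤ : Subgroup S).lowerCentralSeries 0 := by
    refine ⟨a₀, ha₀, ?_, Subgroup.mem_top _⟩
    intro h
    exact hne (Subgroup.mem_centralizer_iff.mp h b₀ hb₀).symm
  have hPn : ¬ ∃ x ∈ A, x ∉ Subgroup.centralizer (B : Set S) ∧
      x ∈ (⊤ : Subgroup S).lowerCentralSeries n := by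
    rintro ⟨x, hxA, hxC, hxn⟩
    rw [hn, Subgroup.mem_bot] at hxn
    rw [hxn] at hxC
    exact hxC (Subgroup.one_mem _)
  obtain ⟨i, ⟨x, hxA, hxC, hxi⟩, hmax⟩ := exists_last_of_not
    (P := fun i => ∃ x ∈ A, x ∉ Subgroup.centralizer (B : Set S) ∧
      x ∈ (⊤ : Subgroup S).lowerCentralSeries i) hP0 hPn
  have hcomm : ∀ b ∈ B, ⁅x, b⁆ ∈ A ⊓ Subgroup.centralizer (B : Set S) := by
    intro b hb
    have h1 : ⁅x, b⁆ ∈ A := by
      rw [commutatorElement_def]
      have := A.mul_mem hxA (hBA b hb x⁻¹ (A.inv_mem hxA))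
      rwa [← mul_assoc, ← mul_assoc] at this
    have h2 : ⁅x, b⁆ ∈ (⊤ : Subgroup S).lowerCentralSeries (i + 1) :=
      Subgroup.commutator_mem_commutator hxi (Subgroup.mem_top b)
    refine ⟨h1, ?_⟩
    by_contra h3
    exact hmax ⟨_, h1, h3, h2⟩
  have hcl : ⁅⁅B ⊔ Subgroup.zpowers x, B ⊔ Subgroup.zpowers x⁆, B ⊔ Subgroup.zpowers x⁆ = ⊥ := by
    have hX : Subgroup.closure ((B : Set S) ∪ {x}) = B ⊔ Subgroup.zpowers x := by
      rw [Subgroup.closure_union, Subgroup.closure_eq, Subgroup.zpowers_eq_closure]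
    rw [← hX]
    apply class_two_of_gens
    have hCX : A ⊓ Subgroup.centralizer (B : Set S) ≤
        Subgroup.centralizer ((B : Set S) ∪ {x}) := by
      rintro c ⟨hcA, hcB⟩
      rw [Subgroup.mem_centralizer_iff]
      rintro v (hv | hv)
      · exact Subgroup.mem_centralizer_iff.mp hcB v hv
      · rw [Set.mem_singleton_iff] at hv
        rw [hv]
        exact comm_of_isMulCommutative A hA hxA hcA
    rintro u (hu | hu) v (hv | hv)
    · have h1 : ⁅u, v⁆ = 1 :=
        commutatorElement_eq_one_iff_mul_comm.mpr (comm_of_isMulCommutative B hB.1 hu hv)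
      rw [h1]; exact Subgroup.one_mem _
    · rw [Set.mem_singleton_iff] at hv
      rw [hv, ← commutatorElement_inv]
      exact Subgroup.inv_mem _ (hCX (hcomm u hu))
    · rw [Set.mem_singleton_iff] at hu
      rw [hu]
      exact hCX (hcomm v hv)
    · rw [Set.mem_singleton_iff] at hu hv
      rw [hu, hv, commutatorElement_self]; exact Subgroup.one_mem _
  have hfin := hB.2 x hcl
  apply hxC
  rw [Subgroup.mem_centralizer_iff]
  exact hfin

/-- The `D*` family is invariant under conjugation. -/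
theorem dstar_conj {A : Subgroup S} (hA : A ∈ Cfsg.dStarFamily S) (u : S) :
    A.map (MulAut.conj u).toMonoidHom ∈ Cfsg.dStarFamily S := by
  refine ⟨?_, ?_⟩
  · haveI := hA.1
    infer_instance
  · intro x hcl a' ha'
    obtain ⟨a, ha, rfl⟩ := ha'
    have hmap : (A ⊔ Subgroup.zpowers (u⁻¹ * x * u)).map (MulAut.conj u).toMonoidHom
        = A.map (MulAut.conj u).toMonoidHom ⊔ Subgroup.zpowers x := by
      rw [Subgroup.map_sup, MonoidHom.map_zpowers]
      congr 2
      simp [mul_assoc]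
    have h1 : (⁅⁅A ⊔ Subgroup.zpowers (u⁻¹ * x * u), A ⊔ Subgroup.zpowers (u⁻¹ * x * u)⁆,
        A ⊔ Subgroup.zpowers (u⁻¹ * x * u)⁆).map (MulAut.conj u).toMonoidHom = ⊥ := by
      rw [Subgroup.map_commutator, Subgroup.map_commutator, hmap, hcl]
    have h2 := (Subgroup.map_eq_bot_iff_of_injective _ (MulAut.conj u).injective).mp h1
    have h3 := hA.2 (u⁻¹ * x * u) h2 a ha
    simp only [MulEquiv.coe_toMonoidHom, MulAut.conj_apply]
    calc u * a * u⁻¹ * x = u * (a * (u⁻¹ * x * u)) * u⁻¹ := by group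
      _ = u * ((u⁻¹ * x * u) * a) * u⁻¹ := by rw [h3]
      _ = x * (u * a * u⁻¹) := by group

/-- If all `U`-conjugates of `A` commute, a `D*`-member `B` with `U = A ⊔ B` centralizes `A`. -/
theorem dstar_comm_of_conj_comm [Finite S] {p : ℕ} [Fact p.Prime] (hS : IsPGroup p S)
    {A B : Subgroup S} (hB : B ∈ Cfsg.dStarFamily S)
    (hconj : ∀ u ∈ A ⊔ B, ∀ v ∈ A ⊔ B, ∀ a ∈ A, ∀ a' ∈ A,
      (u * a * u⁻¹) * (v * a' * v⁻¹) = (v * a' * v⁻¹) * (u * a * u⁻¹)) :
    ∀ a ∈ A, ∀ b ∈ B, a * b = b * a := by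
  obtain ⟨Y, hY⟩ : ∃ Y : Set S, ∀ y, y ∈ Y ↔ ∃ u ∈ A ⊔ B, ∃ a ∈ A, y = u * a * u⁻¹ :=
    ⟨{y | ∃ u ∈ A ⊔ B, ∃ a ∈ A, y = u * a * u⁻¹}, fun y => Iff.rfl⟩
  have hYcomm : ∀ y ∈ Y, ∀ y' ∈ Y, y * y' = y' * y := by
    intro y hy y' hy'
    obtain ⟨u, hu, a, ha, rfl⟩ := (hY y).mp hy
    obtain ⟨v, hv, a', ha', rfl⟩ := (hY y').mp hy'
    exact hconj u hu v hv a ha a' ha'
  have hÂcomm : IsMulCommutative (Subgroup.closure Y) := by
    rw [← Subgroup.le_centralizer_iff_isMulCommutative, Subgroup.centralizer_closure,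
      Subgroup.closure_le]
    intro y hy
    rw [SetLike.mem_coe, Subgroup.mem_centralizer_iff]
    intro y' hy'
    exact hYcomm y' hy' y hy
  have hBÂ : ∀ b ∈ B, ∀ y ∈ Subgroup.closure Y, b * y * b⁻¹ ∈ Subgroup.closure Y := by
    intro b hb y hy
    have h1 : (Subgroup.closure Y).map (MulAut.conj b).toMonoidHom ≤ Subgroup.closure Y := by
      rw [MonoidHom.map_closure, Subgroup.closure_le]
      rintro _ ⟨y, hy, rfl⟩
      obtain ⟨u, hu, a, ha, rfl⟩ := (hY y).mp hy
      apply Subgroup.subset_closure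
      rw [hY]
      refine ⟨b * u, Subgroup.mul_mem _ (Subgroup.mem_sup_right hb) hu, a, ha, ?_⟩
      simp only [MulEquiv.coe_toMonoidHom, MulAut.conj_apply]; group
    exact h1 (conj_mem_map_conj _ b hy)
  have hfin := dstar_comm_of_normalizes hS hB _ hÂcomm hBÂ
  intro a ha b hb
  apply hfin a _ b hb
  apply Subgroup.subset_closure
  rw [hY]
  exact ⟨1, Subgroup.one_mem _, a, ha, by simp⟩

/-- Any two members of the `D*` family commute elementwise. -/
theorem dstar_pair_comm [Finite S] {p : ℕ} [Fact p.Prime] (hS : IsPGroup p S) :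
    ∀ n : ℕ, ∀ A B : Subgroup S, A ∈ Cfsg.dStarFamily S → B ∈ Cfsg.dStarFamily S →
      Nat.card (A ⊔ B : Subgroup S) = n → ∀ a ∈ A, ∀ b ∈ B, a * b = b * a := by
  intro n
  induction n using Nat.strong_induction_on with
  | _ n ih =>
  intro A B hA hB hcard
  by_cases hAU : A = A ⊔ B
  · intro a ha b hb
    have hbA : b ∈ A := by rw [hAU]; exact Subgroup.mem_sup_right hb
    exact comm_of_isMulCommutative A hA.1 ha hbA
  obtain ⟨M, ⟨hAM, hMU, hMne⟩, hMmax⟩ := Set.exists_max_image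
    {M : Subgroup S | A ≤ M ∧ M ≤ A ⊔ B ∧ M ≠ A ⊔ B}
    (fun M => Nat.card M) (Set.toFinite _) ⟨A, le_rfl, le_sup_left, hAU⟩
  have hMnorm : ∀ u ∈ A ⊔ B, ∀ m ∈ M, u * m * u⁻¹ ∈ M := by
    obtain ⟨x, hxU, hxM, hxN⟩ := exists_normalizer_mem_not_mem (p := p) M (A ⊔ B)
      (hS.to_subgroup _) hMU hMne
    have hN : Subgroup.normalizer (M : Set S) ⊓ (A ⊔ B) = A ⊔ B := by
      by_contra hNne
      have h1 := hMmax (Subgroup.normalizer (M : Set S) ⊓ (A ⊔ B))
        ⟨hAM.trans (le_inf Subgroup.le_normalizer hMU), inf_le_right, hNne⟩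
      have h2 : M = Subgroup.normalizer (M : Set S) ⊓ (A ⊔ B) :=
        Subgroup.eq_of_le_of_card_ge (le_inf Subgroup.le_normalizer hMU) h1
      apply hxM
      rw [h2]
      exact ⟨hxN, hxU⟩
    intro u hu m hm
    have hu' : u ∈ Subgroup.normalizer (M : Set S) := by
      have h3 : u ∈ Subgroup.normalizer (M : Set S) ⊓ (A ⊔ B) := by rw [hN]; exact hu
      exact h3.1
    exact (Subgroup.mem_normalizer_iff.mp hu' m).mp hm
  apply dstar_comm_of_conj_comm hS hB
  intro u hu v hv a ha a' ha'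
  have h1 : A.map (MulAut.conj u).toMonoidHom ≤ M := by
    rintro _ ⟨y, hy, rfl⟩; exact hMnorm u hu y (hAM hy)
  have h2 : A.map (MulAut.conj v).toMonoidHom ≤ M := by
    rintro _ ⟨y, hy, rfl⟩; exact hMnorm v hv y (hAM hy)
  have h3 : Nat.card (A.map (MulAut.conj u).toMonoidHom ⊔
      A.map (MulAut.conj v).toMonoidHom : Subgroup S) < n := by
    have h4 : Nat.card (A.map (MulAut.conj u).toMonoidHom ⊔
        A.map (MulAut.conj v).toMonoidHom : Subgroup S) ≤ Nat.card M :=
      Subgroup.card_le_of_le (sup_le h1 h2)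
    have h5 : Nat.card M < Nat.card (A ⊔ B : Subgroup S) := by
      by_contra h6
      push Not at h6
      exact hMne (Subgroup.eq_of_le_of_card_ge hMU h6)
    omega
  exact ih _ h3 _ _ (dstar_conj hA u) (dstar_conj hA v) rfl _ (conj_mem_map_conj A u ha) _
    (conj_mem_map_conj A v ha')

/-- `D*(S)` belongs to its own defining family. -/
theorem dstar_mem [Finite S] {p : ℕ} [Fact p.Prime] (hS : IsPGroup p S) :
    Cfsg.dStar S ∈ Cfsg.dStarFamily S := by
  have hpair : ∀ A ∈ Cfsg.dStarFamily S, ∀ B ∈ Cfsg.dStarFamily S,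
      ∀ a ∈ A, ∀ b ∈ B, a * b = b * a :=
    fun A hA B hB => dstar_pair_comm hS _ A B hA hB rfl
  refine ⟨?_, ?_⟩
  · rw [← Subgroup.le_centralizer_iff_isMulCommutative]
    refine (sSup_le ?_ : sSup (Cfsg.dStarFamily S) ≤ _)
    intro A hA
    rw [Subgroup.le_centralizer_iff]
    refine (sSup_le ?_ : sSup (Cfsg.dStarFamily S) ≤ _)
    intro B hB b hb
    rw [Subgroup.mem_centralizer_iff]
    intro a ha
    exact hpair A hA B hB a ha b hb
  · intro x hcl
    have hx : Cfsg.dStar S ≤ Subgroup.centralizer ({x} : Set S) := by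
      refine (sSup_le ?_ : sSup (Cfsg.dStarFamily S) ≤ _)
      intro A hA a ha
      rw [Subgroup.mem_centralizer_iff]
      intro y hy
      rw [Set.mem_singleton_iff] at hy
      rw [hy]
      have hAD : A ≤ Cfsg.dStar S := le_sSup hA
      have hmono : A ⊔ Subgroup.zpowers x ≤ Cfsg.dStar S ⊔ Subgroup.zpowers x :=
        sup_le_sup_right hAD _
      have hclA : ⁅⁅A ⊔ Subgroup.zpowers x, A ⊔ Subgroup.zpowers x⁆,
          A ⊔ Subgroup.zpowers x⁆ = ⊥ := by
        apply le_bot_iff.mp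
        rw [← hcl]
        exact Subgroup.commutator_mono (Subgroup.commutator_mono hmono hmono) hmono
      exact (hA.2 x hclA a ha).symm
    intro a ha
    exact (Subgroup.mem_centralizer_iff.mp (hx ha) x (Set.mem_singleton x)).symm

end Cfsg.Agent.Helper17
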