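import Mathlib
import Cfsg.Prelude.Def_DStar
import Cfsg.Prelude.Def_PLocal
import Cfsg.Agent.Helper17.Basic
import Cfsg.Agent.Helper17.DStar
import Cfsg.Agent.Helper17.Card
import Cfsg.Agent.Helper17.CharP
import Cfsg.Agent.Helper17.SylIn
import Cfsg.Agent.Helper17.CD

set_option autoImplicit false

namespace Cfsg.Agent.Helper17

open scoped commutatorElement

variable {S : Type*} [Group S]

theorem isMulCommutative_sup {A D : Subgroup S} (hA : IsMulCommutative A)
    (hD : IsMulCommutative D) (h : ∀ a ∈ A, ∀ d ∈ D, a * d = d * a) :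
    IsMulCommutative (A ⊔ D : Subgroup S) := by
  rw [← Subgroup.le_centralizer_iff_isMulCommutative]
  apply sup_le
  · rw [Subgroup.le_centralizer_iff]
    apply sup_le
    · exact Subgroup.le_centralizer_iff_isMulCommutative.mpr hA
    · intro d hd
      rw [Subgroup.mem_centralizer_iff]
      intro a ha
      exact h a ha d hd
  · rw [Subgroup.le_centralizer_iff]
    apply sup_le
    · intro a ha
      rw [Subgroup.mem_centralizer_iff]
      intro d hd
      exact (h a ha d hd).symm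
    · exact Subgroup.le_centralizer_iff_isMulCommutative.mpr hD

theorem dstar_normal [Finite S] {p : ℕ} [Fact p.Prime] (hS : IsPGroup p S) :
    (Cfsg.dStar S).Normal := by
  constructor
  intro d hd u
  have h1 : (Cfsg.dStar S).map (MulAut.conj u).toMonoidHom ≤ Cfsg.dStar S :=
    le_sSup (dstar_conj (dstar_mem hS) u)
  exact h1 (conj_mem_map_conj _ u hd)

theorem replacement_arith {a t z e f g s rT rA : ℕ} (ha : 0 < a) (hf : 0 < f)
    (c1 : a * a ≤ t * z) (e1 : t = e * rT) (e2 : a = f * rA) (e3 : rT ≤ rA)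
    (c3 : z * e ≤ s * g) (c4 : g ≤ f) : a ≤ s := by
  have h1 : a * (a * f) ≤ s * (a * f) := by
    calc a * (a * f) = a * a * f := by ring
      _ ≤ t * z * f := Nat.mul_le_mul_right f c1
      _ = e * rT * z * f := by rw [e1]
      _ ≤ e * rA * z * f := by gcongr
      _ = (z * e) * (f * rA) := by ring
      _ = (z * e) * a := by rw [← e2]
      _ ≤ (s * g) * a := Nat.mul_le_mul_right a c3
      _ ≤ (s * f) * a := by gcongr
      _ = s * (a * f) := by ring
  exact Nat.le_of_mul_le_mul_right h1 (Nat.mul_pos ha hf)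

/-- Thompson replacement against an abelian normal subgroup `D` of a `p`-group. -/
theorem thompson_replacement_normal [Finite S] {p : ℕ} [Fact p.Prime] (hS : IsPGroup p S)
    (D : Subgroup S) [hDn : D.Normal] (hDc : IsMulCommutative D) (A : Subgroup S)
    (hA : A ∈ Cfsg.maxAbelianSubgroups S) (hDA : ¬ D ≤ Subgroup.normalizer (A : Set S)) :
    ∃ A' ∈ Cfsg.maxAbelianSubgroups S, A' ≤ Subgroup.normalizer (A : Set S) ∧
      Nat.card ↥(A ⊓ D) < Nat.card ↥(A' ⊓ D) := by
  classical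
  have hnil : Group.IsNilpotent S := hS.isNilpotent
  obtain ⟨n, hn⟩ := Subgroup.nilpotent_iff_lowerCentralSeries.mp hnil
  obtain ⟨b₀, hb₀D, hb₀N⟩ := SetLike.not_le_iff_exists.mp hDA
  have hP0 : ∃ b ∈ D, b ∉ Subgroup.normalizer (A : Set S) ∧
      b ∈ (⊤ : Subgroup S).lowerCentralSeries 0 := ⟨b₀, hb₀D, hb₀N, Subgroup.mem_top _⟩
  have hPn : ¬ ∃ b ∈ D, b ∉ Subgroup.normalizer (A : Set S) ∧
      b ∈ (⊤ : Subgroup S).lowerCentralSeries n := by
    rintro ⟨x, hxD, hxN, hxn⟩
    rw [hn, Subgroup.mem_bot] at hxn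
    rw [hxn] at hxN
    exact hxN (Subgroup.one_mem _)
  obtain ⟨i, ⟨b, hbD, hbN, hbi⟩, hmax⟩ := exists_last_of_not
    (P := fun i => ∃ b ∈ D, b ∉ Subgroup.normalizer (A : Set S) ∧
      b ∈ (⊤ : Subgroup S).lowerCentralSeries i) hP0 hPn
  have hcomm : ∀ c ∈ D, c ∈ (⊤ : Subgroup S).lowerCentralSeries i → ∀ a : S,
      ⁅c, a⁆ ∈ Subgroup.normalizer (A : Set S) ∧ ⁅c, a⁆ ∈ D := by
    intro c hcD hci a
    have h1 : ⁅c, a⁆ ∈ D := by
      rw [commutatorElement_def]
      have := D.mul_mem hcD (hDn.conj_mem c⁻¹ (D.inv_mem hcD) a)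
      rwa [← mul_assoc, ← mul_assoc] at this
    have h2 : ⁅c, a⁆ ∈ (⊤ : Subgroup S).lowerCentralSeries (i + 1) :=
      Subgroup.commutator_mem_commutator hci (Subgroup.mem_top a)
    refine ⟨?_, h1⟩
    by_contra h3
    exact hmax ⟨_, h1, h3, h2⟩
  have hbinv : b⁻¹ ∈ (⊤ : Subgroup S).lowerCentralSeries i := Subgroup.inv_mem _ hbi
  have hconjmem : ∀ a ∈ A, b * a * b⁻¹ ∈ A.map (MulAut.conj b).toMonoidHom :=
    fun a ha => conj_mem_map_conj A b ha
  have hbab : ∀ a : S, b * a * b⁻¹ = ⁅b, a⁆ * a := by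
    intro a; simp [commutatorElement_def]
  have hA'N : A.map (MulAut.conj b).toMonoidHom ≤ Subgroup.normalizer (A : Set S) := by
    rintro _ ⟨a, ha, rfl⟩
    have h1 := (hcomm b hbD hbi a).1
    have h2 : (MulAut.conj b).toMonoidHom a = ⁅b, a⁆ * a := by
      simp [commutatorElement_def]
    rw [h2]
    exact Subgroup.mul_mem _ h1 (Subgroup.le_normalizer ha)
  have hAN' : A ≤ Subgroup.normalizer
      ((A.map (MulAut.conj b).toMonoidHom : Subgroup S) : Set S) := by
    apply le_normalizer_of_conj_mem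
    rintro a ha _ ⟨a₁, ha₁, rfl⟩
    have h1 : b⁻¹ * a * b ∈ Subgroup.normalizer (A : Set S) := by
      have h3 := (hcomm b⁻¹ (D.inv_mem hbD) hbinv a).1
      have h4 : b⁻¹ * a * b = ⁅b⁻¹, a⁆ * a := by simp [commutatorElement_def]
      rw [h4]
      exact Subgroup.mul_mem _ h3 (Subgroup.le_normalizer ha)
    have h5 : (b⁻¹ * a * b) * a₁ * (b⁻¹ * a * b)⁻¹ ∈ A :=
      (Subgroup.mem_normalizer_iff.mp h1 a₁).mp ha₁
    refine ⟨_, h5, ?_⟩
    simp only [MulEquiv.coe_toMonoidHom, MulAut.conj_apply]; group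
  have hAc : IsMulCommutative A := hA.1
  have hA'c : IsMulCommutative (A.map (MulAut.conj b).toMonoidHom) := by
    haveI := hAc; infer_instance
  have hcardA' : Nat.card (A.map (MulAut.conj b).toMonoidHom) = Nat.card A := card_map_conj A b
  have hA'D : A.map (MulAut.conj b).toMonoidHom ≤ A ⊔ D := by
    rintro _ ⟨a, ha, rfl⟩
    have h2 : (MulAut.conj b).toMonoidHom a = ⁅b, a⁆ * a := by simp [commutatorElement_def]
    rw [h2]
    exact Subgroup.mul_mem _ (Subgroup.mem_sup_right (hcomm b hbD hbi a).2)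
      (Subgroup.mem_sup_left ha)
  generalize A.map (MulAut.conj b).toMonoidHom = A' at hconjmem hA'N hAN' hA'c hcardA' hA'D
  have hTN : A ⊔ A' ≤ Subgroup.normalizer (A : Set S) := sup_le Subgroup.le_normalizer hA'N
  have hZT : A ⊔ A' ≤ Subgroup.centralizer ((A ⊓ A' : Subgroup S) : Set S) := by
    apply sup_le
    · intro a ha
      rw [Subgroup.mem_centralizer_iff]
      intro z hz
      exact comm_of_isMulCommutative A hAc hz.1 ha
    · intro a ha
      rw [Subgroup.mem_centralizer_iff]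
      intro z hz
      exact comm_of_isMulCommutative A' hA'c hz.2 ha
  have hle : (A ⊓ A') ⊔ ((A ⊔ A') ⊓ D) ≤ A ⊔ A' :=
    sup_le (inf_le_left.trans le_sup_left) inf_le_left
  have hAstar_c : IsMulCommutative ((A ⊓ A') ⊔ ((A ⊔ A') ⊓ D) : Subgroup S) := by
    rw [← Subgroup.le_centralizer_iff_isMulCommutative]
    apply sup_le
    · rw [Subgroup.le_centralizer_iff]
      exact hle.trans hZT
    · rw [Subgroup.le_centralizer_iff]
      apply sup_le
      · rw [Subgroup.le_centralizer_iff]; exact inf_le_left.trans hZT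
      · intro d hd
        rw [Subgroup.mem_centralizer_iff]
        intro d' hd'
        exact comm_of_isMulCommutative D hDc hd'.2 hd.2
  have c1 := card_mul_card_le_card_mul_card_inf A A' (A ⊔ A') le_sup_left le_sup_right
  rw [hcardA'] at c1
  have c3 := card_mul_card_le_card_mul_card_inf (A ⊓ A') ((A ⊔ A') ⊓ D)
    ((A ⊓ A') ⊔ ((A ⊔ A') ⊓ D)) le_sup_left le_sup_right
  have c4 : Nat.card ↥((A ⊓ A') ⊓ ((A ⊔ A') ⊓ D)) ≤ Nat.card ↥(A ⊓ D) :=
    Subgroup.card_le_of_le (le_inf (inf_le_left.trans inf_le_left)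
      (inf_le_right.trans inf_le_right))
  have hTle : A ⊔ A' ≤ A ⊔ D := sup_le le_sup_left hA'D
  have e1 := card_eq_card_inf_mul_relIndex (A ⊔ A') D
  have e2 := card_eq_card_inf_mul_relIndex A D
  have e3 : D.relIndex (A ⊔ A') ≤ D.relIndex A := by
    have hne : D.relIndex (A ⊔ D) ≠ 0 := by
      intro h0
      have h9 := card_eq_card_inf_mul_relIndex (A ⊔ D) D
      rw [h0, mul_zero] at h9
      exact (Nat.card_pos (α := ↥(A ⊔ D))).ne' h9
    have h1 : D.relIndex (A ⊔ A') ≤ D.relIndex (A ⊔ D) :=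
      Subgroup.relIndex_le_of_le_right hTle hne
    rw [Subgroup.relIndex_sup_right] at h1
    exact h1
  have hcard : Nat.card A ≤ Nat.card ↥((A ⊓ A') ⊔ ((A ⊔ A') ⊓ D)) :=
    replacement_arith Nat.card_pos Nat.card_pos c1 e1 e2 e3 c3 c4
  have hlt : Nat.card ↥(A ⊓ D) < Nat.card ↥(((A ⊓ A') ⊔ ((A ⊔ A') ⊓ D)) ⊓ D) := by
    have hle2 : A ⊓ D ≤ ((A ⊓ A') ⊔ ((A ⊔ A') ⊓ D)) ⊓ D :=
      le_inf ((le_inf (inf_le_left.trans le_sup_left) inf_le_right).trans le_sup_right)
        inf_le_right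
    by_contra hnot
    push Not at hnot
    have heq : A ⊓ D = ((A ⊓ A') ⊔ ((A ⊔ A') ⊓ D)) ⊓ D :=
      Subgroup.eq_of_le_of_card_ge hle2 hnot
    apply hbN
    apply Subgroup.mem_normalizer_fintype
    intro a ha
    have h1 : ⁅b, a⁆ ∈ ((A ⊓ A') ⊔ ((A ⊔ A') ⊓ D)) ⊓ D := by
      refine ⟨Subgroup.mem_sup_right ⟨?_, (hcomm b hbD hbi a).2⟩, (hcomm b hbD hbi a).2⟩
      have h2 : ⁅b, a⁆ = (b * a * b⁻¹) * a⁻¹ := by simp [commutatorElement_def]
      rw [h2]
      exact Subgroup.mul_mem _ (Subgroup.mem_sup_right (hconjmem a ha))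
        (Subgroup.mem_sup_left (A.inv_mem ha))
    rw [← heq] at h1
    rw [hbab a]
    exact A.mul_mem h1.1 ha
  exact ⟨_, ⟨hAstar_c, fun B hB => (hA.2 B hB).trans hcard⟩, hle.trans hTN, hlt⟩

/-- `D*(S)` is contained in every abelian subgroup of maximal order. -/
theorem dstar_le_maxAbelian [Finite S] {p : ℕ} [Fact p.Prime] (hS : IsPGroup p S) :
    ∀ A ∈ Cfsg.maxAbelianSubgroups S, Cfsg.dStar S ≤ A := by
  have hDmem := dstar_mem hS
  haveI hDn : (Cfsg.dStar S).Normal := dstar_normal hS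
  have key : ∀ k : ℕ, ∀ A ∈ Cfsg.maxAbelianSubgroups S,
      Nat.card (Cfsg.dStar S) - Nat.card ↥(A ⊓ Cfsg.dStar S) = k → Cfsg.dStar S ≤ A := by
    intro k
    induction k using Nat.strong_induction_on with
    | _ k ih =>
    intro A hA hk
    have hnorm : Cfsg.dStar S ≤ Subgroup.normalizer (A : Set S) := by
      by_contra hDA
      obtain ⟨A', hA', hA'N, hlt⟩ :=
        thompson_replacement_normal hS (Cfsg.dStar S) hDmem.1 A hA hDA
      have hle : Nat.card ↥(A' ⊓ Cfsg.dStar S) ≤ Nat.card (Cfsg.dStar S) :=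
        Subgroup.card_le_of_le inf_le_right
      have hDA' : Cfsg.dStar S ≤ A' :=
        ih (Nat.card (Cfsg.dStar S) - Nat.card ↥(A' ⊓ Cfsg.dStar S)) (by omega) A' hA' rfl
      exact hDA (hDA'.trans hA'N)
    have hcomm := dstar_comm_of_normalizes hS hDmem A hA.1
      (fun b hb a ha => (Subgroup.mem_normalizer_iff.mp (hnorm hb) a).mp ha)
    have hADc : IsMulCommutative (A ⊔ Cfsg.dStar S : Subgroup S) :=
      isMulCommutative_sup hA.1 hDmem.1 hcomm
    have hcard := hA.2 _ hADc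
    have heq : A = A ⊔ Cfsg.dStar S := Subgroup.eq_of_le_of_card_ge le_sup_left hcard
    rw [heq]; exact le_sup_right
  intro A hA
  exact key _ A hA rfl

/-- `Z(S) ≤ D*(S) ≤ Z(J(S))`, and `D*(S)` lies in every maximal normal abelian subgroup. -/
theorem dstar_between [Finite S] {p : ℕ} [Fact p.Prime] (hS : IsPGroup p S) :
    Subgroup.center S ≤ Cfsg.dStar S ∧
    Cfsg.dStar S ≤ Cfsg.thompsonSubgroupA S ⊓
      Subgroup.centralizer (Cfsg.thompsonSubgroupA S : Set S) ∧
    ∀ A : Subgroup S, A.Normal → IsMulCommutative A →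
      (∀ B : Subgroup S, B.Normal → IsMulCommutative B → A ≤ B → B = A) →
        Cfsg.dStar S ≤ A := by
  have hDmem := dstar_mem hS
  haveI hDn : (Cfsg.dStar S).Normal := dstar_normal hS
  refine ⟨?_, ?_, ?_⟩
  · apply le_sSup
    refine ⟨inferInstance, ?_⟩
    intro x _ a ha
    exact (Subgroup.mem_center_iff.mp ha x).symm
  · have hle := dstar_le_maxAbelian hS
    obtain ⟨A₀, hA₀⟩ := exists_maxAbelian (G := S)
    refine le_inf ((hle A₀ hA₀).trans (le_sSup hA₀)) ?_
    rw [Subgroup.le_centralizer_iff]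
    refine (sSup_le ?_ : sSup (Cfsg.maxAbelianSubgroups S) ≤ _)
    intro A hA a ha
    rw [Subgroup.mem_centralizer_iff]
    intro d hd
    exact comm_of_isMulCommutative A hA.1 (hle A hA hd) ha
  · intro A hAn hAc hAmax
    have hcomm := dstar_comm_of_normalizes hS hDmem A hAc
      (fun b _ a ha => hAn.conj_mem a ha b)
    have hADc : IsMulCommutative (A ⊔ Cfsg.dStar S : Subgroup S) :=
      isMulCommutative_sup hAc hDmem.1 hcomm
    haveI := hAn
    have h1 := hAmax (A ⊔ Cfsg.dStar S) inferInstance hADc le_sup_left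
    rw [← h1]; exact le_sup_right

end Cfsg.Agent.Helper17
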