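import Mathlib
import Cfsg.Prelude.Def_DStar
import Cfsg.Prelude.Def_PLocal
import Cfsg.Prelude.Def_Solvable
import Cfsg.Agent.Helper17.Basic
import Cfsg.Agent.Helper17.DStar
import Cfsg.Agent.Helper17.DStar2
import Cfsg.Agent.Helper17.CharP

set_option autoImplicit false

namespace Cfsg.Agent.Helper17

open scoped commutatorElement

variable {G : Type*} [Group G]

theorem mem_dStarOf {P : Subgroup G} {x : G} :
    x ∈ Cfsg.dStarOf P ↔ ∃ d ∈ Cfsg.dStar ↥P, (d : G) = x := Iff.rfl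

/-- `D*(S)` is normal in a `p`-stable group of characteristic `p`. -/
theorem dStarOf_normal_of_pStable [Finite G] {p : ℕ} [Fact p.Prime]
    (hc : Subgroup.centralizer (Cfsg.pCore p G : Set G) ≤ Cfsg.pCore p G)
    (hst : ∀ (P : Subgroup G) [P.Normal], IsPGroup p P → Cfsg.IsPStableOn p P) (S : Sylow p G) :
    (Cfsg.dStarOf (S : Subgroup G)).Normal := by
  classical
  have hSp : IsPGroup p ↥(S : Subgroup G) := S.isPGroup'
  have hDmem : Cfsg.dStar ↥(S : Subgroup G) ∈ Cfsg.dStarFamily ↥(S : Subgroup G) := dstar_mem hSp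
  have hDn : (Cfsg.dStar ↥(S : Subgroup G)).Normal := dstar_normal hSp
  have hQn : (Cfsg.pCore p G).Normal := pCore_normal' p G
  have hQp : IsPGroup p (Cfsg.pCore p G) := pCore_isPGroup' p G
  have hQS : Cfsg.pCore p G ≤ (S : Subgroup G) := hQp.le_sylow_of_normal S
  have hDS : Cfsg.dStarOf (S : Subgroup G) ≤ (S : Subgroup G) := Subgroup.map_subtype_le _
  have hSD : ∀ s ∈ (S : Subgroup G), ∀ d ∈ Cfsg.dStarOf (S : Subgroup G),
      s * d * s⁻¹ ∈ Cfsg.dStarOf (S : Subgroup G) := by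
    intro s hs d hd
    obtain ⟨d', hd', rfl⟩ := mem_dStarOf.mp hd
    exact mem_dStarOf.mpr ⟨⟨s, hs⟩ * d' * ⟨s, hs⟩⁻¹, hDn.conj_mem d' hd' ⟨s, hs⟩, rfl⟩
  have hDc : IsMulCommutative (Cfsg.dStarOf (S : Subgroup G)) := by
    haveI := hDmem.1
    unfold Cfsg.dStarOf
    infer_instance
  -- Step 1
  have hDQ : Cfsg.dStarOf (S : Subgroup G) ≤ Cfsg.pCore p G := by
    intro d hd
    have hquad : ⁅⁅Cfsg.pCore p G, Subgroup.zpowers d⁆, Subgroup.zpowers d⁆ = ⊥ := by
      have h1 : ⁅Cfsg.pCore p G, Subgroup.zpowers d⁆ ≤ Cfsg.dStarOf (S : Subgroup G) := by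
        rw [Subgroup.commutator_le]
        intro q hq z hz
        have hzD : z ∈ Cfsg.dStarOf (S : Subgroup G) := (Subgroup.zpowers_le.mpr hd) hz
        rw [commutatorElement_def]
        exact Subgroup.mul_mem _ (hSD q (hQS hq) z hzD) (Subgroup.inv_mem _ hzD)
      apply le_bot_iff.mp
      have h2 : ⁅Cfsg.dStarOf (S : Subgroup G), Cfsg.dStarOf (S : Subgroup G)⁆ = ⊥ := by
        rw [Subgroup.commutator_eq_bot_iff_le_centralizer]
        exact Subgroup.le_centralizer_iff_isMulCommutative.mpr hDc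
      rw [← h2]
      exact Subgroup.commutator_mono h1 (Subgroup.zpowers_le.mpr hd)
    have hps := hst (Cfsg.pCore p G) hQp d hquad
    have hRp : IsPGroup p ((Cfsg.pCore p (G ⧸ Subgroup.centralizer (Cfsg.pCore p G : Set G))).comap
        (QuotientGroup.mk' (Subgroup.centralizer (Cfsg.pCore p G : Set G)))) := by
      apply IsPGroup.comap_of_ker_isPGroup (pCore_isPGroup' p _)
      rw [QuotientGroup.ker_mk']
      exact hQp.to_le hc
    have hRn : ((Cfsg.pCore p (G ⧸ Subgroup.centralizer (Cfsg.pCore p G : Set G))).comap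
        (QuotientGroup.mk' (Subgroup.centralizer (Cfsg.pCore p G : Set G)))).Normal :=
      (pCore_normal' p _).comap _
    exact le_pCore' hRn hRp hps
  -- Step 2
  have hstep2 : ∀ g : G, ∀ x ∈ Cfsg.dStarOf (S : Subgroup G), ∀ d ∈ Cfsg.dStarOf (S : Subgroup G),
      (g * x * g⁻¹) * d = d * (g * x * g⁻¹) := by
    intro g x hx d hd
    have hDgQ : (Cfsg.dStarOf (S : Subgroup G)).map (MulAut.conj g).toMonoidHom ≤ Cfsg.pCore p G := by
      rintro _ ⟨y, hy, rfl⟩
      exact hQn.conj_mem y (hDQ hy) g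
    have hAc : IsMulCommutative (((Cfsg.dStarOf (S : Subgroup G)).map
        (MulAut.conj g).toMonoidHom).subgroupOf (S : Subgroup G)) := by
      haveI := hDc; infer_instance
    have hBA : ∀ b ∈ Cfsg.dStar ↥(S : Subgroup G),
        ∀ a ∈ ((Cfsg.dStarOf (S : Subgroup G)).map
          (MulAut.conj g).toMonoidHom).subgroupOf (S : Subgroup G),
        b * a * b⁻¹ ∈ ((Cfsg.dStarOf (S : Subgroup G)).map
          (MulAut.conj g).toMonoidHom).subgroupOf (S : Subgroup G) := by
      intro b hb a ha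
      rw [Subgroup.mem_subgroupOf] at ha ⊢
      obtain ⟨y, hy, hya⟩ := ha
      have hbQ : (b : G) ∈ Cfsg.pCore p G := hDQ (mem_dStarOf.mpr ⟨b, hb, rfl⟩)
      have hq : g⁻¹ * (b : G) * g ∈ (S : Subgroup G) :=
        hQS (by have := hQn.conj_mem _ hbQ g⁻¹; simpa using this)
      refine ⟨(g⁻¹ * (b : G) * g) * y * (g⁻¹ * (b : G) * g)⁻¹, hSD _ hq y hy, ?_⟩
      simp only [MulEquiv.coe_toMonoidHom, MulAut.conj_apply] at hya ⊢
      rw [Subgroup.coe_mul, Subgroup.coe_mul, Subgroup.coe_inv, ← hya]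
      group
    have hcomm := dstar_comm_of_normalizes hSp hDmem _ hAc hBA
    obtain ⟨d', hd', rfl⟩ := mem_dStarOf.mp hd
    have hxS : g * x * g⁻¹ ∈ (S : Subgroup G) := hQS (hDgQ (conj_mem_map_conj _ g hx))
    have h1 := hcomm ⟨g * x * g⁻¹, hxS⟩
      (Subgroup.mem_subgroupOf.mpr (conj_mem_map_conj _ g hx)) d' hd'
    exact congrArg Subtype.val h1
  -- Step 3
  have hWc : IsMulCommutative (Subgroup.normalClosure (Cfsg.dStarOf (S : Subgroup G) : Set G)) := by
    rw [← Subgroup.le_centralizer_iff_isMulCommutative, Subgroup.normalClosure,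
      Subgroup.centralizer_closure, Subgroup.closure_le]
    intro y hy
    rw [SetLike.mem_coe, Subgroup.mem_centralizer_iff]
    intro y' hy'
    rw [Group.mem_conjugatesOfSet_iff] at hy hy'
    obtain ⟨x, hx, hc1⟩ := hy
    obtain ⟨x', hx', hc2⟩ := hy'
    obtain ⟨g, rfl⟩ := isConj_iff.mp hc1
    obtain ⟨h, rfl⟩ := isConj_iff.mp hc2
    have h1 := hstep2 (h⁻¹ * g) x hx x' hx'
    calc h * x' * h⁻¹ * (g * x * g⁻¹)
        = h * (x' * (h⁻¹ * g * x * (h⁻¹ * g)⁻¹)) * h⁻¹ := by group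
      _ = h * ((h⁻¹ * g * x * (h⁻¹ * g)⁻¹) * x') * h⁻¹ := by rw [h1]
      _ = g * x * g⁻¹ * (h * x' * h⁻¹) := by group
  have hWn : (Subgroup.normalClosure (Cfsg.dStarOf (S : Subgroup G) : Set G)).Normal :=
    Subgroup.normalClosure_normal
  have hDW : Cfsg.dStarOf (S : Subgroup G) ≤
      Subgroup.normalClosure (Cfsg.dStarOf (S : Subgroup G) : Set G) := Subgroup.le_normalClosure
  have hWQ : Subgroup.normalClosure (Cfsg.dStarOf (S : Subgroup G) : Set G) ≤ Cfsg.pCore p G :=
    Subgroup.normalClosure_le_normal (SetLike.coe_subset_coe.mpr hDQ)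
  have hWdef : Subgroup.normalClosure (Cfsg.dStarOf (S : Subgroup G) : Set G) =
      Subgroup.closure (Group.conjugatesOfSet (Cfsg.dStarOf (S : Subgroup G) : Set G)) := rfl
  generalize Subgroup.normalClosure (Cfsg.dStarOf (S : Subgroup G) : Set G) = W at hWc hWn hDW hWQ hWdef
  have hWS : W ≤ (S : Subgroup G) := hWQ.trans hQS
  have hWp : IsPGroup p W := hQp.to_le hWQ
  have hWSc : IsMulCommutative (W.subgroupOf (S : Subgroup G)) := by
    haveI := hWc; infer_instance
  -- Step 4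
  have hWfam : W.subgroupOf (S : Subgroup G) ∈ Cfsg.dStarFamily ↥(S : Subgroup G) := by
    refine ⟨hWSc, ?_⟩
    intro x' hcl w' hw'
    have hT : ⁅⁅W ⊔ Subgroup.zpowers (x' : G), W ⊔ Subgroup.zpowers (x' : G)⁆,
        W ⊔ Subgroup.zpowers (x' : G)⁆ = ⊥ := by
      have hmap : (W.subgroupOf (S : Subgroup G) ⊔ Subgroup.zpowers x').map
          (S : Subgroup G).subtype = W ⊔ Subgroup.zpowers (x' : G) := by
        rw [Subgroup.map_sup, Subgroup.map_subgroupOf_eq_of_le hWS, MonoidHom.map_zpowers]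
        rfl
      rw [← hmap, ← Subgroup.map_commutator, ← Subgroup.map_commutator, hcl, Subgroup.map_bot]
    have hquad : ⁅⁅W, Subgroup.zpowers (x' : G)⁆, Subgroup.zpowers (x' : G)⁆ = ⊥ := by
      apply le_bot_iff.mp
      rw [← hT]
      exact Subgroup.commutator_mono (Subgroup.commutator_mono le_sup_left le_sup_right)
        le_sup_right
    haveI := hWn
    have hps := hst W hWp (x' : G) hquad
    have hCn : (Cfsg.pCore p (G ⧸ Subgroup.centralizer (W : Set G))).Normal := pCore_normal' p _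
    have hdecomp : ∀ y : G, (y : G ⧸ Subgroup.centralizer (W : Set G)) ∈
        Cfsg.pCore p (G ⧸ Subgroup.centralizer (W : Set G)) →
        ∃ s ∈ (S : Subgroup G), ∃ c ∈ Subgroup.centralizer (W : Set G), y = s * c := by
      intro y hy
      have h1 : Cfsg.pCore p (G ⧸ Subgroup.centralizer (W : Set G)) ≤
          ((S.mapSurjective (QuotientGroup.mk'_surjective (Subgroup.centralizer (W : Set G))) :
            Sylow p (G ⧸ Subgroup.centralizer (W : Set G))) :
            Subgroup (G ⧸ Subgroup.centralizer (W : Set G))) :=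
        (pCore_isPGroup' p (G ⧸ Subgroup.centralizer (W : Set G))).le_sylow_of_normal _
      have h2 := h1 hy
      rw [Sylow.coe_mapSurjective] at h2
      obtain ⟨s, hs, hsy⟩ := h2
      refine ⟨s, hs, s⁻¹ * y, ?_, by group⟩
      rw [← QuotientGroup.eq]
      exact hsy
    have hq1 : ∀ w ∈ W, ⁅⁅w, (x' : G)⁆, (x' : G)⁆ = 1 := by
      intro w hw
      have hxT : (x' : G) ∈ W ⊔ Subgroup.zpowers (x' : G) :=
        Subgroup.mem_sup_right (Subgroup.mem_zpowers _)
      have hwT : w ∈ W ⊔ Subgroup.zpowers (x' : G) := Subgroup.mem_sup_left hw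
      have h3 := Subgroup.commutator_mem_commutator
        (Subgroup.commutator_mem_commutator hwT hxT) hxT
      rw [hT, Subgroup.mem_bot] at h3
      exact h3
    have hq2 : ∀ g : G, ∀ w ∈ W, ⁅⁅w, g⁻¹ * (x' : G) * g⁆, g⁻¹ * (x' : G) * g⁆ = 1 := by
      intro g w hw
      have h1 := hq1 (g * w * g⁻¹) (hWn.conj_mem w hw g)
      have e : ⁅⁅w, g⁻¹ * (x' : G) * g⁆, g⁻¹ * (x' : G) * g⁆
          = g⁻¹ * ⁅⁅g * w * g⁻¹, (x' : G)⁆, (x' : G)⁆ * g := by
        simp only [commutatorElement_def]; group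
      rw [e, h1]; group
    have hmain : ∀ g : G, ∀ d ∈ Cfsg.dStarOf (S : Subgroup G),
        d * (g⁻¹ * (x' : G) * g) = (g⁻¹ * (x' : G) * g) * d := by
      intro g d hd
      have hy : ((g⁻¹ * (x' : G) * g : G) : G ⧸ Subgroup.centralizer (W : Set G)) ∈
          Cfsg.pCore p (G ⧸ Subgroup.centralizer (W : Set G)) := by
        have h3 := hCn.conj_mem _ hps ((g : G ⧸ Subgroup.centralizer (W : Set G))⁻¹)
        simpa using h3
      obtain ⟨s, hs, c, hc, hyeq⟩ := hdecomp _ hy
      have hcW : ∀ w ∈ W, w * c = c * w := fun w hw => Subgroup.mem_centralizer_iff.mp hc w hw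
      have hws : ∀ w ∈ W, ⁅w, g⁻¹ * (x' : G) * g⁆ = ⁅w, s⁆ := by
        intro w hw
        rw [hyeq, commutatorElement_def, commutatorElement_def]
        have h1 : c * w⁻¹ = w⁻¹ * c := (hcW w⁻¹ (W.inv_mem hw)).symm
        calc w * (s * c) * w⁻¹ * (s * c)⁻¹ = w * s * (c * w⁻¹) * c⁻¹ * s⁻¹ := by group
          _ = w * s * (w⁻¹ * c) * c⁻¹ * s⁻¹ := by rw [h1]
          _ = w * s * w⁻¹ * s⁻¹ := by group
      have hss : ∀ w ∈ W, ⁅⁅w, s⁆, s⁆ = 1 := by
        intro w hw
        have hws' : ⁅w, s⁆ ∈ W := by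
          rw [commutatorElement_def]
          have h3 := W.mul_mem hw (hWn.conj_mem w⁻¹ (W.inv_mem hw) s)
          rwa [← mul_assoc, ← mul_assoc] at h3
        rw [← hws _ hws', ← hws w hw]
        exact hq2 g w hw
      have hcl2 : ⁅⁅Cfsg.dStar ↥(S : Subgroup G) ⊔ Subgroup.zpowers (⟨s, hs⟩ : ↥(S : Subgroup G)),
          Cfsg.dStar ↥(S : Subgroup G) ⊔ Subgroup.zpowers (⟨s, hs⟩ : ↥(S : Subgroup G))⁆,
          Cfsg.dStar ↥(S : Subgroup G) ⊔ Subgroup.zpowers (⟨s, hs⟩ : ↥(S : Subgroup G))⁆ = ⊥ := by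
        have hX : Subgroup.closure (((Cfsg.dStar ↥(S : Subgroup G) : Subgroup ↥(S : Subgroup G)) :
            Set ↥(S : Subgroup G)) ∪ {(⟨s, hs⟩ : ↥(S : Subgroup G))})
            = Cfsg.dStar ↥(S : Subgroup G) ⊔ Subgroup.zpowers (⟨s, hs⟩ : ↥(S : Subgroup G)) := by
          rw [Subgroup.closure_union, Subgroup.closure_eq, Subgroup.zpowers_eq_closure]
        rw [← hX]
        apply class_two_of_gens
        have hkey : ∀ u ∈ Cfsg.dStar ↥(S : Subgroup G), ⁅u, (⟨s, hs⟩ : ↥(S : Subgroup G))⁆ ∈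
            Subgroup.centralizer (((Cfsg.dStar ↥(S : Subgroup G) : Subgroup ↥(S : Subgroup G)) :
              Set ↥(S : Subgroup G)) ∪ {(⟨s, hs⟩ : ↥(S : Subgroup G))}) := by
          intro u hu
          have hmem : ⁅u, (⟨s, hs⟩ : ↥(S : Subgroup G))⁆ ∈ Cfsg.dStar ↥(S : Subgroup G) := by
            rw [commutatorElement_def]
            have h3 := (Cfsg.dStar ↥(S : Subgroup G)).mul_mem hu
              (hDn.conj_mem u⁻¹ ((Cfsg.dStar ↥(S : Subgroup G)).inv_mem hu) ⟨s, hs⟩)
            rwa [← mul_assoc, ← mul_assoc] at h3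
          rw [Subgroup.mem_centralizer_iff]
          rintro v (hv | hv)
          · exact comm_of_isMulCommutative _ hDmem.1 hv hmem
          · rw [Set.mem_singleton_iff] at hv
            rw [hv]
            have h1 : ⁅⁅u, (⟨s, hs⟩ : ↥(S : Subgroup G))⁆, (⟨s, hs⟩ : ↥(S : Subgroup G))⁆ = 1 := by
              apply Subtype.ext
              have h3 := hss (u : G) (hDW (mem_dStarOf.mpr ⟨u, hu, rfl⟩))
              simpa [commutatorElement_def] using h3
            exact (commutatorElement_eq_one_iff_mul_comm.mp h1).symm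
        rintro u (hu | hu) v (hv | hv)
        · have h1 : ⁅u, v⁆ = 1 :=
            commutatorElement_eq_one_iff_mul_comm.mpr (comm_of_isMulCommutative _ hDmem.1 hu hv)
          rw [h1]; exact Subgroup.one_mem _
        · rw [Set.mem_singleton_iff] at hv
          rw [hv]; exact hkey u hu
        · rw [Set.mem_singleton_iff] at hu
          rw [hu, ← commutatorElement_inv]
          exact Subgroup.inv_mem _ (hkey v hv)
        · rw [Set.mem_singleton_iff] at hu hv
          rw [hu, hv, commutatorElement_self]; exact Subgroup.one_mem _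
      obtain ⟨d', hd', rfl⟩ := mem_dStarOf.mp hd
      have h5 := hDmem.2 ⟨s, hs⟩ hcl2 d' hd'
      have h6 : (d' : G) * s = s * (d' : G) := congrArg Subtype.val h5
      have h7 : (d' : G) * c = c * (d' : G) := hcW _ (hDW (mem_dStarOf.mpr ⟨d', hd', rfl⟩))
      rw [hyeq]
      calc (d' : G) * (s * c) = ((d' : G) * s) * c := by group
        _ = s * ((d' : G) * c) := by rw [h6]; group
        _ = (s * c) * (d' : G) := by rw [h7]; group
    have hxW : (x' : G) ∈ Subgroup.centralizer (W : Set G) := by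
      rw [hWdef, Subgroup.centralizer_closure, Subgroup.mem_centralizer_iff]
      intro y hy
      rw [Group.mem_conjugatesOfSet_iff] at hy
      obtain ⟨d, hd, hconj⟩ := hy
      obtain ⟨g, rfl⟩ := isConj_iff.mp hconj
      have h1 := hmain g d hd
      calc g * d * g⁻¹ * (x' : G) = g * (d * (g⁻¹ * (x' : G) * g)) * g⁻¹ := by group
        _ = g * ((g⁻¹ * (x' : G) * g) * d) * g⁻¹ := by rw [h1]
        _ = (x' : G) * (g * d * g⁻¹) := by group
    apply Subtype.ext
    exact Subgroup.mem_centralizer_iff.mp hxW (w' : G) (Subgroup.mem_subgroupOf.mp hw')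
  -- Step 5
  have hWD : W ≤ Cfsg.dStarOf (S : Subgroup G) := by
    have h1 : W.subgroupOf (S : Subgroup G) ≤ Cfsg.dStar ↥(S : Subgroup G) := le_sSup hWfam
    have h2 := Subgroup.map_mono (f := (S : Subgroup G).subtype) h1
    rw [Subgroup.map_subgroupOf_eq_of_le hWS] at h2
    exact h2
  constructor
  intro d hd g
  exact hWD (hWn.conj_mem d (hDW hd) g)

end Cfsg.Agent.Helper17
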