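import Mathlib

set_option autoImplicit false

namespace Cfsg.Agent.Helper17

theorem mem_zpowers_of_mem_zpowers_prime {G : Type*} [Group G] [Finite G] {p : ℕ} (hp : p.Prime)
    {g h : G} (hg : g ^ p = 1) (hh : h ∈ Subgroup.zpowers g) (h1 : h ≠ 1) :
    g ∈ Subgroup.zpowers h := by
  have hle : Subgroup.zpowers h ≤ Subgroup.zpowers g := Subgroup.zpowers_le.mpr hh
  have hg1 : g ≠ 1 := by
    rintro rfl
    rw [Subgroup.zpowers_one_eq_bot, Subgroup.mem_bot] at hh
    exact h1 hh
  have hog : orderOf g = p := by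
    rcases (Nat.dvd_prime hp).mp (orderOf_dvd_of_pow_eq_one hg) with h | h
    · exact absurd (orderOf_eq_one_iff.mp h) hg1
    · exact h
  have hcg : Nat.card (Subgroup.zpowers g) = p := by rw [Nat.card_zpowers, hog]
  have hch : Nat.card (Subgroup.zpowers h) ∣ p := by
    rw [← hcg]; exact Subgroup.card_dvd_of_le hle
  rcases (Nat.dvd_prime hp).mp hch with h2 | h2
  · exfalso
    apply h1
    have h3 : Subgroup.zpowers h = ⊥ := Subgroup.card_eq_one.mp h2
    exact Subgroup.zpowers_eq_bot.mp h3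
  · have h3 : Subgroup.zpowers h = Subgroup.zpowers g :=
      Subgroup.eq_of_le_of_card_ge hle (by rw [hcg, h2])
    rw [h3]; exact Subgroup.mem_zpowers g

theorem mem_closure_pair_of_commute {G : Type*} [Group G] {a b : G} (hab : a * b = b * a) {x : G}
    (hx : x ∈ Subgroup.closure ({a, b} : Set G)) : ∃ i j : ℤ, x = a ^ i * b ^ j := by
  have hc : Commute a b := hab
  induction hx using Subgroup.closure_induction with
  | mem y hy =>
    rcases hy with rfl | hy
    · exact ⟨1, 0, by simp⟩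
    · rw [Set.mem_singleton_iff] at hy
      subst hy
      exact ⟨0, 1, by simp⟩
  | one => exact ⟨0, 0, by simp⟩
  | mul y z _ _ ihy ihz =>
    obtain ⟨i, j, rfl⟩ := ihy
    obtain ⟨k, l, rfl⟩ := ihz
    refine ⟨i + k, j + l, ?_⟩
    rw [zpow_add, zpow_add]
    have h1 : b ^ j * a ^ k = a ^ k * b ^ j := ((hc.zpow_zpow k j).eq).symm
    calc a ^ i * b ^ j * (a ^ k * b ^ l) = a ^ i * (b ^ j * a ^ k) * b ^ l := by
          simp only [mul_assoc]
      _ = a ^ i * (a ^ k * b ^ j) * b ^ l := by rw [h1]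
      _ = a ^ i * a ^ k * (b ^ j * b ^ l) := by simp only [mul_assoc]
  | inv y _ ihy =>
    obtain ⟨i, j, rfl⟩ := ihy
    refine ⟨-i, -j, ?_⟩
    rw [mul_inv_rev, ← zpow_neg, ← zpow_neg]
    exact ((hc.zpow_zpow (-i) (-j)).eq).symm

theorem closure_pair_inf_eq_bot {G : Type*} [Group G] [Finite G] {p : ℕ} (hp : p.Prime) {a b : G}
    (hab : a * b = b * a) (ha : a ^ p = 1) (hb : b ^ p = 1) (W : Subgroup G) (haW : a ∉ W)
    (hbW : b ∉ W ⊔ Subgroup.zpowers a) :
    ∀ x ∈ Subgroup.closure ({a, b} : Set G), x ∈ W → x = 1 := by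
  intro x hx hxW
  obtain ⟨i, j, rfl⟩ := mem_closure_pair_of_commute hab hx
  have hbj : b ^ j = 1 := by
    by_contra hne
    apply hbW
    have h1 := mem_zpowers_of_mem_zpowers_prime hp hb (Subgroup.zpow_mem_zpowers b j) hne
    have h2 : b ^ j ∈ W ⊔ Subgroup.zpowers a := by
      have e : b ^ j = (a ^ i)⁻¹ * (a ^ i * b ^ j) := by rw [inv_mul_cancel_left]
      rw [e]
      exact Subgroup.mul_mem _
        (Subgroup.inv_mem _ (Subgroup.mem_sup_right (Subgroup.zpow_mem_zpowers a i)))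
        (Subgroup.mem_sup_left hxW)
    exact (Subgroup.zpowers_le.mpr h2) h1
  rw [hbj, mul_one] at hxW ⊢
  by_contra hne
  apply haW
  have h1 := mem_zpowers_of_mem_zpowers_prime hp ha (Subgroup.zpow_mem_zpowers a i) hne
  exact (Subgroup.zpowers_le.mpr hxW) h1

end Cfsg.Agent.Helper17
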