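import Mathlib
import Cfsg.Prelude.Def_SylowControl
import Cfsg.Agent.Helper17.Basic
import Cfsg.Agent.Helper17.RelSylow

/-!
Bookkeeping for `Cfsg.ControlsSylowIntersections` versus `Cfsg.FamilyStronglyControlsFusion`.
-/

set_option autoImplicit false

namespace Cfsg.Agent.Helper17

variable {G : Type*} [Group G]

theorem mem_scr_iff (g d : G) (X : Subgroup G) :
    d ∈ Cfsg.subgroupConjRight g X ↔ g * d * g⁻¹ ∈ X := by
  unfold Cfsg.subgroupConjRight
  rw [mem_map_conj]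
  simp

theorem scr_mul (a b : G) (X : Subgroup G) :
    Cfsg.subgroupConjRight (a * b) X = Cfsg.subgroupConjRight b (Cfsg.subgroupConjRight a X) := by
  ext d
  rw [mem_scr_iff, mem_scr_iff, mem_scr_iff]
  have e : a * b * d * (a * b)⁻¹ = a * (b * d * b⁻¹) * a⁻¹ := by group
  rw [e]

theorem scr_of_mem {x : G} {X : Subgroup G} (hx : x ∈ X) : Cfsg.subgroupConjRight x X = X := by
  ext d
  rw [mem_scr_iff]
  constructor
  · intro h
    have h1 := X.mul_mem (X.mul_mem (X.inv_mem hx) h) hx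
    have e : x⁻¹ * (x * d * x⁻¹) * x = d := by group
    rwa [e] at h1
  · intro h
    exact X.mul_mem (X.mul_mem hx h) (X.inv_mem hx)

theorem scr_one (X : Subgroup G) : Cfsg.subgroupConjRight 1 X = X := by
  ext d
  rw [mem_scr_iff]
  simp

theorem scr_eq_map (g : G) (X : Subgroup G) :
    Cfsg.subgroupConjRight g X = X.map (MulAut.conj g⁻¹).toMonoidHom := rfl

theorem sylowMembers_scr [Finite G] {p : ℕ} [Fact p.Prime] {𝓕 : Set (Subgroup G)}
    (h𝓕 : Cfsg.IsNormalSet 𝓕) {X T : Subgroup G} (hX : X ∈ Cfsg.sylowMembers p 𝓕 T) (h : G) :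
    Cfsg.subgroupConjRight h X ∈ Cfsg.sylowMembers p 𝓕 (Cfsg.subgroupConjRight h T) := by
  obtain ⟨hX𝓕, P, hP⟩ := hX
  have hX'𝓕 := h𝓕 X hX𝓕 h
  have hinf : Cfsg.subgroupConjRight h T ⊓ Cfsg.subgroupConjRight h X =
      (T ⊓ X).map (MulAut.conj h⁻¹).toMonoidHom := by
    rw [Subgroup.map_inf_eq _ _ _ (MulAut.conj h⁻¹).injective]
    rfl
  have hcardX : Nat.card ↥(Cfsg.subgroupConjRight h X) = Nat.card ↥X :=
    Subgroup.card_map_of_injective (MulAut.conj h⁻¹).injective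
  have hcard : Nat.card ↥((Cfsg.subgroupConjRight h T ⊓ Cfsg.subgroupConjRight h X).subgroupOf
      (Cfsg.subgroupConjRight h X)) =
      p ^ (Nat.card ↥(Cfsg.subgroupConjRight h X)).factorization p := by
    rw [Nat.card_congr (Subgroup.subgroupOfEquivOfLe inf_le_right).toEquiv, hinf,
      Subgroup.card_map_of_injective (MulAut.conj h⁻¹).injective, ← hP, Subgroup.card_subtype,
      hcardX]
    exact P.card_eq_multiplicity
  refine ⟨hX'𝓕, Sylow.ofCard _ hcard, ?_⟩
  rw [Sylow.coe_ofCard, Subgroup.map_subgroupOf_eq_of_le inf_le_right]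

/-- `S^g` as a Sylow subgroup. -/
theorem sylow_inv_smul_coe {p : ℕ} (S : Sylow p G) (g : G) :
    ((g⁻¹ • S : Sylow p G) : Subgroup G) = Cfsg.subgroupConjRight g (S : Subgroup G) := by
  rw [sylow_smul_coe]
  rfl

theorem mem_conjRight_iff (g d : G) (A : Set G) :
    d ∈ Cfsg.conjRight g A ↔ g * d * g⁻¹ ∈ A := by
  unfold Cfsg.conjRight
  constructor
  · rintro ⟨a, ha, rfl⟩
    have e : g * (g⁻¹ * a * g) * g⁻¹ = a := by group
    rw [e]
    exact ha
  · intro h
    exact ⟨g * d * g⁻¹, h, by group⟩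

theorem fsc_of_csi [Finite G] {p : ℕ} [Fact p.Prime] {𝓕 : Set (Subgroup G)}
    (h𝓕 : Cfsg.IsNormalSet 𝓕) (hc : Cfsg.ControlsSylowIntersections p 𝓕) :
    Cfsg.FamilyStronglyControlsFusion p 𝓕 := by
  intro S A g hA hA1 hAg
  by_cases hTS : (g • S : Sylow p G) = S
  · have hg : g ∈ Subgroup.normalizer ((S : Subgroup G) : Set G) := by
      apply mem_normalizer_of_map_conj_eq
      rw [← sylow_smul_coe, hTS]
    exact ⟨0, Fin.elim0, Fin.elim0, g, hg, fun i => i.elim0, by simp, fun i => i.elim0⟩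
  · obtain ⟨a, ha, ha1⟩ := hA1
    have hAT : ∀ a' ∈ A, a' ∈ ((g • S : Sylow p G) : Subgroup G) := by
      intro a' ha'
      rw [sylow_smul_coe, mem_map_conj]
      exact hAg ⟨a', ha', rfl⟩
    have hint : (S : Subgroup G) ⊓ ((g • S : Sylow p G) : Subgroup G) ≠ ⊥ := by
      intro hbot
      have h1 : a ∈ (S : Subgroup G) ⊓ ((g • S : Sylow p G) : Subgroup G) := ⟨hA ha, hAT a ha⟩
      rw [hbot, Subgroup.mem_bot] at h1
      exact ha1 h1
    obtain ⟨n, c, X, x, h0, hlast, hstep⟩ := hc S (g • S) (Ne.symm hTS) hint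
    obtain ⟨x', hx'⟩ : ∃ x' : ℕ → G, ∀ i : Fin n, x' i.val = x i :=
      ⟨fun i => if h : i < n then x ⟨i, h⟩ else 1, fun i => by simp [i.2]⟩
    obtain ⟨v, hv0, hvs⟩ : ∃ v : ℕ → G, v 0 = 1 ∧ ∀ i, v (i + 1) = x' i * v i :=
      ⟨fun k => Nat.rec 1 (fun i acc => x' i * acc) k, rfl, fun i => rfl⟩
    have hcv : ∀ j : Fin (n + 1),
        Cfsg.subgroupConjRight (v j.val) ((c j : Sylow p G) : Subgroup G) = (S : Subgroup G) := by
      intro j
      induction j using Fin.induction with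
      | zero =>
        rw [h0]
        show Cfsg.subgroupConjRight (v 0) _ = _
        rw [hv0, scr_one]
      | succ j ih =>
        obtain ⟨-, -, -, hconj, -⟩ := hstep j
        show Cfsg.subgroupConjRight (v (j.val + 1)) _ = _
        rw [hvs, hx', scr_mul, hconj]
        exact ih
    obtain ⟨y, hy⟩ : ∃ y : Fin n → G, ∀ i : Fin n, y i = (v i.val)⁻¹ * x i * v i.val :=
      ⟨fun i => (v i.val)⁻¹ * x i * v i.val, fun i => rfl⟩
    have hprod : ∀ k, k ≤ n → ((List.ofFn y).take k).prod = v k := by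
      intro k
      induction k with
      | zero =>
        intro _
        simp [hv0]
      | succ k ih =>
        intro hk
        have hkn : k < n := by omega
        have hlt : k < (List.ofFn y).length := by rw [List.length_ofFn]; exact hkn
        have hxk : x' k = x ⟨k, hkn⟩ := hx' ⟨k, hkn⟩
        rw [List.prod_take_succ _ _ hlt, ih (by omega), List.getElem_ofFn, hy, hvs, hxk]
        group
    have hprodn : (List.ofFn y).prod = v n := by
      have h1 := hprod n le_rfl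
      rwa [List.take_of_length_le (by rw [List.length_ofFn])] at h1
    refine ⟨n, fun i => Cfsg.subgroupConjRight (v i.val) (X i), y, (v n)⁻¹ * g, ?_, ?_, ?_, ?_⟩
    · apply mem_normalizer_of_map_conj_eq
      have h1 := hcv (Fin.last n)
      rw [hlast, sylow_smul_coe, scr_eq_map, map_conj_map_conj] at h1
      exact h1
    · intro i
      obtain ⟨hX1, -, hxi, -, -⟩ := hstep i
      constructor
      · have h1 := sylowMembers_scr h𝓕 hX1 (v i.val)
        have h2 := hcv i.castSucc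
        rw [show (i.castSucc : Fin (n + 1)).val = i.val from rfl] at h2
        rwa [h2] at h1
      · rw [hy]
        show _ ∈ Cfsg.subgroupConjRight (v i.val) (X i)
        rw [mem_scr_iff]
        have e : v i.val * ((v i.val)⁻¹ * x i * v i.val) * (v i.val)⁻¹ = x i := by group
        rw [e]
        exact hxi
    · rw [hprodn]
      group
    · intro i
      rw [hprod (i.val + 1) (by omega)]
      intro d hd
      rw [mem_conjRight_iff] at hd
      obtain ⟨-, -, hxi, hconj, hle⟩ := hstep i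
      have hmem : v (i.val + 1) * d * (v (i.val + 1))⁻¹ ∈
          ((c i.succ : Sylow p G) : Subgroup G) ⊓ X i := hle ⟨hA hd, hAT _ hd⟩
      constructor
      · have h1 := hcv i.succ
        rw [show (i.succ : Fin (n + 1)).val = i.val + 1 from rfl] at h1
        have h2 : d ∈ Cfsg.subgroupConjRight (v (i.val + 1))
            ((c i.succ : Sylow p G) : Subgroup G) := by
          rw [mem_scr_iff]
          exact hmem.1
        rw [h1] at h2
        exact h2
      · show d ∈ Cfsg.subgroupConjRight (v i.val) (X i)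
        have h2 : d ∈ Cfsg.subgroupConjRight (v (i.val + 1)) (X i) := by
          rw [mem_scr_iff]
          exact hmem.2
        rw [hvs, hx', scr_mul, scr_of_mem hxi] at h2
        exact h2

theorem csi_of_fsc [Finite G] {p : ℕ} [Fact p.Prime] {𝓕 : Set (Subgroup G)}
    (h𝓕 : Cfsg.IsNormalSet 𝓕) (hf : Cfsg.FamilyStronglyControlsFusion p 𝓕) :
    Cfsg.ControlsSylowIntersections p 𝓕 := by
  intro S T hne hint
  obtain ⟨h, hh⟩ := MulAction.exists_smul_eq G S T
  obtain ⟨k, hk⟩ : ∃ k : G, k = h⁻¹ := ⟨_, rfl⟩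
  have hT : (T : Subgroup G) = Cfsg.subgroupConjRight k (S : Subgroup G) := by
    rw [← hh, hk, ← sylow_inv_smul_coe, inv_inv]
  have hA : Cfsg.conjRight k⁻¹ (((S : Subgroup G) ⊓ (T : Subgroup G) : Subgroup G) : Set G) ⊆
      (S : Set G) := by
    intro a ha
    rw [mem_conjRight_iff] at ha
    have h1 : k⁻¹ * a * k⁻¹⁻¹ ∈ (T : Subgroup G) := ha.2
    rw [hT, mem_scr_iff] at h1
    have e : k * (k⁻¹ * a * k⁻¹⁻¹) * k⁻¹ = a := by group
    rwa [e] at h1
  have hA1 : ∃ a ∈ Cfsg.conjRight k⁻¹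
      (((S : Subgroup G) ⊓ (T : Subgroup G) : Subgroup G) : Set G), a ≠ 1 := by
    obtain ⟨⟨d, hd⟩, hd1⟩ := (Subgroup.ne_bot_iff_exists_ne_one).mp hint
    refine ⟨k * d * k⁻¹, ?_, ?_⟩
    · rw [mem_conjRight_iff]
      have e : k⁻¹ * (k * d * k⁻¹) * k⁻¹⁻¹ = d := by group
      rw [e]
      exact hd
    · intro h1
      apply hd1
      apply Subtype.ext
      show d = 1
      have e : d = k⁻¹ * (k * d * k⁻¹) * k := by group
      rw [e, h1]
      group
  have hAk : Cfsg.conjRight k (Cfsg.conjRight k⁻¹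
      (((S : Subgroup G) ⊓ (T : Subgroup G) : Subgroup G) : Set G)) ⊆ (S : Set G) := by
    intro d hd
    rw [mem_conjRight_iff, mem_conjRight_iff] at hd
    have e : k⁻¹ * (k * d * k⁻¹) * k⁻¹⁻¹ = d := by group
    rw [e] at hd
    exact hd.1
  obtain ⟨n, Y, y, y₀, hy₀, hY, hkprod, hstep⟩ := hf S _ k hA hA1 hAk
  obtain ⟨u, hu⟩ : ∃ u : ℕ → G, ∀ j, u j = ((List.ofFn y).take j).prod := ⟨_, fun j => rfl⟩
  have hu0 : u 0 = 1 := by rw [hu]; simp
  have hus : ∀ j (hj : j < n), u (j + 1) = u j * y ⟨j, hj⟩ := by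
    intro j hj
    rw [hu, hu, List.prod_take_succ _ _ (by rw [List.length_ofFn]; exact hj), List.getElem_ofFn]
  have hun : u n = (List.ofFn y).prod := by
    rw [hu, List.take_of_length_le (by rw [List.length_ofFn])]
  obtain ⟨w, hw⟩ : ∃ w : ℕ → G, ∀ j, w j = (u j)⁻¹ * k := ⟨_, fun j => rfl⟩
  have hw0 : w 0 = k := by rw [hw, hu0]; group
  have hwn : w n = y₀ := by rw [hw, hun, hkprod]; group
  have hws : ∀ j (hj : j < n), w j = y ⟨j, hj⟩ * w (j + 1) := by
    intro j hj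
    rw [hw, hw, hus j hj]
    group
  have hE : ∀ i (hi : i < n), ∀ d ∈ (S : Subgroup G) ⊓ (T : Subgroup G),
      w (i + 1) * d * (w (i + 1))⁻¹ ∈ (S : Subgroup G) ∧
      w (i + 1) * d * (w (i + 1))⁻¹ ∈ Y ⟨i, hi⟩ := by
    intro i hi d hd
    have h1 : w (i + 1) * d * (w (i + 1))⁻¹ ∈ Cfsg.conjRight (((List.ofFn y).take (i + 1)).prod)
        (Cfsg.conjRight k⁻¹ (((S : Subgroup G) ⊓ (T : Subgroup G) : Subgroup G) : Set G)) := by
      rw [mem_conjRight_iff, mem_conjRight_iff, ← hu]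
      have e : k⁻¹ * (u (i + 1) * (w (i + 1) * d * (w (i + 1))⁻¹) * (u (i + 1))⁻¹) * k⁻¹⁻¹ = d := by
        rw [hw]
        group
      rw [e]
      exact hd
    exact hstep ⟨i, hi⟩ h1
  have hES : ∀ i, i ≤ n → ∀ d ∈ (S : Subgroup G) ⊓ (T : Subgroup G),
      w i * d * (w i)⁻¹ ∈ (S : Subgroup G) := by
    intro i hi d hd
    rcases Nat.eq_zero_or_pos i with h0 | hpos
    · rw [h0, hw0]
      have h1 : d ∈ (T : Subgroup G) := hd.2
      rw [hT, mem_scr_iff] at h1
      exact h1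
    · obtain ⟨i', rfl⟩ : ∃ i', i = i' + 1 := ⟨i - 1, by omega⟩
      exact (hE i' (by omega) d hd).1
  refine ⟨n, fun j => (w (n - j.val))⁻¹ • S,
    fun j => Cfsg.subgroupConjRight (w (n - j.val)) (Y ⟨n - 1 - j.val, by have := j.2; omega⟩),
    fun j => (w (n - j.val))⁻¹ * (y ⟨n - 1 - j.val, by have := j.2; omega⟩)⁻¹ * w (n - j.val),
    ?_, ?_, ?_⟩
  · apply Sylow.ext
    rw [sylow_inv_smul_coe]
    show Cfsg.subgroupConjRight (w (n - 0)) _ = _
    rw [Nat.sub_zero, hwn, scr_eq_map]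
    exact map_conj_eq_of_mem_normalizer _ (Subgroup.inv_mem _ hy₀)
  · apply Sylow.ext
    rw [sylow_inv_smul_coe]
    show Cfsg.subgroupConjRight (w (n - n)) _ = _
    rw [Nat.sub_self, hw0, hT]
  · intro j
    have hjn := j.2
    obtain ⟨i, hi⟩ : ∃ i, i = n - 1 - j.val := ⟨_, rfl⟩
    have hin : i < n := by omega
    have e1 : n - j.val = i + 1 := by omega
    have e2 : n - (j.val + 1) = i := by omega
    have hYi : Y ⟨n - 1 - j.val, by omega⟩ = Y ⟨i, hin⟩ := by
      congr 1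
      apply Fin.ext
      exact hi.symm
    have hyi : y ⟨n - 1 - j.val, by omega⟩ = y ⟨i, hin⟩ := by
      congr 1
      apply Fin.ext
      exact hi.symm
    have hcs : (((w (n - j.succ.val))⁻¹ • S : Sylow p G) : Subgroup G) =
        Cfsg.subgroupConjRight (w i) (S : Subgroup G) := by
      rw [sylow_inv_smul_coe]
      show Cfsg.subgroupConjRight (w (n - (j.val + 1))) _ = _
      rw [e2]
    have hcc : (((w (n - j.castSucc.val))⁻¹ • S : Sylow p G) : Subgroup G) =
        Cfsg.subgroupConjRight (w (i + 1)) (S : Subgroup G) := by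
      rw [sylow_inv_smul_coe]
      show Cfsg.subgroupConjRight (w (n - j.val)) _ = _
      rw [e1]
    have eX : Cfsg.subgroupConjRight (w i) (Y ⟨i, hin⟩) =
        Cfsg.subgroupConjRight (w (i + 1)) (Y ⟨i, hin⟩) := by
      rw [hws i hin, scr_mul, scr_of_mem (hY ⟨i, hin⟩).2]
    show Cfsg.subgroupConjRight (w (n - j.val)) (Y ⟨n - 1 - j.val, _⟩) ∈ _ ∧
      Cfsg.subgroupConjRight (w (n - j.val)) (Y ⟨n - 1 - j.val, _⟩) ∈ _ ∧
      (w (n - j.val))⁻¹ * (y ⟨n - 1 - j.val, _⟩)⁻¹ * w (n - j.val) ∈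
        Cfsg.subgroupConjRight (w (n - j.val)) (Y ⟨n - 1 - j.val, _⟩) ∧
      Cfsg.subgroupConjRight ((w (n - j.val))⁻¹ * (y ⟨n - 1 - j.val, _⟩)⁻¹ * w (n - j.val))
        (((w (n - j.succ.val))⁻¹ • S : Sylow p G) : Subgroup G) =
        (((w (n - j.castSucc.val))⁻¹ • S : Sylow p G) : Subgroup G) ∧
      (S : Subgroup G) ⊓ (T : Subgroup G) ≤
        (((w (n - j.succ.val))⁻¹ • S : Sylow p G) : Subgroup G) ⊓
          Cfsg.subgroupConjRight (w (n - j.val)) (Y ⟨n - 1 - j.val, _⟩)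
    rw [hcs, hcc, hYi, hyi, e1]
    refine ⟨?_, ?_, ?_, ?_, ?_⟩
    · exact sylowMembers_scr h𝓕 (hY ⟨i, hin⟩).1 (w (i + 1))
    · have h1 := sylowMembers_scr h𝓕 (hY ⟨i, hin⟩).1 (w i)
      rwa [eX] at h1
    · rw [mem_scr_iff]
      have e : w (i + 1) * ((w (i + 1))⁻¹ * (y ⟨i, hin⟩)⁻¹ * w (i + 1)) * (w (i + 1))⁻¹ =
          (y ⟨i, hin⟩)⁻¹ := by group
      rw [e]
      exact Subgroup.inv_mem _ (hY ⟨i, hin⟩).2
    · rw [← scr_mul]
      have e : w i * ((w (i + 1))⁻¹ * (y ⟨i, hin⟩)⁻¹ * w (i + 1)) = w (i + 1) := by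
        rw [hws i hin]
        group
      rw [e]
    · intro d hd
      refine ⟨?_, ?_⟩
      · show d ∈ Cfsg.subgroupConjRight (w i) (S : Subgroup G)
        rw [mem_scr_iff]
        exact hES i (by omega) d hd
      · show d ∈ Cfsg.subgroupConjRight (w (i + 1)) (Y ⟨i, hin⟩)
        rw [mem_scr_iff]
        exact (hE i hin d hd).2

end Cfsg.Agent.Helper17
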