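import Mathlib
import Cfsg.Prelude.Def_SylowControl
import Cfsg.Prelude.Def_SylowChains
import Cfsg.Agent.Helper17.SylCtl
import Cfsg.Agent.Helper12.AlpInd

/-!
Tools for control of Sylow intersections by functor families: linking steps between Sylow
subgroups, maximal `p`-local overgroups, Sylow subgroups adapted to a subgroup.
-/

set_option autoImplicit false

namespace Cfsg.Agent.Helper17

open Cfsg.Agent.Helper12

variable {G : Type*} [Group G]

/-- One linking step between Sylow subgroups through a member of the family; everything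
contains `D`. -/
def frStep (p : ℕ) (𝒦 : Set (Subgroup G)) (D : Subgroup G) (S T : Sylow p G) : Prop :=
  ∃ (X : Subgroup G) (x : G), X ∈ Cfsg.sylowMembers p 𝒦 (S : Subgroup G) ∧
    X ∈ Cfsg.sylowMembers p 𝒦 (T : Subgroup G) ∧ x ∈ X ∧
    Cfsg.subgroupConjRight x (T : Subgroup G) = (S : Subgroup G) ∧
    D ≤ (S : Subgroup G) ∧ D ≤ (T : Subgroup G) ∧ D ≤ X

/-- Chains of linking steps. -/
def frConn (p : ℕ) (𝒦 : Set (Subgroup G)) (D : Subgroup G) : Sylow p G → Sylow p G → Prop :=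
  Relation.ReflTransGen (frStep p 𝒦 D)

theorem frConn_refl {p : ℕ} {𝒦 : Set (Subgroup G)} {D : Subgroup G} (S : Sylow p G) :
    frConn p 𝒦 D S S := Relation.ReflTransGen.refl

theorem frConn_trans {p : ℕ} {𝒦 : Set (Subgroup G)} {D : Subgroup G} {S T U : Sylow p G}
    (h1 : frConn p 𝒦 D S T) (h2 : frConn p 𝒦 D T U) : frConn p 𝒦 D S U :=
  Relation.ReflTransGen.trans h1 h2

theorem frConn_single {p : ℕ} {𝒦 : Set (Subgroup G)} {D : Subgroup G} {S T : Sylow p G}
    (h : frStep p 𝒦 D S T) : frConn p 𝒦 D S T := Relation.ReflTransGen.single h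

theorem frConn_mono {p : ℕ} {𝒦 : Set (Subgroup G)} {D D' : Subgroup G} (hD : D' ≤ D)
    {S T : Sylow p G} (h : frConn p 𝒦 D S T) : frConn p 𝒦 D' S T := by
  unfold frConn at h ⊢
  have hle : frStep p 𝒦 D ≤ frStep p 𝒦 D' := by
    rintro A B ⟨X, x, h1, h2, h3, h4, h5, h6, h7⟩
    exact ⟨X, x, h1, h2, h3, h4, hD.trans h5, hD.trans h6, hD.trans h7⟩
  exact Relation.ReflTransGen.mono hle _ _ h

theorem frConn_chain {p : ℕ} {𝒦 : Set (Subgroup G)} {D : Subgroup G} {S T : Sylow p G}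
    (h : frConn p 𝒦 D S T) :
    ∃ (n : ℕ) (c : Fin (n + 1) → Sylow p G) (X : Fin n → Subgroup G) (x : Fin n → G),
      c 0 = S ∧ c (Fin.last n) = T ∧
      ∀ i : Fin n,
        X i ∈ Cfsg.sylowMembers p 𝒦 (c i.castSucc : Subgroup G) ∧
        X i ∈ Cfsg.sylowMembers p 𝒦 (c i.succ : Subgroup G) ∧
        x i ∈ X i ∧ Cfsg.subgroupConjRight (x i) (c i.succ : Subgroup G) = (c i.castSucc : Subgroup G) ∧
        D ≤ (c i.succ : Subgroup G) ⊓ X i := by
  induction h with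
  | refl => exact ⟨0, fun _ => S, Fin.elim0, Fin.elim0, rfl, rfl, fun i => i.elim0⟩
  | @tail T U _ hr ih =>
    obtain ⟨n, c, X, x, h0, hl, hc⟩ := ih
    obtain ⟨X', x', h1, h2, h3, h4, h5, h6, h7⟩ := hr
    refine ⟨n + 1, (Fin.snoc c U : Fin (n + 2) → Sylow p G),
      (Fin.snoc X X' : Fin (n + 1) → Subgroup G), (Fin.snoc x x' : Fin (n + 1) → G), ?_, ?_, ?_⟩
    · have e : (0 : Fin (n + 2)) = Fin.castSucc (0 : Fin (n + 1)) := rfl
      rw [e, Fin.snoc_castSucc]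
      exact h0
    · exact Fin.snoc_last _ _
    · intro i
      refine Fin.lastCases ?_ (fun j => ?_) i
      · rw [Fin.snoc_castSucc, Fin.succ_last, Fin.snoc_last, Fin.snoc_last, Fin.snoc_last, hl]
        exact ⟨h1, h2, h3, h4, le_inf h6 h7⟩
      · rw [Fin.snoc_castSucc, ← Fin.castSucc_succ, Fin.snoc_castSucc, Fin.snoc_castSucc,
          Fin.snoc_castSucc]
        exact hc j

/-- Membership in `sylowMembers` via `relIndex`. -/
theorem mem_sylowMembers_iff [Finite G] {p : ℕ} [Fact p.Prime] {𝒦 : Set (Subgroup G)}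
    {S X : Subgroup G} (hS : IsPGroup p S) :
    X ∈ Cfsg.sylowMembers p 𝒦 S ↔ X ∈ 𝒦 ∧ ¬ p ∣ (S ⊓ X).relIndex X := by
  constructor
  · rintro ⟨hX, P, hP⟩
    refine ⟨hX, ?_⟩
    have e : (S ⊓ X).subgroupOf X = (P : Subgroup ↥X) := by
      rw [← hP]
      ext y
      rw [Subgroup.mem_subgroupOf]
      constructor
      · rintro ⟨z, hz, hzy⟩
        have : z = y := Subtype.ext hzy
        rw [← this]
        exact hz
      · intro hy
        exact ⟨y, hy, rfl⟩
    show ¬ p ∣ ((S ⊓ X).subgroupOf X).index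
    rw [e]
    exact P.not_dvd_index
  · rintro ⟨hX, hidx⟩
    have hp : IsPGroup p ↥((S ⊓ X).subgroupOf X) := (hS.to_le inf_le_left).comap_subtype
    have hidx' : ¬ p ∣ ((S ⊓ X).subgroupOf X).index := hidx
    refine ⟨hX, hp.toSylow hidx', ?_⟩
    rw [IsPGroup.toSylow_coe, Subgroup.subgroupOf_map_subtype, inf_assoc, inf_idem]

/-- Every `p`-local subgroup lies in a maximal `p`-local subgroup. -/
theorem exists_maxPLocal_ge [Finite G] {p : ℕ} {N : Subgroup G} (hN : Cfsg.IsPLocal p N) :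
    ∃ M : Subgroup G, Cfsg.IsMaximalPLocal p M ∧ N ≤ M := by
  have hfin : ({N' : Subgroup G | Cfsg.IsPLocal p N' ∧ N ≤ N'} : Set (Subgroup G)).Finite :=
    Set.toFinite _
  obtain ⟨M, hM⟩ := hfin.exists_maximal ⟨N, hN, le_rfl⟩
  refine ⟨M, ⟨hM.1.1, ?_⟩, hM.1.2⟩
  intro N'' hN'' hle
  exact le_antisymm (hM.2 ⟨hN'', hM.1.2.trans hle⟩ hle) hle

/-- A `p`-subgroup of `M` lies in a Sylow subgroup `U` of `G` with `U ∩ M` Sylow in `M`. -/
theorem exists_sylow_ge_inf [Finite G] {p : ℕ} [Fact p.Prime] (M Q : Subgroup G)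
    (hQ : IsPGroup p Q) (hQM : Q ≤ M) :
    ∃ U : Sylow p G, Q ≤ (U : Subgroup G) ∧ ¬ p ∣ ((U : Subgroup G) ⊓ M).relIndex M := by
  obtain ⟨P', hP'⟩ := (hQ.comap_subtype (K := M)).exists_le_sylow
  have hRp : IsPGroup p ↥((P' : Subgroup ↥M).map M.subtype) := P'.isPGroup'.map _
  obtain ⟨U, hU⟩ := hRp.exists_le_sylow
  refine ⟨U, ?_, ?_⟩
  · intro q hq
    apply hU
    exact ⟨⟨q, hQM hq⟩, hP' (Subgroup.mem_subgroupOf.mpr hq), rfl⟩
  · have hp : IsPGroup p ↥(((U : Subgroup G) ⊓ M).subgroupOf M) :=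
      (U.isPGroup'.to_le inf_le_left).comap_subtype
    have hle : (P' : Subgroup ↥M) ≤ ((U : Subgroup G) ⊓ M).subgroupOf M := by
      intro y hy
      rw [Subgroup.mem_subgroupOf]
      exact ⟨hU ⟨y, hy, rfl⟩, y.2⟩
    have e := P'.is_maximal' hp hle
    show ¬ p ∣ (((U : Subgroup G) ⊓ M).subgroupOf M).index
    rw [e]
    exact P'.not_dvd_index

/-- Sylow-type subgroups of `M` have the same order. -/
theorem card_eq_of_relIndex [Finite G] {p : ℕ} [Fact p.Prime] {M A B : Subgroup G}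
    (hA : IsPGroup p A) (hAM : A ≤ M) (hAi : ¬ p ∣ A.relIndex M)
    (hB : IsPGroup p B) (hBM : B ≤ M) (hBi : ¬ p ∣ B.relIndex M) :
    Nat.card A = Nat.card B := by
  obtain ⟨m, -, hm⟩ := exists_conj_eq_of_relIndex hA hAM hAi hB hBM hBi
  rw [← hm, card_cjs]

end Cfsg.Agent.Helper17
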