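import Cfsg.Agent.Helper17.FunReg1

/-!
Functor normalizers together with the singular maximal `p`-locals control Sylow intersections:
the singular step, the step through a functor normalizer, and translation lemmas between a
subgroup `M` as a group and as a subgroup.
-/

set_option autoImplicit false

namespace Cfsg.Agent.Helper17

variable {G : Type*} [Group G]

/-- The family: functor normalizers of Sylow subgroups and singular maximal `p`-locals. -/
def frFam (p : ℕ) (f : Subgroup G → Set (Subgroup G)) : Set (Subgroup G) :=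
  Cfsg.functorFamily p f ⊤ ∪ {M | Cfsg.IsMaximalPLocal p M ∧ ¬ Cfsg.IsFunctorRegular p f M}

section

variable [Finite G] {p : ℕ} [Fact p.Prime]

theorem fr_singular (f : Subgroup G → Set (Subgroup G)) {D M : Subgroup G}
    (hMmax : Cfsg.IsMaximalPLocal p M) (hsing : ¬ Cfsg.IsFunctorRegular p f M)
    (U₁ U₂ : Sylow p G)
    (h1 : ¬ p ∣ ((U₁ : Subgroup G) ⊓ M).relIndex M)
    (h2 : ¬ p ∣ ((U₂ : Subgroup G) ⊓ M).relIndex M)
    (hD1 : D ≤ (U₁ : Subgroup G)) (hD2 : D ≤ (U₂ : Subgroup G)) (hDM : D ≤ M)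
    (hcard : Nat.card D < Nat.card ↥((U₁ : Subgroup G) ⊓ M))
    (ihD : ∀ S' T' : Sylow p G, D ≤ (S' : Subgroup G) → D ≤ (T' : Subgroup G) →
      Nat.card D < Nat.card ↥((S' : Subgroup G) ⊓ (T' : Subgroup G)) →
      frConn p (frFam p f) D S' T') :
    frConn p (frFam p f) D U₁ U₂ := by
  have hp1 : IsPGroup p ↥((U₁ : Subgroup G) ⊓ M) := U₁.isPGroup'.to_le inf_le_left
  have hp2 : IsPGroup p ↥((U₂ : Subgroup G) ⊓ M) := U₂.isPGroup'.to_le inf_le_left
  obtain ⟨m, hm, hcj⟩ := Helper12.exists_conj_eq_of_relIndex hp2 inf_le_right h2 hp1 inf_le_right h1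
  have hMm : Helper12.cjs m M = M :=
    Helper12.cjs_eq_of_mem_normalizer (Subgroup.le_normalizer hm)
  have hU3 : (((m⁻¹ • U₂ : Sylow p G) : Subgroup G)) ⊓ M = (U₁ : Subgroup G) ⊓ M := by
    rw [sylow_inv_smul_coe]
    show Helper12.cjs m (U₂ : Subgroup G) ⊓ M = _
    have e : Helper12.cjs m (U₂ : Subgroup G) ⊓ M =
        Helper12.cjs m (U₂ : Subgroup G) ⊓ Helper12.cjs m M := by rw [hMm]
    rw [e, ← Helper12.cjs_inf, hcj]
  have hD3 : D ≤ ((m⁻¹ • U₂ : Sylow p G) : Subgroup G) := by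
    have h3 : D ≤ (U₁ : Subgroup G) ⊓ M := le_inf hD1 hDM
    rw [← hU3] at h3
    exact h3.trans inf_le_left
  have hc1 : frConn p (frFam p f) D U₁ (m⁻¹ • U₂) := by
    apply ihD _ _ hD1 hD3
    refine lt_of_lt_of_le hcard (Subgroup.card_le_of_le ?_)
    refine le_inf inf_le_left ?_
    have h3 : (U₁ : Subgroup G) ⊓ M ≤ (((m⁻¹ • U₂ : Sylow p G) : Subgroup G)) ⊓ M := by
      rw [hU3]
    exact h3.trans inf_le_left
  have hc2 : frStep p (frFam p f) D (m⁻¹ • U₂) U₂ := by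
    refine ⟨M, m, ?_, ?_, hm, (sylow_inv_smul_coe U₂ m).symm, hD3, hD2, hDM⟩
    · rw [mem_sylowMembers_iff (Sylow.isPGroup' _)]
      refine ⟨Or.inr ⟨hMmax, hsing⟩, ?_⟩
      rw [hU3]
      exact h1
    · rw [mem_sylowMembers_iff (Sylow.isPGroup' _)]
      exact ⟨Or.inr ⟨hMmax, hsing⟩, h2⟩
  exact frConn_trans hc1 (frConn_single hc2)

theorem fr_mem_fam (f : Subgroup G → Set (Subgroup G)) (S : Sylow p G) {F : Subgroup G}
    (hF : F ∈ f (S : Subgroup G)) :
    (⊤ : Subgroup G) ⊓ Subgroup.normalizer (F : Set G) ∈ frFam p f := by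
  left
  refine ⟨S.subtype le_top, F, ?_, rfl⟩
  have e : ((S.subtype le_top : Sylow p ↥(⊤ : Subgroup G)) : Subgroup ↥(⊤ : Subgroup G)).map
      (⊤ : Subgroup G).subtype = (S : Subgroup G) := by
    rw [Sylow.coe_subtype, Subgroup.subgroupOf_map_subtype, inf_top_eq]
  rw [e]
  exact hF

theorem fr_step_normalizer (f : Subgroup G → Set (Subgroup G)) {D : Subgroup G} (U : Sylow p G)
    {F : Subgroup G} (hF : F ∈ f (U : Subgroup G))
    (hUF : (U : Subgroup G) ≤ Subgroup.normalizer (F : Set G)) {x : G}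
    (hx : x ∈ Subgroup.normalizer (F : Set G))
    (hD1 : D ≤ (U : Subgroup G)) (hD2 : D ≤ ((x • U : Sylow p G) : Subgroup G)) :
    frStep p (frFam p f) D U (x • U) := by
  have hmem := fr_mem_fam f U hF
  have hX : (⊤ : Subgroup G) ⊓ Subgroup.normalizer (F : Set G) =
      Subgroup.normalizer (F : Set G) := top_inf_eq _
  have hle : ((x • U : Sylow p G) : Subgroup G) ≤ Subgroup.normalizer (F : Set G) := by
    rw [sylow_smul_coe]
    intro y hy
    rw [mem_map_conj] at hy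
    have h1 := Subgroup.mul_mem _ (Subgroup.mul_mem _ hx (hUF hy)) (Subgroup.inv_mem _ hx)
    have e : x * (x⁻¹ * y * x) * x⁻¹ = y := by group
    rwa [e] at h1
  refine ⟨⊤ ⊓ Subgroup.normalizer (F : Set G), x, ?_, ?_, ?_, ?_, hD1, hD2, ?_⟩
  · rw [mem_sylowMembers_iff (Sylow.isPGroup' _)]
    refine ⟨hmem, ?_⟩
    rw [hX, inf_of_le_left hUF]
    exact Helper12.sylow_not_dvd_relIndex U hUF
  · rw [mem_sylowMembers_iff (Sylow.isPGroup' _)]
    refine ⟨hmem, ?_⟩
    rw [hX, inf_of_le_left hle]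
    exact Helper12.sylow_not_dvd_relIndex _ hle
  · rw [hX]
    exact hx
  · rw [sylow_smul_coe, scr_eq_map, map_conj_map_conj, inv_mul_cancel, map_conj_one]
  · rw [hX]
    exact hD1.trans hUF

/-- A Sylow subgroup of `M` (as a group) from a Sylow subgroup `U` of `G` with `U ∩ M` Sylow. -/
theorem sylow_of_relIndex (U : Sylow p G) (M : Subgroup G)
    (h : ¬ p ∣ ((U : Subgroup G) ⊓ M).relIndex M) :
    ∃ Q : Sylow p ↥M, (Q : Subgroup ↥M).map M.subtype = (U : Subgroup G) ⊓ M := by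
  have hp : IsPGroup p ↥(((U : Subgroup G) ⊓ M).subgroupOf M) :=
    (U.isPGroup'.to_le inf_le_left).comap_subtype
  have h' : ¬ p ∣ (((U : Subgroup G) ⊓ M).subgroupOf M).index := h
  refine ⟨hp.toSylow h', ?_⟩
  rw [IsPGroup.toSylow_coe, Subgroup.subgroupOf_map_subtype, inf_assoc, inf_idem]

theorem sylow_map_relIndex {M : Subgroup G} (Q : Sylow p ↥M) :
    IsPGroup p ↥((Q : Subgroup ↥M).map M.subtype) ∧ (Q : Subgroup ↥M).map M.subtype ≤ M ∧
      ¬ p ∣ ((Q : Subgroup ↥M).map M.subtype).relIndex M := by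
  refine ⟨Q.isPGroup'.map _, ?_, ?_⟩
  · rintro _ ⟨y, _, rfl⟩
    exact y.2
  · have e : ((Q : Subgroup ↥M).map M.subtype).subgroupOf M = (Q : Subgroup ↥M) :=
      Subgroup.comap_map_eq_self_of_injective (Subgroup.subtype_injective M) _
    show ¬ p ∣ (((Q : Subgroup ↥M).map M.subtype).subgroupOf M).index
    rw [e]
    exact Q.not_dvd_index

omit [Finite G] [Fact p.Prime] in
theorem scr_map_subtype {M : Subgroup G} (x : ↥M) (Q : Subgroup ↥M) :
    (Cfsg.subgroupConjRight x Q).map M.subtype =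
      Cfsg.subgroupConjRight (x : G) (Q.map M.subtype) := by
  ext y
  rw [mem_scr_iff]
  constructor
  · rintro ⟨z, hz, rfl⟩
    have hz' : z ∈ Cfsg.subgroupConjRight x Q := hz
    rw [mem_scr_iff] at hz'
    exact ⟨x * z * x⁻¹, hz', rfl⟩
  · rintro ⟨z, hz, hzy⟩
    have hyM : y ∈ M := by
      have h1 : (x : G)⁻¹ * (z : G) * (x : G) ∈ M :=
        M.mul_mem (M.mul_mem (M.inv_mem x.2) z.2) x.2
      have e : (x : G)⁻¹ * (z : G) * (x : G) = y := by
        have h2 : (z : G) = (x : G) * y * (x : G)⁻¹ := hzy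
        rw [h2]
        group
      rwa [e] at h1
    refine ⟨⟨y, hyM⟩, ?_, rfl⟩
    show (⟨y, hyM⟩ : ↥M) ∈ Cfsg.subgroupConjRight x Q
    rw [mem_scr_iff]
    have e : x * (⟨y, hyM⟩ : ↥M) * x⁻¹ = z := by
      apply Subtype.ext
      exact hzy.symm
    rw [e]
    exact hz

end

end Cfsg.Agent.Helper17
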