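import Cfsg.Agent.Helper17.FunReg2

/-!
Functor normalizers together with the singular maximal `p`-locals control Sylow intersections:
the regular case and the double induction.
-/

set_option autoImplicit false

namespace Cfsg.Agent.Helper17

variable {G : Type*} [Group G] [Finite G] {p : ℕ} [Fact p.Prime]

omit [Finite G] [Fact p.Prime] in
theorem map_conj_map_subtype {M : Subgroup G} (m : ↥M) (Q : Subgroup ↥M) :
    (Q.map (MulAut.conj m).toMonoidHom).map M.subtype =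
      (Q.map M.subtype).map (MulAut.conj (m : G)).toMonoidHom := by
  have e : M.subtype.comp (MulAut.conj m).toMonoidHom =
      (MulAut.conj (m : G)).toMonoidHom.comp M.subtype := by
    ext y
    simp [MulAut.conj_apply]
  rw [Subgroup.map_map, Subgroup.map_map, e]

theorem fr_regular_aux (f : Subgroup G → Set (Subgroup G)) (hf : Cfsg.IsNormalizerFunctor p f)
    (hf1 : ∀ P : Subgroup G, IsPGroup p ↥P → P ≠ ⊥ → ∀ F ∈ f P, F ≠ ⊥)
    {D M : Subgroup G} (hD0 : D ≠ ⊥) (hDM : D ≤ M) (k : ℕ)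
    (ihD : ∀ S' T' : Sylow p G, D ≤ (S' : Subgroup G) → D ≤ (T' : Subgroup G) →
      Nat.card D < Nat.card ↥((S' : Subgroup G) ⊓ (T' : Subgroup G)) →
      frConn p (frFam p f) D S' T')
    (ihM : ∀ (M' : Subgroup G) (W₁ W₂ : Sylow p G), Cfsg.IsMaximalPLocal p M' →
      ¬ p ∣ ((W₁ : Subgroup G) ⊓ M').relIndex M' → ¬ p ∣ ((W₂ : Subgroup G) ⊓ M').relIndex M' →
      D ≤ (W₁ : Subgroup G) → D ≤ (W₂ : Subgroup G) → D ≤ M' →
      k < Nat.card ↥((W₁ : Subgroup G) ⊓ M') → frConn p (frFam p f) D W₁ W₂)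
    (Ca Cb : Sylow p ↥M) (hk : Nat.card ↥((Ca : Subgroup ↥M).map M.subtype) = k)
    (Xs : Subgroup ↥M) (xs : ↥M)
    (hX1 : Xs ∈ Cfsg.sylowMembers p
      ((fun X : Subgroup G => X.subgroupOf M) '' Cfsg.functorFamily p f M) (Ca : Subgroup ↥M))
    (hxX : xs ∈ Xs) (hconj : Cfsg.subgroupConjRight xs (Cb : Subgroup ↥M) = (Ca : Subgroup ↥M))
    (hDb : D ≤ (Cb : Subgroup ↥M).map M.subtype)
    (U : Sylow p G) (hUM : (U : Subgroup G) ⊓ M = (Ca : Subgroup ↥M).map M.subtype)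
    (hDU : D ≤ (U : Subgroup G)) :
    ∃ U' : Sylow p G, (U' : Subgroup G) ⊓ M = (Cb : Subgroup ↥M).map M.subtype ∧
      D ≤ (U' : Subgroup G) ∧ frConn p (frFam p f) D U U' := by
  have hidxX : ¬ p ∣ ((Ca : Subgroup ↥M) ⊓ Xs).relIndex Xs :=
    ((mem_sylowMembers_iff (Sylow.isPGroup' Ca)).mp hX1).2
  obtain ⟨⟨X₀, ⟨P', F, hF, hX₀⟩, hXs⟩, -⟩ := id hX1
  have hXs' : Xs = (M ⊓ Subgroup.normalizer (F : Set G)).subgroupOf M := by
    rw [← hXs, hX₀]
  subst hXs'
  obtain ⟨R, hR⟩ : ∃ R : Subgroup G, R = (Ca : Subgroup ↥M).map M.subtype := ⟨_, rfl⟩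
  obtain ⟨P'', hP''⟩ : ∃ P'' : Subgroup G, P'' = (P' : Subgroup ↥M).map M.subtype := ⟨_, rfl⟩
  rw [← hP''] at hF
  have hP''p : IsPGroup p ↥P'' := by rw [hP'']; exact P'.isPGroup'.map _
  have hRp : IsPGroup p ↥R := by rw [hR]; exact Ca.isPGroup'.map _
  have hx : (xs : G) ∈ Subgroup.normalizer (F : Set G) := (Subgroup.mem_subgroupOf.mp hxX).2
  have hxM : (xs : G) ∈ M := xs.2
  have hP'X : (P' : Subgroup ↥M) ≤ (M ⊓ Subgroup.normalizer (F : Set G)).subgroupOf M := by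
    intro y hy
    rw [Subgroup.mem_subgroupOf]
    refine ⟨y.2, ?_⟩
    have h1 : (y : G) ∈ P'' := by rw [hP'']; exact ⟨y, hy, rfl⟩
    exact ((hf P'' hP''p).1 F hF).2 (Subgroup.le_normalizer h1)
  obtain ⟨m, hm, hmq⟩ := Helper12.exists_conj_le_of_relIndex
    (Ca.isPGroup'.to_le inf_le_left) hidxX P'.isPGroup' hP'X
  have hmF : (m : G) ∈ Subgroup.normalizer (F : Set G) := (Subgroup.mem_subgroupOf.mp hm).2
  have hCa : (Ca : Subgroup ↥M) = ((m • P' : Sylow p ↥M) : Subgroup ↥M) := by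
    apply (m • P' : Sylow p ↥M).is_maximal' Ca.isPGroup'
    rw [sylow_smul_coe]
    intro y hy
    rw [mem_map_conj] at hy
    have h1 := (hmq _ hy).1
    have e : m * (m⁻¹ * y * m) * m⁻¹ = y := by group
    rwa [e] at h1
  have hRP : R = P''.map (MulAut.conj (m : G)).toMonoidHom := by
    rw [hR, hCa, sylow_smul_coe, hP'', map_conj_map_subtype]
  have hFR : F ∈ f R := by
    rw [hRP, (hf P'' hP''p).2 (m : G)]
    exact ⟨F, hF, map_conj_eq_of_mem_normalizer F hmF⟩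
  have hFle := ((hf R hRp).1 F hFR).1
  have hNR := ((hf R hRp).1 F hFR).2
  have hRUM : R = (U : Subgroup G) ⊓ M := hR.trans hUM.symm
  have hDR : D ≤ R := by rw [hRUM]; exact le_inf hDU hDM
  have hR0 : R ≠ ⊥ := by
    intro h
    apply hD0
    rw [h] at hDR
    exact le_bot_iff.mp hDR
  have hF0 : F ≠ ⊥ := hf1 R hRp hR0 F hFR
  have hRU : R ≤ (U : Subgroup G) := by rw [hRUM]; exact inf_le_left
  have hRM : R ≤ M := by rw [hRUM]; exact inf_le_right
  have hCbR : (Cb : Subgroup ↥M).map M.subtype = R.map (MulAut.conj (xs : G)).toMonoidHom := by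
    have h1 := scr_map_subtype xs (Cb : Subgroup ↥M)
    rw [hconj, ← hR] at h1
    rw [h1, scr_eq_map, map_conj_map_conj, mul_inv_cancel, map_conj_one]
  have hMx : M.map (MulAut.conj (xs : G)).toMonoidHom = M :=
    map_conj_eq_of_mem_normalizer M (Subgroup.le_normalizer hxM)
  have hU'M : (((xs : G) • U : Sylow p G) : Subgroup G) ⊓ M =
      (Cb : Subgroup ↥M).map M.subtype := by
    rw [sylow_smul_coe, hCbR, hRUM, Subgroup.map_inf_eq _ _ _ (MulAut.conj (xs : G)).injective,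
      hMx]
  have hDU' : D ≤ (((xs : G) • U : Sylow p G) : Subgroup G) := by
    have h3 := hDb
    rw [← hU'M] at h3
    exact h3.trans inf_le_left
  refine ⟨(xs : G) • U, hU'M, hDU', ?_⟩
  by_cases hle : (U : Subgroup G) ≤ M
  · have hRU' : R = (U : Subgroup G) := by rw [hRUM, inf_of_le_left hle]
    rw [hRU'] at hFR hNR
    exact frConn_single
      (fr_step_normalizer f U hFR (Subgroup.le_normalizer.trans hNR) hx hDU hDU')
  · have hne : R ≠ (U : Subgroup G) := by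
      intro h
      apply hle
      rw [← h]
      exact hRM
    have hlt := Helper12.card_lt_card_inf_normalizer U.isPGroup' hRU hne
    obtain ⟨N₁, hN₁⟩ : ∃ N₁ : Subgroup G,
        N₁ = (U : Subgroup G) ⊓ Subgroup.normalizer (R : Set G) := ⟨_, rfl⟩
    rw [← hN₁] at hlt
    have hN₁U : N₁ ≤ (U : Subgroup G) := by rw [hN₁]; exact inf_le_left
    have hN₁F : N₁ ≤ Subgroup.normalizer (F : Set G) := by
      rw [hN₁]; exact inf_le_right.trans hNR
    have hRN₁ : R ≤ N₁ := by rw [hN₁]; exact le_inf hRU Subgroup.le_normalizer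
    have hloc : Cfsg.IsPLocal p (Subgroup.normalizer (F : Set G)) :=
      ⟨F, hRp.to_le hFle, hF0, rfl⟩
    obtain ⟨M', hM'max, hM'⟩ := exists_maxPLocal_ge hloc
    obtain ⟨W₁, hW₁le, hW₁idx⟩ := exists_sylow_ge_inf M' ((U : Subgroup G) ⊓ M')
      (U.isPGroup'.to_le inf_le_left) inf_le_right
    have hxM' : (xs : G) ∈ M' := hM' hx
    have hN₁M' : N₁ ≤ (U : Subgroup G) ⊓ M' := le_inf hN₁U (hN₁F.trans hM')
    have hN₁W₁ : N₁ ≤ (W₁ : Subgroup G) := hN₁M'.trans hW₁le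
    have hDW₁ : D ≤ (W₁ : Subgroup G) := hDR.trans (hRN₁.trans hN₁W₁)
    have hcardD : Nat.card D < Nat.card N₁ := lt_of_le_of_lt (Subgroup.card_le_of_le hDR) hlt
    have c1 : frConn p (frFam p f) D U W₁ := by
      apply ihD _ _ hDU hDW₁
      exact lt_of_lt_of_le hcardD (Subgroup.card_le_of_le (le_inf hN₁U hN₁W₁))
    have hM'x : M'.map (MulAut.conj (xs : G)).toMonoidHom = M' :=
      map_conj_eq_of_mem_normalizer M' (Subgroup.le_normalizer hxM')
    have hW₂idx : ¬ p ∣ ((((xs : G) • W₁ : Sylow p G) : Subgroup G) ⊓ M').relIndex M' := by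
      have e : (((xs : G) • W₁ : Sylow p G) : Subgroup G) ⊓ M' =
          ((W₁ : Subgroup G) ⊓ M').map (MulAut.conj (xs : G)).toMonoidHom := by
        rw [sylow_smul_coe, Subgroup.map_inf_eq _ _ _ (MulAut.conj (xs : G)).injective, hM'x]
      rw [e]
      have h3 := Subgroup.relIndex_map_map_of_injective
        (f := (MulAut.conj (xs : G)).toMonoidHom) ((W₁ : Subgroup G) ⊓ M') M'
        (MulAut.conj (xs : G)).injective
      rw [hM'x] at h3
      rw [h3]
      exact hW₁idx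
    have hDW₂ : D ≤ (((xs : G) • W₁ : Sylow p G) : Subgroup G) := by
      rw [sylow_smul_coe]
      refine hDb.trans ?_
      rw [hCbR]
      exact map_conj_le_of_le _ _ _ (hRN₁.trans hN₁W₁)
    have c2 : frConn p (frFam p f) D W₁ ((xs : G) • W₁) := by
      apply ihM M' W₁ _ hM'max hW₁idx hW₂idx hDW₁ hDW₂
        (hDR.trans (hRN₁.trans (hN₁M'.trans inf_le_right)))
      rw [← hk, ← hR]
      exact lt_of_lt_of_le hlt
        (Subgroup.card_le_of_le (le_inf hN₁W₁ (hN₁M'.trans inf_le_right)))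
    have c3 : frConn p (frFam p f) D ((xs : G) • W₁) ((xs : G) • U) := by
      apply ihD _ _ hDW₂ hDU'
      have e : (((xs : G) • W₁ : Sylow p G) : Subgroup G) ⊓
          (((xs : G) • U : Sylow p G) : Subgroup G) =
          ((W₁ : Subgroup G) ⊓ (U : Subgroup G)).map (MulAut.conj (xs : G)).toMonoidHom := by
        rw [sylow_smul_coe, sylow_smul_coe,
          Subgroup.map_inf_eq _ _ _ (MulAut.conj (xs : G)).injective]
      rw [e, Subgroup.card_map_of_injective (MulAut.conj (xs : G)).injective]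
      exact lt_of_lt_of_le hcardD (Subgroup.card_le_of_le (le_inf hN₁W₁ hN₁U))
    exact frConn_trans c1 (frConn_trans c2 c3)

theorem fr_regular (f : Subgroup G → Set (Subgroup G)) (hf : Cfsg.IsNormalizerFunctor p f)
    (hf1 : ∀ P : Subgroup G, IsPGroup p ↥P → P ≠ ⊥ → ∀ F ∈ f P, F ≠ ⊥)
    {D M : Subgroup G} (hreg : Cfsg.IsFunctorRegular p f M) (U₁ U₂ : Sylow p G)
    (h1 : ¬ p ∣ ((U₁ : Subgroup G) ⊓ M).relIndex M)
    (h2 : ¬ p ∣ ((U₂ : Subgroup G) ⊓ M).relIndex M)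
    (hD1 : D ≤ (U₁ : Subgroup G)) (hD2 : D ≤ (U₂ : Subgroup G)) (hDM : D ≤ M) (hD0 : D ≠ ⊥)
    (hcard : Nat.card D < Nat.card ↥((U₁ : Subgroup G) ⊓ M))
    (ihD : ∀ S' T' : Sylow p G, D ≤ (S' : Subgroup G) → D ≤ (T' : Subgroup G) →
      Nat.card D < Nat.card ↥((S' : Subgroup G) ⊓ (T' : Subgroup G)) →
      frConn p (frFam p f) D S' T')
    (ihM : ∀ (M' : Subgroup G) (W₁ W₂ : Sylow p G), Cfsg.IsMaximalPLocal p M' →
      ¬ p ∣ ((W₁ : Subgroup G) ⊓ M').relIndex M' → ¬ p ∣ ((W₂ : Subgroup G) ⊓ M').relIndex M' →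
      D ≤ (W₁ : Subgroup G) → D ≤ (W₂ : Subgroup G) → D ≤ M' →
      Nat.card ↥((U₁ : Subgroup G) ⊓ M) < Nat.card ↥((W₁ : Subgroup G) ⊓ M') →
      frConn p (frFam p f) D W₁ W₂) :
    frConn p (frFam p f) D U₁ U₂ := by
  have hp1 : IsPGroup p ↥((U₁ : Subgroup G) ⊓ M) := U₁.isPGroup'.to_le inf_le_left
  have hp2 : IsPGroup p ↥((U₂ : Subgroup G) ⊓ M) := U₂.isPGroup'.to_le inf_le_left
  have hcard12 : Nat.card ↥((U₁ : Subgroup G) ⊓ M) = Nat.card ↥((U₂ : Subgroup G) ⊓ M) :=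
    card_eq_of_relIndex hp1 inf_le_right h1 hp2 inf_le_right h2
  obtain ⟨Q₁, hQ₁⟩ := sylow_of_relIndex U₁ M h1
  obtain ⟨Q₂, hQ₂⟩ := sylow_of_relIndex U₂ M h2
  by_cases heq : Q₁ = Q₂
  · have e : (U₁ : Subgroup G) ⊓ M = (U₂ : Subgroup G) ⊓ M := by rw [← hQ₁, ← hQ₂, heq]
    apply ihD _ _ hD1 hD2
    refine lt_of_lt_of_le hcard (Subgroup.card_le_of_le ?_)
    refine le_inf inf_le_left ?_
    rw [e]
    exact inf_le_left
  · have hDQ : ∀ d (hd : d ∈ D), (⟨d, hDM hd⟩ : ↥M) ∈ (Q₁ : Subgroup ↥M) ⊓ (Q₂ : Subgroup ↥M) := by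
      intro d hd
      constructor
      · have h3 : d ∈ (Q₁ : Subgroup ↥M).map M.subtype := by
          rw [hQ₁]
          exact ⟨hD1 hd, hDM hd⟩
        obtain ⟨y, hy, hyd⟩ := h3
        have h4 : y = ⟨d, hDM hd⟩ := Subtype.ext hyd
        rw [← h4]
        exact hy
      · have h3 : d ∈ (Q₂ : Subgroup ↥M).map M.subtype := by
          rw [hQ₂]
          exact ⟨hD2 hd, hDM hd⟩
        obtain ⟨y, hy, hyd⟩ := h3
        have h4 : y = ⟨d, hDM hd⟩ := Subtype.ext hyd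
        rw [← h4]
        exact hy
    have hint : (Q₁ : Subgroup ↥M) ⊓ (Q₂ : Subgroup ↥M) ≠ ⊥ := by
      obtain ⟨⟨d, hd⟩, hd1⟩ := (Subgroup.ne_bot_iff_exists_ne_one).mp hD0
      intro hbot
      have hmem := hDQ d hd
      rw [hbot, Subgroup.mem_bot] at hmem
      apply hd1
      apply Subtype.ext
      have h5 : d = 1 := congrArg Subtype.val hmem
      exact h5
    obtain ⟨r, c, Xs, xs, h0, hlast, hstep⟩ := hreg Q₁ Q₂ heq hint
    have hall : ∀ j : Fin (r + 1), ∃ U : Sylow p G,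
        (U : Subgroup G) ⊓ M = ((c j : Sylow p ↥M) : Subgroup ↥M).map M.subtype ∧
        D ≤ (U : Subgroup G) ∧ frConn p (frFam p f) D U₁ U := by
      intro j
      induction j using Fin.induction with
      | zero => exact ⟨U₁, by rw [h0, hQ₁], hD1, frConn_refl _⟩
      | succ j ih =>
        obtain ⟨U, hUM, hDU, hconn⟩ := ih
        obtain ⟨hX1, -, hxX, hconj, hle⟩ := hstep j
        have hk : Nat.card ↥(((c j.castSucc : Sylow p ↥M) : Subgroup ↥M).map M.subtype) =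
            Nat.card ↥((U₁ : Subgroup G) ⊓ M) := by
          obtain ⟨ha, hb, hc'⟩ := sylow_map_relIndex (c j.castSucc)
          exact card_eq_of_relIndex ha hb hc' hp1 inf_le_right h1
        have hDb : D ≤ ((c j.succ : Sylow p ↥M) : Subgroup ↥M).map M.subtype := by
          intro d hd
          exact ⟨⟨d, hDM hd⟩, (hle (hDQ d hd)).1, rfl⟩
        obtain ⟨U', hU'M, hDU', hconn'⟩ := fr_regular_aux f hf hf1 hD0 hDM _ ihD ihM
          (c j.castSucc) (c j.succ) hk (Xs j) (xs j) hX1 hxX hconj hDb U hUM hDU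
        exact ⟨U', hU'M, hDU', frConn_trans hconn hconn'⟩
    obtain ⟨U, hUM, hDU, hconn⟩ := hall (Fin.last r)
    rw [hlast, hQ₂] at hUM
    refine frConn_trans hconn (ihD _ _ hDU hD2 ?_)
    rw [hcard12] at hcard
    refine lt_of_lt_of_le hcard (Subgroup.card_le_of_le ?_)
    refine le_inf ?_ inf_le_left
    rw [← hUM]
    exact inf_le_left

theorem fr_Q (f : Subgroup G → Set (Subgroup G)) (hf : Cfsg.IsNormalizerFunctor p f)
    (hf1 : ∀ P : Subgroup G, IsPGroup p ↥P → P ≠ ⊥ → ∀ F ∈ f P, F ≠ ⊥)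
    {D : Subgroup G} (hD0 : D ≠ ⊥)
    (ihD : ∀ S' T' : Sylow p G, D ≤ (S' : Subgroup G) → D ≤ (T' : Subgroup G) →
      Nat.card D < Nat.card ↥((S' : Subgroup G) ⊓ (T' : Subgroup G)) →
      frConn p (frFam p f) D S' T') :
    ∀ (n : ℕ) (M : Subgroup G) (U₁ U₂ : Sylow p G), Cfsg.IsMaximalPLocal p M →
      ¬ p ∣ ((U₁ : Subgroup G) ⊓ M).relIndex M → ¬ p ∣ ((U₂ : Subgroup G) ⊓ M).relIndex M →
      D ≤ (U₁ : Subgroup G) → D ≤ (U₂ : Subgroup G) → D ≤ M →
      Nat.card D < Nat.card ↥((U₁ : Subgroup G) ⊓ M) →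
      Nat.card G - Nat.card ↥((U₁ : Subgroup G) ⊓ M) = n → frConn p (frFam p f) D U₁ U₂ := by
  intro n
  induction n using Nat.strong_induction_on with
  | _ n IH =>
    intro M U₁ U₂ hMmax h1 h2 hD1 hD2 hDM hcard hn
    by_cases hreg : Cfsg.IsFunctorRegular p f M
    · apply fr_regular f hf hf1 hreg U₁ U₂ h1 h2 hD1 hD2 hDM hD0 hcard ihD
      intro M' W₁ W₂ hM'max hW₁ hW₂ hDW₁ hDW₂ hDM' hlt
      have hle : Nat.card ↥((W₁ : Subgroup G) ⊓ M') ≤ Nat.card G :=
        Subgroup.card_le_card_group _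
      exact IH (Nat.card G - Nat.card ↥((W₁ : Subgroup G) ⊓ M')) (by omega) M' W₁ W₂ hM'max
        hW₁ hW₂ hDW₁ hDW₂ hDM' (by omega) rfl
    · exact fr_singular f hMmax hreg U₁ U₂ h1 h2 hD1 hD2 hDM hcard ihD

theorem fr_main (f : Subgroup G → Set (Subgroup G)) (hf : Cfsg.IsNormalizerFunctor p f)
    (hf1 : ∀ P : Subgroup G, IsPGroup p ↥P → P ≠ ⊥ → ∀ F ∈ f P, F ≠ ⊥) :
    ∀ (n : ℕ) (S T : Sylow p G), (S : Subgroup G) ⊓ (T : Subgroup G) ≠ ⊥ →
      Nat.card G - Nat.card ↥((S : Subgroup G) ⊓ (T : Subgroup G)) = n →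
      frConn p (frFam p f) ((S : Subgroup G) ⊓ (T : Subgroup G)) S T := by
  intro n
  induction n using Nat.strong_induction_on with
  | _ n IH =>
    intro S T hne hn
    by_cases hST : S = T
    · rw [hST]
      exact frConn_refl _
    obtain ⟨D, hD⟩ : ∃ D : Subgroup G, D = (S : Subgroup G) ⊓ (T : Subgroup G) := ⟨_, rfl⟩
    rw [← hD] at hne hn ⊢
    have hDS : D ≤ (S : Subgroup G) := by rw [hD]; exact inf_le_left
    have hDT : D ≤ (T : Subgroup G) := by rw [hD]; exact inf_le_right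
    have hDp : IsPGroup p ↥D := S.isPGroup'.to_le hDS
    have ihD : ∀ S' T' : Sylow p G, D ≤ (S' : Subgroup G) → D ≤ (T' : Subgroup G) →
        Nat.card D < Nat.card ↥((S' : Subgroup G) ⊓ (T' : Subgroup G)) →
        frConn p (frFam p f) D S' T' := by
      intro S' T' h1 h2 hlt
      have hle : Nat.card ↥((S' : Subgroup G) ⊓ (T' : Subgroup G)) ≤ Nat.card G :=
        Subgroup.card_le_card_group _
      have hne' : (S' : Subgroup G) ⊓ (T' : Subgroup G) ≠ ⊥ := by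
        intro h
        rw [h, Subgroup.card_bot] at hlt
        have hpos : 0 < Nat.card D := Nat.card_pos
        omega
      exact frConn_mono (le_inf h1 h2) (IH _ (by omega) S' T' hne' rfl)
    have hDneS : D ≠ (S : Subgroup G) := by
      intro h
      apply hST
      have h3 : (S : Subgroup G) ≤ (T : Subgroup G) := h ▸ hDT
      exact Sylow.ext (S.is_maximal' T.isPGroup' h3).symm
    have hDneT : D ≠ (T : Subgroup G) := by
      intro h
      apply hST
      have h3 : (T : Subgroup G) ≤ (S : Subgroup G) := h ▸ hDS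
      exact Sylow.ext (T.is_maximal' S.isPGroup' h3)
    have hltS := Helper12.card_lt_card_inf_normalizer S.isPGroup' hDS hDneS
    have hltT := Helper12.card_lt_card_inf_normalizer T.isPGroup' hDT hDneT
    have hloc : Cfsg.IsPLocal p (Subgroup.normalizer (D : Set G)) := ⟨D, hDp, hne, rfl⟩
    obtain ⟨M, hMmax, hM⟩ := exists_maxPLocal_ge hloc
    obtain ⟨S₁, hS₁le, hS₁idx⟩ := exists_sylow_ge_inf M
      ((S : Subgroup G) ⊓ Subgroup.normalizer (D : Set G)) (S.isPGroup'.to_le inf_le_left)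
      (inf_le_right.trans hM)
    obtain ⟨T₁, hT₁le, hT₁idx⟩ := exists_sylow_ge_inf M
      ((T : Subgroup G) ⊓ Subgroup.normalizer (D : Set G)) (T.isPGroup'.to_le inf_le_left)
      (inf_le_right.trans hM)
    have hDNS : D ≤ (S : Subgroup G) ⊓ Subgroup.normalizer (D : Set G) :=
      le_inf hDS Subgroup.le_normalizer
    have hDNT : D ≤ (T : Subgroup G) ⊓ Subgroup.normalizer (D : Set G) :=
      le_inf hDT Subgroup.le_normalizer
    have hDS₁ : D ≤ (S₁ : Subgroup G) := hDNS.trans hS₁le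
    have hDT₁ : D ≤ (T₁ : Subgroup G) := hDNT.trans hT₁le
    have hDM : D ≤ M := Subgroup.le_normalizer.trans hM
    have c1 : frConn p (frFam p f) D S S₁ := by
      apply ihD _ _ hDS hDS₁
      exact lt_of_lt_of_le hltS (Subgroup.card_le_of_le (le_inf inf_le_left hS₁le))
    have c2 : frConn p (frFam p f) D S₁ T₁ := by
      apply fr_Q f hf hf1 hne ihD _ M S₁ T₁ hMmax hS₁idx hT₁idx hDS₁ hDT₁ hDM _ rfl
      exact lt_of_lt_of_le hltS
        (Subgroup.card_le_of_le (le_inf hS₁le (inf_le_right.trans hM)))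
    have c3 : frConn p (frFam p f) D T₁ T := by
      apply ihD _ _ hDT₁ hDT
      exact lt_of_lt_of_le hltT (Subgroup.card_le_of_le (le_inf hT₁le inf_le_left))
    exact frConn_trans c1 (frConn_trans c2 c3)

theorem fr_controls (f : Subgroup G → Set (Subgroup G)) (hf : Cfsg.IsNormalizerFunctor p f)
    (hf1 : ∀ P : Subgroup G, IsPGroup p ↥P → P ≠ ⊥ → ∀ F ∈ f P, F ≠ ⊥) :
    Cfsg.ControlsSylowIntersections p (frFam p f) := by
  intro S T _ hint
  exact frConn_chain (fr_main f hf hf1 _ S T hint rfl)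

end Cfsg.Agent.Helper17
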