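import Mathlib
import Cfsg.Prelude.Def_SylowChains
import Cfsg.Agent.Helper17.Basic
import Cfsg.Agent.Helper17.RelSylow
import Cfsg.Agent.Helper17.RelSylow2
import Cfsg.Agent.Helper17.SylConn

set_option autoImplicit false

namespace Cfsg.Agent.Helper17

open Cfsg

universe u

variable {G : Type u} [Group G] {p : ℕ}

theorem rtg_map {α β : Type*} (r : α → α → Prop) (s : β → β → Prop) (φ : α → β)
    (h : ∀ a b, r a b → s (φ a) (φ b)) {a b : α} (hab : Relation.ReflTransGen r a b) :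
    Relation.ReflTransGen s (φ a) (φ b) := by
  induction hab with
  | refl => exact Relation.ReflTransGen.refl
  | tail _ hbc ih => exact ih.tail (h _ _ hbc)

/-- One link of a chain in the definition of control of Sylow intersections. -/
def cstep (p : ℕ) (𝓕 : Set (Subgroup G)) (D : Subgroup G) (S' T' : Sylow p G) : Prop :=
  ∃ (X : Subgroup G) (x : G), X ∈ Cfsg.sylowMembers p 𝓕 (S' : Subgroup G) ∧
    X ∈ Cfsg.sylowMembers p 𝓕 (T' : Subgroup G) ∧ x ∈ X ∧
    Cfsg.subgroupConjRight x (T' : Subgroup G) = (S' : Subgroup G) ∧ D ≤ (T' : Subgroup G) ⊓ X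

theorem chain_of_rtg_cstep (𝓕 : Set (Subgroup G)) (D : Subgroup G) {S T : Sylow p G}
    (h : Relation.ReflTransGen (cstep p 𝓕 D) S T) :
    ∃ (n : ℕ) (c : Fin (n + 1) → Sylow p G) (X : Fin n → Subgroup G) (x : Fin n → G),
      c 0 = S ∧ c (Fin.last n) = T ∧
      ∀ i : Fin n,
        X i ∈ Cfsg.sylowMembers p 𝓕 (c i.castSucc : Subgroup G) ∧
        X i ∈ Cfsg.sylowMembers p 𝓕 (c i.succ : Subgroup G) ∧
        x i ∈ X i ∧ Cfsg.subgroupConjRight (x i) (c i.succ : Subgroup G) = (c i.castSucc : Subgroup G) ∧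
        D ≤ (c i.succ : Subgroup G) ⊓ X i := by
  induction h with
  | refl => exact ⟨0, fun _ => S, fun i => i.elim0, fun i => i.elim0, rfl, rfl, fun i => i.elim0⟩
  | @tail T U _ hr ih =>
    obtain ⟨n, c, X, x, h0, hl, hc⟩ := ih
    obtain ⟨X', x', h1, h2, h3, h4, h5⟩ := hr
    refine ⟨n + 1, (Fin.snoc c U : Fin (n + 2) → Sylow p G),
      (Fin.snoc X X' : Fin (n + 1) → Subgroup G), (Fin.snoc x x' : Fin (n + 1) → G), ?_, ?_, ?_⟩
    · have e : (0 : Fin (n + 2)) = Fin.castSucc (0 : Fin (n + 1)) := rfl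
      rw [e, Fin.snoc_castSucc]
      exact h0
    · exact Fin.snoc_last _ _
    · intro i
      refine Fin.lastCases ?_ (fun j => ?_) i
      · rw [Fin.snoc_castSucc, Fin.succ_last, Fin.snoc_last, Fin.snoc_last, Fin.snoc_last, hl]
        exact ⟨h1, h2, h3, h4, h5⟩
      · rw [Fin.snoc_castSucc, ← Fin.castSucc_succ, Fin.snoc_castSucc, Fin.snoc_castSucc,
          Fin.snoc_castSucc]
        exact hc j

theorem controls_iff_rtg (𝓕 : Set (Subgroup G)) :
    Cfsg.ControlsSylowIntersections p 𝓕 ↔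
      ∀ S T : Sylow p G, S ≠ T → (S : Subgroup G) ⊓ (T : Subgroup G) ≠ ⊥ →
        Relation.ReflTransGen (cstep p 𝓕 ((S : Subgroup G) ⊓ (T : Subgroup G))) S T := by
  constructor
  · intro h S T hne hD
    obtain ⟨n, c, X, x, h0, hl, hstep⟩ := h S T hne hD
    have key : ∀ i : Fin (n + 1),
        Relation.ReflTransGen (cstep p 𝓕 ((S : Subgroup G) ⊓ (T : Subgroup G))) S (c i) := by
      intro i
      induction i using Fin.induction with
      | zero => rw [h0]
      | succ i ih =>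
        exact ih.tail ⟨X i, x i, (hstep i).1, (hstep i).2.1, (hstep i).2.2.1, (hstep i).2.2.2.1,
          (hstep i).2.2.2.2⟩
    have := key (Fin.last n)
    rwa [hl] at this
  · intro h S T hne hD
    exact chain_of_rtg_cstep 𝓕 _ (h S T hne hD)

/-- The ambient form of a link, for Sylow subgroups of `G` lying in `M`. -/
def gstep (f : Subgroup G → Set (Subgroup G)) (M D : Subgroup G) (A B : Sylow p G) : Prop :=
  ∃ (P : Sylow p G) (F : Subgroup G) (x : G), (P : Subgroup G) ≤ M ∧ F ∈ f (P : Subgroup G) ∧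
    (A : Subgroup G) ≤ M ⊓ Subgroup.normalizer (F : Set G) ∧
    (B : Subgroup G) ≤ M ⊓ Subgroup.normalizer (F : Set G) ∧
    x ∈ M ⊓ Subgroup.normalizer (F : Set G) ∧
    (B : Subgroup G).map (MulAut.conj x⁻¹).toMonoidHom = (A : Subgroup G) ∧ D ≤ (B : Subgroup G)

theorem gstep_mono (f : Subgroup G → Set (Subgroup G)) {M D D' : Subgroup G} {A B : Sylow p G}
    (h : gstep f M D A B) (hD : D' ≤ D) : gstep f ⊤ D' A B := by
  obtain ⟨P, F, x, h1, h2, h3, h4, h5, h6, h7⟩ := h
  exact ⟨P, F, x, le_top, h2, le_inf le_top (h3.trans inf_le_right),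
    le_inf le_top (h4.trans inf_le_right), Subgroup.mem_inf.2 ⟨Subgroup.mem_top _,
      (Subgroup.mem_inf.1 h5).2⟩, h6, hD.trans h7⟩

theorem conj_mem_normalizer_map_conj (F : Subgroup G) (g : G) {y : G}
    (hy : y ∈ Subgroup.normalizer (F : Set G)) :
    g * y * g⁻¹ ∈ Subgroup.normalizer ((F.map (MulAut.conj g).toMonoidHom : Subgroup G) : Set G) := by
  apply mem_normalizer_of_map_conj_eq
  rw [map_conj_map_conj]
  have e : g * y * g⁻¹ * g = g * y := by group
  rw [e, ← map_conj_map_conj, map_conj_eq_of_mem_normalizer F hy]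

theorem gstep_conj [Fact p.Prime] [Finite G] (f : Subgroup G → Set (Subgroup G))
    (hf : Cfsg.IsNormalizerFunctor p f)
    {D : Subgroup G} {A B : Sylow p G} (g : G) (h : gstep f ⊤ D A B) :
    gstep f ⊤ (D.map (MulAut.conj g).toMonoidHom) (g • A) (g • B) := by
  obtain ⟨P, F, x, -, h2, h3, h4, h5, h6, h7⟩ := h
  refine ⟨g • P, F.map (MulAut.conj g).toMonoidHom, g * x * g⁻¹, le_top, ?_, ?_, ?_, ?_, ?_, ?_⟩
  · rw [sylow_smul_coe, (hf (P : Subgroup G) P.isPGroup').2 g]
    exact ⟨F, h2, rfl⟩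
  · rw [sylow_smul_coe]
    rintro _ ⟨a, ha, rfl⟩
    exact Subgroup.mem_inf.2 ⟨Subgroup.mem_top _,
      conj_mem_normalizer_map_conj F g (Subgroup.mem_inf.1 (h3 ha)).2⟩
  · rw [sylow_smul_coe]
    rintro _ ⟨a, ha, rfl⟩
    exact Subgroup.mem_inf.2 ⟨Subgroup.mem_top _,
      conj_mem_normalizer_map_conj F g (Subgroup.mem_inf.1 (h4 ha)).2⟩
  · exact Subgroup.mem_inf.2 ⟨Subgroup.mem_top _,
      conj_mem_normalizer_map_conj F g (Subgroup.mem_inf.1 h5).2⟩
  · rw [sylow_smul_coe, sylow_smul_coe, map_conj_map_conj, ← h6, map_conj_map_conj]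
    congr 3
    group
  · rw [sylow_smul_coe]
    exact Subgroup.map_mono h7

theorem rtg_gstep_conj [Fact p.Prime] [Finite G] (f : Subgroup G → Set (Subgroup G))
    (hf : Cfsg.IsNormalizerFunctor p f)
    {D : Subgroup G} {A B : Sylow p G} (g : G)
    (h : Relation.ReflTransGen (gstep f ⊤ D) A B) :
    Relation.ReflTransGen (gstep f ⊤ (D.map (MulAut.conj g).toMonoidHom)) (g • A) (g • B) :=
  rtg_map _ _ (fun A => g • A) (fun _ _ hab => gstep_conj f hf g hab) h

theorem sylow_smul_inf [Finite G] (g : G) (A B : Sylow p G) :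
    ((g • A : Sylow p G) : Subgroup G) ⊓ ((g • B : Sylow p G) : Subgroup G) =
      ((A : Subgroup G) ⊓ (B : Subgroup G)).map (MulAut.conj g).toMonoidHom := by
  rw [sylow_smul_coe, sylow_smul_coe]
  exact (Subgroup.map_inf_eq _ _ _ (MulAut.conj g).injective).symm

end Cfsg.Agent.Helper17
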