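import Mathlib
import Cfsg.Agent.Helper17.FunctorReg

set_option autoImplicit false

namespace Cfsg.Agent.Helper17

open Cfsg

universe u

variable {G : Type u} [Group G] {p : ℕ}

theorem map_conj_ne_bot {D : Subgroup G} (g : G) (hD : D ≠ ⊥) :
    D.map (MulAut.conj g).toMonoidHom ≠ ⊥ := by
  intro h
  apply hD
  rw [eq_bot_iff]
  intro d hd
  have h1 : g * d * g⁻¹ ∈ D.map (MulAut.conj g).toMonoidHom := ⟨d, hd, rfl⟩
  rw [h, Subgroup.mem_bot] at h1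
  rw [Subgroup.mem_bot]
  have e : d = g⁻¹ * (g * d * g⁻¹) * g := by group
  rw [e, h1]
  group

theorem functor_regular_aux [Fact p.Prime] [Finite G] (f : Subgroup G → Set (Subgroup G))
    (hf : Cfsg.IsNormalizerFunctor p f) (S : Sylow p G) (G₁ G₂ : Subgroup G)
    (h₁ : (S : Subgroup G) ≤ G₁) (h₂ : (S : Subgroup G) ≤ G₂)
    (hprod : ∀ g : G, ∃ g₁ ∈ G₁, ∃ g₂ ∈ G₂, g = g₁ * g₂)
    (R₁ : ∀ A B : Sylow p G, (A : Subgroup G) ≤ G₁ → (B : Subgroup G) ≤ G₁ → A ≠ B →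
      (A : Subgroup G) ⊓ (B : Subgroup G) ≠ ⊥ →
      Relation.ReflTransGen (gstep f G₁ ((A : Subgroup G) ⊓ (B : Subgroup G))) A B)
    (R₂ : ∀ A B : Sylow p G, (A : Subgroup G) ≤ G₂ → (B : Subgroup G) ≤ G₂ → A ≠ B →
      (A : Subgroup G) ⊓ (B : Subgroup G) ≠ ⊥ →
      Relation.ReflTransGen (gstep f G₂ ((A : Subgroup G) ⊓ (B : Subgroup G))) A B)
    (T : Sylow p G) (hD : (S : Subgroup G) ⊓ (T : Subgroup G) ≠ ⊥) :
    Relation.ReflTransGen (gstep f ⊤ ((S : Subgroup G) ⊓ (T : Subgroup G))) S T := by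
  obtain ⟨g, hg⟩ := MulAction.exists_smul_eq G S T
  obtain ⟨a₁, ha₁, a₂, ha₂, hgi⟩ := hprod g⁻¹
  obtain ⟨D, hDdef⟩ : ∃ D : Subgroup G, D = (S : Subgroup G) ⊓ (T : Subgroup G) := ⟨_, rfl⟩
  rw [← hDdef] at hD ⊢
  have hDS : D ≤ (S : Subgroup G) := by rw [hDdef]; exact inf_le_left
  have hDT : D ≤ (T : Subgroup G) := by rw [hDdef]; exact inf_le_right
  have hDp : IsPGroup p D := S.isPGroup'.to_le hDS
  have hD₂G₁ : D.map (MulAut.conj a₂).toMonoidHom ≤ G₁ := by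
    rintro _ ⟨d, hd, rfl⟩
    have h3 : d ∈ ((g • S : Sylow p G) : Subgroup G) := by rw [hg]; exact hDT hd
    rw [mem_sylow_smul_iff] at h3
    have hg' : g = (a₁ * a₂)⁻¹ := by rw [← hgi, inv_inv]
    rw [hg', inv_inv] at h3
    have h4 : a₂ * d * a₂⁻¹ = a₁⁻¹ * (a₁ * a₂ * d * (a₁ * a₂)⁻¹) * a₁ := by group
    show a₂ * d * a₂⁻¹ ∈ G₁
    rw [h4]
    exact G₁.mul_mem (G₁.mul_mem (G₁.inv_mem ha₁) (h₁ h3)) ha₁
  have hD₂G₂ : D.map (MulAut.conj a₂).toMonoidHom ≤ G₂ := by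
    rintro _ ⟨d, hd, rfl⟩
    show a₂ * d * a₂⁻¹ ∈ G₂
    exact G₂.mul_mem (G₂.mul_mem ha₂ (h₂ (hDS hd))) (G₂.inv_mem ha₂)
  obtain ⟨h, hh, hconj⟩ := exists_conj_le_of_sylow_le S (G₁ ⊓ G₂) (le_inf h₁ h₂)
    (D.map (MulAut.conj a₂).toMonoidHom) (le_inf hD₂G₁ hD₂G₂) (hDp.map _)
  obtain ⟨hhG₁, hhG₂⟩ := Subgroup.mem_inf.1 hh
  obtain ⟨k₂, hk₂⟩ : ∃ k₂ : G, k₂ = h * a₂ := ⟨_, rfl⟩
  obtain ⟨k₁, hk₁⟩ : ∃ k₁ : G, k₁ = a₁ * h⁻¹ := ⟨_, rfl⟩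
  have hk₂G : k₂ ∈ G₂ := by rw [hk₂]; exact G₂.mul_mem hhG₂ ha₂
  have hk₁G : k₁ ∈ G₁ := by rw [hk₁]; exact G₁.mul_mem ha₁ (G₁.inv_mem hhG₁)
  have hgk : g = k₂⁻¹ * k₁⁻¹ := by
    have e : g = (g⁻¹)⁻¹ := by group
    rw [e, hgi, hk₂, hk₁]
    group
  have hstar : ∀ d ∈ D, k₂ * d * k₂⁻¹ ∈ (S : Subgroup G) := by
    intro d hd
    have h3 := hconj (a₂ * d * a₂⁻¹) ⟨d, hd, rfl⟩
    have e : k₂ * d * k₂⁻¹ = h * (a₂ * d * a₂⁻¹) * h⁻¹ := by rw [hk₂]; group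
    rw [e]
    exact h3
  have hDU : D ≤ ((k₂⁻¹ • S : Sylow p G) : Subgroup G) := by
    intro d hd
    rw [mem_sylow_smul_iff, inv_inv]
    exact hstar d hd
  have hUG₂ : ((k₂⁻¹ • S : Sylow p G) : Subgroup G) ≤ G₂ := by
    intro u hu
    rw [mem_sylow_smul_iff, inv_inv] at hu
    have e : u = k₂⁻¹ * (k₂ * u * k₂⁻¹) * k₂ := by group
    rw [e]
    exact G₂.mul_mem (G₂.mul_mem (G₂.inv_mem hk₂G) (h₂ hu)) hk₂G
  have hVG₁ : ((k₁⁻¹ • S : Sylow p G) : Subgroup G) ≤ G₁ := by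
    intro u hu
    rw [mem_sylow_smul_iff, inv_inv] at hu
    have e : u = k₁⁻¹ * (k₁ * u * k₁⁻¹) * k₁ := by group
    rw [e]
    exact G₁.mul_mem (G₁.mul_mem (G₁.inv_mem hk₁G) (h₁ hu)) hk₁G
  have hT : T = k₂⁻¹ • (k₁⁻¹ • S) := by
    rw [← hg, hgk, mul_smul]
  -- part 1
  have part1 : Relation.ReflTransGen (gstep f ⊤ D) S (k₂⁻¹ • S) := by
    by_cases hSU : S = k₂⁻¹ • S
    · rw [← hSU]
    · have hne : (S : Subgroup G) ⊓ ((k₂⁻¹ • S : Sylow p G) : Subgroup G) ≠ ⊥ := by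
        intro hbot
        apply hD
        exact le_bot_iff.1 (hbot ▸ le_inf hDS hDU)
      have h5 := R₂ S (k₂⁻¹ • S) h₂ hUG₂ hSU hne
      exact rtg_map _ _ id (fun _ _ hab => gstep_mono f hab (le_inf hDS hDU)) h5
  -- part 2
  have hD'S : D.map (MulAut.conj k₂).toMonoidHom ≤ (S : Subgroup G) := by
    rintro _ ⟨d, hd, rfl⟩
    exact hstar d hd
  have hD'V : D.map (MulAut.conj k₂).toMonoidHom ≤ ((k₁⁻¹ • S : Sylow p G) : Subgroup G) := by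
    rintro _ ⟨d, hd, rfl⟩
    have h3 : d ∈ ((k₂⁻¹ • (k₁⁻¹ • S) : Sylow p G) : Subgroup G) := by rw [← hT]; exact hDT hd
    rw [mem_sylow_smul_iff, inv_inv] at h3
    exact h3
  have hD'ne : D.map (MulAut.conj k₂).toMonoidHom ≠ ⊥ := map_conj_ne_bot k₂ hD
  have hback : (D.map (MulAut.conj k₂).toMonoidHom).map (MulAut.conj k₂⁻¹).toMonoidHom = D := by
    rw [map_conj_map_conj, inv_mul_cancel, map_conj_one]
  have part2 : Relation.ReflTransGen (gstep f ⊤ D) (k₂⁻¹ • S) T := by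
    by_cases hSV : S = k₁⁻¹ • S
    · rw [hT, ← hSV]
    · have hne : (S : Subgroup G) ⊓ ((k₁⁻¹ • S : Sylow p G) : Subgroup G) ≠ ⊥ := by
        intro hbot
        apply hD'ne
        exact le_bot_iff.1 (hbot ▸ le_inf hD'S hD'V)
      have h5 := R₁ S (k₁⁻¹ • S) h₁ hVG₁ hSV hne
      have h6 : Relation.ReflTransGen (gstep f ⊤ (D.map (MulAut.conj k₂).toMonoidHom)) S
          (k₁⁻¹ • S) :=
        rtg_map _ _ id (fun _ _ hab => gstep_mono f hab (le_inf hD'S hD'V)) h5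
      have h7 := rtg_gstep_conj f hf k₂⁻¹ h6
      rw [hback, ← hT] at h7
      exact h7
  exact part1.trans part2

theorem functor_regular_main [Fact p.Prime] [Finite G] (f : Subgroup G → Set (Subgroup G))
    (hf : Cfsg.IsNormalizerFunctor p f) (S : Sylow p G) (G₁ G₂ : Subgroup G)
    (h₁ : (S : Subgroup G) ≤ G₁) (h₂ : (S : Subgroup G) ≤ G₂)
    (hprod : ∀ g : G, ∃ g₁ ∈ G₁, ∃ g₂ ∈ G₂, g = g₁ * g₂)
    (R₁ : ∀ A B : Sylow p G, (A : Subgroup G) ≤ G₁ → (B : Subgroup G) ≤ G₁ → A ≠ B →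
      (A : Subgroup G) ⊓ (B : Subgroup G) ≠ ⊥ →
      Relation.ReflTransGen (gstep f G₁ ((A : Subgroup G) ⊓ (B : Subgroup G))) A B)
    (R₂ : ∀ A B : Sylow p G, (A : Subgroup G) ≤ G₂ → (B : Subgroup G) ≤ G₂ → A ≠ B →
      (A : Subgroup G) ⊓ (B : Subgroup G) ≠ ⊥ →
      Relation.ReflTransGen (gstep f G₂ ((A : Subgroup G) ⊓ (B : Subgroup G))) A B)
    (A B : Sylow p G) (hD : (A : Subgroup G) ⊓ (B : Subgroup G) ≠ ⊥) :
    Relation.ReflTransGen (gstep f ⊤ ((A : Subgroup G) ⊓ (B : Subgroup G))) A B := by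
  obtain ⟨a, ha⟩ := MulAction.exists_smul_eq G S A
  have hB : B = a • (a⁻¹ • B) := (smul_inv_smul a B).symm
  have hinf : (A : Subgroup G) ⊓ (B : Subgroup G) =
      ((S : Subgroup G) ⊓ ((a⁻¹ • B : Sylow p G) : Subgroup G)).map (MulAut.conj a).toMonoidHom := by
    rw [← sylow_smul_inf, ha, ← hB]
  have hne : (S : Subgroup G) ⊓ ((a⁻¹ • B : Sylow p G) : Subgroup G) ≠ ⊥ := by
    intro hbot
    apply hD
    rw [hinf, hbot, Subgroup.map_bot]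
  have h3 := functor_regular_aux f hf S G₁ G₂ h₁ h₂ hprod R₁ R₂ (a⁻¹ • B) hne
  have h4 := rtg_gstep_conj f hf a h3
  rw [← hinf, ha, ← hB] at h4
  exact h4

end Cfsg.Agent.Helper17
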