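import Mathlib
import Cfsg.Agent.Helper17.FunctorReg2

set_option autoImplicit false

namespace Cfsg.Agent.Helper17

open Cfsg

universe u

variable {G : Type u} [Group G] {p : ℕ}

theorem factorization_eq_of_sylow_le [Finite G] [Fact p.Prime] (M : Subgroup G) (S : Sylow p G)
    (hS : (S : Subgroup G) ≤ M) :
    (Nat.card M).factorization p = (Nat.card G).factorization p := by
  have hp : p.Prime := Fact.out
  have hG : Nat.card G ≠ 0 := Nat.card_pos.ne'
  have hM : Nat.card M ≠ 0 := Nat.card_pos.ne'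
  apply le_antisymm
  · exact (Nat.factorization_le_iff_dvd hM hG).2 (Subgroup.card_subgroup_dvd_card M) p
  · have h1 : p ^ (Nat.card G).factorization p ∣ Nat.card M := by
      rw [← S.card_eq_multiplicity]
      exact Subgroup.card_dvd_of_le hS
    exact (hp.pow_dvd_iff_le_factorization hM).1 h1

/-- A Sylow subgroup of `M` viewed in `G`, when `M` contains a Sylow subgroup of `G`. -/
noncomputable def upSylow [Finite G] [Fact p.Prime] (M : Subgroup G)
    (hM : (Nat.card M).factorization p = (Nat.card G).factorization p) (Q : Sylow p ↥M) :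
    Sylow p G :=
  Sylow.ofCard ((Q : Subgroup ↥M).map M.subtype) (by
    rw [Subgroup.card_map_of_injective M.subtype_injective, Q.card_eq_multiplicity, hM])

theorem coe_upSylow [Finite G] [Fact p.Prime] (M : Subgroup G)
    (hM : (Nat.card M).factorization p = (Nat.card G).factorization p) (Q : Sylow p ↥M) :
    ((upSylow M hM Q : Sylow p G) : Subgroup G) = (Q : Subgroup ↥M).map M.subtype :=
  Sylow.coe_ofCard _ _

theorem upSylow_subtype [Finite G] [Fact p.Prime] (M : Subgroup G)
    (hM : (Nat.card M).factorization p = (Nat.card G).factorization p) (A : Sylow p G)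
    (hA : (A : Subgroup G) ≤ M) : upSylow M hM (A.subtype hA) = A := by
  apply Sylow.ext
  rw [coe_upSylow, Sylow.coe_subtype, Subgroup.map_subgroupOf_eq_of_le hA]

theorem subtype_upSylow [Finite G] [Fact p.Prime] (M : Subgroup G)
    (hM : (Nat.card M).factorization p = (Nat.card G).factorization p) (Q : Sylow p ↥M)
    (h : ((upSylow M hM Q : Sylow p G) : Subgroup G) ≤ M) :
    (upSylow M hM Q).subtype h = Q := by
  apply Sylow.ext
  rw [Sylow.coe_subtype, coe_upSylow]
  exact Subgroup.comap_map_eq_self_of_injective M.subtype_injective _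

theorem gstep_of_cstep [Finite G] [Fact p.Prime] (f : Subgroup G → Set (Subgroup G))
    (hf : Cfsg.IsNormalizerFunctor p f) (M : Subgroup G)
    (hM : (Nat.card M).factorization p = (Nat.card G).factorization p)
    {D : Subgroup ↥M} {a b : Sylow p ↥M}
    (h : cstep p ((fun X : Subgroup G => X.subgroupOf M) '' Cfsg.functorFamily p f M) D a b) :
    gstep f M (D.map M.subtype) (upSylow M hM a) (upSylow M hM b) := by
  have hp : p.Prime := Fact.out
  obtain ⟨X, x, ⟨⟨Y, ⟨P, F, hF, hY⟩, hX⟩, Pa, hPa⟩, ⟨-, Pb, hPb⟩, hx, hconj, hD⟩ := h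
  have hXeq : X = (M ⊓ Subgroup.normalizer (F : Set G)).subgroupOf M := by
    rw [← hX, hY]
  have hPp : IsPGroup p ((P : Subgroup ↥M).map M.subtype) := P.isPGroup'.map _
  have hFP := (hf _ hPp).1 F hF
  have hPX : (P : Subgroup ↥M) ≤ X := by
    rw [hXeq]
    intro y hy
    rw [Subgroup.mem_subgroupOf]
    exact Subgroup.mem_inf.2 ⟨y.2, hFP.2 (Subgroup.le_normalizer ⟨y, hy, rfl⟩)⟩
  have h2 : Nat.card (P : Subgroup ↥M) ∣ Nat.card X := Subgroup.card_dvd_of_le hPX
  rw [P.card_eq_multiplicity] at h2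
  have h3 : (Nat.card M).factorization p ≤ (Nat.card X).factorization p :=
    (hp.pow_dvd_iff_le_factorization Nat.card_pos.ne').1 h2
  have key : ∀ (c : Sylow p ↥M) (Pc : Sylow p ↥X),
      (Pc : Subgroup ↥X).map X.subtype = (c : Subgroup ↥M) ⊓ X → (c : Subgroup ↥M) ≤ X := by
    intro c Pc hPc
    have h1 : Nat.card ((c : Subgroup ↥M) ⊓ X : Subgroup ↥M) =
        p ^ (Nat.card X).factorization p := by
      rw [← hPc, Subgroup.card_map_of_injective X.subtype_injective, Pc.card_eq_multiplicity]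
    have h4 : (c : Subgroup ↥M) ⊓ X = c := by
      apply Subgroup.eq_of_le_of_card_ge inf_le_left
      rw [h1, c.card_eq_multiplicity]
      exact Nat.pow_le_pow_right hp.pos h3
    rw [← h4]
    exact inf_le_right
  have haX := key a Pa hPa
  have hbX := key b Pb hPb
  have hXmap : X.map M.subtype = M ⊓ Subgroup.normalizer (F : Set G) := by
    rw [hXeq, Subgroup.map_subgroupOf_eq_of_le inf_le_left]
  refine ⟨upSylow M hM P, F, (x : G), ?_, ?_, ?_, ?_, ?_, ?_, ?_⟩
  · rw [coe_upSylow]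
    exact Subgroup.map_subtype_le _
  · rw [coe_upSylow]
    exact hF
  · rw [coe_upSylow, ← hXmap]
    exact Subgroup.map_mono haX
  · rw [coe_upSylow, ← hXmap]
    exact Subgroup.map_mono hbX
  · rw [← hXmap]
    exact ⟨x, hx, rfl⟩
  · rw [coe_upSylow, coe_upSylow, ← hconj]
    unfold Cfsg.subgroupConjRight
    rw [Subgroup.map_map, Subgroup.map_map]
    congr 1
  · rw [coe_upSylow]
    exact Subgroup.map_mono (hD.trans inf_le_left)

theorem rtg_gstep_of_regular [Finite G] [Fact p.Prime] (f : Subgroup G → Set (Subgroup G))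
    (hf : Cfsg.IsNormalizerFunctor p f) (M : Subgroup G)
    (hM : (Nat.card M).factorization p = (Nat.card G).factorization p)
    (hr : Cfsg.IsFunctorRegular p f M) :
    ∀ A B : Sylow p G, (A : Subgroup G) ≤ M → (B : Subgroup G) ≤ M → A ≠ B →
      (A : Subgroup G) ⊓ (B : Subgroup G) ≠ ⊥ →
      Relation.ReflTransGen (gstep f M ((A : Subgroup G) ⊓ (B : Subgroup G))) A B := by
  intro A B hA hB hne hD
  have e : (((A.subtype hA : Sylow p ↥M) : Subgroup ↥M) ⊓
      ((B.subtype hB : Sylow p ↥M) : Subgroup ↥M)).map M.subtype =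
      (A : Subgroup G) ⊓ (B : Subgroup G) := by
    rw [Subgroup.map_inf_eq _ _ _ M.subtype_injective, Sylow.coe_subtype, Sylow.coe_subtype,
      Subgroup.map_subgroupOf_eq_of_le hA, Subgroup.map_subgroupOf_eq_of_le hB]
  have hne' : A.subtype hA ≠ B.subtype hB := by
    intro h
    apply hne
    have := congrArg (upSylow M hM) h
    rwa [upSylow_subtype, upSylow_subtype] at this
  have hD' : ((A.subtype hA : Sylow p ↥M) : Subgroup ↥M) ⊓
      ((B.subtype hB : Sylow p ↥M) : Subgroup ↥M) ≠ ⊥ := by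
    intro h
    apply hD
    rw [← e, h, Subgroup.map_bot]
  have hr' := (controls_iff_rtg _).1 hr (A.subtype hA) (B.subtype hB) hne' hD'
  have h1 := rtg_map _ _ (upSylow M hM) (fun _ _ hab => gstep_of_cstep f hf M hM hab) hr'
  rw [upSylow_subtype, upSylow_subtype, e] at h1
  exact h1

theorem cstep_of_gstep_top [Finite G] [Fact p.Prime] (f : Subgroup G → Set (Subgroup G))
    {D : Subgroup G} {A B : Sylow p G} (h : gstep f ⊤ D A B) :
    cstep p ((fun X : Subgroup G => X.subgroupOf (⊤ : Subgroup G)) '' Cfsg.functorFamily p f ⊤)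
      (D.subgroupOf ⊤) (A.subtype le_top) (B.subtype le_top) := by
  obtain ⟨P, F, x, -, hF, hA, hB, hx, hconj, hD⟩ := h
  have hmem : (⊤ ⊓ Subgroup.normalizer (F : Set G)).subgroupOf (⊤ : Subgroup G) ∈
      (fun X : Subgroup G => X.subgroupOf (⊤ : Subgroup G)) '' Cfsg.functorFamily p f ⊤ := by
    refine ⟨_, ⟨P.subtype le_top, F, ?_, rfl⟩, rfl⟩
    rw [Sylow.coe_subtype, Subgroup.map_subgroupOf_eq_of_le le_top]
    exact hF
  have hsyl : ∀ C : Sylow p G, (C : Subgroup G) ≤ ⊤ ⊓ Subgroup.normalizer (F : Set G) →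
      (⊤ ⊓ Subgroup.normalizer (F : Set G)).subgroupOf (⊤ : Subgroup G) ∈
        Cfsg.sylowMembers p
          ((fun X : Subgroup G => X.subgroupOf (⊤ : Subgroup G)) '' Cfsg.functorFamily p f ⊤)
          ((C.subtype le_top : Sylow p ↥(⊤ : Subgroup G)) : Subgroup ↥(⊤ : Subgroup G)) := by
    intro C hC
    have hC' : ((C.subtype le_top : Sylow p ↥(⊤ : Subgroup G)) : Subgroup ↥(⊤ : Subgroup G)) ≤
        (⊤ ⊓ Subgroup.normalizer (F : Set G)).subgroupOf (⊤ : Subgroup G) := by
      rw [Sylow.coe_subtype]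
      exact Subgroup.comap_mono hC
    refine ⟨hmem, (C.subtype le_top).subtype hC', ?_⟩
    rw [Sylow.coe_subtype, Subgroup.map_subgroupOf_eq_of_le hC', inf_eq_left.2 hC']
  refine ⟨_, ⟨x, Subgroup.mem_top x⟩, hsyl A hA, hsyl B hB, ?_, ?_, ?_⟩
  · rw [Subgroup.mem_subgroupOf]
    exact hx
  · apply Subgroup.map_injective (Subgroup.subtype_injective (⊤ : Subgroup G))
    unfold Cfsg.subgroupConjRight
    rw [Subgroup.map_map, Sylow.coe_subtype, Sylow.coe_subtype,
      Subgroup.map_subgroupOf_eq_of_le le_top, ← hconj]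
    conv_rhs => rw [← Subgroup.map_subgroupOf_eq_of_le (le_top : (B : Subgroup G) ≤ ⊤),
      Subgroup.map_map]
    congr 1
  · rw [Sylow.coe_subtype]
    exact le_inf (Subgroup.comap_mono hD) (Subgroup.comap_mono (hD.trans hB))

theorem functor_regular_top [Finite G] [Fact p.Prime] (f : Subgroup G → Set (Subgroup G))
    (hf : Cfsg.IsNormalizerFunctor p f) (S : Sylow p G) (G₁ G₂ : Subgroup G)
    (h₁ : (S : Subgroup G) ≤ G₁) (h₂ : (S : Subgroup G) ≤ G₂)
    (hprod : ∀ g : G, ∃ g₁ ∈ G₁, ∃ g₂ ∈ G₂, g = g₁ * g₂)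
    (hr₁ : Cfsg.IsFunctorRegular p f G₁) (hr₂ : Cfsg.IsFunctorRegular p f G₂) :
    Cfsg.IsFunctorRegular p f ⊤ := by
  have hM₁ := factorization_eq_of_sylow_le G₁ S h₁
  have hM₂ := factorization_eq_of_sylow_le G₂ S h₂
  have hT : (Nat.card (⊤ : Subgroup G)).factorization p = (Nat.card G).factorization p :=
    factorization_eq_of_sylow_le ⊤ S le_top
  have R₁ := rtg_gstep_of_regular f hf G₁ hM₁ hr₁
  have R₂ := rtg_gstep_of_regular f hf G₂ hM₂ hr₂
  have main := functor_regular_main f hf S G₁ G₂ h₁ h₂ hprod R₁ R₂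
  show Cfsg.ControlsSylowIntersections p _
  rw [controls_iff_rtg]
  intro a b hne hD
  have e : (((upSylow ⊤ hT a : Sylow p G) : Subgroup G) ⊓
      ((upSylow ⊤ hT b : Sylow p G) : Subgroup G)) =
      ((a : Subgroup ↥(⊤ : Subgroup G)) ⊓ (b : Subgroup ↥(⊤ : Subgroup G))).map
        (Subgroup.subtype ⊤) := by
    rw [coe_upSylow, coe_upSylow, Subgroup.map_inf_eq _ _ _ (Subgroup.subtype_injective _)]
  have hne' : ((upSylow ⊤ hT a : Sylow p G) : Subgroup G) ⊓
      ((upSylow ⊤ hT b : Sylow p G) : Subgroup G) ≠ ⊥ := by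
    rw [e]
    intro h
    apply hD
    exact (Subgroup.map_eq_bot_iff_of_injective _ (Subgroup.subtype_injective _)).1 h
  have h1 := main (upSylow ⊤ hT a) (upSylow ⊤ hT b) hne'
  have h2 := rtg_map _ _ (fun A : Sylow p G => A.subtype le_top)
    (fun _ _ hab => cstep_of_gstep_top f hab) h1
  beta_reduce at h2
  rw [subtype_upSylow, subtype_upSylow, e] at h2
  have e2 : (((a : Subgroup ↥(⊤ : Subgroup G)) ⊓ (b : Subgroup ↥(⊤ : Subgroup G))).map
      (Subgroup.subtype ⊤)).subgroupOf ⊤ =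
      (a : Subgroup ↥(⊤ : Subgroup G)) ⊓ (b : Subgroup ↥(⊤ : Subgroup G)) :=
    Subgroup.comap_map_eq_self_of_injective (Subgroup.subtype_injective _) _
  rw [e2] at h2
  exact h2

end Cfsg.Agent.Helper17
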