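import Mathlib

namespace Cfsg.Agent.Helper17

open Module
open scoped commutatorElement

universe u v w

section charp

variable {F : Type u} [Field F] {V : Type w} [AddCommGroup V] [Module F V]

theorem ld_inv_apply {P : Type v} [Group P] (ρ : P →* Module.End F V) (a : P) (u : V) :
    ρ a⁻¹ (ρ a u) = u := by
  rw [← Module.End.mul_apply, ← map_mul, inv_mul_cancel, map_one]
  rfl

/-- elements acting trivially on the section `U/W` -/
def ldStab {P : Type v} [Group P] (ρ : P →* Module.End F V) (U W : Submodule F V)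
    (hU : ∀ g : P, ∀ u ∈ U, ρ g u ∈ U) (hW : ∀ g : P, ∀ w ∈ W, ρ g w ∈ W) : Subgroup P where
  carrier := {g | ∀ u ∈ U, ρ g u - u ∈ W}
  one_mem' := by
    intro u _
    simp
  mul_mem' := by
    intro a b ha hb u hu
    have h1 := ha (ρ b u) (hU b u hu)
    have h2 := hb u hu
    have h3 : ρ (a * b) u - u = (ρ a (ρ b u) - ρ b u) + (ρ b u - u) := by
      rw [map_mul, Module.End.mul_apply]
      abel
    rw [h3]
    exact W.add_mem h1 h2
  inv_mem' := by
    intro a ha u hu
    have h1 := ha u hu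
    have h2 : ρ a⁻¹ (ρ a u - u) ∈ W := hW a⁻¹ _ h1
    have h3 : ρ a⁻¹ u - u = - ρ a⁻¹ (ρ a u - u) := by
      rw [map_sub, ld_inv_apply]
      abel
    rw [h3]
    exact W.neg_mem h2

theorem ld_fixed (p : ℕ) [Fact p.Prime] [CharP F p] :
    ∀ (n : ℕ) (P : Type v) [Group P] [Finite P], Nat.card P = p ^ n →
      ∀ (ρ : P →* Module.End F V) (X U : Submodule F V),
        (∀ g : P, ∀ x ∈ X, ρ g x ∈ X) → (∀ g : P, ∀ u ∈ U, ρ g u ∈ U) →
        ∀ v₀ ∈ U, v₀ ∉ X → ∃ v ∈ U, v ∉ X ∧ ∀ g : P, ρ g v - v ∈ X := by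
  intro n
  induction n with
  | zero =>
    intro P _ _ hcard ρ X U hX hU v₀ hv₀U hv₀X
    refine ⟨v₀, hv₀U, hv₀X, fun g => ?_⟩
    have hsub : Subsingleton P := (Nat.card_eq_one_iff_unique.mp (by simpa using hcard)).1
    have hg : g = 1 := Subsingleton.elim _ _
    rw [hg]
    simp
  | succ n ih =>
    intro P _ _ hcard ρ X U hX hU v₀ hv₀U hv₀X
    have hp := (Fact.out : p.Prime)
    obtain ⟨M, hM⟩ := Sylow.exists_subgroup_card_pow_prime (G := P) p (n := n)
      (by rw [hcard]; exact pow_dvd_pow p (Nat.le_succ n))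
    have hidx : M.index = p := by
      have h1 := M.index_mul_card
      rw [hM, hcard, pow_succ] at h1
      exact Nat.eq_of_mul_eq_mul_right (pow_pos hp.pos n) (by rw [h1, mul_comm])
    haveI hMn : M.Normal := Subgroup.normal_of_index_eq_minFac_card
      (by rw [hidx, hcard, hp.pow_minFac (Nat.succ_ne_zero n)])
    obtain ⟨v₁, hv₁U, hv₁X, hv₁⟩ := ih M hM (ρ.comp M.subtype) X U (fun g => hX g) (fun g => hU g)
      v₀ hv₀U hv₀X
    have hMtop : M ≠ ⊤ := by
      intro h
      rw [h, Subgroup.index_top] at hidx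
      exact hp.one_lt.ne hidx
    obtain ⟨x, hx⟩ : ∃ x : P, x ∉ M := by
      by_contra h
      push Not at h
      exact hMtop (eq_top_iff.mpr fun y _ => h y)
    haveI hV : Nontrivial V := ⟨⟨v₀, 0, fun h => hv₀X (h ▸ X.zero_mem)⟩⟩
    haveI : CharP (Module.End F V) p :=
      charP_of_injective_algebraMap (algebraMap F (Module.End F V)).injective p
    have hTU : ∀ j : ℕ, ((ρ x - 1) ^ j) v₁ ∈ U := by
      intro j
      induction j with
      | zero => simpa using hv₁U
      | succ j ihj =>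
        rw [pow_succ', Module.End.mul_apply, LinearMap.sub_apply]
        exact U.sub_mem (hU x _ ihj) (by simpa using ihj)
    have hstep : ∀ (j : ℕ), ((ρ x - 1) ^ (j + 1)) v₁ = ρ x (((ρ x - 1) ^ j) v₁) - ((ρ x - 1) ^ j) v₁ := by
      intro j
      rw [pow_succ', Module.End.mul_apply, LinearMap.sub_apply]
      rfl
    have hTM : ∀ j : ℕ, ∀ m ∈ M, ρ m (((ρ x - 1) ^ j) v₁) - ((ρ x - 1) ^ j) v₁ ∈ X := by
      intro j
      induction j with
      | zero =>
        intro m hm
        simpa using hv₁ ⟨m, hm⟩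
      | succ j ihj =>
        intro m hm
        have hm' : x⁻¹ * m * x ∈ M := by
          have := hMn.conj_mem m hm x⁻¹
          simpa using this
        have e2' : ∀ t : V, ρ m (ρ x t) = ρ x (ρ (x⁻¹ * m * x) t) := by
          intro t
          rw [← Module.End.mul_apply, ← Module.End.mul_apply, ← map_mul, ← map_mul]
          congr 2
          group
        have e2 : ρ m (ρ x (((ρ x - 1) ^ j) v₁)) = ρ x (ρ (x⁻¹ * m * x) (((ρ x - 1) ^ j) v₁)) :=
          e2' _
        have e3 : ρ m (ρ x (((ρ x - 1) ^ j) v₁) - ((ρ x - 1) ^ j) v₁)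
            - (ρ x (((ρ x - 1) ^ j) v₁) - ((ρ x - 1) ^ j) v₁)
            = ρ x (ρ (x⁻¹ * m * x) (((ρ x - 1) ^ j) v₁) - ((ρ x - 1) ^ j) v₁)
              - (ρ m (((ρ x - 1) ^ j) v₁) - ((ρ x - 1) ^ j) v₁) := by
          rw [map_sub, e2, map_sub]
          abel
        rw [hstep, e3]
        exact X.sub_mem (hX x _ (ihj _ hm')) (ihj m hm)
    have hTp : ((ρ x - 1) ^ p) v₁ ∈ X := by
      have h1 : (ρ x - 1) ^ p = ρ (x ^ p) - 1 := by
        rw [sub_pow_char_of_commute p (Commute.one_right _), one_pow, map_pow]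
      have h2 : x ^ p ∈ M := by
        have := M.pow_index_mem x
        rwa [hidx] at this
      rw [h1]
      have := hv₁ ⟨x ^ p, h2⟩
      simpa using this
    have hex : ∃ j : ℕ, ((ρ x - 1) ^ j) v₁ ∉ X ∧ ((ρ x - 1) ^ (j + 1)) v₁ ∈ X := by
      by_contra hcon
      push Not at hcon
      have hall : ∀ j : ℕ, ((ρ x - 1) ^ j) v₁ ∉ X := by
        intro j
        induction j with
        | zero => simpa using hv₁X
        | succ j ihj => exact hcon j ihj
      exact hall p hTp
    obtain ⟨j, hj1, hj2⟩ := hex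
    refine ⟨((ρ x - 1) ^ j) v₁, hTU j, hj1, ?_⟩
    let S : Subgroup P :=
      { carrier := {g | ρ g (((ρ x - 1) ^ j) v₁) - ((ρ x - 1) ^ j) v₁ ∈ X}
        one_mem' := by simp
        mul_mem' := by
          intro a b ha hb
          have h3 : ρ (a * b) (((ρ x - 1) ^ j) v₁) - ((ρ x - 1) ^ j) v₁
              = ρ a (ρ b (((ρ x - 1) ^ j) v₁) - ((ρ x - 1) ^ j) v₁)
                + (ρ a (((ρ x - 1) ^ j) v₁) - ((ρ x - 1) ^ j) v₁) := by
            rw [map_mul, Module.End.mul_apply, map_sub]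
            abel
          show ρ (a * b) (((ρ x - 1) ^ j) v₁) - ((ρ x - 1) ^ j) v₁ ∈ X
          rw [h3]
          exact X.add_mem (hX a _ hb) ha
        inv_mem' := by
          intro a ha
          have h3 : ρ a⁻¹ (((ρ x - 1) ^ j) v₁) - ((ρ x - 1) ^ j) v₁
              = - ρ a⁻¹ (ρ a (((ρ x - 1) ^ j) v₁) - ((ρ x - 1) ^ j) v₁) := by
            rw [map_sub, ld_inv_apply]
            abel
          show ρ a⁻¹ (((ρ x - 1) ^ j) v₁) - ((ρ x - 1) ^ j) v₁ ∈ X
          rw [h3]
          exact X.neg_mem (hX a⁻¹ _ ha) }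
    have hMS : M ≤ S := fun m hm => hTM j m hm
    have hxS : x ∈ S := by
      show ρ x (((ρ x - 1) ^ j) v₁) - ((ρ x - 1) ^ j) v₁ ∈ X
      rw [← hstep]
      exact hj2
    have hStop : S = ⊤ := by
      have h1 : Nat.card M ∣ Nat.card S := Subgroup.card_dvd_of_le hMS
      have h2 : Nat.card S ∣ Nat.card P := Subgroup.card_subgroup_dvd_card S
      rw [hcard] at h2
      rw [hM] at h1
      obtain ⟨k, hk, hkS⟩ := (Nat.dvd_prime_pow hp).mp h2
      rw [hkS] at h1
      have hnk : n ≤ k := (Nat.pow_dvd_pow_iff_le_right hp.one_lt).mp h1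
      rcases Nat.lt_or_ge n k with h | h
      · have hk1 : k = n + 1 := by omega
        apply Subgroup.eq_top_of_card_eq
        rw [hkS, hk1, hcard]
      · have hk' : k = n := le_antisymm h hnk
        have hMS' : M = S := Subgroup.eq_of_le_of_card_ge hMS (by rw [hkS, hk', hM])
        exact absurd (hMS' ▸ hxS) hx
    intro g
    have hg : g ∈ S := hStop ▸ Subgroup.mem_top g
    exact hg

theorem ld_chain (p : ℕ) [Fact p.Prime] [CharP F p] [FiniteDimensional F V]
    {P : Type v} [Group P] [Finite P] (hP : IsPGroup p P)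
    (ρ : P →* Module.End F V) (W U : Submodule F V)
    (hW : ∀ g : P, ∀ w ∈ W, ρ g w ∈ W) (hU : ∀ g : P, ∀ u ∈ U, ρ g u ∈ U) (hWU : W ≤ U) :
    ∀ j : ℕ, finrank F W + j ≤ finrank F U →
      ∃ X : Submodule F V, (∀ g : P, ∀ x ∈ X, ρ g x ∈ X) ∧ W ≤ X ∧ X ≤ U ∧
        finrank F X = finrank F W + j := by
  obtain ⟨n, hn⟩ := IsPGroup.iff_card.mp hP
  intro j
  induction j with
  | zero => intro _; exact ⟨W, hW, le_rfl, hWU, rfl⟩
  | succ j ih =>
    intro hj
    obtain ⟨X, hX, hWX, hXU, hXr⟩ := ih (by omega)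
    have hne : X ≠ U := by
      intro h
      rw [h] at hXr
      omega
    obtain ⟨v₀, hv₀U, hv₀X⟩ := SetLike.exists_of_lt (lt_of_le_of_ne hXU hne)
    obtain ⟨v, hvU, hvX, hv⟩ := ld_fixed p n P hn ρ X U hX hU v₀ hv₀U hv₀X
    have hv0 : v ≠ 0 := fun h => hvX (h ▸ X.zero_mem)
    refine ⟨X ⊔ (F ∙ v), ?_, le_trans hWX le_sup_left,
      sup_le hXU ((Submodule.span_singleton_le_iff_mem _ _).mpr hvU), ?_⟩
    · intro g y hy
      obtain ⟨x, hx, z, hz, rfl⟩ := Submodule.mem_sup.mp hy
      obtain ⟨c, rfl⟩ := Submodule.mem_span_singleton.mp hz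
      have h3 : ρ g (x + c • v) = (ρ g x + c • (ρ g v - v)) + c • v := by
        rw [map_add, map_smul, smul_sub]
        abel
      rw [h3]
      exact Submodule.add_mem_sup (X.add_mem (hX g x hx) (X.smul_mem c (hv g)))
        (Submodule.smul_mem _ c (Submodule.mem_span_singleton_self v))
    · have h1 := Submodule.finrank_sup_add_finrank_inf_eq X (F ∙ v)
      have h2 : X ⊓ (F ∙ v) = ⊥ :=
        disjoint_iff.mp ((Submodule.disjoint_span_singleton' hv0).mpr hvX)
      rw [h2, finrank_bot, finrank_span_singleton hv0] at h1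
      omega

theorem ld_unip (p : ℕ) [Fact p.Prime] [CharP F p] [FiniteDimensional F V]
    {P : Type v} [Group P] [Finite P] (hP : IsPGroup p P)
    (ρ : P →* Module.End F V) :
    ∀ (d : ℕ) (W U : Submodule F V) (hW : ∀ g : P, ∀ w ∈ W, ρ g w ∈ W)
      (hU : ∀ g : P, ∀ u ∈ U, ρ g u ∈ U),
      W ≤ U → finrank F U = finrank F W + d →
      derivedSeries P (Nat.clog 2 d) ≤ ldStab ρ U W hU hW := by
  intro d
  induction d using Nat.strong_induction_on with
  | _ d ih =>
    intro W U hW hU hWU hd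
    rcases Nat.lt_or_ge d 2 with hd2 | hd2
    · intro x _ u hu
      show ρ x u - u ∈ W
      interval_cases d
      · have hWU' : W = U := Submodule.eq_of_le_of_finrank_eq hWU (by omega)
        rw [← hWU'] at hu
        exact W.sub_mem (hW x u hu) hu
      · obtain ⟨n, hn⟩ := IsPGroup.iff_card.mp hP
        have hne : W ≠ U := by
          intro h
          rw [h] at hd
          omega
        obtain ⟨v₀, hv₀U, hv₀W⟩ := SetLike.exists_of_lt (lt_of_le_of_ne hWU hne)
        obtain ⟨v, hvU, hvW, hv⟩ := ld_fixed p n P hn ρ W U hW hU v₀ hv₀U hv₀W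
        have hv0 : v ≠ 0 := fun h => hvW (h ▸ W.zero_mem)
        have hsup : W ⊔ (F ∙ v) = U := by
          apply Submodule.eq_of_le_of_finrank_eq
            (sup_le hWU ((Submodule.span_singleton_le_iff_mem _ _).mpr hvU))
          have h1 := Submodule.finrank_sup_add_finrank_inf_eq W (F ∙ v)
          have h2 : W ⊓ (F ∙ v) = ⊥ :=
            disjoint_iff.mp ((Submodule.disjoint_span_singleton' hv0).mpr hvW)
          rw [h2, finrank_bot, finrank_span_singleton hv0] at h1
          omega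
        rw [← hsup] at hu
        obtain ⟨y, hy, z, hz, rfl⟩ := Submodule.mem_sup.mp hu
        obtain ⟨c, rfl⟩ := Submodule.mem_span_singleton.mp hz
        have h3 : ρ x (y + c • v) - (y + c • v) = (ρ x y - y) + c • (ρ x v - v) := by
          rw [map_add, map_smul, smul_sub]
          abel
        rw [h3]
        exact W.add_mem (W.sub_mem (hW x y hy) hy) (W.smul_mem c (hv x))
    · obtain ⟨X, hX, hWX, hXU, hXr⟩ := ld_chain p hP ρ W U hW hU hWU ((d + 1) / 2) (by omega)
      have h1 := ih ((d + 1) / 2) (by omega) W X hW hX hWX hXr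
      have h2 := ih (d - (d + 1) / 2) (by omega) X U hX hU hXU (by omega)
      have hk : Nat.clog 2 d = Nat.clog 2 ((d + 1) / 2) + 1 := by
        rw [Nat.clog_of_two_le one_lt_two hd2]
        have h3 : d + 2 - 1 = d + 1 := by omega
        rw [h3]
      have h2' : derivedSeries P (Nat.clog 2 ((d + 1) / 2)) ≤ ldStab ρ U X hU hX :=
        le_trans (derivedSeries_antitone P (Nat.clog_mono_right 2 (by omega))) h2
      rw [hk, derivedSeries_succ]
      refine le_trans (Subgroup.commutator_mono (le_inf h1 h2') (le_inf h1 h2')) ?_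
      rw [Subgroup.commutator_le]
      intro x hx y hy u hu
      have hxX : ∀ t ∈ X, ρ x t - t ∈ W := hx.1
      have hxU : ∀ t ∈ U, ρ x t - t ∈ X := hx.2
      have hyX : ∀ t ∈ X, ρ y t - t ∈ W := hy.1
      have hyU : ∀ t ∈ U, ρ y t - t ∈ X := hy.2
      have key : ∀ t ∈ U, ρ (x * y) t - ρ (y * x) t ∈ W := by
        intro t ht
        have ea : ρ (x * y) t - ρ (y * x) t
            = (ρ x (ρ y t - t) - (ρ y t - t)) - (ρ y (ρ x t - t) - (ρ x t - t)) := by
          rw [map_mul, map_mul, Module.End.mul_apply, Module.End.mul_apply, map_sub, map_sub]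
          abel
        rw [ea]
        exact W.sub_mem (hxX _ (hyU t ht)) (hyX _ (hxU t ht))
      have hu' : ρ (y * x)⁻¹ u ∈ U := hU _ u hu
      have hkey := key _ hu'
      have e : ρ ⁅x, y⁆ u - u = ρ (x * y) (ρ (y * x)⁻¹ u) - ρ (y * x) (ρ (y * x)⁻¹ u) := by
        rw [← Module.End.mul_apply, ← Module.End.mul_apply, ← map_mul, ← map_mul]
        have e1 : x * y * (y * x)⁻¹ = ⁅x, y⁆ := by
          rw [commutatorElement_def]
          group
        rw [e1, mul_inv_cancel, map_one]
        rfl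
      show ρ ⁅x, y⁆ u - u ∈ W
      rw [e]
      exact hkey

theorem ld_charp_main (p : ℕ) [Fact p.Prime] [CharP F p] [FiniteDimensional F V]
    {P : Type v} [Group P] [Finite P] (hP : IsPGroup p P)
    (ρ : P →* Module.End F V) (hρ : Function.Injective ρ) :
    derivedSeries P (Nat.clog 2 (finrank F V)) = ⊥ := by
  rw [eq_bot_iff]
  intro x hx
  have h := ld_unip p hP ρ (finrank F V) ⊥ ⊤
    (by
      intro g w hw
      rw [Submodule.mem_bot] at hw
      rw [hw, map_zero]
      exact Submodule.zero_mem _)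
    (by intro g u _; trivial) bot_le (by simp) hx
  have h1 : ρ x = 1 := by
    ext u
    have h2 : ρ x u - u ∈ (⊥ : Submodule F V) := h u trivial
    rw [Submodule.mem_bot, sub_eq_zero] at h2
    rw [h2]
    rfl
  exact Subgroup.mem_bot.mpr (hρ (by rw [h1, map_one]))

end charp

end Cfsg.Agent.Helper17
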