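import Mathlib
import Cfsg.Agent.Helper17.LinDLp
import Cfsg.Agent.Helper17.LinDLs

namespace Cfsg.Agent.Helper17

open Module

universe u v

theorem ld_main {P : Type v} [Group P] [Finite P] (p : ℕ) [Fact p.Prime] (hP : IsPGroup p P)
    (F : Type u) [Field F] (n : ℕ) (ρ : P →* Matrix.GeneralLinearGroup (Fin n) F)
    (hρ : Function.Injective ρ) : derivedSeries P (Nat.log 2 n + 1) = ⊥ := by
  by_cases hpF : (p : F) = 0
  · haveI : CharP F p := by
      obtain ⟨q, hq⟩ := CharP.exists F
      have hdvd : q ∣ p := (CharP.cast_eq_zero_iff F q p).mp hpF
      have hq1 : q ≠ 1 := CharP.char_ne_one F q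
      have hqp : q = p := ((Nat.dvd_prime (Fact.out : p.Prime)).mp hdvd).resolve_left hq1
      exact hqp ▸ hq
    let ρ' : P →* Module.End F (Fin n → F) :=
      { toFun := fun g => Matrix.toLin' (ρ g : Matrix (Fin n) (Fin n) F)
        map_one' := by
          simp
          rfl
        map_mul' := by
          intro a b
          simp [Matrix.toLin'_mul]
          rfl }
    have hρ' : Function.Injective ρ' := by
      intro a b hab
      apply hρ
      apply Units.ext
      exact Matrix.toLin'.injective hab
    have h := ld_charp_main p hP ρ' hρ'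
    rw [finrank_fin_fun] at h
    have hle : Nat.clog 2 n ≤ Nat.log 2 n + 1 :=
      Nat.clog_le_of_le_pow (le_of_lt (Nat.lt_pow_succ_log_self one_lt_two n))
    exact le_bot_iff.mp (h ▸ derivedSeries_antitone P hle)
  · let ρ' : P →* Module.End (AlgebraicClosure F) (Fin n → AlgebraicClosure F) :=
      { toFun := fun g => Matrix.toLin'
          ((ρ g : Matrix (Fin n) (Fin n) F).map (algebraMap F (AlgebraicClosure F)))
        map_one' := by
          simp
          rfl
        map_mul' := by
          intro a b
          simp [Matrix.map_mul, Matrix.toLin'_mul]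
          rfl }
    have hρ' : Function.Injective ρ' := by
      intro a b hab
      apply hρ
      apply Units.ext
      have h1 : (ρ a : Matrix (Fin n) (Fin n) F).map (algebraMap F (AlgebraicClosure F))
          = (ρ b : Matrix (Fin n) (Fin n) F).map (algebraMap F (AlgebraicClosure F)) :=
        Matrix.toLin'.injective hab
      exact Matrix.map_injective (algebraMap F (AlgebraicClosure F)).injective h1
    have hpK : (p : AlgebraicClosure F) ≠ 0 := by
      intro h
      apply hpF
      apply (algebraMap F (AlgebraicClosure F)).injective
      rw [map_natCast, h, map_zero]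
    have h := ld_semisimple p hpK n (Fin n → AlgebraicClosure F)
      (finrank_fin_fun (AlgebraicClosure F)) P hP ρ'
    rw [eq_bot_iff]
    intro x hx
    have h2 := h hx
    rw [MonoidHom.mem_ker] at h2
    exact Subgroup.mem_bot.mpr (hρ' (by rw [h2, map_one]))

end Cfsg.Agent.Helper17
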