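import Mathlib
import Cfsg.Prelude.Def_LocalEven
import Cfsg.Agent.Helper17.SylIn
import Cfsg.Agent.Helper17.CharP
import Cfsg.Agent.Helper4.Wielandt
import Cfsg.Agent.Helper4.CardMul
import Cfsg.Agent.Helper16.PIrreducible

set_option autoImplicit false

namespace Cfsg.Agent.Helper17

open Cfsg

variable {P : Type*} [Group P] {p : ℕ}

/-- In a `p`-minimal group a proper subgroup containing `S` lies in the unique maximal one. -/
theorem pmin_le_max [Finite P] (hP : Cfsg.IsPMinimal p P) (S : Sylow p P) (M : Subgroup P)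
    (hM : IsCoatom M) (hSM : (S : Subgroup P) ≤ M) (H : Subgroup P) (hSH : (S : Subgroup P) ≤ H)
    (hH : H ≠ ⊤) : H ≤ M := by
  rcases eq_top_or_exists_le_coatom H with h | ⟨M', hM', hHM'⟩
  · exact absurd h hH
  · obtain ⟨_, M₀, _, huniq⟩ := hP S
    have h1 := huniq M' ⟨hM', hSH.trans hHM'⟩
    have h2 := huniq M ⟨hM, hSM⟩
    rw [h2, ← h1]
    exact hHM'

theorem pmin_normal_dichotomy [Finite P] [Fact p.Prime] (hP : Cfsg.IsPMinimal p P) (S : Sylow p P)
    (M : Subgroup P) (hM : IsCoatom M) (hSM : (S : Subgroup P) ≤ M) (N : Subgroup P)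
    (hN : N.Normal) : Cfsg.pResidual p P ≤ N ∨ N ≤ M.normalCore := by
  by_cases h : (S : Subgroup P) ⊔ N = ⊤
  · left
    haveI := hN
    exact Cfsg.Agent.Helper16.pResidual_le_of_le_sup S.2 (h ▸ le_top)
  · right
    haveI := hN
    rw [Subgroup.normal_le_normalCore]
    exact le_sup_right.trans (pmin_le_max hP S M hM hSM _ le_sup_left h)

theorem pmin_residual_not_le [Finite P] [Fact p.Prime] (S : Sylow p P)
    (M : Subgroup P) (hM : IsCoatom M) (hSM : (S : Subgroup P) ≤ M) :
    ¬ Cfsg.pResidual p P ≤ M := by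
  intro h
  apply hM.1
  rw [eq_top_iff, ← Cfsg.Agent.Helper16.pResidual_sup_sylow S]
  exact sup_le h hSM

theorem exists_subnormal_gt {G : Type*} [Group G] {N : Subgroup G} (hN : N.IsSubnormal)
    (hne : N ≠ ⊤) :
    ∃ N₁ : Subgroup G, N₁.IsSubnormal ∧ N < N₁ ∧ N₁ ≤ Subgroup.normalizer (N : Set G) := by
  induction hN with
  | top => exact absurd rfl hne
  | step H K hle hK hn ih =>
    by_cases hHK : H = K
    · subst hHK
      exact ih hne
    · exact ⟨K, hK, lt_of_le_of_ne hle hHK,
        (Subgroup.normal_subgroupOf_iff_le_normalizer hle).1 hn⟩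

theorem pmin_subnormal_aux [Finite P] [Fact p.Prime] (hP : Cfsg.IsPMinimal p P) (S : Sylow p P)
    (M : Subgroup P) (hM : IsCoatom M) (hSM : (S : Subgroup P) ≤ M) :
    ∀ n : ℕ, ∀ N : Subgroup P, N.IsSubnormal → N ≤ M → Nat.card P - Nat.card N = n →
      N ⊓ (S : Subgroup P) ≤ Cfsg.pCore p P := by
  intro n
  induction n using Nat.strong_induction_on with
  | _ n ih =>
    intro N hNs hNM hn
    have hcardlt : ∀ N' : Subgroup P, N < N' → Nat.card P - Nat.card N' < n := by
      intro N' hlt
      have h1 : Nat.card N < Nat.card N' := by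
        by_contra hcon
        push Not at hcon
        exact absurd (Subgroup.eq_of_le_of_card_ge hlt.le hcon) hlt.ne
      have h2 : Nat.card N' ≤ Nat.card P := Subgroup.card_le_card_group N'
      omega
    by_cases hSN : (S : Subgroup P) ≤ Subgroup.normalizer (N : Set P)
    · by_cases hNn : N.Normal
      · -- the normal case: Frattini
        have hsyl : SylIn p ((S : Subgroup P) ⊓ N) N :=
          (sylIn_top S).inf_normal le_top (by rw [Subgroup.normalizer_eq_top_iff.2 hNn])
        obtain ⟨P', hP'⟩ := hsyl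
        haveI := hNn
        have hfr := Sylow.normalizer_sup_eq_top P'
        rw [hP'] at hfr
        have hSnorm : (S : Subgroup P) ≤
            Subgroup.normalizer (((S : Subgroup P) ⊓ N : Subgroup P) : Set P) := by
          apply le_normalizer_of_conj_mem
          intro s hs x hx
          exact ⟨(S : Subgroup P).mul_mem ((S : Subgroup P).mul_mem hs hx.1)
            ((S : Subgroup P).inv_mem hs), hNn.conj_mem x hx.2 s⟩
        have htop : Subgroup.normalizer (((S : Subgroup P) ⊓ N : Subgroup P) : Set P) = ⊤ := by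
          by_contra hcon
          have h1 := pmin_le_max hP S M hM hSM _ hSnorm hcon
          apply hM.1
          rw [eq_top_iff, ← hfr]
          exact sup_le h1 hNM
        have hnorm : ((S : Subgroup P) ⊓ N).Normal := Subgroup.normalizer_eq_top_iff.1 htop
        rw [inf_comm]
        exact le_pCore' hnorm (S.2.to_le inf_le_left)
      · have hNtop : N ≠ ⊤ := by
          rintro rfl
          exact hNn Subgroup.normal_top
        obtain ⟨N₁, hN₁s, hlt, hN₁n⟩ := exists_subnormal_gt hNs hNtop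
        by_cases hN₁M : N₁ ≤ M
        · have h1 := ih _ (hcardlt N₁ hlt) N₁ hN₁s hN₁M rfl
          exact (inf_le_inf_right _ hlt.le).trans h1
        · exfalso
          apply hNn
          rw [← Subgroup.normalizer_eq_top_iff]
          by_contra hcon
          have h1 := pmin_le_max hP S M hM hSM _ hSN hcon
          exact hN₁M (hN₁n.trans h1)
    · -- some `s ∈ S` moves `N`
      obtain ⟨s, hsS, hsN⟩ := SetLike.not_le_iff_exists.1 hSN
      have hconj_sub : (N.map (MulAut.conj s).toMonoidHom).IsSubnormal := by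
        have h1 : N.map (MulAut.conj s).toMonoidHom = N.comap (MulAut.conj s⁻¹).toMonoidHom := by
          ext x
          rw [mem_map_conj, Subgroup.mem_comap]
          simp
        rw [h1]
        exact hNs.comap _
      have hconj_le : N.map (MulAut.conj s).toMonoidHom ≤ M := by
        rintro _ ⟨x, hx, rfl⟩
        simp only [MulEquiv.coe_toMonoidHom, MulAut.conj_apply]
        exact M.mul_mem (M.mul_mem (hSM hsS) (hNM hx)) (M.inv_mem (hSM hsS))
      have hsup_sub := Cfsg.Agent.Helper4.isSubnormal_sup N _ hNs hconj_sub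
      have hlt : N < N ⊔ N.map (MulAut.conj s).toMonoidHom := by
        refine lt_of_le_of_ne le_sup_left ?_
        intro heq
        apply hsN
        have hle : N.map (MulAut.conj s).toMonoidHom ≤ N := le_sup_right.trans heq.ge
        have heq2 : N.map (MulAut.conj s).toMonoidHom = N :=
          Subgroup.eq_of_le_of_card_ge hle (by rw [card_map_conj])
        exact mem_normalizer_of_map_conj_eq N heq2
      have h1 := ih _ (hcardlt _ hlt) _ hsup_sub (sup_le hNM hconj_le) rfl
      exact (inf_le_inf_right _ hlt.le).trans h1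

theorem pmin_two_primes_core [Finite P] [Fact p.Prime] (hP : Cfsg.IsPMinimal p P) (S : Sylow p P)
    (M : Subgroup P) (hM : IsCoatom M) (hSM : (S : Subgroup P) ≤ M)
    (R : Subgroup P) [hRn : R.Normal]
    (hRq : ∀ x : P, (orderOf x).Coprime p → x ∈ R)
    (hRsup : ∀ (K : Subgroup P) (S₁ : Sylow p ↥K), K ≤ R ⊔ (S₁ : Subgroup ↥K).map K.subtype)
    (hT : ∀ T : Sylow p ↥R, (T : Subgroup ↥R).Normal) :
    (Nat.card P).primeFactors.card ≤ 2 := by
  classical
  have hpp : p.Prime := Fact.out
  obtain ⟨T'⟩ : Nonempty (Sylow p ↥R) := inferInstance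
  have hT'n := hT T'
  haveI hTchar : (T' : Subgroup ↥R).Characteristic := Sylow.characteristic_of_normal T' hT'n
  obtain ⟨T, hTdef⟩ : ∃ T, T = (T' : Subgroup ↥R).map R.subtype := ⟨_, rfl⟩
  have hTn : T.Normal := by
    rw [hTdef]
    exact ConjAct.normal_of_characteristic_of_normal
  have hTp : IsPGroup p T := by
    rw [hTdef]
    exact T'.2.map _
  have hTR : T ≤ R := by
    rw [hTdef]
    exact Subgroup.map_subtype_le _
  have hK1 : ∀ K : Subgroup P, K ≤ R → IsPGroup p K → K ≤ T := by
    intro K hKR hKp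
    have h1 : IsPGroup p (K.subgroupOf R) := hKp.comap_subtype
    obtain ⟨Q'', hQ''⟩ := h1.exists_le_sylow
    obtain ⟨g, hg⟩ := MulAction.exists_smul_eq ↥R T' Q''
    haveI := hT'n
    rw [Sylow.smul_eq_of_normal] at hg
    rw [← hg] at hQ''
    intro x hx
    rw [hTdef]
    have hx' : (⟨x, hKR hx⟩ : ↥R) ∈ K.subgroupOf R := hx
    exact ⟨⟨x, hKR hx⟩, hQ'' hx', rfl⟩
  have hcardT : Nat.card T = Nat.card (T' : Subgroup ↥R) := by
    rw [hTdef]
    exact Subgroup.card_map_of_injective (Subgroup.subtype_injective R)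
  have hidx : ¬ p ∣ (T' : Subgroup ↥R).index := T'.not_dvd_index
  have hcardR : Nat.card R = Nat.card T * (T' : Subgroup ↥R).index := by
    rw [hcardT]
    exact (Subgroup.card_mul_index (T' : Subgroup ↥R)).symm
  have hTtop : (⊤ : Subgroup P) ≤ Subgroup.normalizer (T : Set P) := by
    rw [Subgroup.normalizer_eq_top_iff.2 hTn]
  have hRtop : (⊤ : Subgroup P) ≤ Subgroup.normalizer (R : Set P) := by
    rw [Subgroup.normalizer_eq_top_iff.2 hRn]
  have hclaim : ∀ q : ℕ, q.Prime → q ≠ p → ∃ H : Subgroup P, (S : Subgroup P) ≤ H ∧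
      q ^ (Nat.card P).factorization q ∣ Nat.card H ∧
      ∀ r : ℕ, r.Prime → r ∣ Nat.card H → r = p ∨ r = q := by
    intro q hq hqp
    haveI : Fact q.Prime := ⟨hq⟩
    obtain ⟨Q⟩ : Nonempty (Sylow q P) := inferInstance
    have hQR : (Q : Subgroup P) ≤ R := by
      intro x hx
      apply hRq
      obtain ⟨k, hk⟩ := (IsPGroup.iff_orderOf.1 Q.2) ⟨x, hx⟩
      rw [Subgroup.orderOf_mk] at hk
      rw [hk]
      exact Nat.Coprime.pow_left _ ((Nat.coprime_primes hq hpp).2 hqp)
    obtain ⟨N₂, hN₂def⟩ : ∃ N₂, N₂ = Subgroup.normalizer ((Q : Subgroup P) : Set P) := ⟨_, rfl⟩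
    have hfr : N₂ ⊔ R = ⊤ := by
      have h1 := Sylow.normalizer_sup_eq_top (Q.subtype hQR)
      rw [Sylow.coe_subtype, Subgroup.map_subgroupOf_eq_of_le hQR] at h1
      rw [hN₂def]
      exact h1
    obtain ⟨S₁'⟩ : Nonempty (Sylow p ↥N₂) := inferInstance
    obtain ⟨S₁, hS₁def⟩ : ∃ S₁, S₁ = (S₁' : Subgroup ↥N₂).map N₂.subtype := ⟨_, rfl⟩
    have hS₁N₂ : S₁ ≤ N₂ := by
      rw [hS₁def]
      exact Subgroup.map_subtype_le _
    have hS₁p : IsPGroup p S₁ := by
      rw [hS₁def]
      exact S₁'.2.map _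
    have hK2 : R ⊔ S₁ = ⊤ := by
      rw [eq_top_iff, ← hfr]
      have h1 : N₂ ≤ R ⊔ S₁ := by
        rw [hS₁def]
        exact hRsup N₂ S₁'
      exact sup_le h1 le_sup_left
    have hK3 : S₁ ⊓ R ≤ T := hK1 _ inf_le_right (hS₁p.to_le inf_le_left)
    have hinf : S₁ ⊓ T = S₁ ⊓ R := le_antisymm (inf_le_inf_left _ hTR) (le_inf inf_le_left hK3)
    have hc1 : Nat.card P * Nat.card (S₁ ⊓ R : Subgroup P) = Nat.card S₁ * Nat.card R := by
      have h1 := Cfsg.Agent.Helper4.card_sup_mul_card_inf S₁ R (le_top.trans hRtop)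
      rw [sup_comm, hK2, Subgroup.card_top] at h1
      exact h1
    have hc2 : Nat.card (S₁ ⊔ T : Subgroup P) * Nat.card (S₁ ⊓ R : Subgroup P)
        = Nat.card S₁ * Nat.card T := by
      have h1 := Cfsg.Agent.Helper4.card_sup_mul_card_inf S₁ T (le_top.trans hTtop)
      rw [hinf] at h1
      exact h1
    have hc3 : Nat.card P = Nat.card (S₁ ⊔ T : Subgroup P) * (T' : Subgroup ↥R).index := by
      have hpos : 0 < Nat.card (S₁ ⊓ R : Subgroup P) := Nat.card_pos
      have h5 : Nat.card P * Nat.card (S₁ ⊓ R : Subgroup P)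
          = (Nat.card (S₁ ⊔ T : Subgroup P) * (T' : Subgroup ↥R).index)
            * Nat.card (S₁ ⊓ R : Subgroup P) := by
        rw [hc1, hcardR]
        calc Nat.card S₁ * (Nat.card T * (T' : Subgroup ↥R).index)
            = (Nat.card S₁ * Nat.card T) * (T' : Subgroup ↥R).index := by ring
          _ = (Nat.card (S₁ ⊔ T : Subgroup P) * Nat.card (S₁ ⊓ R : Subgroup P))
              * (T' : Subgroup ↥R).index := by rw [hc2]
          _ = _ := by ring
      exact Nat.eq_of_mul_eq_mul_right hpos h5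
    have hSTp : IsPGroup p (S₁ ⊔ T : Subgroup P) := by
      haveI := hTn
      exact hS₁p.to_sup_of_normal_right hTp
    have hidx2 : ¬ p ∣ (S₁ ⊔ T : Subgroup P).index := by
      have h1 : (S₁ ⊔ T : Subgroup P).index = (T' : Subgroup ↥R).index := by
        have h2 := Subgroup.card_mul_index (S₁ ⊔ T : Subgroup P)
        rw [hc3] at h2
        exact Nat.eq_of_mul_eq_mul_left Nat.card_pos h2
      rw [h1]
      exact hidx
    obtain ⟨S'', hS''coe⟩ : ∃ S'' : Sylow p P, (S'' : Subgroup P) = S₁ ⊔ T :=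
      ⟨hSTp.toSylow hidx2, rfl⟩
    obtain ⟨g, hg⟩ := MulAction.exists_smul_eq P S'' S
    have hS₁Q : S₁ ≤ Subgroup.normalizer ((Q : Subgroup P) : Set P) := hN₂def ▸ hS₁N₂
    obtain ⟨H', hH'def⟩ : ∃ H', H' = (S₁ ⊔ (Q : Subgroup P)) ⊔ T := ⟨_, rfl⟩
    have hd1 : Nat.card (S₁ ⊔ (Q : Subgroup P) : Subgroup P)
        ∣ Nat.card S₁ * Nat.card (Q : Subgroup P) :=
      Dvd.intro _ (Cfsg.Agent.Helper4.card_sup_mul_card_inf S₁ Q hS₁Q)
    have hd2 : Nat.card H' ∣ Nat.card (S₁ ⊔ (Q : Subgroup P) : Subgroup P) * Nat.card T := by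
      rw [hH'def]
      exact Dvd.intro _ (Cfsg.Agent.Helper4.card_sup_mul_card_inf _ T (le_top.trans hTtop))
    have hd3 : Nat.card H' ∣ Nat.card S₁ * Nat.card (Q : Subgroup P) * Nat.card T :=
      hd2.trans (Nat.mul_dvd_mul_right hd1 _)
    refine ⟨H'.map (MulAut.conj g).toMonoidHom, ?_, ?_, ?_⟩
    · rw [← hg, sylow_smul_coe, hS''coe, hH'def]
      apply Subgroup.map_mono
      exact sup_le (le_sup_left.trans le_sup_left) le_sup_right
    · rw [card_map_conj, ← Sylow.card_eq_multiplicity Q]
      apply Subgroup.card_dvd_of_le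
      rw [hH'def]
      exact le_sup_right.trans le_sup_left
    · intro r hr hrd
      rw [card_map_conj] at hrd
      have h1 := hrd.trans hd3
      obtain ⟨a, ha⟩ := IsPGroup.iff_card.1 hS₁p
      obtain ⟨b, hb⟩ := IsPGroup.iff_card.1 hTp
      obtain ⟨c, hc⟩ := IsPGroup.iff_card.1 Q.2
      rw [ha, hb, hc] at h1
      rcases (Nat.Prime.dvd_mul hr).1 h1 with h2 | h2
      · rcases (Nat.Prime.dvd_mul hr).1 h2 with h3 | h3
        · left
          exact (Nat.prime_dvd_prime_iff_eq hr hpp).1 (hr.dvd_of_dvd_pow h3)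
        · right
          exact (Nat.prime_dvd_prime_iff_eq hr hq).1 (hr.dvd_of_dvd_pow h3)
      · left
        exact (Nat.prime_dvd_prime_iff_eq hr hpp).1 (hr.dvd_of_dvd_pow h2)
  by_contra hcard
  push Not at hcard
  have hne : Nat.card P ≠ 0 := Nat.card_pos.ne'
  have hMne : Nat.card M ≠ 0 := Nat.card_pos.ne'
  have hdvd : Nat.card P ∣ Nat.card M := by
    rw [← Nat.factorization_prime_le_iff_dvd hne hMne]
    intro q hq
    rw [← Nat.Prime.pow_dvd_iff_le_factorization hq hMne]
    by_cases hqp : q = p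
    · subst hqp
      rw [← Sylow.card_eq_multiplicity S]
      exact Subgroup.card_dvd_of_le hSM
    · by_cases hqd : q ∣ Nat.card P
      · obtain ⟨H, hSH, hqH, hprimes⟩ := hclaim q hq hqp
        have hHne : H ≠ ⊤ := by
          rintro rfl
          have hex : ∃ r ∈ (Nat.card P).primeFactors, r ≠ p ∧ r ≠ q := by
            by_contra hcon
            push Not at hcon
            have hsub : (Nat.card P).primeFactors ⊆ {p, q} := by
              intro r hr
              by_cases hrp : r = p
              · simp [hrp]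
              · simp [hcon r hr hrp]
            have h1 := Finset.card_le_card hsub
            have h2 : ({p, q} : Finset ℕ).card ≤ 2 := Finset.card_le_two
            omega
          obtain ⟨r, hr, hrp, hrq⟩ := hex
          have hrprime := Nat.prime_of_mem_primeFactors hr
          have hrdvd := Nat.dvd_of_mem_primeFactors hr
          rw [← Subgroup.card_top (G := P)] at hrdvd
          rcases hprimes r hrprime hrdvd with h | h
          · exact hrp h
          · exact hrq h
        have hHM := pmin_le_max hP S M hM hSM H hSH hHne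
        exact hqH.trans (Subgroup.card_dvd_of_le hHM)
      · rw [Nat.factorization_eq_zero_of_not_dvd hqd, pow_zero]
        exact one_dvd _
  apply hM.1
  have h3 : Nat.card M = Nat.card P := Nat.dvd_antisymm (Subgroup.card_subgroup_dvd_card M) hdvd
  exact (Subgroup.card_eq_iff_eq_top M).1 h3

end Cfsg.Agent.Helper17
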