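import Mathlib
import Cfsg.Prelude.Def_LocalEven
import Cfsg.Prelude.Def_Local
import Cfsg.Agent.Helper17.PMin
import Cfsg.Agent.Helper17.SylConn
import Cfsg.Agent.Helper17.CD
import Cfsg.Agent.Helper1.Coprime2
import Cfsg.Agent.Helper9.Comp
import Cfsg.Agent.Helper9.Layer
import Cfsg.Agent.Helper9.Layer2
import Cfsg.Agent.Helper9.Fitting
import Cfsg.Agent.Helper9.PComp
import Cfsg.Agent.Helper9.Balance
import Cfsg.Agent.Helper9.ABLemma
import Cfsg.Agent.Helper16.Subnormal
import Cfsg.Agent.Helper16.YMinimal3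

set_option autoImplicit false

namespace Cfsg.Agent.Helper17

open Cfsg
open scoped commutatorElement

universe u

variable {P : Type u} [Group P] {p : ℕ}

/-- A subgroup of `N` containing a full Sylow subgroup of `N` for every prime is `N`. -/
theorem eq_of_forall_prime_sylow_le [Finite P] (N H : Subgroup P) (hHN : H ≤ N)
    (h : ∀ r : ℕ, r.Prime → ∃ Q : Subgroup P, Q ≤ H ∧
      Nat.card Q = r ^ (Nat.card N).factorization r) : H = N := by
  have hN0 : Nat.card N ≠ 0 := Nat.card_pos.ne'
  have hH0 : Nat.card H ≠ 0 := Nat.card_pos.ne'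
  have hdvd : Nat.card N ∣ Nat.card H := by
    rw [← Nat.factorization_prime_le_iff_dvd hN0 hH0]
    intro r hr
    obtain ⟨Q, hQH, hQ⟩ := h r hr
    have h1 : r ^ (Nat.card N).factorization r ∣ Nat.card H := by
      rw [← hQ]
      exact Subgroup.card_dvd_of_le hQH
    exact (hr.pow_dvd_iff_le_factorization hH0).1 h1
  exact Subgroup.eq_of_le_of_card_ge hHN (Nat.le_of_dvd Nat.card_pos hdvd)

/-- A normal subgroup meeting a Sylow `p`-subgroup trivially has order prime to `p`. -/
theorem coprime_card_of_inf_sylow_eq_bot [Finite P] [Fact p.Prime] (S : Sylow p P)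
    (N : Subgroup P) [hN : N.Normal] (h : N ⊓ (S : Subgroup P) = ⊥) :
    (Nat.card N).Coprime p := by
  apply Helper9.coprime_card_of_no_order_p
  intro g hg
  have hgp : IsPGroup p (Subgroup.zpowers (g : P)) := by
    apply IsPGroup.of_card (n := 1)
    rw [Nat.card_zpowers, Subgroup.orderOf_coe, hg, pow_one]
  obtain ⟨c, hc⟩ := exists_conj_le_sylow S _ hgp
  have h1 : c * (g : P) * c⁻¹ ∈ (S : Subgroup P) :=
    hc ⟨(g : P), Subgroup.mem_zpowers _, rfl⟩
  have h2 : c * (g : P) * c⁻¹ ∈ N := hN.conj_mem _ g.2 c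
  have h3 : c * (g : P) * c⁻¹ ∈ N ⊓ (S : Subgroup P) := Subgroup.mem_inf.2 ⟨h2, h1⟩
  rw [h, Subgroup.mem_bot] at h3
  have h4 : (g : P) = 1 := by
    have h5 : (g : P) = c⁻¹ * (c * (g : P) * c⁻¹) * c := by group
    rw [h5, h3]
    group
  have h6 : g = 1 := Subtype.ext h4
  rw [h6, orderOf_one] at hg
  exact (Fact.out : p.Prime).one_lt.ne hg

theorem isSolvable_of_isPGroup [Finite P] [Fact p.Prime] (S : Subgroup P) (hS : IsPGroup p S) :
    Group.IsSolvable S := by
  haveI : Group.IsNilpotent S := hS.isNilpotent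
  infer_instance

/-- A normal subgroup `N ≤ M` of a `p`-minimal group with `O_p = 1` contains no component. -/
theorem pmin_no_component_le [Finite P] [Fact p.Prime] (hP : Cfsg.IsPMinimal p P) (S : Sylow p P)
    (M : Subgroup P) (hM : IsCoatom M) (hSM : (S : Subgroup P) ≤ M)
    (hOp : Cfsg.pCore p P = ⊥) (N : Subgroup P) [hN : N.Normal] (hNM : N ≤ M)
    (K : Subgroup P) (hK : Cfsg.IsComponent K) (hKN : K ≤ N) : False := by
  have h1 : N ⊓ (S : Subgroup P) = ⊥ := by
    have := pmin_subnormal_aux hP S M hM hSM (Nat.card P - Nat.card N) N hN.isSubnormal hNM rfl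
    rw [hOp] at this
    exact le_bot_iff.1 this
  have hcop : (Nat.card N).Coprime p := coprime_card_of_inf_sylow_eq_bot S N h1
  obtain ⟨n, hn⟩ := IsPGroup.iff_card.1 S.isPGroup'
  have hcop' : (Nat.card (S : Subgroup P)).Coprime (Nat.card N) := by
    rw [hn]
    exact (Nat.Coprime.pow_left n hcop.symm)
  have hSN : (S : Subgroup P) ≤ Subgroup.normalizer (N : Set P) := by
    rw [Subgroup.normalizer_eq_top_iff.2 hN]
    exact le_top
  have hall : ∀ r : ℕ, r.Prime → ∃ Q : Subgroup P, Q ≤ N ⊓ Cfsg.fittingSubgroup P ∧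
      Nat.card Q = r ^ (Nat.card N).factorization r := by
    intro r hr
    haveI : Fact r.Prime := ⟨hr⟩
    obtain ⟨Q, hQN, hQcard, hSQ⟩ := Helper1.inv_sylow_exists (S : Subgroup P) N hSN hcop'
      (Or.inl (isSolvable_of_isPGroup _ S.isPGroup')) r
    refine ⟨Q, le_inf hQN ?_, hQcard⟩
    have hnorm : Subgroup.normalizer (Q : Set P) = ⊤ := by
      by_contra hne
      have hle := pmin_le_max hP S M hM hSM _ hSQ hne
      have hcard' : Nat.card (Q.subgroupOf N) = r ^ (Nat.card N).factorization r := by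
        rw [Nat.card_congr (Subgroup.subgroupOfEquivOfLe hQN).toEquiv]
        exact hQcard
      have hfr := Sylow.normalizer_sup_eq_top (Sylow.ofCard (Q.subgroupOf N) hcard')
      rw [Sylow.coe_ofCard, Subgroup.map_subgroupOf_eq_of_le hQN] at hfr
      have : (⊤ : Subgroup P) ≤ M := by
        rw [← hfr]
        exact sup_le hle hNM
      exact hM.1 (top_le_iff.1 this)
    have hQn : Q.Normal := Subgroup.normalizer_eq_top_iff.1 hnorm
    have hQr : IsPGroup r Q := IsPGroup.of_card hQcard
    haveI : Group.IsNilpotent Q := hQr.isNilpotent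
    exact Helper9.le_fitting hQn inferInstance
  have heq := eq_of_forall_prime_sylow_le N (N ⊓ Cfsg.fittingSubgroup P) inf_le_left hall
  have hNF : N ≤ Cfsg.fittingSubgroup P := by
    rw [← heq]
    exact inf_le_right
  haveI : Group.IsNilpotent (Cfsg.fittingSubgroup P) := Helper9.fitting_nilpotent
  exact Helper9.component_not_le_solvable hK (H := Cfsg.fittingSubgroup P) inferInstance
    (hKN.trans hNF)

/-- A `p`-minimal group `P = E S` with `E` a normal `p'`-subgroup: `E` contains no component. -/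
theorem pmin_no_component_pprime [Finite P] [Fact p.Prime] (hP : Cfsg.IsPMinimal p P)
    (S : Sylow p P) (M : Subgroup P) (hM : IsCoatom M) (hSM : (S : Subgroup P) ≤ M)
    (E : Subgroup P) [hE : E.Normal] (hES : E ⊔ (S : Subgroup P) = ⊤)
    (hcop : (Nat.card E).Coprime p)
    (K : Subgroup P) (hK : Cfsg.IsComponent K) (hKE : K ≤ E) : False := by
  obtain ⟨n, hn⟩ := IsPGroup.iff_card.1 S.isPGroup'
  have hcop' : (Nat.card (S : Subgroup P)).Coprime (Nat.card E) := by
    rw [hn]
    exact (Nat.Coprime.pow_left n hcop.symm)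
  have hSE : (S : Subgroup P) ≤ Subgroup.normalizer (E : Set P) := by
    rw [Subgroup.normalizer_eq_top_iff.2 hE]
    exact le_top
  have hinf : (S : Subgroup P) ⊓ E = ⊥ := by
    rw [← Subgroup.card_eq_one]
    have h1 : Nat.card ((S : Subgroup P) ⊓ E : Subgroup P) ∣ Nat.card (S : Subgroup P) :=
      Subgroup.card_dvd_of_le inf_le_left
    have h2 : Nat.card ((S : Subgroup P) ⊓ E : Subgroup P) ∣ Nat.card E :=
      Subgroup.card_dvd_of_le inf_le_right
    exact Nat.eq_one_of_dvd_coprimes hcop' h1 h2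
  have hcardP := Helper4.card_sup_mul_card_inf (S : Subgroup P) E hSE
  rw [hinf, Subgroup.card_bot, mul_one, sup_comm, hES] at hcardP
  have hall : ∀ r : ℕ, r.Prime → ∃ Q : Subgroup P, Q ≤ E ⊓ M ∧
      Nat.card Q = r ^ (Nat.card E).factorization r := by
    intro r hr
    haveI : Fact r.Prime := ⟨hr⟩
    obtain ⟨Q, hQE, hQcard, hSQ⟩ := Helper1.inv_sylow_exists (S : Subgroup P) E hSE hcop'
      (Or.inl (isSolvable_of_isPGroup _ S.isPGroup')) r
    refine ⟨Q, le_inf hQE ?_, hQcard⟩
    by_cases htop : (S : Subgroup P) ⊔ Q = ⊤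
    · exfalso
      have hc := Helper4.card_sup_mul_card_inf (S : Subgroup P) Q hSQ
      rw [htop] at hc
      have hpos : 0 < Nat.card ((S : Subgroup P) ⊓ Q : Subgroup P) := Nat.card_pos
      have hle : Nat.card (⊤ : Subgroup P) ≤ Nat.card (S : Subgroup P) * Nat.card Q := by
        rw [← hc]
        exact Nat.le_mul_of_pos_right _ hpos
      rw [hcardP] at hle
      have hEQ : Nat.card E ≤ Nat.card Q :=
        Nat.le_of_mul_le_mul_left hle Nat.card_pos
      have hQeq : Q = E := Subgroup.eq_of_le_of_card_ge hQE hEQ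
      have hEr : IsPGroup r E := by
        rw [← hQeq]
        exact IsPGroup.of_card hQcard
      haveI : Group.IsNilpotent E := hEr.isNilpotent
      exact Helper9.component_not_le_solvable hK (H := E) inferInstance hKE
    · exact le_sup_right.trans (pmin_le_max hP S M hM hSM _ le_sup_left htop)
  have heq := eq_of_forall_prime_sylow_le E (E ⊓ M) inf_le_left hall
  have hEM : E ≤ M := by
    rw [← heq]
    exact inf_le_right
  have : (⊤ : Subgroup P) ≤ M := by
    rw [← hES]
    exact sup_le hEM hSM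
  exact hM.1 (top_le_iff.1 this)

/-- A criterion for `p`-minimality. -/
theorem isPMinimal_of_unique {H : Type u} [Group H] [Finite H] [Fact p.Prime]
    (S₀ M₀ : Subgroup H) (hS₀ : IsPGroup p S₀)
    (hM₀ : M₀ ≠ ⊤) (ha : ∀ H₁ : Subgroup H, H₁ ≠ ⊤ → S₀ ≤ H₁ → H₁ ≤ M₀)
    (hb : ∀ S' : Sylow p H, ¬ (S' : Subgroup H).Normal) : Cfsg.IsPMinimal p H := by
  intro S'
  refine ⟨hb S', ?_⟩
  obtain ⟨S'', hS''⟩ := hS₀.exists_le_sylow
  obtain ⟨g, hg⟩ := MulAction.exists_smul_eq H S' S''
  have key : ∀ M' : Subgroup H, IsCoatom M' → (S' : Subgroup H) ≤ M' →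
      M' = M₀.comap (MulAut.conj g).toMonoidHom := by
    intro M' hM' hle
    have h1 : S₀ ≤ M'.map (MulAut.conj g).toMonoidHom := by
      intro s hs
      have h2 : s ∈ ((g • S' : Sylow p H) : Subgroup H) := by rw [hg]; exact hS'' hs
      rw [mem_sylow_smul_iff] at h2
      rw [mem_map_conj]
      exact hle h2
    have h3 : M'.map (MulAut.conj g).toMonoidHom ≠ ⊤ := by
      intro htop
      apply hM'.1
      rw [eq_top_iff]
      intro y _
      have h4 : g * y * g⁻¹ ∈ M'.map (MulAut.conj g).toMonoidHom := by rw [htop]; trivial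
      rw [mem_map_conj] at h4
      have h5 : g⁻¹ * (g * y * g⁻¹) * g = y := by group
      rw [h5] at h4
      exact h4
    have h6 := ha _ h3 h1
    have h7 : M' ≤ M₀.comap (MulAut.conj g).toMonoidHom := Subgroup.map_le_iff_le_comap.1 h6
    have h8 : M₀.comap (MulAut.conj g).toMonoidHom ≠ ⊤ := by
      intro htop
      apply hM₀
      rw [eq_top_iff]
      intro y _
      have h9 : g⁻¹ * y * g ∈ M₀.comap (MulAut.conj g).toMonoidHom := by rw [htop]; trivial
      rw [Subgroup.mem_comap] at h9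
      have h10 : (MulAut.conj g).toMonoidHom (g⁻¹ * y * g) = y := by
        simp [MulAut.conj_apply]
        group
      rw [h10] at h9
      exact h9
    by_contra hne
    exact h8 (hM'.2 _ (lt_of_le_of_ne h7 hne))
  have hS'top : (S' : Subgroup H) ≠ ⊤ := by
    intro htop
    apply hb S'
    rw [htop]
    infer_instance
  rcases eq_top_or_exists_le_coatom (S' : Subgroup H) with h | ⟨M', hM', hle⟩
  · exact absurd h hS'top
  · exact ⟨M', ⟨hM', hle⟩, fun M'' h => (key M'' h.1 h.2).trans (key M' hM' hle).symm⟩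

end Cfsg.Agent.Helper17
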