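import Mathlib
import Cfsg.Agent.Helper17.PMinComp

set_option autoImplicit false

namespace Cfsg.Agent.Helper17

open Cfsg
open scoped commutatorElement

universe u

variable {P : Type u} [Group P] {p : ℕ}

theorem component_le_pResidual [Finite P] [Fact p.Prime] (K : Subgroup P)
    (hK : Cfsg.IsComponent K) : K ≤ Cfsg.pResidual p P := by
  haveI hRn : (Cfsg.pResidual p P).Normal := Helper16.pResidual_normal p P
  have hpg : IsPGroup p (↥K ⧸ (Cfsg.pResidual p P).subgroupOf K) := by
    intro g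
    induction g using QuotientGroup.induction_on with
    | H k =>
      obtain ⟨j, hj⟩ := Helper16.exists_pow_mem_pResidual (p := p) (k : P)
      refine ⟨j, ?_⟩
      rw [← QuotientGroup.mk_pow, QuotientGroup.eq_one_iff, Subgroup.mem_subgroupOf]
      simpa using hj
  have htop := Helper9.perfect_quotient_pgroup_top p hK.2.1 _ hpg
  exact Subgroup.subgroupOf_eq_top.1 htop

theorem layer_le_normalizer_component [Finite P] (L : Subgroup P) (hL : Cfsg.IsComponent L) :
    Cfsg.layer P ≤ Subgroup.normalizer (L : Set P) := by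
  apply sSup_le
  intro L' hL'
  by_cases hne : L' = L
  · rw [hne]
    exact Subgroup.le_normalizer
  · have h1 := Helper9.components_commute hL' hL hne
    exact (Subgroup.commutator_eq_bot_iff_le_centralizer.1 h1).trans
      (Subgroup.centralizer_le_normalizer _)

theorem pmin_layer_facts [Finite P] [Fact p.Prime] (hP : Cfsg.IsPMinimal p P)
    (hOp : Cfsg.pCore p P = ⊥) (S : Sylow p P) (K : Subgroup P) (hK : Cfsg.IsComponent K) :
    Cfsg.pResidual p P = Cfsg.layer P ∧ Cfsg.fittingSubgroup P ≤ Cfsg.layer P := by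
  obtain ⟨-, M, ⟨hM, hSM⟩, -⟩ := hP S
  haveI hEn : (Cfsg.layer P).Normal := Helper9.layer_normal
  have hRE : Cfsg.pResidual p P ≤ Cfsg.layer P := by
    rcases pmin_normal_dichotomy hP S M hM hSM (Cfsg.layer P) hEn with h | h
    · exact h
    · exfalso
      exact pmin_no_component_le hP S M hM hSM hOp (Cfsg.layer P)
        (h.trans (Subgroup.normalCore_le M)) K hK (Helper9.le_layer hK)
  have hER : Cfsg.layer P ≤ Cfsg.pResidual p P :=
    sSup_le (fun L hL => component_le_pResidual L hL)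
  refine ⟨le_antisymm hRE hER, ?_⟩
  rw [Helper9.fitting_eq_iSup_pCore]
  apply iSup_le
  intro q x hx
  by_cases hq : (q : ℕ) = p
  · rw [hq, hOp, Subgroup.mem_bot] at hx
    rw [hx]
    exact Subgroup.one_mem _
  · haveI : Fact (q : ℕ).Prime := ⟨q.2⟩
    obtain ⟨k, hk⟩ := (IsPGroup.iff_orderOf.1 (Helper9.pCore_isPGroup (G := P) (q : ℕ))) ⟨x, hx⟩
    rw [Subgroup.orderOf_mk] at hk
    apply hRE
    apply Helper16.mem_pResidual_of_coprime
    rw [hk]
    exact Nat.Coprime.pow_left k ((Nat.coprime_primes q.2 (Fact.out : p.Prime)).2 hq)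

theorem iSup_conj_le_normalizer [Finite P] (S : Subgroup P) (X : Subgroup P) :
    S ≤ Subgroup.normalizer
      ((⨆ s : ↥S, X.map (MulAut.conj (s : P)).toMonoidHom : Subgroup P) : Set P) := by
  intro t ht
  apply Helper9.mem_normalizer_of_map_conj_le
  rw [Subgroup.map_iSup]
  apply iSup_le
  intro s
  rw [map_conj_map_conj]
  exact le_iSup (fun s : ↥S => X.map (MulAut.conj (s : P)).toMonoidHom) ⟨t * s, S.mul_mem ht s.2⟩

theorem le_iSup_conj (S : Subgroup P) (X : Subgroup P) :
    X ≤ (⨆ s : ↥S, X.map (MulAut.conj (s : P)).toMonoidHom : Subgroup P) := by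
  have h := le_iSup (fun s : ↥S => X.map (MulAut.conj (s : P)).toMonoidHom) (1 : ↥S)
  have h1 : X.map (MulAut.conj ((1 : ↥S) : P)).toMonoidHom = X := by
    rw [Subgroup.coe_one, map_conj_one]
  rw [h1] at h
  exact h

theorem pmin_layer_eq_iSup [Finite P] [Fact p.Prime] (hP : Cfsg.IsPMinimal p P)
    (hOp : Cfsg.pCore p P = ⊥) (S : Sylow p P) (K : Subgroup P) (hK : Cfsg.IsComponent K) :
    Cfsg.layer P = ⨆ s : ↥(S : Subgroup P), K.map (MulAut.conj (s : P)).toMonoidHom := by
  obtain ⟨-, M, ⟨hM, hSM⟩, -⟩ := hP S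
  obtain ⟨hRE, -⟩ := pmin_layer_facts hP hOp S K hK
  have hcomp : ∀ s : ↥(S : Subgroup P),
      Cfsg.IsComponent (K.map (MulAut.conj (s : P)).toMonoidHom) :=
    fun s => Helper9.component_map_equiv (MulAut.conj (s : P)) K hK
  have hK₁E : (⨆ s : ↥(S : Subgroup P), K.map (MulAut.conj (s : P)).toMonoidHom) ≤ Cfsg.layer P :=
    iSup_le (fun s => Helper9.le_layer (hcomp s))
  have hSn := iSup_conj_le_normalizer (S : Subgroup P) K
  have hEn : Cfsg.layer P ≤ Subgroup.normalizer
      ((⨆ s : ↥(S : Subgroup P), K.map (MulAut.conj (s : P)).toMonoidHom : Subgroup P) : Set P) := by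
    intro e he
    apply Helper9.mem_normalizer_of_map_conj_le
    rw [Subgroup.map_iSup]
    apply iSup_le
    intro s
    rw [map_conj_eq_of_mem_normalizer _ (layer_le_normalizer_component _ (hcomp s) he)]
    exact le_iSup (fun s : ↥(S : Subgroup P) => K.map (MulAut.conj (s : P)).toMonoidHom) s
  have htop : Cfsg.layer P ⊔ (S : Subgroup P) = ⊤ := by
    rw [← hRE]
    exact Helper16.pResidual_sup_sylow S
  have hnorm : (⨆ s : ↥(S : Subgroup P), K.map (MulAut.conj (s : P)).toMonoidHom).Normal := by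
    apply Subgroup.normalizer_eq_top_iff.1
    rw [eq_top_iff, ← htop]
    exact sup_le hEn hSn
  apply le_antisymm _ hK₁E
  rw [← hRE]
  rcases pmin_normal_dichotomy hP S M hM hSM _ hnorm with h | h
  · exact h
  · exfalso
    haveI := hnorm
    exact pmin_no_component_le hP S M hM hSM hOp _ (h.trans (Subgroup.normalCore_le M)) K hK
      (le_iSup_conj (S : Subgroup P) K)

theorem pmin_component_key [Finite P] [Fact p.Prime] (hP : Cfsg.IsPMinimal p P)
    (hOp : Cfsg.pCore p P = ⊥) (S : Sylow p P) (M : Subgroup P) (hM : IsCoatom M)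
    (hSM : (S : Subgroup P) ≤ M) (K : Subgroup P) (hK : Cfsg.IsComponent K)
    (H₁ : Subgroup P)
    (hH₁ : H₁ ≤ K ⊔ ((S : Subgroup P) ⊓ Subgroup.normalizer (K : Set P)))
    (hne : H₁ ≠ K ⊔ ((S : Subgroup P) ⊓ Subgroup.normalizer (K : Set P)))
    (hS₀ : (S : Subgroup P) ⊓ Subgroup.normalizer (K : Set P) ≤ H₁) : H₁ ≤ M := by
  obtain ⟨hRE, -⟩ := pmin_layer_facts hP hOp S K hK
  have hXK : H₁ ⊓ K ≠ K := by
    intro h
    apply hne
    apply le_antisymm hH₁
    exact sup_le (inf_eq_right.1 h) hS₀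
  have hYn := iSup_conj_le_normalizer (S : Subgroup P) (H₁ ⊓ K)
  have hYS : (⨆ s : ↥(S : Subgroup P), (H₁ ⊓ K).map (MulAut.conj (s : P)).toMonoidHom) ⊔
      (S : Subgroup P) ≠ ⊤ := by
    intro htop
    have hnorm : (⨆ s : ↥(S : Subgroup P),
        (H₁ ⊓ K).map (MulAut.conj (s : P)).toMonoidHom).Normal := by
      apply Subgroup.normalizer_eq_top_iff.1
      rw [eq_top_iff, ← htop]
      exact sup_le Subgroup.le_normalizer hYn
    haveI := hnorm
    have hRY : Cfsg.pResidual p P ≤
        (⨆ s : ↥(S : Subgroup P), (H₁ ⊓ K).map (MulAut.conj (s : P)).toMonoidHom) := by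
      apply Helper16.pResidual_le_of_le_sup S.isPGroup'
      rw [sup_comm, htop]
      exact le_top
    have hKY : K ≤ (⨆ s : ↥(S : Subgroup P),
        (H₁ ⊓ K).map (MulAut.conj (s : P)).toMonoidHom) := by
      refine le_trans ?_ hRY
      rw [hRE]
      exact Helper9.le_layer hK
    have hYle : (⨆ s : ↥(S : Subgroup P), (H₁ ⊓ K).map (MulAut.conj (s : P)).toMonoidHom) ≤
        (H₁ ⊓ K) ⊔ Subgroup.centralizer (K : Set P) := by
      apply iSup_le
      intro s
      by_cases hs : (s : P) ∈ Subgroup.normalizer (K : Set P)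
      · refine le_trans ?_ le_sup_left
        have hsH : (s : P) ∈ H₁ := hS₀ (Subgroup.mem_inf.2 ⟨s.2, hs⟩)
        rintro _ ⟨x, hx, rfl⟩
        obtain ⟨hx1, hx2⟩ := Subgroup.mem_inf.1 hx
        refine Subgroup.mem_inf.2 ⟨?_, ?_⟩
        · exact H₁.mul_mem (H₁.mul_mem hsH hx1) (H₁.inv_mem hsH)
        · exact (Subgroup.mem_normalizer_iff.1 hs x).1 hx2
      · refine le_trans ?_ le_sup_right
        have hcs : Cfsg.IsComponent (K.map (MulAut.conj (s : P)).toMonoidHom) :=
          Helper9.component_map_equiv (MulAut.conj (s : P)) K hK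
        have hneK : K.map (MulAut.conj (s : P)).toMonoidHom ≠ K :=
          fun h => hs (mem_normalizer_of_map_conj_eq K h)
        have h1 := Helper9.components_commute hcs hK hneK
        exact (Subgroup.map_mono inf_le_right).trans
          (Subgroup.commutator_eq_bot_iff_le_centralizer.1 h1)
    have hXn : H₁ ⊓ K ≤ Subgroup.normalizer
        ((Subgroup.centralizer (K : Set P) : Subgroup P) : Set P) :=
      inf_le_right.trans (Subgroup.le_normalizer.trans (Helper9.normalizer_le_normalizer_centralizer K))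
    have hcomm : ⁅K, K⁆ ≤ H₁ ⊓ K := by
      rw [Subgroup.commutator_le]
      intro a ha b hb
      obtain ⟨x, hx, c, hc, rfl⟩ := Helper16.mem_sup_of_le_normalizer hXn (hYle (hKY ha))
      obtain ⟨x', hx', c', hc', rfl⟩ := Helper16.mem_sup_of_le_normalizer hXn (hYle (hKY hb))
      have c2 : Commute c' (x * c) := (Subgroup.mem_centralizer_iff.1 hc' (x * c) ha).symm
      have c1 : Commute c x' :=
        (Subgroup.mem_centralizer_iff.1 hc x' (Subgroup.mem_inf.1 hx').2).symm
      rw [commutator_mul_central_right c2, commutator_mul_central_left c1]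
      exact Subgroup.commutator_mem_commutator hx hx' |> fun h =>
        (Subgroup.commutator_le_self (H₁ ⊓ K)) h
    rw [Helper9.component_perfect hK] at hcomm
    exact hXK (le_antisymm inf_le_right hcomm)
  have hYM := pmin_le_max hP S M hM hSM _ le_sup_right hYS
  have hXM : H₁ ⊓ K ≤ M := (le_iSup_conj (S : Subgroup P) (H₁ ⊓ K)).trans (le_sup_left.trans hYM)
  intro h hh
  have hh' : h ∈ ((S : Subgroup P) ⊓ Subgroup.normalizer (K : Set P)) ⊔ K := by
    rw [sup_comm]
    exact hH₁ hh
  obtain ⟨s, hs, k, hk, rfl⟩ := Helper16.mem_sup_of_le_normalizer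
    (inf_le_right : (S : Subgroup P) ⊓ Subgroup.normalizer (K : Set P) ≤ _) hh'
  have hkH : k ∈ H₁ := by
    have h0 := H₁.mul_mem (H₁.inv_mem (hS₀ hs)) hh
    rwa [inv_mul_cancel_left] at h0
  exact M.mul_mem (hSM (Subgroup.mem_inf.1 hs).1) (hXM (Subgroup.mem_inf.2 ⟨hkH, hk⟩))

end Cfsg.Agent.Helper17
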