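import Mathlib
import Cfsg.Agent.Helper17.PMinComp2

set_option autoImplicit false

namespace Cfsg.Agent.Helper17

open Cfsg
open scoped commutatorElement

universe u

variable {P : Type u} [Group P] {p : ℕ}

theorem pmin_component_not_le [Finite P] [Fact p.Prime] (hP : Cfsg.IsPMinimal p P)
    (hOp : Cfsg.pCore p P = ⊥) (S : Sylow p P) (M : Subgroup P) (hM : IsCoatom M)
    (hSM : (S : Subgroup P) ≤ M) (K : Subgroup P) (hK : Cfsg.IsComponent K) : ¬ K ≤ M := by
  intro hKM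
  have hE := pmin_layer_eq_iSup hP hOp S K hK
  obtain ⟨hRE, -⟩ := pmin_layer_facts hP hOp S K hK
  have hEM : Cfsg.layer P ≤ M := by
    rw [hE]
    apply iSup_le
    intro s
    rintro _ ⟨k, hk, rfl⟩
    show (s : P) * k * (s : P)⁻¹ ∈ M
    exact M.mul_mem (M.mul_mem (hSM s.2) (hKM hk)) (M.inv_mem (hSM s.2))
  have htop : Cfsg.layer P ⊔ (S : Subgroup P) = ⊤ := by
    rw [← hRE]
    exact Helper16.pResidual_sup_sylow S
  have : (⊤ : Subgroup P) ≤ M := by
    rw [← htop]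
    exact sup_le hEM hSM
  exact hM.1 (top_le_iff.1 this)

theorem pmin_component_no_normal_sylow [Finite P] [Fact p.Prime] (hP : Cfsg.IsPMinimal p P)
    (hOp : Cfsg.pCore p P = ⊥) (S : Sylow p P) (K : Subgroup P) (hK : Cfsg.IsComponent K)
    (H : Subgroup P) (hKH : K ≤ H) (S' : Sylow p ↥H) : ¬ (S' : Subgroup ↥H).Normal := by
  intro hS'n
  obtain ⟨-, M, ⟨hM, hSM⟩, -⟩ := hP S
  obtain ⟨S₁, hS₁⟩ : ∃ S₁ : Subgroup P, S₁ = (S' : Subgroup ↥H).map H.subtype := ⟨_, rfl⟩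
  have hS₁p : IsPGroup p S₁ := by rw [hS₁]; exact S'.isPGroup'.map _
  have hKS₁ : K ≤ Subgroup.normalizer ((S₁ ⊓ K : Subgroup P) : Set P) := by
    apply le_normalizer_of_conj_mem
    intro k hk x hx
    obtain ⟨hx1, hx2⟩ := Subgroup.mem_inf.1 hx
    refine Subgroup.mem_inf.2 ⟨?_, K.mul_mem (K.mul_mem hk hx2) (K.inv_mem hk)⟩
    rw [hS₁] at hx1 ⊢
    obtain ⟨y, hy, rfl⟩ := hx1
    exact ⟨⟨k, hKH hk⟩ * y * ⟨k, hKH hk⟩⁻¹, hS'n.conj_mem y hy _, rfl⟩
  have hT : S₁ ⊓ K ≤ Cfsg.pCoreOf p K :=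
    Helper16.le_pCoreOf inf_le_right hKS₁ (hS₁p.to_le inf_le_left)
  have hT' : S₁ ⊓ K = ⊥ := by
    have h0 := hT.trans (Helper16.pCoreOf_le_pCore_of_isSubnormal hK.1)
    rw [hOp] at h0
    exact le_bot_iff.1 h0
  have hcop : (Nat.card K).Coprime p := by
    apply Helper9.coprime_card_of_no_order_p
    intro g hg
    have hgp : IsPGroup p (Subgroup.zpowers (⟨(g : P), hKH g.2⟩ : ↥H)) := by
      apply IsPGroup.of_card (n := 1)
      rw [Nat.card_zpowers, pow_one, ← hg, ← Subgroup.orderOf_coe, ← Subgroup.orderOf_coe g]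
    obtain ⟨S'', hS''⟩ := hgp.exists_le_sylow
    obtain ⟨c, hc⟩ := MulAction.exists_smul_eq (↥H) S' S''
    have hS''eq : S'' = S' := by
      rw [← hc]
      haveI := hS'n
      exact Sylow.smul_eq_of_normal
    have hgS' : (⟨(g : P), hKH g.2⟩ : ↥H) ∈ (S' : Subgroup ↥H) := by
      rw [← hS''eq]
      exact hS'' (Subgroup.mem_zpowers _)
    have hgT : (g : P) ∈ S₁ ⊓ K :=
      Subgroup.mem_inf.2 ⟨by rw [hS₁]; exact ⟨_, hgS', rfl⟩, g.2⟩
    rw [hT', Subgroup.mem_bot] at hgT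
    have h1 : g = 1 := Subtype.ext hgT
    rw [h1, orderOf_one] at hg
    exact (Fact.out : p.Prime).one_lt.ne hg
  have hKpp := Helper9.subnormal_pPrime_le_pPrimeCore p K hK.1 hcop
  have hE := pmin_layer_eq_iSup hP hOp S K hK
  obtain ⟨hRE, -⟩ := pmin_layer_facts hP hOp S K hK
  have hppn : (Cfsg.pPrimeCore p P).Normal := Cfsg.pPrimeCore_normal p P
  have hEpp : Cfsg.layer P ≤ Cfsg.pPrimeCore p P := by
    rw [hE]
    apply iSup_le
    intro s
    rintro _ ⟨k, hk, rfl⟩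
    exact hppn.conj_mem k (hKpp hk) s
  have hEcop : (Nat.card (Cfsg.layer P)).Coprime p :=
    Nat.Coprime.coprime_dvd_left (Subgroup.card_dvd_of_le hEpp) (Helper9.pPrimeCore_coprime p)
  have htop : Cfsg.layer P ⊔ (S : Subgroup P) = ⊤ := by
    rw [← hRE]
    exact Helper16.pResidual_sup_sylow S
  haveI : (Cfsg.layer P).Normal := Helper9.layer_normal
  exact pmin_no_component_pprime hP S M hM hSM (Cfsg.layer P) htop hEcop K hK
    (Helper9.le_layer hK)

theorem pmin_component_isPMinimal [Finite P] [Fact p.Prime] (hP : Cfsg.IsPMinimal p P)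
    (hOp : Cfsg.pCore p P = ⊥) (S : Sylow p P) (K : Subgroup P) (hK : Cfsg.IsComponent K) :
    Cfsg.IsPMinimal p ↥(K ⊔ ((S : Subgroup P) ⊓ Subgroup.normalizer (K : Set P))) := by
  obtain ⟨-, M, ⟨hM, hSM⟩, -⟩ := hP S
  apply isPMinimal_of_unique
    (((S : Subgroup P) ⊓ Subgroup.normalizer (K : Set P)).subgroupOf
      (K ⊔ ((S : Subgroup P) ⊓ Subgroup.normalizer (K : Set P))))
    (M.subgroupOf (K ⊔ ((S : Subgroup P) ⊓ Subgroup.normalizer (K : Set P))))
  · exact (S.isPGroup'.to_le inf_le_left).comap_subtype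
  · intro htop
    rw [Subgroup.subgroupOf_eq_top] at htop
    exact pmin_component_not_le hP hOp S M hM hSM K hK (le_sup_left.trans htop)
  · intro H₁ hne hle
    have h := pmin_component_key hP hOp S M hM hSM K hK (H₁.map (Subgroup.subtype _))
      (Subgroup.map_subtype_le _) ?_ ?_
    · intro x hx
      rw [Subgroup.mem_subgroupOf]
      exact h ⟨x, hx, rfl⟩
    · intro heq
      apply hne
      rw [eq_top_iff]
      intro x _
      have hx : (x : P) ∈ H₁.map (Subgroup.subtype _) := by rw [heq]; exact x.2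
      obtain ⟨y, hy, hyx⟩ := hx
      have h1 : y = x := Subtype.ext hyx
      rw [← h1]
      exact hy
    · intro s hs
      exact ⟨⟨s, le_sup_right (α := Subgroup P) hs⟩,
        hle (by rw [Subgroup.mem_subgroupOf]; exact hs), rfl⟩
  · exact fun S' => pmin_component_no_normal_sylow hP hOp S K hK _ le_sup_left S'

theorem pmin_component_main [Finite P] [Fact p.Prime] (hP : Cfsg.IsPMinimal p P)
    (hOp : Cfsg.pCore p P = ⊥) (S : Sylow p P) (K : Subgroup P) (hK : Cfsg.IsComponent K) :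
    Cfsg.pResidual p P = Cfsg.generalizedFittingSubgroup P ∧
      Cfsg.generalizedFittingSubgroup P = Cfsg.layer P ∧
      Cfsg.layer P = ⨆ s : ↥(S : Subgroup P), K.map (MulAut.conj (s : P)).toMonoidHom ∧
      Cfsg.IsPMinimal p ↥(K ⊔ ((S : Subgroup P) ⊓ Subgroup.normalizer (K : Set P))) := by
  obtain ⟨hRE, hFE⟩ := pmin_layer_facts hP hOp S K hK
  have hgF : Cfsg.generalizedFittingSubgroup P = Cfsg.layer P := sup_eq_left.2 hFE
  exact ⟨hRE.trans hgF.symm, hgF, pmin_layer_eq_iSup hP hOp S K hK,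
    pmin_component_isPMinimal hP hOp S K hK⟩

end Cfsg.Agent.Helper17
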