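import Cfsg.Agent.S1993
import Cfsg.Agent.Helper12.KTerm
import Cfsg.Agent.Helper1.FunNpc
import Cfsg.Agent.Lead.Frobenius

/-!
Nontrivial `p`-factor groups from `N_G(S)/C_G(S)` being a `p`-group (`p ≥ 5`), through control of
transfer by the upper K-infinity subgroup.
-/

set_option autoImplicit false

namespace Cfsg.Agent.Helper17

universe u

open Cfsg.Agent.Helper12

theorem pfac_pRes_ne_top {G : Type*} [Group G] [Finite G] {p : ℕ} [Fact p.Prime] (S : Sylow p G)
    (h : ¬ (S : Subgroup G) ≤ commutator G) : Cfsg.pResidual p G ≠ ⊤ := by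
  intro htop
  apply h
  have hp : p.Prime := Fact.out
  obtain ⟨k, m, hm, hcard⟩ := Nat.exists_eq_pow_mul_and_not_dvd
    (Nat.card_pos (α := G)).ne' p hp.ne_one
  have hker : Cfsg.pResidual p G ≤
      ((powMonoidHom m : Abelianization G →* Abelianization G).comp Abelianization.of).ker := by
    unfold Cfsg.pResidual
    rw [Subgroup.closure_le]
    intro g hg
    have hg' : (orderOf g).Coprime p := hg
    rw [SetLike.mem_coe, MonoidHom.mem_ker]
    show (Abelianization.of g) ^ m = 1
    rw [← map_pow]
    have h1 : orderOf g ∣ m := by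
      have h2 : orderOf g ∣ p ^ k * m := by rw [← hcard]; exact orderOf_dvd_natCard g
      exact (Nat.Coprime.pow_right k hg').dvd_of_dvd_mul_left h2
    rw [orderOf_dvd_iff_pow_eq_one.1 h1, map_one]
  rw [htop] at hker
  intro s hs
  rw [← Abelianization.ker_of, MonoidHom.mem_ker]
  have h1 : (Abelianization.of s) ^ m = 1 := by
    have h0 : s ∈ ((powMonoidHom m : Abelianization G →* Abelianization G).comp
        Abelianization.of).ker := hker (Subgroup.mem_top s)
    exact h0
  obtain ⟨j, hj⟩ := S.isPGroup' ⟨s, hs⟩
  have h2 : (Abelianization.of s) ^ (p ^ j) = 1 := by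
    rw [← map_pow]
    have h0 : s ^ p ^ j = 1 := by simpa using congrArg Subtype.val hj
    rw [h0, map_one]
  have h3 : orderOf (Abelianization.of s) ∣ Nat.gcd m (p ^ j) :=
    Nat.dvd_gcd (orderOf_dvd_of_pow_eq_one h1) (orderOf_dvd_of_pow_eq_one h2)
  have h4 : Nat.gcd m (p ^ j) = 1 :=
    Nat.Coprime.pow_right j ((Nat.Prime.coprime_iff_not_dvd hp).2 hm).symm
  rw [h4, Nat.dvd_one, orderOf_eq_one_iff] at h3
  exact h3

theorem pfac_norm_sylow {G : Type*} [Group G] [Finite G] {p : ℕ} [Fact p.Prime] (S : Sylow p G)
    (hS : (S : Subgroup G) ≠ ⊥)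
    (hN : ∀ g ∈ Subgroup.normalizer ((S : Subgroup G) : Set G), (orderOf g).Coprime p →
      g ∈ Subgroup.centralizer ((S : Subgroup G) : Set G)) :
    ¬ (S : Subgroup G) ≤ ⁅Subgroup.normalizer ((S : Subgroup G) : Set G),
      Subgroup.normalizer ((S : Subgroup G) : Set G)⁆ := by
  intro hSNN
  have hSN : (S : Subgroup G) ≤ Subgroup.normalizer ((S : Subgroup G) : Set G) :=
    Subgroup.le_normalizer
  have hcoe : ((S.subtype hSN : Sylow p ↥(Subgroup.normalizer ((S : Subgroup G) : Set G))) :
      Subgroup ↥(Subgroup.normalizer ((S : Subgroup G) : Set G))) =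
      (S : Subgroup G).subgroupOf (Subgroup.normalizer ((S : Subgroup G) : Set G)) :=
    Sylow.coe_subtype S hSN
  have hSn : ((S : Subgroup G).subgroupOf
      (Subgroup.normalizer ((S : Subgroup G) : Set G))).Normal := inferInstance
  have hS'p : IsPGroup p ((S : Subgroup G).subgroupOf
      (Subgroup.normalizer ((S : Subgroup G) : Set G))) := S.isPGroup'.comap_subtype
  have hF : Cfsg.Agent.Lead.FrobHyp p ↥(Subgroup.normalizer ((S : Subgroup G) : Set G)) := by
    intro X hX g hg hcop
    have hXS : X ≤ (S : Subgroup G).subgroupOf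
        (Subgroup.normalizer ((S : Subgroup G) : Set G)) := by
      have hsup : IsPGroup p ↥(X ⊔ (S : Subgroup G).subgroupOf
          (Subgroup.normalizer ((S : Subgroup G) : Set G))) := hX.to_sup_of_normal_right hS'p
      have hle : ((S.subtype hSN : Sylow p ↥(Subgroup.normalizer ((S : Subgroup G) : Set G))) :
          Subgroup ↥(Subgroup.normalizer ((S : Subgroup G) : Set G))) ≤
          X ⊔ (S : Subgroup G).subgroupOf (Subgroup.normalizer ((S : Subgroup G) : Set G)) := by
        rw [hcoe]; exact le_sup_right
      have heq := (S.subtype hSN).is_maximal' hsup hle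
      rw [hcoe] at heq
      rw [← heq]
      exact le_sup_left
    have hgc : (g : G) ∈ Subgroup.centralizer ((S : Subgroup G) : Set G) := by
      apply hN _ g.2
      rw [Subgroup.orderOf_coe]; exact hcop
    rw [Subgroup.mem_centralizer_iff]
    intro x hx
    apply Subtype.ext
    exact (Subgroup.mem_centralizer_iff.1 hgc) (x : G) (Subgroup.mem_subgroupOf.1 (hXS hx))
  obtain ⟨D, hDn, hDc⟩ := Cfsg.Agent.Lead.frobenius_npc hF (S.subtype hSN)
  -- the quotient by `D` is perfect
  have hperf : commutator (↥(Subgroup.normalizer ((S : Subgroup G) : Set G)) ⧸ D) = ⊤ := by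
    rw [eq_top_iff]
    intro q _
    obtain ⟨n, rfl⟩ := QuotientGroup.mk'_surjective D q
    have hn : n ∈ ((D ⊔ ((S.subtype hSN : Sylow p ↥(Subgroup.normalizer ((S : Subgroup G) : Set G))) :
        Subgroup ↥(Subgroup.normalizer ((S : Subgroup G) : Set G))) :
        Subgroup ↥(Subgroup.normalizer ((S : Subgroup G) : Set G))) :
        Set ↥(Subgroup.normalizer ((S : Subgroup G) : Set G))) := by
      rw [hDc.sup_eq_top]; exact Set.mem_univ _
    rw [Subgroup.normal_mul, Set.mem_mul] at hn
    obtain ⟨d, hd, s', hs', rfl⟩ := hn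
    have hs'' : s' ∈ (S : Subgroup G).subgroupOf
        (Subgroup.normalizer ((S : Subgroup G) : Set G)) := by rw [← hcoe]; exact hs'
    have h1 : (s' : G) ∈ ⁅Subgroup.normalizer ((S : Subgroup G) : Set G),
        Subgroup.normalizer ((S : Subgroup G) : Set G)⁆ := hSNN (Subgroup.mem_subgroupOf.1 hs'')
    rw [← Subgroup.map_subtype_commutator] at h1
    obtain ⟨c, hc, hcs⟩ := h1
    have hcs' : c = s' := Subtype.ext hcs
    rw [hcs'] at hc
    have h2 : QuotientGroup.mk' D s' ∈ (commutator
        ↥(Subgroup.normalizer ((S : Subgroup G) : Set G))).map (QuotientGroup.mk' D) :=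
      Subgroup.mem_map_of_mem _ hc
    have h3 : (commutator ↥(Subgroup.normalizer ((S : Subgroup G) : Set G))).map
        (QuotientGroup.mk' D) ≤
        commutator (↥(Subgroup.normalizer ((S : Subgroup G) : Set G)) ⧸ D) := by
      show Subgroup.map (QuotientGroup.mk' D)
        ⁅(⊤ : Subgroup ↥(Subgroup.normalizer ((S : Subgroup G) : Set G))),
          (⊤ : Subgroup ↥(Subgroup.normalizer ((S : Subgroup G) : Set G)))⁆ ≤
        ⁅(⊤ : Subgroup (↥(Subgroup.normalizer ((S : Subgroup G) : Set G)) ⧸ D)),
          (⊤ : Subgroup (↥(Subgroup.normalizer ((S : Subgroup G) : Set G)) ⧸ D))⁆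
      rw [Subgroup.map_commutator]
      exact Subgroup.commutator_mono le_top le_top
    have h4 : QuotientGroup.mk' D (d * s') = QuotientGroup.mk' D s' := by
      rw [map_mul]
      have : QuotientGroup.mk' D d = 1 := (QuotientGroup.eq_one_iff d).2 hd
      rw [this, one_mul]
    rw [h4]
    exact h3 h2
  have hcardQ : Nat.card (↥(Subgroup.normalizer ((S : Subgroup G) : Set G)) ⧸ D) =
      Nat.card ((S : Subgroup G).subgroupOf (Subgroup.normalizer ((S : Subgroup G) : Set G))) := by
    rw [← Subgroup.index_eq_card, hDc.symm.index_eq_card, hcoe]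
  obtain ⟨k, hk⟩ := IsPGroup.iff_card.1 hS'p
  have hQp : IsPGroup p (↥(Subgroup.normalizer ((S : Subgroup G) : Set G)) ⧸ D) :=
    IsPGroup.of_card (hcardQ.trans hk)
  haveI := hQp.isNilpotent
  rcases subsingleton_or_nontrivial (↥(Subgroup.normalizer ((S : Subgroup G) : Set G)) ⧸ D)
    with hsub | hnt
  · apply hS
    rw [eq_bot_iff]
    intro s hs
    have hc1 : Nat.card ((S : Subgroup G).subgroupOf
        (Subgroup.normalizer ((S : Subgroup G) : Set G))) = 1 := by
      rw [← hcardQ]; exact Nat.card_of_subsingleton 1
    have hbot := Subgroup.eq_bot_of_card_eq _ hc1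
    have hmem : (⟨s, hSN hs⟩ : ↥(Subgroup.normalizer ((S : Subgroup G) : Set G))) ∈
        (S : Subgroup G).subgroupOf (Subgroup.normalizer ((S : Subgroup G) : Set G)) :=
      Subgroup.mem_subgroupOf.2 hs
    rw [hbot, Subgroup.mem_bot] at hmem
    rw [Subgroup.mem_bot]
    exact congrArg Subtype.val hmem
  · have hlt := Group.IsSolvable.commutator_lt_top_of_nontrivial
      (↥(Subgroup.normalizer ((S : Subgroup G) : Set G)) ⧸ D)
    exact (ne_of_lt hlt) hperf

theorem pfac_main {p : ℕ} [Fact p.Prime] (hp : 5 ≤ p) :
    ∀ (n : ℕ) (G : Type u) [Group G] [Finite G], Nat.card G ≤ n →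
    ∀ S : Sylow p G, (S : Subgroup G) ≠ ⊥ →
    (∀ g ∈ Subgroup.normalizer ((S : Subgroup G) : Set G), (orderOf g).Coprime p →
      g ∈ Subgroup.centralizer ((S : Subgroup G) : Set G)) →
    ¬ (S : Subgroup G) ≤ commutator G := by
  have hp' : p.Prime := Fact.out
  intro n
  induction n with
  | zero =>
    intro G _ _ hcard
    have := Nat.card_pos (α := G)
    omega
  | succ n ih =>
    intro G _ _ hcard S hS hN hSG
    have hchar := kInfUpper_charP.{u} p
    obtain ⟨K, hK⟩ : ∃ K : Subgroup G, K = Cfsg.inducedFunctor Cfsg.kInfUpper (S : Subgroup G) :=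
      ⟨_, rfl⟩
    have h1993 := (Cfsg.Agent.S1993.result S).1 hp
    rw [← hK] at h1993
    have hSNN : (S : Subgroup G) ≤ ⁅Subgroup.normalizer (K : Set G),
        Subgroup.normalizer (K : Set G)⁆ := by
      have h0 : (S : Subgroup G) ⊓ commutator G = S := inf_of_le_left hSG
      rw [h1993] at h0
      exact inf_eq_left.1 h0
    have hKS : K ≤ (S : Subgroup G) := by
      rw [hK]; unfold Cfsg.inducedFunctor; exact Subgroup.map_subtype_le _
    have hSN : (S : Subgroup G) ≤ Subgroup.normalizer (K : Set G) := by
      rw [hK]
      exact Subgroup.le_normalizer.trans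
        (Cfsg.Agent.Helper1.normalizer_le_normalizer_induced hchar _ S.isPGroup')
    have hKN : K ≤ Subgroup.normalizer (K : Set G) := Subgroup.le_normalizer
    have hKne : K ≠ ⊥ := by
      haveI : Nontrivial ↥(S : Subgroup G) := (Subgroup.nontrivial_iff_ne_bot _).2 hS
      have h0 := hchar.1 ↥(S : Subgroup G) S.isPGroup' inferInstance
      rw [hK]
      unfold Cfsg.inducedFunctor
      intro hb
      exact h0 ((Subgroup.map_eq_bot_iff_of_injective _ (Subgroup.subtype_injective _)).1 hb)
    by_cases hKeq : K = (S : Subgroup G)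
    · rw [hKeq] at hSNN
      exact pfac_norm_sylow S hS hN hSNN
    · have hsurj : Function.Surjective
          (QuotientGroup.mk' (K.subgroupOf (Subgroup.normalizer (K : Set G)))) :=
        QuotientGroup.mk'_surjective _
      have hcoe : (((S.subtype hSN).mapSurjective hsurj :
          Sylow p (↥(Subgroup.normalizer (K : Set G)) ⧸
            K.subgroupOf (Subgroup.normalizer (K : Set G)))) :
          Subgroup (↥(Subgroup.normalizer (K : Set G)) ⧸
            K.subgroupOf (Subgroup.normalizer (K : Set G)))) =
          ((S : Subgroup G).subgroupOf (Subgroup.normalizer (K : Set G))).map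
            (QuotientGroup.mk' (K.subgroupOf (Subgroup.normalizer (K : Set G)))) := by
        rw [Sylow.coe_mapSurjective, Sylow.coe_subtype]
      have hK'S : K.subgroupOf (Subgroup.normalizer (K : Set G)) ≤
          (S : Subgroup G).subgroupOf (Subgroup.normalizer (K : Set G)) := by
        intro x hx
        rw [Subgroup.mem_subgroupOf] at hx ⊢
        exact hKS hx
      refine ih (↥(Subgroup.normalizer (K : Set G)) ⧸
        K.subgroupOf (Subgroup.normalizer (K : Set G))) ?_
        ((S.subtype hSN).mapSurjective hsurj) ?_ ?_ ?_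
      · have h1 := Subgroup.card_eq_card_quotient_mul_card_subgroup
          (K.subgroupOf (Subgroup.normalizer (K : Set G)))
        have h2 : Nat.card (K.subgroupOf (Subgroup.normalizer (K : Set G))) = Nat.card K :=
          Nat.card_congr (Subgroup.subgroupOfEquivOfLe hKN).toEquiv
        have h3 : 1 < Nat.card K := (Subgroup.one_lt_card_iff_ne_bot K).2 hKne
        have h4 : Nat.card ↥(Subgroup.normalizer (K : Set G)) ≤ Nat.card G :=
          Subgroup.card_le_card_group _
        have h5 : 0 < Nat.card (↥(Subgroup.normalizer (K : Set G)) ⧸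
            K.subgroupOf (Subgroup.normalizer (K : Set G))) := Nat.card_pos
        rw [h2] at h1
        have h6 : Nat.card (↥(Subgroup.normalizer (K : Set G)) ⧸
            K.subgroupOf (Subgroup.normalizer (K : Set G))) * 2 ≤
            Nat.card ↥(Subgroup.normalizer (K : Set G)) := by
          rw [h1]; exact Nat.mul_le_mul_left _ h3
        omega
      · intro h0
        apply hKeq
        apply le_antisymm hKS
        intro s hs
        have h1 : QuotientGroup.mk' (K.subgroupOf (Subgroup.normalizer (K : Set G)))
            (⟨s, hSN hs⟩ : ↥(Subgroup.normalizer (K : Set G))) ∈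
            (((S.subtype hSN).mapSurjective hsurj :
              Sylow p (↥(Subgroup.normalizer (K : Set G)) ⧸
                K.subgroupOf (Subgroup.normalizer (K : Set G)))) :
              Subgroup (↥(Subgroup.normalizer (K : Set G)) ⧸
                K.subgroupOf (Subgroup.normalizer (K : Set G)))) := by
          rw [hcoe]
          exact Subgroup.mem_map_of_mem _ (Subgroup.mem_subgroupOf.2 hs)
        rw [h0, Subgroup.mem_bot] at h1
        have h2 := (QuotientGroup.eq_one_iff _).1 h1
        exact Subgroup.mem_subgroupOf.1 h2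
      · intro gb hgb hcop
        obtain ⟨g, rfl⟩ := hsurj gb
        have hg1 : g ∈ Subgroup.normalizer
            (((S : Subgroup G).subgroupOf (Subgroup.normalizer (K : Set G)) :
              Subgroup ↥(Subgroup.normalizer (K : Set G))) :
              Set ↥(Subgroup.normalizer (K : Set G))) := by
          have h1 := Subgroup.le_normalizer_comap
            (QuotientGroup.mk' (K.subgroupOf (Subgroup.normalizer (K : Set G))))
            (Subgroup.mem_comap.2 hgb)
          have h2 : ((((S.subtype hSN).mapSurjective hsurj :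
              Sylow p (↥(Subgroup.normalizer (K : Set G)) ⧸
                K.subgroupOf (Subgroup.normalizer (K : Set G)))) :
              Subgroup (↥(Subgroup.normalizer (K : Set G)) ⧸
                K.subgroupOf (Subgroup.normalizer (K : Set G))))).comap
              (QuotientGroup.mk' (K.subgroupOf (Subgroup.normalizer (K : Set G)))) =
              (S : Subgroup G).subgroupOf (Subgroup.normalizer (K : Set G)) := by
            rw [hcoe, Subgroup.comap_map_eq, QuotientGroup.ker_mk']
            exact sup_eq_left.2 hK'S
          rw [h2] at h1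
          exact h1
        have hg2 : (g : G) ∈ Subgroup.normalizer ((S : Subgroup G) : Set G) := by
          have h3 := Subgroup.le_normalizer_map (Subgroup.normalizer (K : Set G)).subtype
            ⟨g, hg1, rfl⟩
          rw [Subgroup.subgroupOf_map_subtype, inf_of_le_left hSN] at h3
          exact h3
        obtain ⟨a, m, hm, hord⟩ := Nat.exists_eq_pow_mul_and_not_dvd
          (orderOf_pos (g : G)).ne' p hp'.ne_one
        have hg1c : (g : G) ^ p ^ a ∈ Subgroup.centralizer ((S : Subgroup G) : Set G) := by
          apply hN _ (Subgroup.pow_mem _ hg2 _)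
          have h1 : ((g : G) ^ p ^ a) ^ m = 1 := by
            rw [← pow_mul, ← hord]; exact pow_orderOf_eq_one _
          exact Nat.Coprime.coprime_dvd_left (orderOf_dvd_of_pow_eq_one h1)
            ((Nat.Prime.coprime_iff_not_dvd hp').2 hm).symm
        have hc1 : (QuotientGroup.mk' (K.subgroupOf (Subgroup.normalizer (K : Set G))) g) ^ p ^ a ∈
            Subgroup.centralizer (((((S.subtype hSN).mapSurjective hsurj :
              Sylow p (↥(Subgroup.normalizer (K : Set G)) ⧸
                K.subgroupOf (Subgroup.normalizer (K : Set G)))) :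
              Subgroup (↥(Subgroup.normalizer (K : Set G)) ⧸
                K.subgroupOf (Subgroup.normalizer (K : Set G))))) :
              Set (↥(Subgroup.normalizer (K : Set G)) ⧸
                K.subgroupOf (Subgroup.normalizer (K : Set G)))) := by
          rw [Subgroup.mem_centralizer_iff]
          intro xb hxb
          have hxb' : xb ∈ ((S : Subgroup G).subgroupOf (Subgroup.normalizer (K : Set G))).map
              (QuotientGroup.mk' (K.subgroupOf (Subgroup.normalizer (K : Set G)))) := by
            rw [← hcoe]; exact hxb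
          obtain ⟨x, hx, rfl⟩ := hxb'
          have hx' : (x : G) ∈ (S : Subgroup G) := Subgroup.mem_subgroupOf.1 hx
          have h1 := (Subgroup.mem_centralizer_iff.1 hg1c) (x : G) hx'
          have h2 : x * g ^ p ^ a = g ^ p ^ a * x := Subtype.ext (by simpa using h1)
          rw [← map_pow, ← map_mul, ← map_mul, h2]
        have hz : QuotientGroup.mk' (K.subgroupOf (Subgroup.normalizer (K : Set G))) g ∈
            Subgroup.zpowers
              ((QuotientGroup.mk' (K.subgroupOf (Subgroup.normalizer (K : Set G))) g) ^ p ^ a) := by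
          have hcop' : (orderOf (QuotientGroup.mk'
              (K.subgroupOf (Subgroup.normalizer (K : Set G))) g)).Coprime (p ^ a) :=
            Nat.Coprime.pow_right a hcop
          have hle : Subgroup.zpowers
              ((QuotientGroup.mk' (K.subgroupOf (Subgroup.normalizer (K : Set G))) g) ^ p ^ a) ≤
              Subgroup.zpowers
                (QuotientGroup.mk' (K.subgroupOf (Subgroup.normalizer (K : Set G))) g) :=
            Subgroup.zpowers_le.2 (Subgroup.pow_mem _ (Subgroup.mem_zpowers _) _)
          have hcard' : Nat.card (Subgroup.zpowers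
              (QuotientGroup.mk' (K.subgroupOf (Subgroup.normalizer (K : Set G))) g)) ≤
              Nat.card (Subgroup.zpowers
                ((QuotientGroup.mk' (K.subgroupOf (Subgroup.normalizer (K : Set G))) g) ^ p ^ a)) := by
            rw [Nat.card_zpowers, Nat.card_zpowers, Nat.Coprime.orderOf_pow hcop']
          rw [Subgroup.eq_of_le_of_card_ge hle hcard']
          exact Subgroup.mem_zpowers _
        exact (Subgroup.zpowers_le.2 hc1) hz
      · rw [hcoe]
        rintro _ ⟨s', hs', rfl⟩
        have hsG : (s' : G) ∈ (S : Subgroup G) := Subgroup.mem_subgroupOf.1 hs'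
        have h1 : (s' : G) ∈ ⁅Subgroup.normalizer (K : Set G),
            Subgroup.normalizer (K : Set G)⁆ := hSNN hsG
        rw [← Subgroup.map_subtype_commutator] at h1
        obtain ⟨c, hc, hcs⟩ := h1
        have hcs' : c = s' := Subtype.ext hcs
        rw [hcs'] at hc
        have h2 : QuotientGroup.mk' (K.subgroupOf (Subgroup.normalizer (K : Set G))) s' ∈
            (commutator ↥(Subgroup.normalizer (K : Set G))).map
              (QuotientGroup.mk' (K.subgroupOf (Subgroup.normalizer (K : Set G)))) :=
          Subgroup.mem_map_of_mem _ hc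
        have h3 : (commutator ↥(Subgroup.normalizer (K : Set G))).map
            (QuotientGroup.mk' (K.subgroupOf (Subgroup.normalizer (K : Set G)))) ≤
            commutator (↥(Subgroup.normalizer (K : Set G)) ⧸
              K.subgroupOf (Subgroup.normalizer (K : Set G))) := by
          show Subgroup.map (QuotientGroup.mk' (K.subgroupOf (Subgroup.normalizer (K : Set G))))
            ⁅(⊤ : Subgroup ↥(Subgroup.normalizer (K : Set G))),
              (⊤ : Subgroup ↥(Subgroup.normalizer (K : Set G)))⁆ ≤
            ⁅(⊤ : Subgroup (↥(Subgroup.normalizer (K : Set G)) ⧸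
              K.subgroupOf (Subgroup.normalizer (K : Set G)))),
              (⊤ : Subgroup (↥(Subgroup.normalizer (K : Set G)) ⧸
              K.subgroupOf (Subgroup.normalizer (K : Set G))))⁆
          rw [Subgroup.map_commutator]
          exact Subgroup.commutator_mono le_top le_top
        exact h3 h2

end Cfsg.Agent.Helper17
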