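import Mathlib
import Cfsg.Prelude.Def_PLocal
import Cfsg.Agent.Helper1.Repl
import Cfsg.Agent.Helper1.Repl2

set_option autoImplicit false

namespace Cfsg.Agent.Helper17

open scoped commutatorElement

theorem repl_omega_mem {G : Type*} [Group G] (p : ℕ) (X : Subgroup G)
    (hX : ∀ x ∈ X, ∀ y ∈ X, x * y = y * x) (x : G) :
    x ∈ Cfsg.omegaOne p X ↔ x ∈ X ∧ x ^ p = 1 := by
  constructor
  · intro hx
    unfold Cfsg.omegaOne at hx
    induction hx using Subgroup.closure_induction with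
    | mem y hy => exact hy
    | one => exact ⟨X.one_mem, one_pow p⟩
    | mul y z _ _ hy hz =>
      refine ⟨X.mul_mem hy.1 hz.1, ?_⟩
      rw [(show Commute y z from hX y hy.1 z hz.1).mul_pow, hy.2, hz.2, one_mul]
    | inv y _ hy =>
      refine ⟨X.inv_mem hy.1, ?_⟩
      rw [inv_pow, hy.2, inv_one]
  · intro hx
    exact Subgroup.subset_closure hx

theorem repl_omega_map {H G : Type*} [Group H] [Group G] (p : ℕ) (f : H →* G)
    (hf : Function.Injective f) (X : Subgroup H) :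
    Cfsg.omegaOne p (X.map f) = (Cfsg.omegaOne p X).map f := by
  unfold Cfsg.omegaOne
  rw [MonoidHom.map_closure]
  congr 1
  ext y
  constructor
  · rintro ⟨⟨x, hx, rfl⟩, hy⟩
    refine ⟨x, ⟨hx, hf ?_⟩, rfl⟩
    rw [map_pow, hy, map_one]
  · rintro ⟨x, ⟨hx, hxp⟩, rfl⟩
    exact ⟨⟨x, hx, rfl⟩, by rw [← map_pow, hxp, map_one]⟩

theorem repl_normal {G : Type*} [Group G] [Finite G] {p : ℕ} [Fact p.Prime] (hp : p ≠ 2)
    (A B D : Subgroup G) [B.Normal] (hD : IsPGroup p D) (hAD : A ≤ D) (hBD : B ≤ D)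
    (hAc : ∀ x ∈ A, ∀ y ∈ A, x * y = y * x) (hBA : ⁅B, B⁆ ≤ A)
    (hnot : ¬ B ≤ Subgroup.normalizer (A : Set G)) :
    ∃ S : Subgroup G, (∀ x ∈ S, ∀ y ∈ S, x * y = y * x) ∧ Nat.card S = Nat.card A ∧
      A ⊓ B ≤ S ∧ (∃ x ∈ S ⊓ B, x ∉ A) ∧ S ≤ Subgroup.normalizer (A : Set G) ∧
      S ≤ Subgroup.normalClosure (A : Set G) ∧ Monoid.exponent S ∣ Monoid.exponent A ∧
      Nat.card (Cfsg.omegaOne p A) ≤ Nat.card (Cfsg.omegaOne p S) := by
  obtain ⟨b, hb, hbN, hN1, hN2⟩ := Helper1.exists_b A B D hD hAD hBD hnot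
  have h : Helper1.ReplData p A B b :=
    ⟨hAc, hD.to_le hBD, fun h2 => absurd h2 hp, hBA, hb, hN1, hN2⟩
  obtain ⟨a, ha, hfa⟩ := Helper1.exists_gen_not_mem A b hbN
  have hSc := h.star_comm
  have hgen : ∀ a ∈ A, a * b⁻¹ * a⁻¹ * b ∈ Helper1.replI A b ⊔ Helper1.replF A b :=
    fun a ha => Subgroup.mem_sup_right
      (show a * b⁻¹ * a⁻¹ * b ∈ Helper1.replF A b from Subgroup.subset_closure ⟨a, ha, rfl⟩)
  refine ⟨Helper1.replI A b ⊔ Helper1.replF A b, hSc, le_antisymm h.card_star_le h.card_le,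
    h.inf_le.trans le_sup_left,
    ⟨a * b⁻¹ * a⁻¹ * b, Subgroup.mem_inf.mpr ⟨hgen a ha, h.gen_mem a⟩, hfa⟩,
    h.star_le_normalizer, ?_, h.exponent_dvd hp (hD.to_le hAD), ?_⟩
  · refine sup_le (fun z hz => Subgroup.subset_normalClosure (Helper1.mem_replI.mp hz).1) ?_
    unfold Helper1.replF
    rw [Subgroup.closure_le]
    rintro _ ⟨a, ha, rfl⟩
    have hf : a * b⁻¹ * a⁻¹ * b = a * (b⁻¹ * a⁻¹ * b⁻¹⁻¹) := by group
    rw [hf]
    exact Subgroup.mul_mem _ (Subgroup.subset_normalClosure ha)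
      (Subgroup.normalClosure_normal.conj_mem _
        (Subgroup.subset_normalClosure (A.inv_mem ha)) b⁻¹)
  · have hodd : Odd p := (Fact.out : p.Prime).odd_of_ne_two hp
    refine Helper1.card_le_of_coset_inj (Helper1.replI A b ⊓ Cfsg.omegaOne p A)
      (Cfsg.omegaOne p A) (Cfsg.omegaOne p (Helper1.replI A b ⊔ Helper1.replF A b))
      inf_le_right ?_ (fun a => a * b⁻¹ * a⁻¹ * b) ?_ ?_
    · intro z hz
      obtain ⟨hzI, hzO⟩ := Subgroup.mem_inf.mp hz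
      rw [repl_omega_mem p A hAc] at hzO
      rw [repl_omega_mem p _ hSc]
      exact ⟨Subgroup.mem_sup_left hzI, hzO.2⟩
    · intro a ha
      rw [repl_omega_mem p A hAc] at ha
      rw [repl_omega_mem p _ hSc]
      refine ⟨hgen a ha.1, ?_⟩
      have hf : a * b⁻¹ * a⁻¹ * b = a * (b⁻¹ * a * b)⁻¹ := by group
      rw [hf]
      have hk := h.kappa_mem ha.1 ha.1
      have i2a := h.i2
      obtain ⟨x, hx⟩ : ∃ x, x = b⁻¹ * a * b := ⟨_, rfl⟩
      rw [← hx] at hk ⊢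
      obtain ⟨z, hz⟩ : ∃ z, z = x * a⁻¹ * x⁻¹ * a := ⟨_, rfl⟩
      rw [← hz] at hk
      have hzu : z * a = a * z := h.i1 z hk a ha.1
      have hzx : z * x = x * z := by
        have h1 := i2a z hk a ha.1
        rwa [← hx] at h1
      have hzv : z * x⁻¹ = x⁻¹ * z := (Commute.inv_right (show Commute z x from hzx)).eq
      have huv : x⁻¹ * a = a * x⁻¹ * z := by rw [hz]; group
      have hxe : (x⁻¹) ^ p = 1 := by
        have h1 : x = b⁻¹ * a * (b⁻¹)⁻¹ := by rw [hx, inv_inv]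
        rw [inv_pow, h1, conj_pow, ha.2]
        simp
      exact Helper1.pow_class2_odd a x⁻¹ z huv hzu hzv p hodd ha.2 hxe
    · intro a ha a₁ ha₁ hz
      rw [repl_omega_mem p A hAc] at ha ha₁
      refine Subgroup.mem_inf.mpr ⟨h.fiber ha.1 ha₁.1 (Subgroup.mem_inf.mp hz).1, ?_⟩
      rw [repl_omega_mem p A hAc]
      refine ⟨A.mul_mem (A.inv_mem ha.1) ha₁.1, ?_⟩
      rw [(show Commute a⁻¹ a₁ from hAc _ (A.inv_mem ha.1) _ ha₁.1).mul_pow, inv_pow, ha.2,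
        ha₁.2]
      simp

end Cfsg.Agent.Helper17
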