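import Mathlib
import Cfsg.Prelude.Def_BaumannBlocks
import Cfsg.Agent.Helper17.CD

set_option autoImplicit false

namespace Cfsg.Agent.Helper17

variable {G : Type*} [Group G]

/-- For a centrally large `Q`, the join `Q ⊔ J(G)` is centrally large. -/
theorem cl_sup_thompsonA [Finite G] {Q : Subgroup G} (hQ : Cfsg.IsCentrallyLarge Q) :
    Cfsg.IsCentrallyLarge (Q ⊔ Cfsg.thompsonSubgroupA G) := by
  have key := sSup_mem_of_subset_sup_closed {R : Subgroup G | Cfsg.IsCentrallyLarge R}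
    ((fun A => Q ⊔ A) '' Cfsg.maxAbelianSubgroups G)
    (by
      rintro _ ⟨A, hA, rfl⟩
      exact (cl_maxAbelian hQ hA).2.1)
    (by
      obtain ⟨A, hA⟩ := exists_maxAbelian (G := G)
      exact ⟨_, A, hA, rfl⟩)
    (fun _ hA _ hB => cl_sup hA hB)
  have heq : sSup ((fun A => Q ⊔ A) '' Cfsg.maxAbelianSubgroups G)
      = Q ⊔ Cfsg.thompsonSubgroupA G := by
    apply le_antisymm
    · apply sSup_le
      rintro _ ⟨A, hA, rfl⟩
      exact sup_le_sup_left (le_sSup hA) Q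
    · obtain ⟨A₀, hA₀⟩ := exists_maxAbelian (G := G)
      apply sup_le
      · exact le_sup_left.trans (le_sSup ⟨A₀, hA₀, rfl⟩)
      · show sSup (Cfsg.maxAbelianSubgroups G) ≤ _
        apply sSup_le
        intro A hA
        exact le_sup_right.trans (le_sSup ⟨A, hA, rfl⟩)
  rw [heq] at key
  exact key

/-- Part 1 of S3008: `C(Z(J)) ≤ Q J` for centrally large `Q`. -/
theorem s3008_part1 [Finite G] {Q : Subgroup G} (hQ : Cfsg.IsCentrallyLarge Q) :
    Subgroup.centralizer ((Cfsg.thompsonSubgroupA G ⊓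
      Subgroup.centralizer (Cfsg.thompsonSubgroupA G : Set G) : Subgroup G) : Set G)
      ≤ Q ⊔ Cfsg.thompsonSubgroupA G := by
  obtain ⟨hX1, -⟩ := (cl_iff _).mp (cl_sup_thompsonA hQ)
  have h2 : Subgroup.centralizer ((Q ⊔ Cfsg.thompsonSubgroupA G : Subgroup G) : Set G)
      ≤ Subgroup.centralizer (Cfsg.thompsonSubgroupA G : Set G) := centralizer_anti le_sup_right
  have h1 : Subgroup.centralizer ((Q ⊔ Cfsg.thompsonSubgroupA G : Subgroup G) : Set G)
      ≤ Cfsg.thompsonSubgroupA G ⊓ Subgroup.centralizer (Cfsg.thompsonSubgroupA G : Set G) :=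
    le_inf (h2.trans centralizer_thompsonA_le) h2
  exact (centralizer_anti h1).trans (cd_centralizer hX1).2.le

/-- Part 4 of S3008. -/
theorem s3008_part4 [Finite G]
    (h : ∀ Q : Subgroup G, Cfsg.IsMinimalCentrallyLarge Q → IsMulCommutative ↥Q) :
    Subgroup.centralizer ((Cfsg.thompsonSubgroupA G ⊓
      Subgroup.centralizer (Cfsg.thompsonSubgroupA G : Set G) : Subgroup G) : Set G)
      = Cfsg.thompsonSubgroupA G := by
  obtain ⟨Q, hQ⟩ := exists_mcl (G := G)
  have hQA : Q ∈ Cfsg.maxAbelianSubgroups G := (mcl_abelian_iff hQ (h Q hQ) Q).mp hQ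
  have hQJ : Q ≤ Cfsg.thompsonSubgroupA G := le_sSup hQA
  apply le_antisymm
  · have := s3008_part1 hQ.1
    rwa [sup_eq_right.mpr hQJ] at this
  · intro x hx
    rw [Subgroup.mem_centralizer_iff]
    intro z hz
    have hz' : z ∈ Subgroup.centralizer (Cfsg.thompsonSubgroupA G : Set G) := hz.2
    exact (Subgroup.mem_centralizer_iff.mp hz' x hx).symm

/-- Part 3 of S3008. -/
theorem s3008_part3 [Finite G] (hJ : Cfsg.thompsonSubgroupA G = ⊤)
    (hA : ∀ A ∈ Cfsg.maxAbelianSubgroups G,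
      Nat.card ↥A ^ 2 = Nat.card G * Nat.card ↥(Subgroup.center G))
    (Q : Subgroup G) (hQ : Cfsg.IsMinimalCentrallyLarge Q) : IsMulCommutative ↥Q := by
  have htop : Cfsg.centrallyLargeJoin G = ⊤ := by
    apply top_unique
    rw [← hJ]
    exact thompsonA_le_clJoin
  have hcl : Cfsg.IsCentrallyLarge (⊤ : Subgroup G) := by
    rw [← htop]; exact cl_join
  obtain ⟨hcd, -⟩ := (cl_iff _).mp hcl
  have hM : Nat.card G * Nat.card ↥(Subgroup.center G) = Cfsg.maxCentralizerProduct G := by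
    have e : Nat.card ↥(⊤ : Subgroup G)
        * Nat.card ↥(Subgroup.centralizer ((⊤ : Subgroup G) : Set G))
        = Cfsg.maxCentralizerProduct G := hcd
    rw [Subgroup.card_top, Subgroup.coe_top, Subgroup.centralizer_univ] at e
    exact e
  obtain ⟨A, hAm⟩ := exists_maxAbelian (G := G)
  have hAle : A ≤ Subgroup.centralizer (A : Set G) :=
    Subgroup.le_centralizer_iff_isMulCommutative.mpr hAm.1
  have hCA : Subgroup.centralizer (A : Set G) = A :=
    le_antisymm (maxAbelian_centralizer_le hAm) hAle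
  have hAcd : Cfsg.IsCentralizerLarge A := by
    show Nat.card ↥A * Nat.card ↥(Subgroup.centralizer (A : Set G))
      = Cfsg.maxCentralizerProduct G
    rw [hCA, ← hM, ← hA A hAm, sq]
  have hAcl : Cfsg.IsCentrallyLarge A := (cl_iff A).mpr ⟨hAcd, hCA.le⟩
  obtain ⟨Q₀, hQ₀, hQ₀A⟩ := exists_mcl_le hAcl
  have hQ₀c : IsMulCommutative ↥Q₀ :=
    Subgroup.le_centralizer_iff_isMulCommutative.mp
      (hQ₀A.trans (hAle.trans (centralizer_anti hQ₀A)))
  exact ((mcl_abelian_iff hQ₀ hQ₀c Q).mp hQ).1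

/-- S3008 with part 2 (existence of a minimal centrally large subgroup normalized by `J(P)` and
`P_MCL`) taken as a hypothesis; parts 1, 3, 4 are proved here. -/
theorem s3008_of_part2 {p : ℕ} [Fact p.Prime] (P : Type*) [Group P] [Finite P]
    (_hP : IsPGroup p P)
    (h2 : ∃ Q : Subgroup P, Cfsg.IsMinimalCentrallyLarge Q ∧ Cfsg.thompsonSubgroupA P ≤ Subgroup.normalizer (Q : Set P) ∧ Cfsg.minimalCentrallyLargeJoin P ≤ Subgroup.normalizer (Q : Set P)) :
    (∀ Q : Subgroup P, Cfsg.IsCentrallyLarge Q → Subgroup.centralizer ((Cfsg.thompsonSubgroupA P ⊓ Subgroup.centralizer (Cfsg.thompsonSubgroupA P : Set P) : Subgroup P) : Set P) ≤ Q ⊔ Cfsg.thompsonSubgroupA P) ∧ (∃ Q : Subgroup P, Cfsg.IsMinimalCentrallyLarge Q ∧ Cfsg.thompsonSubgroupA P ≤ Subgroup.normalizer (Q : Set P) ∧ Cfsg.minimalCentrallyLargeJoin P ≤ Subgroup.normalizer (Q : Set P)) ∧ (Cfsg.thompsonSubgroupA P = ⊤ → (∀ A ∈ Cfsg.maxAbelianSubgroups P, Nat.card ↥A ^ 2 = Nat.card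 P * Nat.card ↥(Subgroup.center P)) → ∀ Q : Subgroup P, Cfsg.IsMinimalCentrallyLarge Q → IsMulCommutative ↥Q) ∧ ((∀ Q : Subgroup P, Cfsg.IsMinimalCentrallyLarge Q → IsMulCommutative ↥Q) → Subgroup.centralizer ((Cfsg.thompsonSubgroupA P ⊓ Subgroup.centralizer (Cfsg.thompsonSubgroupA P : Set P) : Subgroup P) : Set P) = Cfsg.thompsonSubgroupA P) :=
  ⟨fun _ hQ => s3008_part1 hQ, h2, fun hJ hA Q hQ => s3008_part3 hJ hA Q hQ,
    fun h => s3008_part4 h⟩

end Cfsg.Agent.Helper17
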