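import Cfsg.Agent.Helper12.AGWP
import Cfsg.Agent.Helper12.WVTransfer
import Cfsg.Agent.Helper12.PRes
import Cfsg.Agent.Helper9.ExtLayer1
import Cfsg.Agent.Helper17.Cr1
import Cfsg.Agent.S3056
import Cfsg.Agent.S3058

/-!
Strong form of the Alperin–Goldschmidt theorem, part 1: the step condition and its invariance
under conjugation by elements of `N_G(P)`.
-/

set_option autoImplicit false

namespace Cfsg.Agent.Helper17

open Cfsg.Agent.Helper12

theorem sg_pPrimePCore_le {A B : Type*} [Group A] [Group B] [Finite A] [Finite B] {p : ℕ}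
    [Fact p.Prime] (e : A ≃* B) :
    (Cfsg.pPrimePCore p A).map e.toMonoidHom ≤ Cfsg.pPrimePCore p B := by
  obtain ⟨hn, -, hpow, -⟩ := cr_comap_spec (p := p) (Cfsg.pPrimeCore p A)
  obtain ⟨-, -, -, huniv'⟩ := cr_comap_spec (p := p) (Cfsg.pPrimeCore p B)
  have hn0 : (Cfsg.pPrimePCore p A).Normal := hn
  have hn2 : ((Cfsg.pPrimePCore p A).map e.toMonoidHom).Normal :=
    Subgroup.Normal.map hn0 _ e.surjective
  apply huniv' _ hn2
  rintro _ ⟨x, hx, rfl⟩
  obtain ⟨a, ha⟩ := hpow x hx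
  refine ⟨a, ?_⟩
  rw [← Cfsg.Agent.Helper9.pPrimeCore_map_equiv p e]
  exact ⟨x ^ p ^ a, ha, by simp⟩

theorem sg_pPrimePCore_map_equiv {A B : Type*} [Group A] [Group B] [Finite A] [Finite B] {p : ℕ}
    [Fact p.Prime] (e : A ≃* B) :
    (Cfsg.pPrimePCore p A).map e.toMonoidHom = Cfsg.pPrimePCore p B := by
  apply le_antisymm (sg_pPrimePCore_le e)
  intro b hb
  have h1 := sg_pPrimePCore_le (p := p) e.symm (Subgroup.mem_map_of_mem _ hb)
  exact ⟨e.symm b, h1, by simp⟩

theorem sg_not_conn_of_equiv {A B : Type*} [Group A] [Group B] [Finite A] [Finite B] {p : ℕ}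
    [Fact p.Prime] (e : A ≃* B) (h : ¬ Cfsg.IsSylowChainConnected p A) :
    ¬ Cfsg.IsSylowChainConnected p B := by
  rw [Cfsg.Agent.S3056.result] at h ⊢
  obtain ⟨H, hH, hp, hse⟩ := h
  refine ⟨H.map e.toMonoidHom, ?_, ?_, ?_⟩
  · intro htop
    apply hH
    rw [eq_top_iff]
    intro x _
    have h1 : e.toMonoidHom x ∈ H.map e.toMonoidHom := by rw [htop]; exact Subgroup.mem_top _
    obtain ⟨y, hy, hyx⟩ := h1
    have h2 : y = x := e.injective hyx
    rw [← h2]; exact hy
  · rw [Subgroup.card_map_of_injective e.injective]; exact hp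
  · intro g hg hdiv
    apply hse (e.symm g)
    · intro hmem
      apply hg
      exact ⟨e.symm g, hmem, by simp⟩
    · have heq : H.map e.toMonoidHom ⊓ (H.map e.toMonoidHom).map (MulAut.conj g).toMonoidHom
          = (H ⊓ H.map (MulAut.conj (e.symm g)).toMonoidHom).map e.toMonoidHom := by
        ext x
        rw [Subgroup.mem_inf, mem_map_conj_iff, Subgroup.mem_map_equiv, Subgroup.mem_map_equiv,
          Subgroup.mem_map_equiv, Subgroup.mem_inf, mem_map_conj_iff]
        simp only [map_mul, map_inv]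
      rw [heq, Subgroup.card_map_of_injective e.injective] at hdiv
      exact hdiv

variable {G : Type*} [Group G]

/-- Conjugation as an isomorphism between a subgroup and its conjugate. -/
def sgConjEquiv (w : G) (N₁ N₂ : Subgroup G) (h : N₂ = cjs w N₁) : ↥N₁ ≃* ↥N₂ where
  toFun n := ⟨w⁻¹ * n * w, by
    rw [h, mem_cjs_iff]
    have h1 := n.2
    have e : w * (w⁻¹ * (n : G) * w) * w⁻¹ = n := by group
    rw [e]; exact h1⟩
  invFun m := ⟨w * m * w⁻¹, by
    have h1 : (m : G) ∈ cjs w N₁ := h ▸ m.2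
    exact mem_cjs_iff.1 h1⟩
  left_inv n := by
    apply Subtype.ext
    show w * (w⁻¹ * (n : G) * w) * w⁻¹ = n
    group
  right_inv m := by
    apply Subtype.ext
    show w⁻¹ * (w * (m : G) * w⁻¹) * w = m
    group
  map_mul' a b := by
    apply Subtype.ext
    show w⁻¹ * ((a * b : ↥N₁) : G) * w = (w⁻¹ * (a : G) * w) * (w⁻¹ * (b : G) * w)
    rw [Subgroup.coe_mul]
    group

theorem sgConjEquiv_comp (w : G) (N₁ N₂ : Subgroup G) (h : N₂ = cjs w N₁) :
    N₂.subtype.comp (sgConjEquiv w N₁ N₂ h).toMonoidHom =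
      (MulAut.conj w⁻¹).toMonoidHom.comp N₁.subtype := by
  ext n
  show w⁻¹ * (n : G) * w = MulAut.conj w⁻¹ (n : G)
  rw [MulAut.conj_apply, inv_inv]

theorem sgConjEquiv_map (w : G) (N₁ N₂ : Subgroup G) (h : N₂ = cjs w N₁) (K : Subgroup ↥N₁) :
    (K.map (sgConjEquiv w N₁ N₂ h).toMonoidHom).map N₂.subtype = cjs w (K.map N₁.subtype) := by
  rw [Subgroup.map_map, sgConjEquiv_comp, ← Subgroup.map_map]
  rfl

theorem sg_pRes_map (p : ℕ) (X : Subgroup G) :
    (Cfsg.pResidual p ↥X).map X.subtype =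
      Subgroup.closure {g : G | g ∈ X ∧ (orderOf g).Coprime p} := by
  unfold Cfsg.pResidual
  rw [MonoidHom.map_closure]
  congr 1
  ext g
  constructor
  · rintro ⟨y, hy, rfl⟩
    refine ⟨y.2, ?_⟩
    have hy' : (orderOf y).Coprime p := hy
    rw [← Subgroup.orderOf_coe] at hy'
    exact hy'
  · rintro ⟨hg, hc⟩
    refine ⟨⟨g, hg⟩, ?_, rfl⟩
    show (orderOf (⟨g, hg⟩ : ↥X)).Coprime p
    rw [← Subgroup.orderOf_coe]
    exact hc

theorem sg_pRes_conj (p : ℕ) (X : Subgroup G) (w : G) {x : G}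
    (hx : x ∈ (Cfsg.pResidual p ↥X).map X.subtype) :
    w⁻¹ * x * w ∈ (Cfsg.pResidual p ↥(cjs w X)).map (cjs w X).subtype := by
  rw [sg_pRes_map] at hx ⊢
  induction hx using Subgroup.closure_induction with
  | mem g hg =>
    apply Subgroup.subset_closure
    refine ⟨?_, ?_⟩
    · rw [mem_cjs_iff]
      have e : w * (w⁻¹ * g * w) * w⁻¹ = g := by group
      rw [e]; exact hg.1
    · have e : orderOf (w⁻¹ * g * w) = orderOf g := by
        have := orderOf_conj_eq' w⁻¹ g
        rwa [inv_inv] at this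
      rw [e]; exact hg.2
  | one =>
    have e : w⁻¹ * (1 : G) * w = 1 := by group
    rw [e]; exact Subgroup.one_mem _
  | mul a b _ _ iha ihb =>
    have e : w⁻¹ * (a * b) * w = (w⁻¹ * a * w) * (w⁻¹ * b * w) := by group
    rw [e]; exact Subgroup.mul_mem _ iha ihb
  | inv a _ iha =>
    have e : w⁻¹ * a⁻¹ * w = (w⁻¹ * a * w)⁻¹ := by group
    rw [e]; exact Subgroup.inv_mem _ iha

/-- The step condition of the strong form of the Alperin–Goldschmidt theorem. -/
def sgCond {p : ℕ} (P : Sylow p G) (H X : Subgroup G) (x : G) : Prop :=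
  H ≤ (P : Subgroup G) ∧
  ¬ p ∣ ((P : Subgroup G) ⊓ Subgroup.normalizer (H : Set G)).relIndex
    (Subgroup.normalizer (H : Set G)) ∧
  (P : Subgroup G) ⊓ Subgroup.centralizer (H : Set G) ≤ H ∧
  (Cfsg.pPrimePCore p ↥(Subgroup.normalizer (H : Set G))).map
      (Subgroup.normalizer (H : Set G)).subtype = H ⊔ Subgroup.centralizer (H : Set G) ∧
  ¬ Cfsg.IsSylowChainConnected p
      (↥(Subgroup.normalizer (H : Set G)) ⧸ H.subgroupOf (Subgroup.normalizer (H : Set G))) ∧
  (H ≤ X ∧ X ≤ Subgroup.normalizer (H : Set G) ∧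
    (X.subgroupOf (Subgroup.normalizer (H : Set G))).Normal ∧ p ∣ H.relIndex X ∧
    ∀ Y : Subgroup G, H ≤ Y → Y ≤ Subgroup.normalizer (H : Set G) →
      (Y.subgroupOf (Subgroup.normalizer (H : Set G))).Normal → p ∣ H.relIndex Y → X ≤ Y) ∧
  x ∈ (Cfsg.pResidual p ↥X).map X.subtype

theorem sgCond_inv {p : ℕ} (P : Sylow p G) {H X : Subgroup G} {x : G} (h : sgCond P H X x) :
    sgCond P H X x⁻¹ :=
  ⟨h.1, h.2.1, h.2.2.1, h.2.2.2.1, h.2.2.2.2.1, h.2.2.2.2.2.1, Subgroup.inv_mem _ h.2.2.2.2.2.2⟩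

theorem sgCond_mem_normalizer {p : ℕ} (P : Sylow p G) {H X : Subgroup G} {x : G}
    (h : sgCond P H X x) : x ∈ Subgroup.normalizer (H : Set G) :=
  h.2.2.2.2.2.1.2.1 (Subgroup.map_subtype_le _ h.2.2.2.2.2.2)

theorem sg_subgroupOf_map (w : G) (H : Subgroup G) :
    (H.subgroupOf (Subgroup.normalizer (H : Set G))).map
        (sgConjEquiv w (Subgroup.normalizer (H : Set G))
          (Subgroup.normalizer ((cjs w H : Subgroup G) : Set G)) (normalizer_cjs w H)).toMonoidHom =
      (cjs w H).subgroupOf (Subgroup.normalizer ((cjs w H : Subgroup G) : Set G)) := by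
  ext m
  rw [Subgroup.mem_map_equiv, Subgroup.mem_subgroupOf, Subgroup.mem_subgroupOf, mem_cjs_iff]
  rfl

theorem sgCond_conj [Finite G] {p : ℕ} [Fact p.Prime] (P : Sylow p G) {w : G}
    (hw : w ∈ Subgroup.normalizer ((P : Subgroup G) : Set G)) {H X : Subgroup G} {x : G}
    (h : sgCond P H X x) : sgCond P (cjs w H) (cjs w X) (w⁻¹ * x * w) := by
  obtain ⟨h1, h2, h3, h4, h5, ⟨h6a, h6b, h6c, h6d, h6e⟩, h7⟩ := h
  have hPw : cjs w (P : Subgroup G) = P := cjs_eq_of_mem_normalizer hw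
  refine ⟨?_, ?_, ?_, ?_, ?_, ⟨?_, ?_, ?_, ?_, ?_⟩, sg_pRes_conj p X w h7⟩
  · have := cjs_mono (x := w) h1
    rwa [hPw] at this
  · rw [normalizer_cjs]
    have e : ((P : Subgroup G) ⊓ cjs w (Subgroup.normalizer (H : Set G))).relIndex
        (cjs w (Subgroup.normalizer (H : Set G))) =
        ((P : Subgroup G) ⊓ Subgroup.normalizer (H : Set G)).relIndex
          (Subgroup.normalizer (H : Set G)) := by
      nth_rewrite 1 [← hPw]
      rw [← cjs_inf, relIndex_cjs]
    rw [e]; exact h2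
  · rw [centralizer_cjs]
    nth_rewrite 1 [← hPw]
    rw [← cjs_inf]
    exact cjs_mono h3
  · rw [← sg_pPrimePCore_map_equiv (sgConjEquiv w (Subgroup.normalizer (H : Set G))
      (Subgroup.normalizer ((cjs w H : Subgroup G) : Set G)) (normalizer_cjs w H)),
      sgConjEquiv_map, h4, cjs_sup, centralizer_cjs]
  · have he := sg_subgroupOf_map w H
    exact sg_not_conn_of_equiv (QuotientGroup.congr _ _ (sgConjEquiv w (Subgroup.normalizer (H : Set G))
      (Subgroup.normalizer ((cjs w H : Subgroup G) : Set G)) (normalizer_cjs w H)) he) h5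
  · exact cjs_mono h6a
  · rw [normalizer_cjs]; exact cjs_mono h6b
  · rw [Subgroup.normal_subgroupOf_iff_le_normalizer h6b] at h6c
    have h6b' : cjs w X ≤ Subgroup.normalizer ((cjs w H : Subgroup G) : Set G) := by
      rw [normalizer_cjs]; exact cjs_mono h6b
    rw [Subgroup.normal_subgroupOf_iff_le_normalizer h6b', normalizer_cjs, normalizer_cjs]
    exact cjs_mono h6c
  · rw [relIndex_cjs]; exact h6d
  · intro Y hY1 hY2 hY3 hY4
    rw [Subgroup.normal_subgroupOf_iff_le_normalizer hY2] at hY3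
    have a1 : H ≤ cjs w⁻¹ Y := by
      have := cjs_mono (x := w⁻¹) hY1
      rwa [cjs_inv_cjs] at this
    have a2 : cjs w⁻¹ Y ≤ Subgroup.normalizer (H : Set G) := by
      have := cjs_mono (x := w⁻¹) hY2
      rwa [normalizer_cjs, cjs_inv_cjs] at this
    have a3 : Subgroup.normalizer (H : Set G) ≤
        Subgroup.normalizer ((cjs w⁻¹ Y : Subgroup G) : Set G) := by
      have := cjs_mono (x := w⁻¹) hY3
      rwa [normalizer_cjs, cjs_inv_cjs, ← normalizer_cjs] at this
    have a4 : p ∣ H.relIndex (cjs w⁻¹ Y) := by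
      have e : H.relIndex (cjs w⁻¹ Y) = (cjs w H).relIndex Y := by
        nth_rewrite 1 [← cjs_inv_cjs w H]
        rw [relIndex_cjs]
      rw [e]; exact hY4
    have a5 := h6e (cjs w⁻¹ Y) a1 a2
      ((Subgroup.normal_subgroupOf_iff_le_normalizer a2).2 a3) a4
    have := cjs_mono (x := w) a5
    rwa [cjs_cjs_inv] at this

/-- Conjugating a chain. -/
theorem sg_fchain_conj {α : Type*} {D : α → Subgroup G} {St : α → G → Prop} (f : α → α) (w : G)
    (hD : ∀ t, D (f t) = cjs w (D t)) (hSt : ∀ t x, St t x → St (f t) (w⁻¹ * x * w))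
    {A : Set G} {g : G} (h : FChain D St A g) : FChain D St (cj w A) (w⁻¹ * g * w) := by
  induction h with
  | nil A =>
    have e : w⁻¹ * (1 : G) * w = 1 := by group
    rw [e]; exact FChain.nil _
  | cons A t x g hst hA _ ih =>
    have e : w⁻¹ * (x * g) * w = (w⁻¹ * x * w) * (w⁻¹ * g * w) := by group
    rw [e]
    refine FChain.cons _ (f t) _ _ (hSt t x hst) ?_ ?_
    · rw [hD, coe_cjs]
      exact cj_mono hA
    · have e2 : cj (w⁻¹ * x * w) (cj w A) = cj w (cj x A) := by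
        rw [← cj_mul, ← cj_mul]
        congr 1
        group
      rw [e2]; exact ih

end Cfsg.Agent.Helper17
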