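import Cfsg.Agent.Helper17.Sg1

/-!
Strong form of the Alperin–Goldschmidt theorem, part 2: if the Sylow `p`-subgroups of `N_G(U)/U`
are chain-connected, then `N_G(U)` is generated by the normalizers of the larger subgroups of `P`.
-/

set_option autoImplicit false

namespace Cfsg.Agent.Helper17

open Cfsg.Agent.Helper12

theorem sg_ctl_mem {Q : Type*} [Group Q] [Finite Q] {p : ℕ} [Fact p.Prime] (S₀ : Sylow p Q)
    (M : Subgroup Q)
    (hN : ∀ T : Subgroup Q, T ≤ (S₀ : Subgroup Q) → T ≠ ⊥ →
      Subgroup.normalizer (T : Set Q) ≤ M)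
    {a g : Q} (ha : a ∈ (S₀ : Subgroup Q)) (ha1 : a ≠ 1)
    (hag : g⁻¹ * a * g ∈ (S₀ : Subgroup Q)) : g ∈ M := by
  have hSp : IsPGroup p (S₀ : Subgroup Q) := S₀.isPGroup'
  have hfam := fchain_of_family S₀ {T : Subgroup Q | T ≤ (S₀ : Subgroup Q)} (by
    intro T hTS
    obtain ⟨x, hx1, hx2⟩ := exists_fully_normalized S₀ (hSp.to_le hTS)
    exact ⟨cjs x T, hx1, hx1, ⟨x, rfl⟩, hx2⟩) {a} g (by
      intro b hb
      rw [Set.mem_singleton_iff] at hb
      rw [hb]; exact ha) (by
      rintro _ ⟨b, hb, rfl⟩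
      rw [Set.mem_singleton_iff] at hb
      rw [hb]; exact hag)
  have key : ∀ (A : Set Q) (g : Q), FChain (fun T : Subgroup Q => T)
      (fun T x => T ∈ {T : Subgroup Q | T ≤ (S₀ : Subgroup Q)} ∧
        x ∈ Subgroup.normalizer (T : Set Q)) A g → (∃ b ∈ A, b ≠ 1) → g ∈ M := by
    intro A g h
    induction h with
    | nil A => intro _; exact Subgroup.one_mem _
    | cons A t x g hst hA _ ih =>
      rintro ⟨b, hb, hb1⟩
      have htne : t ≠ ⊥ := by
        intro h0
        have h2 : b ∈ t := hA hb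
        rw [h0] at h2
        exact hb1 (Subgroup.mem_bot.1 h2)
      refine Subgroup.mul_mem _ (hN t hst.1 htne hst.2) (ih ⟨x⁻¹ * b * x, conj_mem_cj hb, ?_⟩)
      intro h1
      apply hb1
      have e : b = x * (x⁻¹ * b * x) * x⁻¹ := by group
      rw [e, h1]; group
  exact key _ _ hfam ⟨a, rfl, ha1⟩

theorem sg_conn_top {Q : Type*} [Group Q] [Finite Q] {p : ℕ} [Fact p.Prime] (S₀ : Sylow p Q)
    (hS₀ : (S₀ : Subgroup Q) ≠ ⊥) (M : Subgroup Q)
    (hN : ∀ T : Subgroup Q, T ≤ (S₀ : Subgroup Q) → T ≠ ⊥ →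
      Subgroup.normalizer (T : Set Q) ≤ M)
    (hconn : Cfsg.IsSylowChainConnected p Q) : M = ⊤ := by
  by_contra hM
  have hp : p.Prime := Fact.out
  have hSM : (S₀ : Subgroup Q) ≤ M := le_trans Subgroup.le_normalizer (hN _ le_rfl hS₀)
  have hSp : IsPGroup p (S₀ : Subgroup Q) := S₀.isPGroup'
  apply (Cfsg.Agent.S3056.result p).2 ?_ hconn
  refine ⟨M, hM, ?_, ?_⟩
  · have h1 : Nat.card (S₀ : Subgroup Q) ∣ Nat.card M := Subgroup.card_dvd_of_le hSM
    have h2 : p ∣ Nat.card (S₀ : Subgroup Q) := by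
      obtain ⟨n, hn⟩ := IsPGroup.iff_card.1 hSp
      rw [hn]
      apply dvd_pow_self
      intro h0
      rw [h0, pow_zero] at hn
      exact hS₀ (Subgroup.eq_bot_of_card_eq _ hn)
    exact dvd_trans h2 h1
  · intro g hg hdiv
    apply hg
    obtain ⟨a, ha⟩ := exists_prime_orderOf_dvd_card' p hdiv
    have haM : (a : Q) ∈ M := (Subgroup.mem_inf.1 a.2).1
    have hagM : g⁻¹ * (a : Q) * g ∈ M := (mem_map_conj_iff M g _).1 (Subgroup.mem_inf.1 a.2).2
    have hao : orderOf (a : Q) = p ^ 1 := by rw [Subgroup.orderOf_coe, pow_one]; exact ha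
    have ha1 : (a : Q) ≠ 1 := by
      intro h1
      rw [h1, orderOf_one, pow_one] at hao
      exact hp.one_lt.ne hao
    have hao2 : orderOf (g⁻¹ * (a : Q) * g) = p ^ 1 := by
      have e := orderOf_conj_eq' g⁻¹ (a : Q)
      rw [inv_inv] at e
      rw [e]; exact hao
    obtain ⟨m, hm, hma⟩ := Cfsg.Agent.S3056.exists_conj_mem_sylow_of_le S₀ M hSM _ haM 1 hao
    obtain ⟨m', hm', hma'⟩ := Cfsg.Agent.S3056.exists_conj_mem_sylow_of_le S₀ M hSM _ hagM 1 hao2
    have hb1 : m * (a : Q) * m⁻¹ ≠ 1 := by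
      intro h1
      apply ha1
      have e : (a : Q) = m⁻¹ * (m * (a : Q) * m⁻¹) * m := by group
      rw [e, h1]; group
    have ht : m * g * m'⁻¹ ∈ M := by
      apply sg_ctl_mem S₀ M hN hma hb1
      have e : (m * g * m'⁻¹)⁻¹ * (m * (a : Q) * m⁻¹) * (m * g * m'⁻¹) =
          m' * (g⁻¹ * (a : Q) * g) * m'⁻¹ := by group
      rw [e]; exact hma'
    have e : g = m⁻¹ * (m * g * m'⁻¹) * m' := by group
    rw [e]
    exact Subgroup.mul_mem _ (Subgroup.mul_mem _ (Subgroup.inv_mem _ hm) ht) hm'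

/-- Abstract form: `L` is generated by the normalizers of the subgroups of `S` properly
containing `V`, when `L ⧸ V` is chain-connected. -/
theorem sg_conn_gen {L : Type*} [Group L] [Finite L] {p : ℕ} [Fact p.Prime] (V : Subgroup L)
    [V.Normal] (S : Sylow p L) (hVS : V ≤ (S : Subgroup L)) (hVne : V ≠ (S : Subgroup L))
    (hconn : Cfsg.IsSylowChainConnected p (L ⧸ V)) :
    Subgroup.closure {m : L | ∃ R : Subgroup L, V ≤ R ∧ R ≤ (S : Subgroup L) ∧ V ≠ R ∧
      m ∈ Subgroup.normalizer (R : Set L)} = ⊤ := by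
  have hsurj : Function.Surjective (QuotientGroup.mk' V) := QuotientGroup.mk'_surjective V
  obtain ⟨M, hMdef⟩ : ∃ M : Subgroup L, M = Subgroup.closure {m : L | ∃ R : Subgroup L,
      V ≤ R ∧ R ≤ (S : Subgroup L) ∧ V ≠ R ∧ m ∈ Subgroup.normalizer (R : Set L)} := ⟨_, rfl⟩
  rw [← hMdef]
  have hS₀ : ((S.mapSurjective hsurj : Sylow p (L ⧸ V)) : Subgroup (L ⧸ V)) =
      (S : Subgroup L).map (QuotientGroup.mk' V) := rfl
  have hS₀ne : ((S.mapSurjective hsurj : Sylow p (L ⧸ V)) : Subgroup (L ⧸ V)) ≠ ⊥ := by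
    intro h0
    apply hVne
    apply le_antisymm hVS
    intro s hs
    have h1 : QuotientGroup.mk' V s ∈ ((S.mapSurjective hsurj : Sylow p (L ⧸ V)) :
        Subgroup (L ⧸ V)) := by
      rw [hS₀]; exact Subgroup.mem_map_of_mem _ hs
    rw [h0, Subgroup.mem_bot] at h1
    exact (QuotientGroup.eq_one_iff s).1 h1
  have hVM : V ≤ M := by
    intro v hv
    rw [hMdef]
    apply Subgroup.subset_closure
    exact ⟨(S : Subgroup L), hVS, le_rfl, hVne, Subgroup.le_normalizer (hVS hv)⟩
  have htop : M.map (QuotientGroup.mk' V) = ⊤ := by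
    apply sg_conn_top (S.mapSurjective hsurj) hS₀ne _ _ hconn
    intro T hTS hTne nb hnb
    obtain ⟨n, rfl⟩ := hsurj nb
    apply Subgroup.mem_map_of_mem
    rw [hMdef]
    apply Subgroup.subset_closure
    refine ⟨T.comap (QuotientGroup.mk' V), ?_, ?_, ?_, ?_⟩
    · intro v hv
      rw [Subgroup.mem_comap]
      have h1 : QuotientGroup.mk' V v = 1 := (QuotientGroup.eq_one_iff v).2 hv
      rw [h1]; exact Subgroup.one_mem _
    · intro r hr
      rw [Subgroup.mem_comap] at hr
      have h1 := hTS hr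
      rw [hS₀] at h1
      obtain ⟨s, hs, hsr⟩ := h1
      have h2 : s⁻¹ * r ∈ V := by
        have h3 : (s : L ⧸ V) = (r : L ⧸ V) := hsr
        exact QuotientGroup.eq.1 h3
      have e : r = s * (s⁻¹ * r) := by group
      rw [e]
      exact Subgroup.mul_mem _ hs (hVS h2)
    · intro hVR
      apply hTne
      have h1 : T = (T.comap (QuotientGroup.mk' V)).map (QuotientGroup.mk' V) :=
        (Subgroup.map_comap_eq_self_of_surjective hsurj T).symm
      rw [h1, ← hVR]
      exact QuotientGroup.map_mk'_self V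
    · exact Subgroup.le_normalizer_comap (QuotientGroup.mk' V) hnb
  rw [eq_top_iff]
  intro l _
  have h1 : QuotientGroup.mk' V l ∈ M.map (QuotientGroup.mk' V) := by
    rw [htop]; exact Subgroup.mem_top _
  obtain ⟨m, hm, hml⟩ := h1
  have h2 : m⁻¹ * l ∈ V := by
    have h3 : (m : L ⧸ V) = (l : L ⧸ V) := hml
    exact QuotientGroup.eq.1 h3
  have e : l = m * (m⁻¹ * l) := by group
  rw [e]
  exact Subgroup.mul_mem _ hm (hVM h2)

variable {G : Type*} [Group G]

/-- Induction principle: when `N_G(U)/U` is chain-connected (and `U < P` is fully normalized),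
a property of the elements of `N_G(U)` closed under products and inverses holds as soon as it
holds on the normalizers of the larger subgroups of `P`. -/
theorem sg_conn_induction [Finite G] {p : ℕ} [Fact p.Prime] (P : Sylow p G) {U : Subgroup G}
    (hUP : U ≤ (P : Subgroup G)) (hUne : U ≠ (P : Subgroup G))
    (hidx : ¬ p ∣ ((P : Subgroup G) ⊓ Subgroup.normalizer (U : Set G)).relIndex
      (Subgroup.normalizer (U : Set G)))
    (hconn : Cfsg.IsSylowChainConnected p
      (↥(Subgroup.normalizer (U : Set G)) ⧸ U.subgroupOf (Subgroup.normalizer (U : Set G))))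
    (Pr : G → Prop) (h1 : Pr 1)
    (hmul : ∀ a b, a ∈ Subgroup.normalizer (U : Set G) → b ∈ Subgroup.normalizer (U : Set G) →
      Pr a → Pr b → Pr (a * b))
    (hinv : ∀ a, a ∈ Subgroup.normalizer (U : Set G) → Pr a → Pr a⁻¹)
    (hgen : ∀ (R : Subgroup G) (m : G), U ≤ R → R ≤ (P : Subgroup G) →
      Nat.card U < Nat.card R → m ∈ Subgroup.normalizer (U : Set G) →
      m ∈ Subgroup.normalizer (R : Set G) → Pr m) :
    ∀ h ∈ Subgroup.normalizer (U : Set G), Pr h := by
  have hPp : IsPGroup p (P : Subgroup G) := P.isPGroup'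
  have hP₀p : IsPGroup p (((P : Subgroup G) ⊓ Subgroup.normalizer (U : Set G)).subgroupOf
      (Subgroup.normalizer (U : Set G))) := (hPp.to_le inf_le_left).comap_subtype
  have hUeq : (U.subgroupOf (Subgroup.normalizer (U : Set G))).map
      (Subgroup.normalizer (U : Set G)).subtype = U := by
    rw [Subgroup.subgroupOf_map_subtype, inf_of_le_left Subgroup.le_normalizer]
  have hVS : U.subgroupOf (Subgroup.normalizer (U : Set G)) ≤
      ((hP₀p.toSylow hidx : Sylow p ↥(Subgroup.normalizer (U : Set G))) :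
        Subgroup ↥(Subgroup.normalizer (U : Set G))) := by
    intro v hv
    have hv' : (v : G) ∈ U := Subgroup.mem_subgroupOf.1 hv
    show v ∈ ((P : Subgroup G) ⊓ Subgroup.normalizer (U : Set G)).subgroupOf
      (Subgroup.normalizer (U : Set G))
    rw [Subgroup.mem_subgroupOf]
    exact Subgroup.mem_inf.2 ⟨hUP hv', v.2⟩
  have hVne : U.subgroupOf (Subgroup.normalizer (U : Set G)) ≠
      ((hP₀p.toSylow hidx : Sylow p ↥(Subgroup.normalizer (U : Set G))) :
        Subgroup ↥(Subgroup.normalizer (U : Set G))) := by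
    intro heq
    have hlt := card_lt_card_inf_normalizer hPp hUP hUne
    have hle : (P : Subgroup G) ⊓ Subgroup.normalizer (U : Set G) ≤ U := by
      intro s hs
      have h2 : (⟨s, (Subgroup.mem_inf.1 hs).2⟩ : ↥(Subgroup.normalizer (U : Set G))) ∈
          ((hP₀p.toSylow hidx : Sylow p ↥(Subgroup.normalizer (U : Set G))) :
            Subgroup ↥(Subgroup.normalizer (U : Set G))) := by
        show _ ∈ ((P : Subgroup G) ⊓ Subgroup.normalizer (U : Set G)).subgroupOf
          (Subgroup.normalizer (U : Set G))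
        rw [Subgroup.mem_subgroupOf]
        exact hs
      rw [← heq] at h2
      exact Subgroup.mem_subgroupOf.1 h2
    have := Subgroup.card_le_of_le hle
    omega
  have hgenL := sg_conn_gen (U.subgroupOf (Subgroup.normalizer (U : Set G)))
    (hP₀p.toSylow hidx) hVS hVne hconn
  have key : ∀ l : ↥(Subgroup.normalizer (U : Set G)),
      l ∈ Subgroup.closure {m : ↥(Subgroup.normalizer (U : Set G)) |
        ∃ R : Subgroup ↥(Subgroup.normalizer (U : Set G)),
          U.subgroupOf (Subgroup.normalizer (U : Set G)) ≤ R ∧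
          R ≤ ((hP₀p.toSylow hidx : Sylow p ↥(Subgroup.normalizer (U : Set G))) :
            Subgroup ↥(Subgroup.normalizer (U : Set G))) ∧
          U.subgroupOf (Subgroup.normalizer (U : Set G)) ≠ R ∧
          m ∈ Subgroup.normalizer (R : Set ↥(Subgroup.normalizer (U : Set G)))} →
      Pr (l : G) := by
    intro l hl
    induction hl using Subgroup.closure_induction with
    | mem m hm =>
      obtain ⟨R, hVR, hRS, hne, hmR⟩ := hm
      apply hgen (R.map (Subgroup.normalizer (U : Set G)).subtype) (m : G)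
      · have := Subgroup.map_mono (f := (Subgroup.normalizer (U : Set G)).subtype) hVR
        rwa [hUeq] at this
      · rintro _ ⟨r, hr, rfl⟩
        have h2 : r ∈ ((P : Subgroup G) ⊓ Subgroup.normalizer (U : Set G)).subgroupOf
            (Subgroup.normalizer (U : Set G)) := hRS hr
        exact (Subgroup.mem_inf.1 (Subgroup.mem_subgroupOf.1 h2)).1
      · rw [Subgroup.card_map_of_injective (Subgroup.subtype_injective _)]
        have e := Subgroup.card_map_of_injective
          (K := U.subgroupOf (Subgroup.normalizer (U : Set G)))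
          (f := (Subgroup.normalizer (U : Set G)).subtype) (Subgroup.subtype_injective _)
        rw [hUeq] at e
        rw [e]
        by_contra hcon
        push Not at hcon
        exact hne (Subgroup.eq_of_le_of_card_ge hVR hcon)
      · exact m.2
      · exact Subgroup.le_normalizer_map _ ⟨m, hmR, rfl⟩
    | one => exact h1
    | mul a b _ _ iha ihb => exact hmul _ _ a.2 b.2 iha ihb
    | inv a _ iha => exact hinv _ a.2 iha
  intro h hh
  have := key ⟨h, hh⟩ (by rw [hgenL]; exact Subgroup.mem_top _)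
  exact this

end Cfsg.Agent.Helper17
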