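import Cfsg.Agent.Helper17.Sg2

/-!
Strong form of the Alperin–Goldschmidt theorem, part 3: the case where `N_G(U)/U` is not
chain-connected; the smallest normal subgroup of order divisible by `p` and the Frattini argument.
-/

set_option autoImplicit false

namespace Cfsg.Agent.Helper17

open Cfsg.Agent.Helper12

variable {G : Type*} [Group G]

/-- The order of the image of `Y` in `N_G(U)/U`. -/
theorem sg_card_image (U Y : Subgroup G) (hYN : Y ≤ Subgroup.normalizer (U : Set G)) :
    Nat.card ((Y.subgroupOf (Subgroup.normalizer (U : Set G))).map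
      (QuotientGroup.mk' (U.subgroupOf (Subgroup.normalizer (U : Set G))))) = U.relIndex Y := by
  rw [← Subgroup.relIndex_bot_left, ← Subgroup.relIndex_comap, MonoidHom.comap_bot,
    QuotientGroup.ker_mk', Subgroup.relIndex_subgroupOf hYN]

theorem sg_min_normal [Finite G] {p : ℕ} [Fact p.Prime] (P : Sylow p G) {U : Subgroup G}
    (hUP : U ≤ (P : Subgroup G)) (hUne : U ≠ (P : Subgroup G))
    (hnc : ¬ Cfsg.IsSylowChainConnected p
      (↥(Subgroup.normalizer (U : Set G)) ⧸ U.subgroupOf (Subgroup.normalizer (U : Set G)))) :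
    ∃ X : Subgroup G, U ≤ X ∧ X ≤ Subgroup.normalizer (U : Set G) ∧
      (X.subgroupOf (Subgroup.normalizer (U : Set G))).Normal ∧ p ∣ U.relIndex X ∧
      ∀ Y : Subgroup G, U ≤ Y → Y ≤ Subgroup.normalizer (U : Set G) →
        (Y.subgroupOf (Subgroup.normalizer (U : Set G))).Normal → p ∣ U.relIndex Y → X ≤ Y := by
  have hPp : IsPGroup p (P : Subgroup G) := P.isPGroup'
  have hUp : IsPGroup p U := hPp.to_le hUP
  have hsurj : Function.Surjective
      (QuotientGroup.mk' (U.subgroupOf (Subgroup.normalizer (U : Set G)))) :=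
    QuotientGroup.mk'_surjective _
  have hNmem : p ∣ U.relIndex (Subgroup.normalizer (U : Set G)) := by
    by_contra hcon
    have hlt := card_lt_card_inf_normalizer hPp hUP hUne
    have hle : (P : Subgroup G) ⊓ Subgroup.normalizer (U : Set G) ≤ U :=
      le_of_le_of_relIndex hUp hcon (hPp.to_le inf_le_left) inf_le_right
        (le_inf hUP Subgroup.le_normalizer)
    have := Subgroup.card_le_of_le hle
    omega
  obtain ⟨X, hXmin⟩ := (Set.toFinite {Y : Subgroup G | U ≤ Y ∧
      Y ≤ Subgroup.normalizer (U : Set G) ∧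
      (Y.subgroupOf (Subgroup.normalizer (U : Set G))).Normal ∧ p ∣ U.relIndex Y}).exists_minimal
      ⟨Subgroup.normalizer (U : Set G), Subgroup.le_normalizer, le_rfl,
        (Subgroup.normal_subgroupOf_iff_le_normalizer le_rfl).2 Subgroup.le_normalizer, hNmem⟩
  obtain ⟨⟨hX1, hX2, hX3, hX4⟩, hXle⟩ := hXmin
  refine ⟨X, hX1, hX2, hX3, hX4, ?_⟩
  intro Y hY1 hY2 hY3 hY4
  have hmem : X ⊓ Y ∈ {Y : Subgroup G | U ≤ Y ∧
      Y ≤ Subgroup.normalizer (U : Set G) ∧
      (Y.subgroupOf (Subgroup.normalizer (U : Set G))).Normal ∧ p ∣ U.relIndex Y} := by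
    refine ⟨le_inf hX1 hY1, le_trans inf_le_left hX2, ?_, ?_⟩
    · rw [Subgroup.normal_subgroupOf_iff_le_normalizer (le_trans inf_le_left hX2)]
      have hX3' := (Subgroup.normal_subgroupOf_iff_le_normalizer hX2).1 hX3
      have hY3' := (Subgroup.normal_subgroupOf_iff_le_normalizer hY2).1 hY3
      intro n hn
      have hnX := hX3' hn
      have hnY := hY3' hn
      rw [Subgroup.mem_normalizer_iff] at hnX hnY ⊢
      intro z
      rw [Subgroup.mem_inf, Subgroup.mem_inf, hnX z, hnY z]
    · haveI hXn : ((X.subgroupOf (Subgroup.normalizer (U : Set G))).map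
          (QuotientGroup.mk' (U.subgroupOf (Subgroup.normalizer (U : Set G))))).Normal :=
        Subgroup.Normal.map hX3 _ hsurj
      haveI hYn : ((Y.subgroupOf (Subgroup.normalizer (U : Set G))).map
          (QuotientGroup.mk' (U.subgroupOf (Subgroup.normalizer (U : Set G))))).Normal :=
        Subgroup.Normal.map hY3 _ hsurj
      have hd := Cfsg.Agent.S3058.result p hnc
        ((X.subgroupOf (Subgroup.normalizer (U : Set G))).map
          (QuotientGroup.mk' (U.subgroupOf (Subgroup.normalizer (U : Set G)))))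
        ((Y.subgroupOf (Subgroup.normalizer (U : Set G))).map
          (QuotientGroup.mk' (U.subgroupOf (Subgroup.normalizer (U : Set G)))))
        (by rw [sg_card_image U X hX2]; exact hX4) (by rw [sg_card_image U Y hY2]; exact hY4)
      have heq : (X.subgroupOf (Subgroup.normalizer (U : Set G))).map
            (QuotientGroup.mk' (U.subgroupOf (Subgroup.normalizer (U : Set G)))) ⊓
          (Y.subgroupOf (Subgroup.normalizer (U : Set G))).map
            (QuotientGroup.mk' (U.subgroupOf (Subgroup.normalizer (U : Set G)))) =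
          ((X ⊓ Y).subgroupOf (Subgroup.normalizer (U : Set G))).map
            (QuotientGroup.mk' (U.subgroupOf (Subgroup.normalizer (U : Set G)))) := by
        apply le_antisymm
        · intro q hq
          obtain ⟨hq1, hq2⟩ := Subgroup.mem_inf.1 hq
          obtain ⟨a, ha, rfl⟩ := hq1
          obtain ⟨b, hb, hab⟩ := hq2
          have h2 : b⁻¹ * a ∈ U.subgroupOf (Subgroup.normalizer (U : Set G)) := by
            have h3 : (b : ↥(Subgroup.normalizer (U : Set G)) ⧸
                U.subgroupOf (Subgroup.normalizer (U : Set G))) =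
                (a : ↥(Subgroup.normalizer (U : Set G)) ⧸
                  U.subgroupOf (Subgroup.normalizer (U : Set G))) := hab
            exact QuotientGroup.eq.1 h3
          refine ⟨a, ?_, rfl⟩
          have ha' : (a : G) ∈ X := Subgroup.mem_subgroupOf.1 ha
          have hb' : (b : G) ∈ Y := Subgroup.mem_subgroupOf.1 hb
          have h2' : (b : G)⁻¹ * (a : G) ∈ U := by
            have := Subgroup.mem_subgroupOf.1 h2
            simpa using this
          show a ∈ (X ⊓ Y).subgroupOf (Subgroup.normalizer (U : Set G))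
          rw [Subgroup.mem_subgroupOf]
          refine Subgroup.mem_inf.2 ⟨ha', ?_⟩
          have e : (a : G) = (b : G) * ((b : G)⁻¹ * (a : G)) := by group
          rw [e]
          exact Y.mul_mem hb' (hY1 h2')
        · rintro _ ⟨a, ha, rfl⟩
          have ha' : (a : G) ∈ X ⊓ Y := Subgroup.mem_subgroupOf.1 ha
          exact Subgroup.mem_inf.2 ⟨⟨a, Subgroup.mem_subgroupOf.2 (Subgroup.mem_inf.1 ha').1, rfl⟩,
            ⟨a, Subgroup.mem_subgroupOf.2 (Subgroup.mem_inf.1 ha').2, rfl⟩⟩
      rw [heq, sg_card_image U (X ⊓ Y) (le_trans inf_le_left hX2)] at hd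
      exact hd
  exact le_trans (hXle hmem inf_le_left) inf_le_right

theorem sg_frattini [Finite G] {p : ℕ} [Fact p.Prime] (P : Sylow p G) {U X : Subgroup G}
    (hUP : U ≤ (P : Subgroup G))
    (hidx : ¬ p ∣ ((P : Subgroup G) ⊓ Subgroup.normalizer (U : Set G)).relIndex
      (Subgroup.normalizer (U : Set G)))
    (hUX : U ≤ X) (hXN : X ≤ Subgroup.normalizer (U : Set G))
    (hXn : (X.subgroupOf (Subgroup.normalizer (U : Set G))).Normal) (hpX : p ∣ U.relIndex X)
    {h : G} (hh : h ∈ Subgroup.normalizer (U : Set G)) :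
    ∃ (R : Subgroup G) (m o : G), U ≤ R ∧ R ≤ (P : Subgroup G) ∧ Nat.card U < Nat.card R ∧
      m ∈ Subgroup.normalizer (U : Set G) ∧ m ∈ Subgroup.normalizer (R : Set G) ∧
      o ∈ (Cfsg.pResidual p ↥X).map X.subtype ∧ h = m * o := by
  have hPp : IsPGroup p (P : Subgroup G) := P.isPGroup'
  have hUp : IsPGroup p U := hPp.to_le hUP
  have hP₀p : IsPGroup p (((P : Subgroup G) ⊓ Subgroup.normalizer (U : Set G)).subgroupOf
      (Subgroup.normalizer (U : Set G))) := (hPp.to_le inf_le_left).comap_subtype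
  have hUeq : (U.subgroupOf (Subgroup.normalizer (U : Set G))).map
      (Subgroup.normalizer (U : Set G)).subtype = U := by
    rw [Subgroup.subgroupOf_map_subtype, inf_of_le_left Subgroup.le_normalizer]
  have hXeq : (X.subgroupOf (Subgroup.normalizer (U : Set G))).map
      (Subgroup.normalizer (U : Set G)).subtype = X := by
    rw [Subgroup.subgroupOf_map_subtype, inf_of_le_left hXN]
  obtain ⟨R', hR'P, hR'X, hR'idx, hR'max⟩ := exists_sylow_of_normal (hP₀p.toSylow hidx)
    (X.subgroupOf (Subgroup.normalizer (U : Set G))) hXn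
  have hVR' : U.subgroupOf (Subgroup.normalizer (U : Set G)) ≤ R' := by
    have hVn : (U.subgroupOf (Subgroup.normalizer (U : Set G))).Normal := inferInstance
    have hVp : IsPGroup p (U.subgroupOf (Subgroup.normalizer (U : Set G))) := hUp.comap_subtype
    apply hR'max (U.subgroupOf (Subgroup.normalizer (U : Set G))) hVn hVp
    intro v hv
    rw [Subgroup.mem_subgroupOf] at hv ⊢
    exact hUX hv
  have hR'p : IsPGroup p R' := (hP₀p.toSylow hidx).isPGroup'.to_le hR'P
  have hcardV : Nat.card U = Nat.card (U.subgroupOf (Subgroup.normalizer (U : Set G))) := by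
    have e := Subgroup.card_map_of_injective
      (K := U.subgroupOf (Subgroup.normalizer (U : Set G)))
      (f := (Subgroup.normalizer (U : Set G)).subtype) (Subgroup.subtype_injective _)
    rw [hUeq] at e
    exact e
  have hRidx : ¬ p ∣ (R'.map (Subgroup.normalizer (U : Set G)).subtype).relIndex X := by
    have e := Subgroup.relIndex_map_map_of_injective
      (f := (Subgroup.normalizer (U : Set G)).subtype) R'
      (X.subgroupOf (Subgroup.normalizer (U : Set G))) (Subgroup.subtype_injective _)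
    rw [hXeq] at e
    rw [e]; exact hR'idx
  obtain ⟨l, hl, hlR⟩ := frattini_relIndex hXn hR'X hR'p hR'idx ⟨h, hh⟩
  have hlX : (l : G)⁻¹ ∈ X := X.inv_mem (Subgroup.mem_subgroupOf.1 hl)
  obtain ⟨s, hs, o, ho, hso⟩ := exists_mul_pRes_sub hRidx hlX
  have hsR : s ∈ R'.map (Subgroup.normalizer (U : Set G)).subtype := (Subgroup.mem_inf.1 hs).1
  have hhl : h * (l : G) ∈ Subgroup.normalizer
      ((R'.map (Subgroup.normalizer (U : Set G)).subtype : Subgroup G) : Set G) :=
    Subgroup.le_normalizer_map _ ⟨⟨h, hh⟩ * l, hlR, rfl⟩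
  refine ⟨R'.map (Subgroup.normalizer (U : Set G)).subtype, h * (l : G) * s, o,
    ?_, ?_, ?_, ?_, ?_, ho, ?_⟩
  · have := Subgroup.map_mono (f := (Subgroup.normalizer (U : Set G)).subtype) hVR'
    rwa [hUeq] at this
  · rintro _ ⟨r, hr, rfl⟩
    have h2 : r ∈ ((P : Subgroup G) ⊓ Subgroup.normalizer (U : Set G)).subgroupOf
        (Subgroup.normalizer (U : Set G)) := hR'P hr
    exact (Subgroup.mem_inf.1 (Subgroup.mem_subgroupOf.1 h2)).1
  · rw [Subgroup.card_map_of_injective (Subgroup.subtype_injective _), hcardV]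
    by_contra hcon
    push Not at hcon
    have heq := Subgroup.eq_of_le_of_card_ge hVR' hcon
    apply hR'idx
    rw [← heq, Subgroup.relIndex_subgroupOf hXN]
    exact hpX
  · exact Subgroup.mul_mem _ (Subgroup.mul_mem _ hh l.2) (hXN (Subgroup.mem_inf.1 hs).2)
  · exact Subgroup.mul_mem _ hhl (Subgroup.le_normalizer hsR)
  · rw [mul_assoc, ← hso]
    group

theorem sg_base_nc [Finite G] {p : ℕ} [Fact p.Prime] (P : Sylow p G) {U : Subgroup G}
    (hUP : U ≤ (P : Subgroup G)) (hUne : U ≠ (P : Subgroup G))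
    (hidx : ¬ p ∣ ((P : Subgroup G) ⊓ Subgroup.normalizer (U : Set G)).relIndex
      (Subgroup.normalizer (U : Set G)))
    (hgood : GoodSub p U)
    (hnc : ¬ Cfsg.IsSylowChainConnected p
      (↥(Subgroup.normalizer (U : Set G)) ⧸ U.subgroupOf (Subgroup.normalizer (U : Set G))))
    {h : G} (hh : h ∈ Subgroup.normalizer (U : Set G)) :
    ∃ (R X : Subgroup G) (m o : G), U ≤ R ∧ R ≤ (P : Subgroup G) ∧ Nat.card U < Nat.card R ∧
      m ∈ Subgroup.normalizer (U : Set G) ∧ m ∈ Subgroup.normalizer (R : Set G) ∧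
      sgCond P U X o ∧ h = m * o := by
  obtain ⟨X, hX1, hX2, hX3, hX4, hX5⟩ := sg_min_normal P hUP hUne hnc
  obtain ⟨R, m, o, hUR, hRP, hcard, hmU, hmR, ho, hhmo⟩ :=
    sg_frattini P hUP hidx hX1 hX2 hX3 hX4 hh
  refine ⟨R, X, m, o, hUR, hRP, hcard, hmU, hmR, ⟨hUP, hidx, goodSub_centralizer_le P hUP hgood,
    ?_, hnc, ⟨hX1, hX2, hX3, hX4, hX5⟩, ho⟩, hhmo⟩
  obtain ⟨hC, hKL, hUL, hcomm, -, hsup⟩ := hgood
  apply le_antisymm
  · rw [← hsup]
    apply sup_le _ le_sup_left
    intro a ha
    apply Subgroup.mem_sup_right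
    rw [Subgroup.mem_centralizer_iff]
    intro b hb
    exact (hcomm a ha b hb).symm
  · exact sup_le hUL hC

end Cfsg.Agent.Helper17
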