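import Cfsg.Agent.Helper17.Sg3

/-!
Strong form of the Alperin–Goldschmidt theorem, part 4: the induction.
-/

set_option autoImplicit false

namespace Cfsg.Agent.Helper17

open Cfsg.Agent.Helper12

variable {G : Type*} [Group G]

/-- Chains of strong steps, up to a centralizing element on the left and an element of `N_G(P)`
on the right. -/
def sgRel {p : ℕ} (P : Sylow p G) (A : Set G) (g : G) : Prop :=
  ∃ c k y : G, c ∈ Subgroup.centralizer A ∧
    y ∈ Subgroup.normalizer ((P : Subgroup G) : Set G) ∧ g = c * k * y ∧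
    FChain (fun t : Subgroup G × Subgroup G => t.1) (fun t x => sgCond P t.1 t.2 x) A k

theorem sg_main [Finite G] {p : ℕ} [Fact p.Prime] (P : Sylow p G) :
    ∀ (A : Set G) (g : G), A ⊆ (P : Subgroup G) → cj g A ⊆ (P : Subgroup G) → sgRel P A g := by
  have hPp : IsPGroup p (P : Subgroup G) := P.isPGroup'
  have hinv : ∀ (t : Subgroup G × Subgroup G) (x : G), sgCond P t.1 t.2 x →
      sgCond P t.1 t.2 x⁻¹ := fun t x h => sgCond_inv P h
  have hnorm : ∀ (t : Subgroup G × Subgroup G) (x : G), sgCond P t.1 t.2 x →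
      x ∈ Subgroup.normalizer ((t.1 : Subgroup G) : Set G) :=
    fun t x h => sgCond_mem_normalizer P h
  have hconj : ∀ w : G, w ∈ Subgroup.normalizer ((P : Subgroup G) : Set G) →
      ∀ (A : Set G) (k : G),
      FChain (fun t : Subgroup G × Subgroup G => t.1) (fun t x => sgCond P t.1 t.2 x) A k →
      FChain (fun t : Subgroup G × Subgroup G => t.1) (fun t x => sgCond P t.1 t.2 x)
        (cj w A) (w⁻¹ * k * w) := by
    intro w hw A k h
    exact sg_fchain_conj (fun t => (cjs w t.1, cjs w t.2)) w (fun t => rfl)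
      (fun t x hst => sgCond_conj P hw hst) h
  have R1 : ∀ (A B : Set G) (g : G), sgRel P A g → B ⊆ A → sgRel P B g := by
    rintro A B g ⟨c, k, y, hc, hy, hg, hch⟩ hBA
    exact ⟨c, k, y, Subgroup.centralizer_le hBA hc, hy, hg, hch.mono hBA⟩
  have R2 : ∀ (A : Set G) (g h : G), sgRel P A g → sgRel P (cj g A) h → sgRel P A (g * h) := by
    rintro A g h ⟨c, k, y, hc, hy, hg, hch⟩ ⟨c', k', y', hc', hy', hh, hch'⟩
    have hcj : cj g A = cj y (cj k A) := by
      rw [hg, cj_mul, cj_mul, cj_eq_of_mem_centralizer hc]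
    rw [hcj] at hc' hch'
    have h1 := hconj y⁻¹ (inv_mem hy) _ _ hch'
    rw [cj_inv_cj, inv_inv] at h1
    refine ⟨c * ((k * y) * c' * (k * y)⁻¹), k * (y * k' * y⁻¹), y * y', mul_mem hc ?_,
      mul_mem hy hy', by rw [hg, hh]; group, hch.append h1⟩
    rw [Subgroup.mem_centralizer_iff]
    intro a ha
    have ha' : (k * y)⁻¹ * a * (k * y) ∈ cj y (cj k A) := by
      rw [← cj_mul]; exact conj_mem_cj ha
    have h2 := (Subgroup.mem_centralizer_iff.1 hc') _ ha'
    calc a * ((k * y) * c' * (k * y)⁻¹)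
        = (k * y) * ((k * y)⁻¹ * a * (k * y) * c') * (k * y)⁻¹ := by group
      _ = (k * y) * (c' * ((k * y)⁻¹ * a * (k * y))) * (k * y)⁻¹ := by rw [h2]
      _ = (k * y) * c' * (k * y)⁻¹ * a := by group
  have R3 : ∀ (A : Set G) (g : G), sgRel P A g → sgRel P (cj g A) g⁻¹ := by
    rintro A g ⟨c, k, y, hc, hy, hg, hch⟩
    have hcj : cj g A = cj y (cj k A) := by
      rw [hg, cj_mul, cj_mul, cj_eq_of_mem_centralizer hc]
    rw [hcj]
    have h1 := hconj y hy _ _ (hch.symm hinv hnorm)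
    refine ⟨(k * y)⁻¹ * c⁻¹ * (k * y), y⁻¹ * k⁻¹ * y, y⁻¹, ?_, inv_mem hy, by rw [hg]; group, h1⟩
    rw [Subgroup.mem_centralizer_iff]
    intro b hb
    rw [← cj_mul] at hb
    obtain ⟨a, ha, rfl⟩ := hb
    have h2 := (Subgroup.mem_centralizer_iff.1 (inv_mem hc)) a ha
    calc (k * y)⁻¹ * a * (k * y) * ((k * y)⁻¹ * c⁻¹ * (k * y))
        = (k * y)⁻¹ * (a * c⁻¹) * (k * y) := by group
      _ = (k * y)⁻¹ * (c⁻¹ * a) * (k * y) := by rw [h2]
      _ = (k * y)⁻¹ * c⁻¹ * (k * y) * ((k * y)⁻¹ * a * (k * y)) := by group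
  apply alperin_induction_set P (sgRel P) R1 R2 R3 Set.univ
  · intro T hTS
    obtain ⟨x, hx1, hx2⟩ := exists_fully_normalized P (hPp.to_le hTS)
    exact ⟨cjs x T, Set.mem_univ _, hx1, ⟨x, rfl⟩, hx2⟩
  · intro U _ hUP hidx IH h hh
    have hone : sgRel P (U : Set G) 1 :=
      ⟨1, 1, 1, one_mem _, one_mem _, by simp, FChain.nil _⟩
    have hbig : ∀ (R : Subgroup G) (m : G), U ≤ R → R ≤ (P : Subgroup G) →
        Nat.card U < Nat.card R → m ∈ Subgroup.normalizer (R : Set G) →
        sgRel P (U : Set G) m := by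
      intro R m hUR hRP hcard hm
      exact R1 _ _ _ (IH R hRP hcard m (by rw [cj_eq_of_mem_normalizer hm]; exact hRP)) hUR
    by_cases hUeq : U = (P : Subgroup G)
    · refine ⟨1, 1, h, one_mem _, ?_, by simp, FChain.nil _⟩
      rw [← hUeq]; exact hh
    by_cases hgood : GoodSub p U
    · by_cases hconn : Cfsg.IsSylowChainConnected p
          (↥(Subgroup.normalizer (U : Set G)) ⧸ U.subgroupOf (Subgroup.normalizer (U : Set G)))
      · apply sg_conn_induction P hUP hUeq hidx hconn (fun h => sgRel P (U : Set G) h) hone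
          ?_ ?_ ?_ h hh
        · intro a b ha hb hRa hRb
          apply R2 _ _ _ hRa
          rw [cj_eq_of_mem_normalizer ha]; exact hRb
        · intro a ha hRa
          have := R3 _ _ hRa
          rwa [cj_eq_of_mem_normalizer ha] at this
        · intro R m hUR hRP hcard _ hm
          exact hbig R m hUR hRP hcard hm
      · obtain ⟨R, X, m, o, hUR, hRP, hcard, hmU, hmR, hcond, rfl⟩ :=
          sg_base_nc P hUP hUeq hidx hgood hconn hh
        apply R2 _ _ _ (hbig R m hUR hRP hcard hmR)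
        rw [cj_eq_of_mem_normalizer hmU]
        exact ⟨1, o, 1, one_mem _, one_mem _, by simp,
          FChain.single (t := (U, X)) hcond (Set.Subset.refl _)⟩
    · obtain ⟨R, hUR, hcard, hRP, hdec⟩ := goldschmidt_step_sub P hUP hidx hgood
      obtain ⟨c, hc, m, hm, rfl⟩ := hdec h hh
      obtain ⟨c₁, k₁, y₁, hc₁, hy₁, hm₁, hch₁⟩ :=
        IH R hRP hcard m (by rw [cj_eq_of_mem_normalizer hm]; exact hRP)
      exact ⟨c * c₁, k₁, y₁, mul_mem hc (Subgroup.centralizer_le hUR hc₁), hy₁,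
        by rw [hm₁]; group, hch₁.mono hUR⟩

end Cfsg.Agent.Helper17
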