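import Mathlib

namespace Cfsg.Agent.Helper17

theorem conj_comm_of_prime_card {N : Type*} [Group N] {p : ℕ} [Fact p.Prime]
    (X : Subgroup N) (hX : Nat.card X = p) (hXn : ∀ n : N, ∀ x ∈ X, n * x * n⁻¹ ∈ X)
    (g h : N) (x : N) (hx : x ∈ X) :
    (g * h) * x * (g * h)⁻¹ = (h * g) * x * (h * g)⁻¹ := by
  haveI : X.Normal := ⟨fun x hx n => hXn n x hx⟩
  haveI : IsCyclic X := isCyclic_of_prime_card hX
  have hcomm : ∀ σ τ : MulAut X, σ * τ = τ * σ := by
    intro σ τ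
    apply (IsCyclic.mulAutMulEquiv X).injective
    rw [map_mul, map_mul, mul_comm]
  have h1 := hcomm (MulAut.conjNormal g) (MulAut.conjNormal h)
  rw [← map_mul, ← map_mul] at h1
  have h2 := congrArg (fun σ : MulAut X => ((σ ⟨x, hx⟩ : X) : N)) h1
  simp [MulAut.conjNormal_apply] at h2
  calc (g * h) * x * (g * h)⁻¹ = g * (h * x * h⁻¹) * g⁻¹ := by group
    _ = h * (g * x * g⁻¹) * h⁻¹ := h2
    _ = _ := by group

theorem split_of_central_involution {N : Type*} [Group N] [Finite N] {p : ℕ} [Fact p.Prime]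
    (hp : p ≠ 2)
    (A : Subgroup N) [hAn : A.Normal] (hAc : ∀ a ∈ A, ∀ b ∈ A, a * b = b * a)
    (hAcard : Nat.card A = p ^ 2)
    (hAexp : ∀ a ∈ A, a ^ p = 1)
    (hAself : Subgroup.centralizer (A : Set N) = A)
    (t : N) (ht2 : t * t = 1) (htA : t ∉ A) (htc : ∀ n : N, n * t * n⁻¹ * t⁻¹ ∈ A)
    (hna : ∃ g h : N, g * h * g⁻¹ * h⁻¹ ∉ A) :
    ∃ U : Subgroup N, A ⊓ U = ⊥ ∧ A ⊔ U = ⊤ := by
  classical
  have hpp : p.Prime := Fact.out
  have hpodd : Odd p := hpp.odd_of_ne_two hp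
  obtain ⟨k, hk⟩ := hpodd
  have hsq : ∀ a ∈ A, (a * a) ^ (k + 1) = a := by
    intro a ha
    have h1 : (a * a) ^ (k + 1) = a ^ p * a := by
      rw [← pow_two, ← pow_mul, hk, ← pow_succ]
      congr 1
    rw [h1, hAexp a ha, one_mul]
  have htinv : t⁻¹ = t := inv_eq_of_mul_eq_one_left ht2
  have htA' : ∀ a ∈ A, t * a * t⁻¹ ∈ A := fun a ha => hAn.conj_mem a ha t
  have htt : ∀ a : N, t * (t * a * t⁻¹) * t⁻¹ = a := by
    intro a
    rw [htinv]
    calc t * (t * a * t) * t = (t * t) * a * (t * t) := by group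
      _ = a := by rw [ht2, one_mul, mul_one]
  -- the fixed points and the inverted points
  let I : Subgroup N :=
    { carrier := {a | a ∈ A ∧ t * a * t⁻¹ = a⁻¹}
      one_mem' := ⟨A.one_mem, by simp⟩
      mul_mem' := by
        rintro a b ⟨ha, ha'⟩ ⟨hb, hb'⟩
        refine ⟨A.mul_mem ha hb, ?_⟩
        have h1 : t * (a * b) * t⁻¹ = (t * a * t⁻¹) * (t * b * t⁻¹) := by group
        rw [h1, ha', hb', mul_inv_rev]
        exact hAc _ (A.inv_mem ha) _ (A.inv_mem hb)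
      inv_mem' := by
        rintro a ⟨ha, ha'⟩
        refine ⟨A.inv_mem ha, ?_⟩
        have h1 : t * a⁻¹ * t⁻¹ = (t * a * t⁻¹)⁻¹ := by group
        rw [h1, ha'] }
  have hI : ∀ a, a ∈ I ↔ a ∈ A ∧ t * a * t⁻¹ = a⁻¹ := fun a => Iff.rfl
  have hC : ∀ a, a ∈ A ⊓ Subgroup.centralizer {t} ↔ a ∈ A ∧ t * a * t⁻¹ = a := by
    intro a
    rw [Subgroup.mem_inf, Subgroup.mem_centralizer_iff]
    constructor
    · rintro ⟨ha, h⟩
      refine ⟨ha, ?_⟩
      rw [h t rfl, mul_inv_cancel_right]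
    · rintro ⟨ha, h⟩
      refine ⟨ha, ?_⟩
      intro x hx
      rw [Set.mem_singleton_iff] at hx
      subst hx
      conv_rhs => rw [← h]
      group
  -- decomposition
  have hplus : ∀ a ∈ A, (a * (t * a * t⁻¹)) ^ (k + 1) ∈ A ⊓ Subgroup.centralizer {t} := by
    intro a ha
    apply Subgroup.pow_mem
    rw [hC]
    refine ⟨A.mul_mem ha (htA' a ha), ?_⟩
    have h1 : t * (a * (t * a * t⁻¹)) * t⁻¹ = (t * a * t⁻¹) * (t * (t * a * t⁻¹) * t⁻¹) := by
      group
    rw [h1, htt]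
    exact hAc _ (htA' a ha) _ ha
  have hminus : ∀ a ∈ A, (a * (t * a * t⁻¹)⁻¹) ^ (k + 1) ∈ I := by
    intro a ha
    apply Subgroup.pow_mem
    rw [hI]
    refine ⟨A.mul_mem ha (A.inv_mem (htA' a ha)), ?_⟩
    have h1 : t * (a * (t * a * t⁻¹)⁻¹) * t⁻¹
        = (t * a * t⁻¹) * (t * (t * a * t⁻¹) * t⁻¹)⁻¹ := by
      group
    rw [h1, htt, mul_inv_rev, inv_inv]
  have hdec : ∀ a ∈ A, (a * (t * a * t⁻¹)) ^ (k + 1) * (a * (t * a * t⁻¹)⁻¹) ^ (k + 1) = a := by
    intro a ha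
    have hb := htA' a ha
    have hcm : Commute (a * (t * a * t⁻¹)) (a * (t * a * t⁻¹)⁻¹) :=
      hAc _ (A.mul_mem ha hb) _ (A.mul_mem ha (A.inv_mem hb))
    rw [← hcm.mul_pow]
    have h1 : a * (t * a * t⁻¹) * (a * (t * a * t⁻¹)⁻¹) = a * a := by
      have h2 : (t * a * t⁻¹) * a = a * (t * a * t⁻¹) := hAc _ hb _ ha
      calc a * (t * a * t⁻¹) * (a * (t * a * t⁻¹)⁻¹)
          = a * ((t * a * t⁻¹) * a) * (t * a * t⁻¹)⁻¹ := by group
        _ = a * (a * (t * a * t⁻¹)) * (t * a * t⁻¹)⁻¹ := by rw [h2]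
        _ = a * a := by group
    rw [h1, hsq a ha]
  -- conjugation compatibility
  have hstar : ∀ n : N, ∀ a ∈ A, t * (n * a * n⁻¹) * t⁻¹ = n * (t * a * t⁻¹) * n⁻¹ := by
    intro n a ha
    have ha' : n⁻¹ * t * n * t⁻¹ ∈ A := by
      have := htc n⁻¹
      rwa [inv_inv] at this
    have e1 : t * (n * a * n⁻¹) * t⁻¹
        = n * ((n⁻¹ * t * n * t⁻¹) * (t * a * t⁻¹) * (n⁻¹ * t * n * t⁻¹)⁻¹) * n⁻¹ := by
      group
    have e2 : (n⁻¹ * t * n * t⁻¹) * (t * a * t⁻¹) * (n⁻¹ * t * n * t⁻¹)⁻¹ = t * a * t⁻¹ := by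
      rw [hAc _ ha' _ (htA' a ha), mul_inv_cancel_right]
    rw [e1, e2]
  have hCn : ∀ n : N, ∀ x ∈ A ⊓ Subgroup.centralizer {t},
      n * x * n⁻¹ ∈ A ⊓ Subgroup.centralizer {t} := by
    intro n x hx
    rw [hC] at hx ⊢
    refine ⟨hAn.conj_mem x hx.1 n, ?_⟩
    rw [hstar n x hx.1, hx.2]
  have hIn : ∀ n : N, ∀ x ∈ I, n * x * n⁻¹ ∈ I := by
    intro n x hx
    rw [hI] at hx ⊢
    refine ⟨hAn.conj_mem x hx.1 n, ?_⟩
    rw [hstar n x hx.1, hx.2]
    group
  have hCI : ∀ a, a ∈ A ⊓ Subgroup.centralizer {t} → a ∈ I → a = 1 := by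
    intro a ha1 ha2
    rw [hC] at ha1
    rw [hI] at ha2
    have h1 : a = a⁻¹ := ha1.2.symm.trans ha2.2
    have h2 : a * a = 1 := by
      nth_rewrite 1 [h1]
      exact inv_mul_cancel a
    have h3 := hsq a ha1.1
    rw [h2, one_pow] at h3
    exact h3.symm
  have hIA : I ≤ A := fun a ha => ((hI a).1 ha).1
  by_cases hCbot : A ⊓ Subgroup.centralizer {t} = ⊥
  · refine ⟨Subgroup.centralizer {t}, hCbot, ?_⟩
    have hinv : ∀ a ∈ A, t * a * t⁻¹ = a⁻¹ := by
      intro a ha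
      have h1 : a * (t * a * t⁻¹) ∈ A ⊓ Subgroup.centralizer {t} := by
        rw [hC]
        refine ⟨A.mul_mem ha (htA' a ha), ?_⟩
        have h1 : t * (a * (t * a * t⁻¹)) * t⁻¹ = (t * a * t⁻¹) * (t * (t * a * t⁻¹) * t⁻¹) := by
          group
        rw [h1, htt]
        exact hAc _ (htA' a ha) _ ha
      rw [hCbot, Subgroup.mem_bot] at h1
      exact eq_inv_of_mul_eq_one_right h1
    rw [eq_top_iff]
    intro n _
    have ha'' : n * t * n⁻¹ * t⁻¹ ∈ A := htc n
    set a'' := n * t * n⁻¹ * t⁻¹ with ha''def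
    have hb : a'' ^ (k + 1) ∈ A := A.pow_mem ha'' _
    set b := a'' ^ (k + 1) with hbdef
    have hbb : b * b = a'' := by
      rw [hbdef, ← (Commute.refl a'').mul_pow]
      exact hsq a'' ha''
    have hbt : t * b * t⁻¹ = b⁻¹ := hinv b hb
    have hmem : b⁻¹ * n ∈ Subgroup.centralizer {t} := by
      rw [Subgroup.mem_centralizer_iff]
      intro x hx
      rw [Set.mem_singleton_iff] at hx
      subst hx
      have h1 : n * x = a'' * x * n := by
        rw [ha''def]; group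
      have h2 : x * b⁻¹ = b * x := by
        have : x * b⁻¹ * x⁻¹ = b := by
          have h3 : x * b⁻¹ * x⁻¹ = (x * b * x⁻¹)⁻¹ := by group
          rw [h3, hbt, inv_inv]
        calc x * b⁻¹ = (x * b⁻¹ * x⁻¹) * x := by group
          _ = b * x := by rw [this]
      calc x * (b⁻¹ * n) = (x * b⁻¹) * n := by group
        _ = b * x * n := by rw [h2]
        _ = b⁻¹ * (b * b) * x * n := by group
        _ = b⁻¹ * (a'' * x * n) := by rw [hbb]; group
        _ = b⁻¹ * n * x := by rw [← h1]; group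
    have : n = b * (b⁻¹ * n) := by group
    rw [this]
    exact Subgroup.mul_mem_sup hb hmem
  · exfalso
    by_cases hIbot : I = ⊥
    · apply htA
      rw [← hAself, Subgroup.mem_centralizer_iff]
      intro a ha
      have h1 := hminus a ha
      rw [hIbot, Subgroup.mem_bot] at h1
      have h2 := hdec a ha
      rw [h1, mul_one] at h2
      have h3 := hplus a ha
      rw [h2, hC] at h3
      have h4 : a * t = (t * a * t⁻¹) * t := by rw [h3.2]
      rw [h4]; group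
    · -- both of order p
      have hcardC : Nat.card (A ⊓ Subgroup.centralizer {t} : Subgroup N) = p := by
        have hdvd : Nat.card (A ⊓ Subgroup.centralizer {t} : Subgroup N) ∣ p ^ 2 := by
          rw [← hAcard]
          exact Subgroup.card_dvd_of_le inf_le_left
        obtain ⟨j, hj, hjc⟩ := (Nat.dvd_prime_pow hpp).1 hdvd
        interval_cases j
        · exfalso
          apply hCbot
          exact Subgroup.card_eq_one.1 (by rw [hjc, pow_zero])
        · rw [hjc, pow_one]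
        · exfalso
          have hCA : A ⊓ Subgroup.centralizer {t} = A :=
            Subgroup.eq_of_le_of_card_ge inf_le_left (by rw [hjc, hAcard])
          apply hIbot
          rw [eq_bot_iff]
          intro a ha
          rw [Subgroup.mem_bot]
          exact hCI a (by rw [hCA]; exact hIA ha) ha
      have hcardI : Nat.card I = p := by
        have hdvd : Nat.card I ∣ p ^ 2 := by
          rw [← hAcard]
          exact Subgroup.card_dvd_of_le hIA
        obtain ⟨j, hj, hjc⟩ := (Nat.dvd_prime_pow hpp).1 hdvd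
        interval_cases j
        · exfalso
          apply hIbot
          exact Subgroup.card_eq_one.1 (by rw [hjc, pow_zero])
        · rw [hjc, pow_one]
        · exfalso
          have hIA' : I = A :=
            Subgroup.eq_of_le_of_card_ge hIA (by rw [hjc, hAcard])
          apply hCbot
          rw [eq_bot_iff]
          intro a ha
          rw [Subgroup.mem_bot]
          exact hCI a ha (by rw [hIA']; exact ha.1)
      obtain ⟨g, h, hgh⟩ := hna
      apply hgh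
      rw [← hAself, Subgroup.mem_centralizer_iff]
      intro a ha
      have h1 := conj_comm_of_prime_card (A ⊓ Subgroup.centralizer {t}) hcardC hCn g⁻¹ h⁻¹ _
        (hplus a ha)
      have h2 := conj_comm_of_prime_card I hcardI hIn g⁻¹ h⁻¹ _ (hminus a ha)
      have h3 : (g⁻¹ * h⁻¹) * a * (g⁻¹ * h⁻¹)⁻¹ = (h⁻¹ * g⁻¹) * a * (h⁻¹ * g⁻¹)⁻¹ := by
        conv_lhs => rw [← hdec a ha]
        conv_rhs => rw [← hdec a ha]
        have e1 : ∀ (w x y : N), w * (x * y) * w⁻¹ = (w * x * w⁻¹) * (w * y * w⁻¹) := by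
          intro w x y; group
        rw [e1, e1, h1, h2]
      have h4 : a = (g * h * g⁻¹ * h⁻¹) * a * (g * h * g⁻¹ * h⁻¹)⁻¹ := by
        have : (g * h * g⁻¹ * h⁻¹) * a * (g * h * g⁻¹ * h⁻¹)⁻¹
            = (g * h) * ((g⁻¹ * h⁻¹) * a * (g⁻¹ * h⁻¹)⁻¹) * (g * h)⁻¹ := by group
        rw [this, h3]; group
      calc a * (g * h * g⁻¹ * h⁻¹)
          = ((g * h * g⁻¹ * h⁻¹) * a * (g * h * g⁻¹ * h⁻¹)⁻¹) * (g * h * g⁻¹ * h⁻¹) := by rw [← h4]
        _ = g * h * g⁻¹ * h⁻¹ * a := by group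

end Cfsg.Agent.Helper17
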