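import Cfsg.Agent.Helper17.Ss3
import Cfsg.Agent.S3031
import Cfsg.Agent.Lead.Transfer
import Cfsg.Agent.Helper4.CardMul
import Cfsg.Agent.Helper1.PUnique

set_option autoImplicit false

namespace Cfsg.Agent.Helper17

open Subgroup
open scoped Pointwise

variable {G : Type*} [Group G]

/-- The hypothesis of the supersolvability criterion on `E`. -/
def SSHyp (E : Subgroup G) : Prop :=
  ∀ (p : ℕ), p.Prime → ∀ P : Subgroup G, P ≤ E → IsPGroup p P → ¬ p ∣ P.relIndex E →
    ¬ IsCyclic ↥P →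
      ∃ D : Subgroup G, D ≤ P ∧ 1 < Nat.card D ∧ Nat.card D < Nat.card P ∧
        ∀ F : Subgroup G, F ≤ P →
          (Nat.card F = Nat.card D ∨ (Nat.card D = 2 ∧ Nat.card F = 4)) →
          ∀ g : G, F.map (MulAut.conj g).toMonoidHom ⊓ Subgroup.normalizer (F : Set G) ≤ F

theorem ss_npc_sub [Finite G] {p : ℕ} [hp : Fact p.Prime] (E : Subgroup G) (hE : SSHyp E)
    (hdiv : p ∣ Nat.card E) (hmin : ∀ q : ℕ, q.Prime → q ∣ Nat.card E → p ≤ q)
    (P' : Sylow p ↥E) : Cfsg.HasNormalPComplement p ↥E := by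
  apply Cfsg.Agent.S3031.result hdiv hmin P'
  by_cases hc : IsCyclic ↥(P' : Subgroup ↥E)
  · exact Or.inl hc
  right
  have hinj := subtype_injective E
  have hPE : (P' : Subgroup ↥E).map E.subtype ≤ E := map_subtype_le _
  have hPp : IsPGroup p ((P' : Subgroup ↥E).map E.subtype) := P'.2.map _
  have hidx : ¬ p ∣ ((P' : Subgroup ↥E).map E.subtype).relIndex E := by
    rw [relIndex, subgroupOf, comap_map_eq_self_of_injective hinj]
    exact P'.not_dvd_index
  have hnc : ¬ IsCyclic ↥((P' : Subgroup ↥E).map E.subtype) := by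
    intro hcyc
    apply hc
    exact isCyclic_of_surjective
      ((P' : Subgroup ↥E).equivMapOfInjective E.subtype hinj).symm.toMonoidHom
      ((P' : Subgroup ↥E).equivMapOfInjective E.subtype hinj).symm.surjective
  obtain ⟨D, hDP, hD1, hD2, hD⟩ := hE p hp.out _ hPE hPp hidx hnc
  have hcD : Nat.card (D.subgroupOf E) = Nat.card D :=
    Nat.card_congr (subgroupOfEquivOfLe (hDP.trans hPE)).toEquiv
  have hcP : Nat.card ((P' : Subgroup ↥E).map E.subtype) = Nat.card (P' : Subgroup ↥E) :=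
    Subgroup.card_map_of_injective hinj
  refine ⟨D.subgroupOf E, ?_, ?_, ?_, ?_⟩
  · intro x hx
    obtain ⟨y, hy, hyx⟩ := hDP (mem_subgroupOf.mp hx)
    have : y = x := hinj hyx
    rw [← this]; exact hy
  · rw [hcD]; exact hD1
  · rw [hcD, ← hcP]; exact hD2
  · intro F' hF'P hF'c g' x hx
    obtain ⟨hx1, hx2⟩ := mem_inf.mp hx
    have hcF : Nat.card (F'.map E.subtype) = Nat.card F' :=
      Subgroup.card_map_of_injective hinj
    have hFP : F'.map E.subtype ≤ (P' : Subgroup ↥E).map E.subtype := map_mono hF'P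
    have hc' : Nat.card (F'.map E.subtype) = Nat.card D ∨
        (Nat.card D = 2 ∧ Nat.card (F'.map E.subtype) = 4) := by
      rw [hcF, ← hcD]; exact hF'c
    have key := hD (F'.map E.subtype) hFP hc' (g' : G)
    have hxF : (x : G) ∈ F'.map E.subtype := by
      apply key
      refine mem_inf.mpr ⟨?_, ?_⟩
      · obtain ⟨f, hf, hfx⟩ := hx1
        refine ⟨(f : G), ⟨f, hf, rfl⟩, ?_⟩
        rw [← hfx]; rfl
      · apply mem_normalizer_fintype
        rintro n ⟨n', hn', rfl⟩
        exact ⟨x * n' * x⁻¹, (mem_normalizer_iff.mp hx2 n').mp hn', rfl⟩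
    obtain ⟨y, hy, hyx⟩ := hxF
    have : y = x := hinj hyx
    rw [← this]; exact hy

theorem ss_cyclic_inv [Finite G] (P T : Subgroup G) [IsCyclic ↥P] (hTP : T ≤ P) :
    normalizer (P : Set G) ≤ normalizer (T : Set G) := by
  intro n hn
  apply mem_normalizer_fintype
  intro t ht
  have h1 : n * t * n⁻¹ ∈ P := (mem_normalizer_iff.mp hn t).mp (hTP ht)
  have h0 : t ^ Nat.card T = 1 :=
    orderOf_dvd_iff_pow_eq_one.mp (Subgroup.orderOf_dvd_natCard T ht)
  have h2 : (n * t * n⁻¹) ^ Nat.card T = 1 := by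
    rw [conj_pow, h0]; group
  have h3 := Helper1.cyclic_sub_unique (B := ↥P) (Nat.card T) Nat.card_pos (T.subgroupOf P)
    (Nat.card_congr (subgroupOfEquivOfLe hTP).toEquiv) ⟨n * t * n⁻¹, h1⟩ (Subtype.ext h2)
  exact mem_subgroupOf.mp h3

theorem ss_claim [Finite G] : ∀ (n : ℕ) (E : Subgroup G), Nat.card E = n → E.Normal → SSHyp E →
    ∀ M : Subgroup G, IsCoatom M → ¬ E ≤ M → M.index.Prime := by
  intro n
  induction n using Nat.strong_induction_on with
  | _ n ih =>
  intro E hEn hEnorm hE M hM hEM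
  haveI := hEnorm
  have hE1 : Nat.card E ≠ 1 := by
    intro h1
    apply hEM
    rw [Subgroup.eq_bot_of_card_eq E h1]
    exact bot_le
  obtain ⟨p, hp, hpdiv, hpmin⟩ : ∃ p, p.Prime ∧ p ∣ Nat.card E ∧
      ∀ q : ℕ, q.Prime → q ∣ Nat.card E → p ≤ q :=
    ⟨(Nat.card E).minFac, Nat.minFac_prime hE1, Nat.minFac_dvd _,
      fun q hq hqd => Nat.minFac_le_of_dvd hq.two_le hqd⟩
  haveI hpf : Fact p.Prime := ⟨hp⟩
  obtain ⟨P'⟩ : Nonempty (Sylow p ↥E) := inferInstance
  obtain ⟨K', hK'n, hK'c⟩ :=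
    (Lead.hasNormalPComplement_iff P').mp (ss_npc_sub E hE hpdiv hpmin P')
  have hinj := subtype_injective E
  obtain ⟨P, hPdef⟩ : ∃ P : Subgroup G, P = (P' : Subgroup ↥E).map E.subtype := ⟨_, rfl⟩
  obtain ⟨K, hKdef⟩ : ∃ K : Subgroup G, K = K'.map E.subtype := ⟨_, rfl⟩
  have hPE : P ≤ E := by rw [hPdef]; exact map_subtype_le _
  have hKE : K ≤ E := by rw [hKdef]; exact map_subtype_le _
  have hPp : IsPGroup p P := by rw [hPdef]; exact P'.2.map _
  have hcP : Nat.card P = Nat.card (P' : Subgroup ↥E) := by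
    rw [hPdef]; exact Subgroup.card_map_of_injective hinj
  have hcK : Nat.card K = Nat.card K' := by
    rw [hKdef]; exact Subgroup.card_map_of_injective hinj
  have hcard : Nat.card K * Nat.card P = Nat.card E := by
    rw [hcP, hcK]; exact hK'c.card_mul_card
  have hK'idx : K'.index = Nat.card P := by
    rw [hcP]; exact hK'c.symm.index_eq_card
  have hPidx : ¬ p ∣ Nat.card K := by
    rw [hcK, ← hK'c.index_eq_card]
    exact P'.not_dvd_index
  have hKcop : (Nat.card K).Coprime p :=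
    ((Nat.Prime.coprime_iff_not_dvd hp).mpr hPidx).symm
  obtain ⟨i, hi⟩ := hPp.exists_card_eq
  -- p'-elements of E lie in K
  have hpK : ∀ x : G, ∀ hx : x ∈ E, (orderOf x).Coprime p → x ∈ K := by
    intro x hx hxo
    have h1 : orderOf (QuotientGroup.mk' K' (⟨x, hx⟩ : ↥E)) ∣ orderOf x := by
      have := orderOf_map_dvd (QuotientGroup.mk' K') (⟨x, hx⟩ : ↥E)
      rwa [Subgroup.orderOf_mk] at this
    have h2 : orderOf (QuotientGroup.mk' K' (⟨x, hx⟩ : ↥E)) ∣ p ^ i := by
      have := _root_.orderOf_dvd_natCard (QuotientGroup.mk' K' (⟨x, hx⟩ : ↥E))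
      rwa [← Subgroup.index_eq_card, hK'idx, hi] at this
    have h3 : orderOf (QuotientGroup.mk' K' (⟨x, hx⟩ : ↥E)) = 1 :=
      (Nat.Coprime.coprime_dvd_left h1 (hxo.pow_right i)).eq_one_of_dvd h2
    have h4 : (QuotientGroup.mk' K' (⟨x, hx⟩ : ↥E)) = 1 := orderOf_eq_one_iff.mp h3
    have h5 : (⟨x, hx⟩ : ↥E) ∈ K' := (QuotientGroup.eq_one_iff _).mp h4
    rw [hKdef]
    exact ⟨⟨x, hx⟩, h5, rfl⟩
  have hKnorm : K.Normal := by
    constructor
    intro k hk g
    apply hpK _ (hEnorm.conj_mem k (hKE hk) g)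
    have h1 := (MulAut.conj g).orderOf_eq k
    rw [MulAut.conj_apply] at h1
    rw [h1]
    exact Nat.Coprime.coprime_dvd_left (Subgroup.orderOf_dvd_natCard K hk) hKcop
  haveI := hKnorm
  have hKP : K ⊔ P = E := by
    rw [hKdef, hPdef, ← Subgroup.map_sup, hK'c.sup_eq_top, ← MonoidHom.range_eq_map,
      range_subtype]
  have hdecE : ∀ e ∈ E, ∃ k ∈ K, ∃ q ∈ P, k * q = e := by
    intro e he
    rw [← hKP] at he
    have h1 : e ∈ ((K ⊔ P : Subgroup G) : Set G) := he
    rw [Subgroup.normal_mul] at h1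
    exact Set.mem_mul.mp h1
  have hPcard2 : 2 ≤ Nat.card P := by
    by_contra hlt
    have h1 : Nat.card P = 1 := by have := Nat.card_pos (α := ↥P); omega
    rw [h1, mul_one] at hcard
    exact hPidx (hcard ▸ hpdiv)
  have hKlt : Nat.card K < n := by
    rw [← hEn, ← hcard]
    have := Nat.card_pos (α := ↥K)
    nlinarith
  have hKhyp : SSHyp K := by
    intro q hq Q hQK hQ hQidx hQnc
    by_cases hqp : q = p
    · exfalso
      apply hQnc
      rw [hqp] at hQ
      have h1 : Nat.card Q = 1 := by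
        obtain ⟨j, hj⟩ := hQ.exists_card_eq
        have h2 : Nat.card Q ∣ Nat.card K := Subgroup.card_dvd_of_le hQK
        rw [hj] at h2 ⊢
        rcases Nat.eq_zero_or_pos j with h0 | hpos
        · rw [h0, pow_zero]
        · exact absurd ((dvd_pow_self p hpos.ne').trans h2) hPidx
      haveI : Subsingleton ↥Q := (Nat.card_eq_one_iff_unique.mp h1).1
      exact isCyclic_of_subsingleton
    · have hrel : Q.relIndex E = Q.relIndex K * K.relIndex E :=
        (Subgroup.relIndex_mul_relIndex Q K E hQK hKE).symm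
      have hKrel : K.relIndex E = p ^ i := by
        rw [relIndex, hKdef, subgroupOf, comap_map_eq_self_of_injective hinj, hK'idx, hi]
      have hQidx' : ¬ q ∣ Q.relIndex E := by
        rw [hrel, hKrel]
        intro hdvd
        rcases (Nat.Prime.dvd_mul hq).mp hdvd with h1 | h1
        · exact hQidx h1
        · exact hqp ((Nat.prime_dvd_prime_iff_eq hq hp).mp (hq.dvd_of_dvd_pow h1))
      exact hE q hq Q (hQK.trans hKE) hQ hQidx' hQnc
  by_cases hKM : K ≤ M
  swap
  · exact ih (Nat.card K) hKlt K rfl hKnorm hKhyp M hM hKM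
  -- main case
  have hPM : ¬ P ≤ M := fun hPM => hEM (by rw [← hKP]; exact sup_le hKM hPM)
  obtain ⟨P₀, hP₀def⟩ : ∃ P₀ : Subgroup G, P₀ = P ⊓ M := ⟨_, rfl⟩
  have hP₀P : P₀ ≤ P := by rw [hP₀def]; exact inf_le_left
  have hP₀M : P₀ ≤ M := by rw [hP₀def]; exact inf_le_right
  have hne : P₀ ≠ P := by
    intro h
    apply hPM
    rw [← h]; exact hP₀M
  -- Frattini
  have hFr : normalizer (P : Set G) ⊔ K = ⊤ := by
    have h1 := Sylow.normalizer_sup_eq_top P'
    rw [← hPdef] at h1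
    apply top_le_iff.mp
    rw [← h1]
    apply sup_le le_sup_left
    rw [← hKP]
    exact sup_le le_sup_right (le_normalizer.trans le_sup_left)
  obtain ⟨N, hNdef⟩ : ∃ N : Subgroup G, N = normalizer (P : Set G) := ⟨_, rfl⟩
  have hPN : P ≤ N := by rw [hNdef]; exact le_normalizer
  have hNP : N ≤ normalizer (P : Set G) := by rw [hNdef]
  have hNK : N ⊔ K = ⊤ := by rw [hNdef]; exact hFr
  -- M ⊓ E is normal in G
  have hME : normalizer ((M ⊓ E : Subgroup G) : Set G) = ⊤ := by
    have h1 : M ≤ normalizer ((M ⊓ E : Subgroup G) : Set G) := by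
      intro m hm
      apply mem_normalizer_fintype
      intro y hy
      have hy' := mem_inf.mp hy
      exact mem_inf.mpr ⟨M.mul_mem (M.mul_mem hm hy'.1) (M.inv_mem hm),
        hEnorm.conj_mem y hy'.2 m⟩
    obtain ⟨x, hxP, hxN, hxP₀⟩ :=
      Lead.exists_normalizer_mem_not_mem P P₀ hPp (lt_of_le_of_ne hP₀P hne)
    have hxM : x ∉ M := fun hxM => hxP₀ (by rw [hP₀def]; exact mem_inf.mpr ⟨hxP, hxM⟩)
    have h2 : x ∈ normalizer ((M ⊓ E : Subgroup G) : Set G) := by
      apply mem_normalizer_fintype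
      intro y hy
      have hy' := mem_inf.mp hy
      obtain ⟨k, hk, q, hq, hkq⟩ := hdecE y hy'.2
      have hqM : q ∈ M := by
        have : q = k⁻¹ * y := by rw [← hkq]; group
        rw [this]
        exact M.mul_mem (M.inv_mem (hKM hk)) hy'.1
      have hq0 : q ∈ P₀ := by rw [hP₀def]; exact mem_inf.mpr ⟨hq, hqM⟩
      have h3 : x * q * x⁻¹ ∈ P₀ := (mem_normalizer_iff.mp hxN q).mp hq0
      have h4 : x * k * x⁻¹ ∈ K := hKnorm.conj_mem k hk x
      have h5 : x * y * x⁻¹ = (x * k * x⁻¹) * (x * q * x⁻¹) := by rw [← hkq]; group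
      rw [h5]
      exact mem_inf.mpr ⟨M.mul_mem (hKM h4) (hP₀M h3),
        E.mul_mem (hKE h4) (hPE (hP₀P h3))⟩
    by_contra hcon
    have h3 : M < normalizer ((M ⊓ E : Subgroup G) : Set G) :=
      lt_of_le_of_ne h1 (fun h => hxM (by rw [h]; exact h2))
    exact hcon (hM.2 _ h3)
  have hNP₀ : N ≤ normalizer (P₀ : Set G) := by
    intro n hn
    apply mem_normalizer_fintype
    intro y hy
    rw [hP₀def] at hy ⊢
    have hy' := mem_inf.mp hy
    have h1 : n * y * n⁻¹ ∈ P := (mem_normalizer_iff.mp (hNP hn) y).mp hy'.1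
    have h2 : n ∈ normalizer ((M ⊓ E : Subgroup G) : Set G) := by rw [hME]; exact mem_top n
    have h3 : n * y * n⁻¹ ∈ M ⊓ E :=
      (mem_normalizer_iff.mp h2 y).mp (mem_inf.mpr ⟨hy'.2, hPE hy'.1⟩)
    exact mem_inf.mpr ⟨h1, (mem_inf.mp h3).1⟩
  have hdich : ∀ T : Subgroup G, T ≤ P → N ≤ normalizer (T : Set G) →
      T ≤ P₀ ∨ T ⊔ P₀ = P := by
    intro T hTP hNT
    by_cases hTM : T ≤ M
    · left
      rw [hP₀def]
      exact le_inf hTP hTM
    right
    apply le_antisymm (sup_le hTP hP₀P)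
    haveI hKTn : (K ⊔ T).Normal := by
      rw [← normalizer_eq_top_iff]
      apply top_le_iff.mp
      rw [← hNK]
      refine sup_le ?_ (le_sup_left.trans le_normalizer)
      intro n hn
      apply mem_normalizer_fintype
      intro y hy
      have h1 : y ∈ ((K ⊔ T : Subgroup G) : Set G) := hy
      rw [Subgroup.normal_mul] at h1
      obtain ⟨k, hk, t, ht, hkt⟩ := Set.mem_mul.mp h1
      have h5 : n * y * n⁻¹ = (n * k * n⁻¹) * (n * t * n⁻¹) := by rw [← hkt]; group
      rw [h5]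
      exact (K ⊔ T).mul_mem (mem_sup_left (hKnorm.conj_mem k hk n))
        (mem_sup_right ((mem_normalizer_iff.mp (hNT hn) t).mp ht))
    have hMKT : M ⊔ (K ⊔ T) = ⊤ := by
      apply hM.2
      apply lt_of_le_of_ne le_sup_left
      intro h
      apply hTM
      have h6 : T ≤ M ⊔ (K ⊔ T) := le_sup_right.trans le_sup_right
      rwa [← h] at h6
    intro y hy
    have h1 : y ∈ ((M ⊔ (K ⊔ T) : Subgroup G) : Set G) := by rw [hMKT]; exact mem_top y
    rw [Subgroup.mul_normal] at h1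
    obtain ⟨m, hm, kt, hkt, hmkt⟩ := Set.mem_mul.mp h1
    have h2 : kt ∈ ((K ⊔ T : Subgroup G) : Set G) := hkt
    rw [Subgroup.normal_mul] at h2
    obtain ⟨k, hk, t, ht, hkt'⟩ := Set.mem_mul.mp h2
    have h3 : y * t⁻¹ = m * k := by rw [← hmkt, ← hkt']; group
    have h4 : y * t⁻¹ ∈ P₀ := by
      rw [hP₀def]
      refine mem_inf.mpr ⟨P.mul_mem hy (P.inv_mem (hTP ht)), ?_⟩
      rw [h3]
      exact M.mul_mem hm (hKM hk)
    have h5 : y = (y * t⁻¹) * t := by group
    rw [h5]
    exact (T ⊔ P₀).mul_mem (mem_sup_right h4) (mem_sup_left ht)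
  have hrel : P₀.relIndex P = p := by
    by_cases hcyc : IsCyclic ↥P
    · obtain ⟨T₂, hP₀T, hTP, hTrel, -⟩ := npc_exists_max_above P P₀ hPp hP₀P hne
      have hNT : N ≤ normalizer (T₂ : Set G) := hNP.trans (ss_cyclic_inv P T₂ hTP)
      rcases hdich T₂ hTP hNT with h1 | h1
      · have h2 : T₂ = P₀ := le_antisymm h1 hP₀T
        rw [← h2]; exact hTrel
      · exfalso
        have h2 : T₂ = P := by rw [← h1]; exact (sup_eq_left.mpr hP₀T).symm
        rw [h2, relIndex_self] at hTrel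
        exact hp.one_lt.ne hTrel
    · have hidx : ¬ p ∣ P.relIndex E := by
        rw [relIndex, hPdef, subgroupOf, comap_map_eq_self_of_injective hinj]
        exact P'.not_dvd_index
      obtain ⟨D, hDP, hD1, hD2, hD⟩ := hE p hp P hPE hPp hidx hcyc
      obtain ⟨k, hk⟩ := (hPp.to_le hDP).exists_card_eq
      have hk1 : 1 ≤ k := by
        rcases Nat.eq_zero_or_pos k with h0 | hpos
        · rw [h0, pow_zero] at hk; omega
        · exact hpos
      have hPk : p ^ (k + 1) ∣ Nat.card P := by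
        rw [hi]
        apply pow_dvd_pow
        rw [hk, hi] at hD2
        have := (Nat.pow_lt_pow_iff_right hp.one_lt).mp hD2
        omega
      have hinvF : ∀ F : Subgroup G, F ≤ P →
          (Nat.card F = Nat.card D ∨ (Nat.card D = 2 ∧ Nat.card F = 4)) →
          N ≤ normalizer (F : Set G) := by
        intro F hFP hFc n hn
        apply mem_normalizer_fintype
        intro f hf
        apply hD F hFP hFc n
        refine mem_inf.mpr ⟨⟨f, hf, rfl⟩, ?_⟩
        exact npc_normal_of_hyp P F hPp hFP (hD F hFP hFc)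
          ((mem_normalizer_iff.mp (hNP hn) f).mp (hFP hf))
      exact ss_chief_prime P N P₀ hPp hPN hNP k hk1
        (fun F hFP hFc => hinvF F hFP (Or.inl (hFc.trans hk.symm)))
        (fun hp2 hk1' F hFP hFc => hinvF F hFP (Or.inr ⟨by rw [hk, hp2, hk1']; rfl, hFc⟩))
        hPk hP₀P hne hNP₀ hdich
  -- M * P = G
  have hMP : ((M : Set G) * (P : Set G)) = Set.univ := by
    apply Set.eq_univ_of_forall
    intro g
    have hMEtop : M ⊔ E = ⊤ := by
      apply hM.2
      apply lt_of_le_of_ne le_sup_left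
      intro h
      apply hEM
      have h6 : E ≤ M ⊔ E := le_sup_right
      rwa [← h] at h6
    have h1 : g ∈ ((M ⊔ E : Subgroup G) : Set G) := by rw [hMEtop]; exact mem_top g
    rw [Subgroup.mul_normal] at h1
    obtain ⟨m, hm, e, he, hme⟩ := Set.mem_mul.mp h1
    obtain ⟨k, hk, q, hq, hkq⟩ := hdecE e he
    refine Set.mem_mul.mpr ⟨m * k, M.mul_mem hm (hKM hk), q, hq, ?_⟩
    rw [← hme, ← hkq]; group
  have h1 := Helper4.card_mul_card_eq M P
  rw [hMP, Nat.card_univ] at h1
  have h2 := Subgroup.card_mul_index M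
  have h3 := npc_card_eq hP₀P
  rw [hrel] at h3
  have h4 : M ⊓ P = P₀ := by rw [hP₀def, inf_comm]
  rw [h4, ← h2, h3] at h1
  have hMpos := Nat.card_pos (α := ↥M)
  have hP₀pos := Nat.card_pos (α := ↥P₀)
  have h5 : M.index = p := by
    have h6 : Nat.card M * Nat.card P₀ * p = Nat.card M * Nat.card P₀ * M.index := by
      calc Nat.card M * Nat.card P₀ * p = Nat.card M * (Nat.card P₀ * p) := by ring
        _ = Nat.card M * M.index * Nat.card P₀ := h1
        _ = Nat.card M * Nat.card P₀ * M.index := by ring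
    exact (Nat.eq_of_mul_eq_mul_left (Nat.mul_pos hMpos hP₀pos) h6).symm
  rw [h5]; exact hp

end Cfsg.Agent.Helper17
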