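import Mathlib

set_option autoImplicit false

namespace Cfsg.Agent.Helper17

variable {G : Type*} [Group G]

/-- A nonempty family of subgroups of a finite group closed under `⊓` has a least element. -/
theorem exists_least_of_inf_closed [Finite G] (S : Set (Subgroup G)) (hne : S.Nonempty)
    (hinf : ∀ X ∈ S, ∀ Y ∈ S, X ⊓ Y ∈ S) : ∃ X ∈ S, ∀ Y ∈ S, X ≤ Y := by
  obtain ⟨X, hX, hmin⟩ :=
    Set.exists_min_image S (fun X : Subgroup G => Nat.card X) (Set.toFinite S) hne
  refine ⟨X, hX, fun Y hY => ?_⟩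
  have h1 := hmin (X ⊓ Y) (hinf X hX Y hY)
  have h2 : X ⊓ Y = X := Subgroup.eq_of_le_of_card_ge inf_le_left h1
  rw [← h2]; exact inf_le_right

theorem sup_eq_top_iff_map_mk (D : Subgroup G) [D.Normal] (H : Subgroup G) :
    H ⊔ D = ⊤ ↔ H.map (QuotientGroup.mk' D) = ⊤ := by
  constructor
  · intro h
    have h1 : (H ⊔ D).map (QuotientGroup.mk' D) = ⊤ := by
      rw [h]; exact Subgroup.map_top_of_surjective _ (QuotientGroup.mk'_surjective D)
    rw [Subgroup.map_sup, QuotientGroup.map_mk'_self, sup_bot_eq] at h1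
    exact h1
  · intro h
    have h1 := Subgroup.comap_map_eq (QuotientGroup.mk' D) H
    rw [h, QuotientGroup.ker_mk', Subgroup.comap_top] at h1
    exact h1.symm

/-- If `G/D` is perfect, the commutator of two supplements of `D` is a supplement of `D`. -/
theorem commutator_sup_eq_top (D : Subgroup G) [D.Normal]
    (hperf : ⁅(⊤ : Subgroup G), (⊤ : Subgroup G)⁆ ⊔ D = ⊤) {X Y : Subgroup G}
    (hX : X ⊔ D = ⊤) (hY : Y ⊔ D = ⊤) : ⁅X, Y⁆ ⊔ D = ⊤ := by
  rw [sup_eq_top_iff_map_mk] at hX hY hperf ⊢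
  rw [Subgroup.map_commutator, hX, hY]
  rw [Subgroup.map_commutator,
    Subgroup.map_top_of_surjective _ (QuotientGroup.mk'_surjective D)] at hperf
  exact hperf

theorem commutator_le_of_conj_mem {X Y : Subgroup G} (h : ∀ x ∈ X, ∀ y ∈ Y, x * y * x⁻¹ ∈ Y) :
    ⁅X, Y⁆ ≤ Y := by
  rw [Subgroup.commutator_le]
  intro x hx y hy
  rw [commutatorElement_def]
  exact Y.mul_mem (h x hx y hy) (Y.inv_mem hy)

theorem commutator_le_of_conj_mem' {X Y : Subgroup G} (h : ∀ y ∈ Y, ∀ x ∈ X, y * x * y⁻¹ ∈ X) :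
    ⁅X, Y⁆ ≤ X := by
  rw [Subgroup.commutator_comm]
  exact commutator_le_of_conj_mem h

/-- Supplements of `D` inside `R` that are normalized by `R` are closed under `⊓`. -/
theorem supp_inf (D : Subgroup G) [D.Normal]
    (hperf : ⁅(⊤ : Subgroup G), (⊤ : Subgroup G)⁆ ⊔ D = ⊤) (R : Subgroup G) {X Y : Subgroup G}
    (hXR : X ≤ R) (hYR : Y ≤ R)
    (hXn : ∀ r ∈ R, ∀ x ∈ X, r * x * r⁻¹ ∈ X) (hYn : ∀ r ∈ R, ∀ y ∈ Y, r * y * r⁻¹ ∈ Y)
    (hX : X ⊔ D = ⊤) (hY : Y ⊔ D = ⊤) : (X ⊓ Y) ⊔ D = ⊤ := by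
  have h1 : ⁅X, Y⁆ ≤ X ⊓ Y :=
    le_inf (commutator_le_of_conj_mem' (fun y hy x hx => hXn y (hYR hy) x hx))
      (commutator_le_of_conj_mem (fun x hx y hy => hYn x (hXR hx) y hy))
  exact top_le_iff.mp ((commutator_sup_eq_top D hperf hX hY).symm.le.trans (sup_le_sup_right h1 D))

/-- If `G/D` is perfect, there is a least subnormal supplement of `D`, and it is normal. -/
theorem exists_least_subnormal_supplement [Finite G] (D : Subgroup G) [hD : D.Normal]
    (hperf : ⁅(⊤ : Subgroup G), (⊤ : Subgroup G)⁆ ⊔ D = ⊤) :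
    ∃ B : Subgroup G, B.Normal ∧ B ⊔ D = ⊤ ∧
      ∀ B' : Subgroup G, B'.IsSubnormal → B' ⊔ D = ⊤ → B ≤ B' := by
  classical
  obtain ⟨R, ⟨hRn, hRD⟩, hRmin⟩ := exists_least_of_inf_closed
    {N : Subgroup G | N.Normal ∧ N ⊔ D = ⊤} ⟨⊤, inferInstance, top_sup_eq _⟩
    (by
      rintro X ⟨hXn, hX⟩ Y ⟨hYn, hY⟩
      haveI := hXn; haveI := hYn
      refine ⟨inferInstance, ?_⟩
      exact supp_inf D hperf ⊤ le_top le_top (fun r _ x hx => hXn.conj_mem x hx r)
        (fun r _ y hy => hYn.conj_mem y hy r) hX hY)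
  refine ⟨R, hRn, hRD, ?_⟩
  intro B hB
  induction hB with
  | top => intro _; exact le_top
  | step H K h_le hSubn hN ih =>
    intro hHD
    have hKD : K ⊔ D = ⊤ := top_le_iff.mp (hHD.symm.le.trans (sup_le_sup_right h_le D))
    have hRK : R ≤ K := ih hKD
    have hKH : ∀ k ∈ K, ∀ h ∈ H, k * h * k⁻¹ ∈ H := by
      intro k hk h hh
      have := hN.conj_mem ⟨h, h_le hh⟩ (Subgroup.mem_subgroupOf.mpr hh) ⟨k, hk⟩
      exact Subgroup.mem_subgroupOf.mp this
    obtain ⟨X, ⟨hXR, hXn, hXD⟩, hXmin⟩ := exists_least_of_inf_closed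
      {X : Subgroup G | X ≤ R ∧ (∀ r ∈ R, ∀ x ∈ X, r * x * r⁻¹ ∈ X) ∧ X ⊔ D = ⊤}
      ⟨R, le_rfl, fun r hr x hx => R.mul_mem (R.mul_mem hr hx) (R.inv_mem hr), hRD⟩
      (by
        rintro X ⟨hXR, hXn, hX⟩ Y ⟨hYR, hYn, hY⟩
        refine ⟨inf_le_left.trans hXR, ?_, supp_inf D hperf R hXR hYR hXn hYn hX hY⟩
        intro r hr x hx
        exact ⟨hXn r hr x hx.1, hYn r hr x hx.2⟩)
    have hRH : X ≤ R ⊓ H := by
      apply hXmin
      refine ⟨inf_le_left, ?_, ?_⟩
      · intro r hr x hx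
        exact ⟨hRn.conj_mem x hx.1 r, hKH r (hRK hr) x hx.2⟩
      · have h1 : ⁅R, H⁆ ≤ R ⊓ H :=
          le_inf (commutator_le_of_conj_mem' (fun y _ x hx => hRn.conj_mem x hx y))
            (commutator_le_of_conj_mem (fun x hx y hy => hKH x (hRK hx) y hy))
        exact top_le_iff.mp
          ((commutator_sup_eq_top D hperf hRD hHD).symm.le.trans (sup_le_sup_right h1 D))
    have hXnorm : X.Normal := by
      have key : ∀ g : G, X ≤ X.map (MulAut.conj g).toMonoidHom := by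
        intro g
        apply hXmin
        refine ⟨?_, ?_, ?_⟩
        · rintro _ ⟨x, hx, rfl⟩
          exact hRn.conj_mem x (hXR hx) g
        · rintro r hr _ ⟨x, hx, rfl⟩
          refine ⟨(g⁻¹ * r * g) * x * (g⁻¹ * r * g)⁻¹, hXn _ ?_ x hx, ?_⟩
          · have := hRn.conj_mem r hr g⁻¹
            simpa using this
          · simp only [MulEquiv.coe_toMonoidHom, MulAut.conj_apply]; group
        · have h1 : (X ⊔ D).map (MulAut.conj g).toMonoidHom = ⊤ := by
            rw [hXD]; exact Subgroup.map_top_of_surjective _ (MulAut.conj g).surjective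
          rw [Subgroup.map_sup] at h1
          have h2 : D.map (MulAut.conj g).toMonoidHom = D := by
            ext y
            constructor
            · rintro ⟨d, hd, rfl⟩; exact hD.conj_mem d hd g
            · intro hy
              refine ⟨g⁻¹ * y * g, ?_, ?_⟩
              · have := hD.conj_mem y hy g⁻¹; simpa using this
              · simp only [MulEquiv.coe_toMonoidHom, MulAut.conj_apply]; group
          rw [h2] at h1; exact h1
      constructor
      intro x hx g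
      obtain ⟨x', hx', e⟩ := key g⁻¹ hx
      have e2 : g * x * g⁻¹ = x' := by
        rw [← e]; simp only [MulEquiv.coe_toMonoidHom, MulAut.conj_apply]; group
      rw [e2]; exact hx'
    exact (hRmin X ⟨hXnorm, hXD⟩).trans (hRH.trans inf_le_right)

end Cfsg.Agent.Helper17
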