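import Mathlib
import Cfsg.Prelude.Def_IsolatedElements
import Cfsg.Agent.Helper17.Basic
import Cfsg.Agent.Helper17.PPrimeCore
import Cfsg.Agent.Helper1.Basic
import Cfsg.Agent.Helper1.SZ
import Cfsg.Agent.Helper1.FrobThm
import Cfsg.Agent.Helper11.PPrime
import Cfsg.Agent.Lead.HallCentral

set_option autoImplicit false

namespace Cfsg.Agent.Helper17

open scoped Pointwise

universe u

theorem exists_pPrime_central_decomp {Γ : Type u} [Group Γ] [Finite Γ] {p : ℕ} [Fact p.Prime]
    (Z : Subgroup Γ) (hZ : Z ≤ Subgroup.center Γ) (n : ℕ) (hn : n.Coprime p)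
    (hpow : ∀ k : Γ, k ^ n ∈ Z) :
    ∀ k : Γ, ∃ c ∈ Cfsg.pPrimeCore p Γ, ∃ z ∈ Z, k = c * z := by
  obtain ⟨P⟩ : Nonempty (Sylow p Γ) := inferInstance
  have hPZ : (P : Subgroup Γ) ≤ Z := by
    intro g hg
    obtain ⟨j, hj⟩ := (IsPGroup.iff_orderOf.mp P.isPGroup') ⟨g, hg⟩
    rw [Subgroup.orderOf_mk] at hj
    have hcop : n.Coprime (orderOf g) := by rw [hj]; exact Nat.Coprime.pow_right j hn
    obtain ⟨m, hm⟩ := exists_pow_eq_self_of_coprime hcop
    rw [← hm]
    exact Z.pow_mem (hpow g) m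
  have hP : Subgroup.normalizer ((P : Subgroup Γ) : Set Γ) ≤
      Subgroup.centralizer ((P : Subgroup Γ) : Set Γ) := by
    intro g _
    rw [Subgroup.mem_centralizer_iff]
    intro h hh
    exact (Subgroup.mem_center_iff.mp (hZ (hPZ hh)) g).symm
  have hc := MonoidHom.ker_transferSylow_isComplement' P hP
  obtain ⟨-, hcop⟩ := Cfsg.Agent.Lead.npc_index_card P _ hc
  have hle : (MonoidHom.transferSylow P hP).ker ≤ Cfsg.pPrimeCore p Γ :=
    le_pPrimeCore' inferInstance hcop
  intro k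
  obtain ⟨c, hc', z, hz, rfl⟩ := (Cfsg.Agent.Helper1.isComplement'_iff_elem.mp hc).2 k
  exact ⟨c, hle hc', z, hPZ hz, rfl⟩

theorem isolated_central_of_min {Γ : Type u} [Group Γ] [Finite Γ] {p : ℕ} [Fact p.Prime] (x : Γ)
    (hiso : Cfsg.IsIsolated x)
    (hmin : ∀ L : Subgroup Γ, x ∈ L → L ≠ ⊤ → ∀ l ∈ L, x * l = l * x)
    (hidx : (Subgroup.centralizer ({x} : Set Γ)).index.Coprime p)
    (hcore : ∀ c ∈ Cfsg.pPrimeCore p Γ, x * c = c * x) :
    x ∈ Subgroup.center Γ := by
  classical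
  have hmemM : ∀ g, g ∈ Subgroup.centralizer ({x} : Set Γ) ↔ x * g = g * x := by
    intro g
    rw [Subgroup.mem_centralizer_iff]
    constructor
    · intro h; exact h x rfl
    · intro h y hy; rw [Set.mem_singleton_iff] at hy; rw [hy]; exact h
  have hZM : Subgroup.center Γ ≤ Subgroup.centralizer ({x} : Set Γ) :=
    fun z hz => (hmemM z).mpr (Subgroup.mem_center_iff.mp hz x)
  obtain ⟨M, hMdef⟩ : ∃ M : Subgroup Γ, M = Subgroup.centralizer ({x} : Set Γ) := ⟨_, rfl⟩
  rw [← hMdef] at hmemM hZM hidx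
  have hTI0 : ∀ h : Γ, h ∉ M → ∀ m ∈ M, h⁻¹ * m * h ∈ M → m ∈ Subgroup.center Γ := by
    intro h hh m hm hm'
    have h1 : x * m = m * x := (hmemM m).mp hm
    have h2 : (h * x * h⁻¹) * m = m * (h * x * h⁻¹) := by
      have h3 := (hmemM _).mp hm'
      calc (h * x * h⁻¹) * m = h * (x * (h⁻¹ * m * h)) * h⁻¹ := by group
        _ = h * ((h⁻¹ * m * h) * x) * h⁻¹ := by rw [h3]
        _ = m * (h * x * h⁻¹) := by group
    by_cases hL : Subgroup.closure ({x, h * x * h⁻¹} : Set Γ) = ⊤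
    · rw [Subgroup.mem_center_iff]
      intro g
      have hg : g ∈ Subgroup.closure ({x, h * x * h⁻¹} : Set Γ) := by rw [hL]; trivial
      have hle : Subgroup.closure ({x, h * x * h⁻¹} : Set Γ) ≤
          Subgroup.centralizer ({m} : Set Γ) := by
        rw [Subgroup.closure_le]
        intro y hy
        rw [SetLike.mem_coe, Subgroup.mem_centralizer_iff]
        intro w hw
        rw [Set.mem_singleton_iff] at hw
        subst hw
        rcases hy with rfl | hy
        · exact h1.symm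
        · rw [Set.mem_singleton_iff] at hy; subst hy; exact h2.symm
      exact (Subgroup.mem_centralizer_iff.mp (hle hg) m rfl).symm
    · exfalso
      have hx_in : x ∈ Subgroup.closure ({x, h * x * h⁻¹} : Set Γ) :=
        Subgroup.subset_closure (by simp)
      have hc := hmin _ hx_in hL (h * x * h⁻¹) (Subgroup.subset_closure (by simp))
      have h4 := hiso h hc
      apply hh
      rw [hmemM]
      calc x * h = (h * x * h⁻¹) * h := by rw [h4]
        _ = h * x := by group
  have hTI : ∀ g : Γ ⧸ Subgroup.center Γ, g ∉ M.map (QuotientGroup.mk' (Subgroup.center Γ)) →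
      M.map (QuotientGroup.mk' (Subgroup.center Γ)) ⊓
        MulAut.conj g • M.map (QuotientGroup.mk' (Subgroup.center Γ)) = ⊥ := by
    intro g hg
    obtain ⟨h, rfl⟩ := QuotientGroup.mk_surjective g
    have hh : h ∉ M := fun hm => hg ⟨h, hm, rfl⟩
    rw [eq_bot_iff]
    rintro y ⟨⟨m, hm, rfl⟩, hy2⟩
    have hy3 : (QuotientGroup.mk' (Subgroup.center Γ)) m ∈
        MulAut.conj (QuotientGroup.mk h : Γ ⧸ Subgroup.center Γ) •
          M.map (QuotientGroup.mk' (Subgroup.center Γ)) := hy2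
    rw [Subgroup.mem_pointwise_smul_iff_inv_smul_mem] at hy3
    obtain ⟨m', hm', hmm'⟩ := hy3
    have h3 : (QuotientGroup.mk m' : Γ ⧸ Subgroup.center Γ) = QuotientGroup.mk (h⁻¹ * m * h) := by
      rw [MulAut.smul_def, MulAut.conj_inv_apply] at hmm'
      exact hmm'
    have h4 : m'⁻¹ * (h⁻¹ * m * h) ∈ Subgroup.center Γ := QuotientGroup.eq.mp h3
    have h5 : h⁻¹ * m * h ∈ M := by
      have e : h⁻¹ * m * h = m' * (m'⁻¹ * (h⁻¹ * m * h)) := by group
      rw [e]; exact M.mul_mem hm' (hZM h4)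
    have h6 := hTI0 h hh m hm h5
    rw [Subgroup.mem_bot]
    exact (QuotientGroup.eq_one_iff m).mpr h6
  obtain ⟨N, -, hNn, hNc⟩ := Cfsg.Agent.Helper1.frobenius_kernel_subgroup _ hTI
  haveI := hNn
  have hNcard : (Nat.card N).Coprime p := by
    rw [← hNc.index_eq_card, Subgroup.index_map_eq _ (QuotientGroup.mk'_surjective _)
      (by rw [QuotientGroup.ker_mk']; exact hZM)]
    exact hidx
  haveI hKn : (N.comap (QuotientGroup.mk' (Subgroup.center Γ))).Normal := hNn.comap _
  have hdec := exists_pPrime_central_decomp (p := p)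
    ((Subgroup.center Γ).subgroupOf (N.comap (QuotientGroup.mk' (Subgroup.center Γ))))
    (by
      intro z hz
      rw [Subgroup.mem_center_iff]
      intro g
      exact Subtype.ext (Subgroup.mem_center_iff.mp (Subgroup.mem_subgroupOf.mp hz) g))
    (Nat.card N) hNcard
    (by
      intro k
      rw [Subgroup.mem_subgroupOf]
      have h1 : (⟨QuotientGroup.mk (k : Γ), k.2⟩ : ↥N) ^ Nat.card ↥N = 1 := pow_card_eq_one'
      have h2 : (QuotientGroup.mk (k : Γ) : Γ ⧸ Subgroup.center Γ) ^ Nat.card ↥N = 1 := by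
        have h := congrArg Subtype.val h1
        simpa only [Subgroup.coe_pow, Subgroup.coe_one] using h
      rw [Subgroup.coe_pow, ← QuotientGroup.eq_one_iff, QuotientGroup.mk_pow]
      exact h2)
  have hKM : ∀ k ∈ N.comap (QuotientGroup.mk' (Subgroup.center Γ)), x * k = k * x := by
    intro k hk
    obtain ⟨c, hc, z, hz, hkcz⟩ := hdec ⟨k, hk⟩
    have hc' : (c : Γ) ∈ Cfsg.pPrimeCore p Γ :=
      Cfsg.Agent.Helper11.ppOf_le_of_subnormal p _ hKn.isSubnormal ⟨c, hc, rfl⟩
    have h1 := hcore _ hc'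
    have h2 : x * (z : Γ) = (z : Γ) * x :=
      Subgroup.mem_center_iff.mp (Subgroup.mem_subgroupOf.mp hz) x
    have h3 : k = (c : Γ) * (z : Γ) := congrArg Subtype.val hkcz
    rw [h3, ← mul_assoc, h1, mul_assoc, h2, mul_assoc]
  rw [Subgroup.mem_center_iff]
  intro g
  obtain ⟨n, hn, mb, hmb, hg⟩ := (Cfsg.Agent.Helper1.isComplement'_iff_elem.mp hNc).2
    (QuotientGroup.mk g)
  obtain ⟨m, hm, rfl⟩ := hmb
  have h1 : g * m⁻¹ ∈ N.comap (QuotientGroup.mk' (Subgroup.center Γ)) := by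
    rw [Subgroup.mem_comap]
    have e : (QuotientGroup.mk' (Subgroup.center Γ)) (g * m⁻¹) = n := by
      rw [map_mul, map_inv, QuotientGroup.mk'_apply, hg]
      simp
    rw [e]; exact hn
  have h2 := hKM _ h1
  have h3 := (hmemM m).mp hm
  calc g * x = (g * m⁻¹) * (m * x) := by group
    _ = (g * m⁻¹) * (x * m) := by rw [h3]
    _ = x * (g * m⁻¹) * m := by rw [← mul_assoc, ← h2]
    _ = x * g := by group

theorem weak_closed_pgroup {G : Type u} [Group G] [Finite G] {p : ℕ} [Fact p.Prime]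
    (S : Sylow p G) (x : G)
    (hU : ∀ g : G, g⁻¹ * x * g ∈ S → g⁻¹ * x * g = x)
    (R : Subgroup G) (hR : IsPGroup p R) (hxR : x ∈ R) :
    (∀ r ∈ R, x * r = r * x) ∧ (∀ a : G, a * x * a⁻¹ ∈ R → a * x * a⁻¹ = x) := by
  obtain ⟨g, hg⟩ := exists_conj_le_sylow S R hR
  have h1 : g * x * g⁻¹ ∈ (S : Subgroup G) := hg (conj_mem_map_conj R g hxR)
  have h2 : g * x * g⁻¹ = x := by
    have h := hU g⁻¹ (by rw [inv_inv]; exact h1)
    rwa [inv_inv] at h
  have hxS : x ∈ (S : Subgroup G) := by rw [← h2]; exact h1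
  have h2' : g⁻¹ * x * g = x := by
    calc g⁻¹ * x * g = g⁻¹ * (g * x * g⁻¹) * g := by rw [h2]
      _ = x := by group
  constructor
  · intro r hr
    have h3 : g * r * g⁻¹ ∈ (S : Subgroup G) := hg (conj_mem_map_conj R g hr)
    have h4 := hU (g * r * g⁻¹)
      (Subgroup.mul_mem _ (Subgroup.mul_mem _ (Subgroup.inv_mem _ h3) hxS) h3)
    have h5 : r⁻¹ * x * r = x := by
      have e : r⁻¹ * x * r = g⁻¹ * ((g * r * g⁻¹)⁻¹ * (g * x * g⁻¹) * (g * r * g⁻¹)) * g := by
        group
      rw [e, h2, h4, h2']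
    calc x * r = r * (r⁻¹ * x * r) := by group
      _ = r * x := by rw [h5]
  · intro a ha
    have h3 : g * (a * x * a⁻¹) * g⁻¹ ∈ (S : Subgroup G) := hg (conj_mem_map_conj R g ha)
    have h4 := hU (g * a)⁻¹ (by
      have e : (g * a)⁻¹⁻¹ * x * (g * a)⁻¹ = g * (a * x * a⁻¹) * g⁻¹ := by group
      rw [e]; exact h3)
    have e : a * x * a⁻¹ = g⁻¹ * ((g * a)⁻¹⁻¹ * x * (g * a)⁻¹) * g := by group
    rw [e, h4, h2']

theorem weak_closed_isolated {G : Type u} [Group G] [Finite G] {p : ℕ} [Fact p.Prime]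
    (S : Sylow p G) (x : G) (hx : x ∈ S)
    (hU : ∀ g : G, g⁻¹ * x * g ∈ S → g⁻¹ * x * g = x) : Cfsg.IsIsolated x := by
  intro g hc
  have hxp : IsPGroup p (Subgroup.zpowers x) :=
    IsPGroup.to_le S.isPGroup' (Subgroup.zpowers_le.mpr hx)
  have hyp : IsPGroup p (Subgroup.zpowers (g * x * g⁻¹)) := by
    have h := hxp.map (MulAut.conj g).toMonoidHom
    rwa [MonoidHom.map_zpowers] at h
  have hR : IsPGroup p (Subgroup.zpowers (g * x * g⁻¹) ⊔ Subgroup.zpowers x : Subgroup G) :=
    IsPGroup.to_sup_of_normal_right' hyp hxp (by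
      rw [Subgroup.zpowers_le]
      apply Subgroup.centralizer_le_normalizer
      rw [Subgroup.mem_centralizer_iff]
      intro h hh
      obtain ⟨k, rfl⟩ := Subgroup.mem_zpowers_iff.mp hh
      exact (hc.zpow_left k).eq)
  exact (weak_closed_pgroup S x hU _ hR (Subgroup.mem_sup_right (Subgroup.mem_zpowers x))).2 g
    (Subgroup.mem_sup_left (Subgroup.mem_zpowers _))

theorem weak_closed_central {G : Type u} [Group G] [Finite G] {p : ℕ} [Fact p.Prime]
    (S : Sylow p G) (x : G) (hx : x ∈ S)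
    (hU : ∀ g : G, g⁻¹ * x * g ∈ S → g⁻¹ * x * g = x)
    (hb : ∀ H : Subgroup G, (Nat.card H).Coprime p → (∀ h ∈ H, x * h * x⁻¹ ∈ H) →
      ∀ h ∈ H, x * h = h * x) :
    x ∈ Subgroup.center G := by
  have hiso := weak_closed_isolated S x hx hU
  obtain ⟨j, hj⟩ := (IsPGroup.iff_orderOf.mp S.isPGroup') ⟨x, hx⟩
  rw [Subgroup.orderOf_mk] at hj
  have key : ∀ n : ℕ, ∀ H : Subgroup G, Nat.card H = n → x ∈ H → ∀ h ∈ H, x * h = h * x := by
    intro n
    induction n using Nat.strong_induction_on with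
    | _ n ih =>
      intro H hn hxH h hh
      have hcen : (⟨x, hxH⟩ : ↥H) ∈ Subgroup.center ↥H := by
        apply isolated_central_of_min (p := p)
        · intro g hc
          apply Subtype.ext
          have h1 := hiso (g : G) (congrArg Subtype.val hc.eq)
          exact h1
        · intro L hxL hL l hl
          have hcard : Nat.card (L.map H.subtype) < n := by
            rw [Subgroup.card_subtype, ← hn]; exact Cfsg.Agent.Helper1.card_lt_of_ne_top L hL
          have h1 := ih _ hcard (L.map H.subtype) rfl ⟨⟨x, hxH⟩, hxL, rfl⟩ (l : G) ⟨l, hl, rfl⟩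
          exact Subtype.ext h1
        · have hxHp : IsPGroup p (Subgroup.zpowers (⟨x, hxH⟩ : ↥H)) :=
            isPGroup_zpowers_of_orderOf _ j (by rw [Subgroup.orderOf_mk]; exact hj)
          obtain ⟨P, hP⟩ := hxHp.exists_le_sylow
          have hPle : (P : Subgroup ↥H) ≤ Subgroup.centralizer ({(⟨x, hxH⟩ : ↥H)} : Set ↥H) := by
            intro y hy
            rw [Subgroup.mem_centralizer_iff]
            intro w hw
            rw [Set.mem_singleton_iff] at hw
            subst hw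
            have h1 := (weak_closed_pgroup S x hU ((P : Subgroup ↥H).map H.subtype)
              (P.isPGroup'.map _) ⟨⟨x, hxH⟩, hP (Subgroup.mem_zpowers _), rfl⟩).1 (y : G)
              ⟨y, hy, rfl⟩
            exact Subtype.ext h1
          have h2 : ((P : Subgroup ↥H).index).Coprime p :=
            ((Nat.Prime.coprime_iff_not_dvd Fact.out).mpr P.not_dvd_index).symm
          exact Nat.Coprime.coprime_dvd_left (Subgroup.index_dvd_of_le hPle) h2
        · intro c hc
          have h1 := hb ((Cfsg.pPrimeCore p ↥H).map H.subtype)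
            (by rw [Subgroup.card_subtype]; exact pPrimeCore_card_coprime p)
            (by
              rintro _ ⟨d, hd, rfl⟩
              exact ⟨⟨x, hxH⟩ * d * ⟨x, hxH⟩⁻¹,
                (pPrimeCore_normal' p ↥H).conj_mem d hd _, rfl⟩)
            (c : G) ⟨c, hc, rfl⟩
          exact Subtype.ext h1
      have h1 := Subgroup.mem_center_iff.mp hcen ⟨h, hh⟩
      exact (congrArg Subtype.val h1).symm
  rw [Subgroup.mem_center_iff]
  intro g
  exact (key _ ⊤ rfl (Subgroup.mem_top x) g (Subgroup.mem_top g)).symm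

end Cfsg.Agent.Helper17
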