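import Mathlib

/-!
# Norm operators and a decomposition step for fixed-point-free actions

`V` is a finite abelian group, written multiplicatively, `W` a subgroup, and `ζ, x, y`
automorphisms of `V` stabilizing `W` with `ζ` central of order dividing `p`, fixed-point-free on
`W`, `x ^ p = 1` and `y x y⁻¹ = x ζ`.  Then `|W| ≥ |C_W(x)| ^ p` and `C_W(x) ≠ 1` if `W ≠ 1`.
-/

set_option autoImplicit false

namespace Cfsg.Agent.Helper17

open Subgroup

section xsp1

variable {V : Type*} [CommGroup V] [Finite V]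

/-- The subgroup of automorphisms stabilizing a subgroup `W`. -/
def xspStab (W : Subgroup V) : Subgroup (MulAut V) where
  carrier := {a | ∀ v, a v ∈ W ↔ v ∈ W}
  mul_mem' := by
    intro a b ha hb v
    rw [MulAut.mul_apply, ha, hb]
  one_mem' := by
    intro v
    rw [MulAut.one_apply]
  inv_mem' := by
    intro a ha v
    rw [← ha (a⁻¹ v), MulAut.apply_inv_self]

theorem mem_xspStab (W : Subgroup V) (a : MulAut V) :
    a ∈ xspStab W ↔ ∀ v, a v ∈ W ↔ v ∈ W := Iff.rfl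

/-- The subgroup of fixed points of an automorphism. -/
def xspFix (φ : MulAut V) : Subgroup V where
  carrier := {v | φ v = v}
  mul_mem' := by
    intro a b ha hb
    show φ (a * b) = a * b
    rw [map_mul, ha, hb]
  one_mem' := map_one φ
  inv_mem' := by
    intro a ha
    show φ a⁻¹ = a⁻¹
    rw [map_inv, ha]

theorem mem_xspFix (φ : MulAut V) (v : V) : v ∈ xspFix φ ↔ φ v = v := Iff.rfl

/-- The norm operator of an automorphism. -/
noncomputable def xspN (p : ℕ) (φ : MulAut V) : V →* V :=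
  ∏ t ∈ Finset.range p, (φ ^ t).toMonoidHom

theorem xspN_apply (p : ℕ) (φ : MulAut V) (v : V) :
    xspN p φ v = ∏ t ∈ Finset.range p, (φ ^ t) v := by
  rw [xspN, MonoidHom.finsetProd_apply]
  rfl

theorem xsp_fix_pow {φ : MulAut V} {v : V} (h : φ v = v) (t : ℕ) : (φ ^ t) v = v := by
  induction t with
  | zero => simp
  | succ t ih => rw [pow_succ, MulAut.mul_apply, h, ih]

theorem xspN_fixed {p : ℕ} {φ : MulAut V} (hφ : φ ^ p = 1) (v : V) :
    φ (xspN p φ v) = xspN p φ v := by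
  rw [xspN_apply, map_prod]
  have h1 : ∀ t, φ ((φ ^ t) v) = (φ ^ (t + 1)) v := fun t => by
    rw [pow_succ', MulAut.mul_apply]
  simp only [h1]
  have h2 := Finset.prod_range_succ (fun t => (φ ^ t) v) p
  have h3 := Finset.prod_range_succ' (fun t => (φ ^ t) v) p
  rw [h2] at h3
  simp only [hφ, pow_zero] at h3
  exact (mul_right_cancel h3).symm

theorem xspN_comm {p : ℕ} (ψ φ : MulAut V) (h : Commute ψ φ) (v : V) :
    ψ (xspN p φ v) = xspN p φ (ψ v) := by
  rw [xspN_apply, xspN_apply, map_prod]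
  apply Finset.prod_congr rfl
  intro t _
  have h1 : ψ * φ ^ t = φ ^ t * ψ := (h.pow_right t).eq
  rw [← MulAut.mul_apply, h1, MulAut.mul_apply]

theorem xspN_of_fixed {p : ℕ} {φ : MulAut V} {v : V} (h : φ v = v) : xspN p φ v = v ^ p := by
  rw [xspN_apply]
  simp [xsp_fix_pow h]

theorem xspN_mem {p : ℕ} {φ : MulAut V} {W : Subgroup V} (hφ : φ ∈ xspStab W) {v : V}
    (hv : v ∈ W) : xspN p φ v ∈ W := by
  rw [xspN_apply]
  apply Subgroup.prod_mem
  intro t _
  exact ((mem_xspStab W _).mp ((xspStab W).pow_mem hφ t) v).mpr hv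

theorem xsp_fpf_pow {p : ℕ} [hp : Fact p.Prime] (W : Subgroup V) (ζ : MulAut V)
    (hζp : ζ ^ p = 1) (hfpf : ∀ v ∈ W, ζ v = v → v = 1) {t : ℕ} (ht : ¬ p ∣ t) :
    ∀ v ∈ W, (ζ ^ t) v = v → v = 1 := by
  intro v hv h
  have hcop : Nat.Coprime t p := ((Nat.Prime.coprime_iff_not_dvd hp.out).mpr ht).symm
  obtain ⟨m, -, hm⟩ := Nat.exists_mul_mod_eq_one_of_coprime hcop hp.out.one_lt
  have h1 : ((ζ ^ t) ^ m) v = v := xsp_fix_pow h m
  rw [← pow_mul, pow_eq_pow_mod (t * m) hζp, hm, pow_one] at h1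
  exact hfpf v hv h1

/-- Hypotheses of the decomposition step. -/
structure XspStep (p : ℕ) (W : Subgroup V) (ζ x y : MulAut V) : Prop where
  hζW : ζ ∈ xspStab W
  hxW : x ∈ xspStab W
  hyW : y ∈ xspStab W
  hζp : ζ ^ p = 1
  hxp : x ^ p = 1
  hxζ : x * ζ = ζ * x
  hyζ : y * ζ = ζ * y
  hyx : y * x = x * ζ * y
  hfpf : ∀ v ∈ W, ζ v = v → v = 1
  hpinj : ∀ v ∈ W, v ^ p = 1 → v = 1

theorem xsp_norm_other {p : ℕ} [hp : Fact p.Prime] {W : Subgroup V} {ζ x y : MulAut V}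
    (h : XspStep p W ζ x y) {i j : ℕ} (hi : i < p) (hj : j < p) (hij : i ≠ j) {v : V}
    (hv : v ∈ W) (hfix : (x * ζ ^ i) v = v) : xspN p (x * ζ ^ j) v = 1 := by
  have hc : Commute x ζ := h.hxζ
  have hpow : (x * ζ ^ j) ^ p = 1 := by
    rw [(hc.pow_right j).mul_pow, h.hxp, ← pow_mul, pow_mul', h.hζp, one_pow, mul_one]
  have hcomm : Commute (x * ζ ^ i) (x * ζ ^ j) :=
    Commute.mul_left ((Commute.refl x).mul_right (hc.pow_right j))
      ((hc.pow_right i).symm.mul_right (Commute.pow_pow_self ζ i j))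
  have hstab : ∀ k : ℕ, x * ζ ^ k ∈ xspStab W := fun k =>
    (xspStab W).mul_mem h.hxW ((xspStab W).pow_mem h.hζW k)
  obtain ⟨u, hu⟩ : ∃ u, u = xspN p (x * ζ ^ j) v := ⟨_, rfl⟩
  rw [← hu]
  have hu1 : (x * ζ ^ j) u = u := by rw [hu]; exact xspN_fixed hpow v
  have hu2 : (x * ζ ^ i) u = u := by rw [hu, xspN_comm _ _ hcomm, hfix]
  have huW : u ∈ W := by rw [hu]; exact xspN_mem (hstab j) hv
  rw [MulAut.mul_apply] at hu1 hu2
  have h3 : (ζ ^ j) u = (ζ ^ i) u := x.injective (hu1.trans hu2.symm)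
  rcases Nat.lt_or_gt_of_ne hij with hlt | hlt
  · obtain ⟨d, hd⟩ : ∃ d, j = i + d := ⟨j - i, by omega⟩
    have h4 : (ζ ^ d) u = u := by
      rw [hd, pow_add, MulAut.mul_apply] at h3
      exact (ζ ^ i).injective h3
    exact xsp_fpf_pow W ζ h.hζp h.hfpf (Nat.not_dvd_of_pos_of_lt (by omega) (by omega)) u huW h4
  · obtain ⟨d, hd⟩ : ∃ d, i = j + d := ⟨i - j, by omega⟩
    have h4 : (ζ ^ d) u = u := by
      rw [hd, pow_add, MulAut.mul_apply] at h3
      exact ((ζ ^ j).injective h3).symm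
    exact xsp_fpf_pow W ζ h.hζp h.hfpf (Nat.not_dvd_of_pos_of_lt (by omega) (by omega)) u huW h4

theorem xsp_indep {p : ℕ} [hp : Fact p.Prime] {W : Subgroup V} {ζ x y : MulAut V}
    (h : XspStep p W ζ x y) (u : Fin p → V)
    (hu : ∀ i : Fin p, u i ∈ W ∧ (x * ζ ^ (i : ℕ)) (u i) = u i) (hprod : ∏ i, u i = 1) :
    ∀ j, u j = 1 := by
  intro j
  have h1 : xspN p (x * ζ ^ (j : ℕ)) (∏ i, u i) = 1 := by rw [hprod, map_one]
  rw [map_prod, Finset.prod_eq_single j
    (fun i _ hij => xsp_norm_other h i.2 j.2 (fun e => hij (Fin.ext e)) (hu i).1 (hu i).2)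
    (fun hj => absurd (Finset.mem_univ j) hj), xspN_of_fixed (hu j).2] at h1
  exact h.hpinj _ (hu j).1 h1

theorem xsp_sum {p : ℕ} [hp : Fact p.Prime] {W : Subgroup V} {ζ x y : MulAut V}
    (h : XspStep p W ζ x y) {v : V} (hv : v ∈ W) :
    ∏ i ∈ Finset.range p, xspN p (x * ζ ^ i) v = v ^ p := by
  have hc : Commute x ζ := h.hxζ
  simp only [xspN_apply]
  rw [Finset.prod_comm]
  have key : ∀ t ∈ Finset.range p,
      ∏ i ∈ Finset.range p, ((x * ζ ^ i) ^ t) v = if t = 0 then v ^ p else 1 := by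
    intro t ht
    have e : ∀ i, ((x * ζ ^ i) ^ t) v = ((ζ ^ t) ^ i) ((x ^ t) v) := by
      intro i
      have e1 : (x * ζ ^ i) ^ t = (ζ ^ t) ^ i * x ^ t := by
        rw [(hc.pow_right i).mul_pow, ← pow_mul, ← pow_mul, mul_comm i t]
        exact ((hc.pow_pow t (t * i))).eq
      rw [e1, MulAut.mul_apply]
    simp only [e]
    rw [← xspN_apply p (ζ ^ t) ((x ^ t) v)]
    by_cases t0 : t = 0
    · subst t0
      rw [if_pos rfl, pow_zero, pow_zero, MulAut.one_apply]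
      exact xspN_of_fixed (MulAut.one_apply _ v)
    · rw [if_neg t0]
      have hpt : (ζ ^ t) ^ p = 1 := by rw [← pow_mul, pow_mul', h.hζp, one_pow]
      have h1 := xspN_fixed hpt ((x ^ t) v)
      have h2 : xspN p (ζ ^ t) ((x ^ t) v) ∈ W :=
        xspN_mem ((xspStab W).pow_mem h.hζW t)
          (((mem_xspStab W _).mp ((xspStab W).pow_mem h.hxW t) v).mpr hv)
      have ht' := Finset.mem_range.mp ht
      exact xsp_fpf_pow W ζ h.hζp h.hfpf
        (Nat.not_dvd_of_pos_of_lt (Nat.pos_of_ne_zero t0) ht') _ h2 h1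
  rw [Finset.prod_congr rfl key, Finset.prod_ite_eq' (Finset.range p) 0 (fun _ => v ^ p)]
  rw [if_pos (Finset.mem_range.mpr hp.out.pos)]

theorem xsp_conj_pow {p : ℕ} {W : Subgroup V} {ζ x y : MulAut V} (h : XspStep p W ζ x y)
    (i : ℕ) : y ^ i * x = x * ζ ^ i * y ^ i := by
  induction i with
  | zero => simp
  | succ i ih =>
    rw [pow_succ' y, mul_assoc, ih]
    calc y * (x * ζ ^ i * y ^ i) = (y * x) * ζ ^ i * y ^ i := by simp only [mul_assoc]
      _ = x * ζ * (y * ζ ^ i) * y ^ i := by rw [h.hyx]; simp only [mul_assoc]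
      _ = x * ζ * (ζ ^ i * y) * y ^ i := by
        rw [((show Commute y ζ from h.hyζ).pow_right i).eq]
      _ = x * ζ ^ (i + 1) * (y * y ^ i) := by rw [pow_succ' ζ]; simp only [mul_assoc]

theorem xsp_conj_apply {p : ℕ} {W : Subgroup V} {ζ x y : MulAut V} (h : XspStep p W ζ x y)
    (i : ℕ) (v : V) : (x * ζ ^ i) ((y ^ i) v) = (y ^ i) (x v) := by
  rw [← MulAut.mul_apply, ← MulAut.mul_apply, xsp_conj_pow h i]

/-- The decomposition step. -/
theorem xsp_step {p : ℕ} [hp : Fact p.Prime] {W : Subgroup V} {ζ x y : MulAut V}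
    (h : XspStep p W ζ x y) :
    (Nat.card ↥(W ⊓ xspFix x)) ^ p ≤ Nat.card ↥W ∧ (W ≠ ⊥ → W ⊓ xspFix x ≠ ⊥) := by
  have hyst : ∀ i : ℕ, ∀ v, (y ^ i) v ∈ W ↔ v ∈ W := fun i =>
    (mem_xspStab W _).mp ((xspStab W).pow_mem h.hyW i)
  constructor
  · have hΦ : ∀ f : Fin p → ↥(W ⊓ xspFix x), ∏ i : Fin p, (y ^ (i : ℕ)) (f i : V) ∈ W := by
      intro f
      apply Subgroup.prod_mem
      intro i _
      exact (hyst i _).mpr (f i).2.1
    have hinj : Function.Injective
        (fun f : Fin p → ↥(W ⊓ xspFix x) => (⟨_, hΦ f⟩ : ↥W)) := by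
      intro f g hfg
      have h1 : ∏ i : Fin p, (y ^ (i : ℕ)) (f i : V) = ∏ i : Fin p, (y ^ (i : ℕ)) (g i : V) :=
        congrArg Subtype.val hfg
      have h2 : ∏ i : Fin p, (y ^ (i : ℕ)) ((f i : V) * (g i : V)⁻¹) = 1 := by
        simp only [map_mul, map_inv]
        rw [Finset.prod_mul_distrib, Finset.prod_inv_distrib, h1, mul_inv_cancel]
      have h3 := xsp_indep h (fun i : Fin p => (y ^ (i : ℕ)) ((f i : V) * (g i : V)⁻¹)) (by
        intro i
        have hm : (f i : V) * (g i : V)⁻¹ ∈ W ⊓ xspFix x :=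
          (W ⊓ xspFix x).mul_mem (f i).2 ((W ⊓ xspFix x).inv_mem (g i).2)
        refine ⟨(hyst i _).mpr hm.1, ?_⟩
        rw [xsp_conj_apply h]
        exact congrArg _ hm.2) h2
      funext i
      apply Subtype.ext
      have h4 : (f i : V) * (g i : V)⁻¹ = 1 := by
        have h5 := h3 i
        exact (y ^ (i : ℕ)).injective (by rw [h5, map_one])
      exact mul_inv_eq_one.mp h4
    have hle := Nat.card_le_card_of_injective _ hinj
    rwa [Nat.card_fun, Nat.card_fin] at hle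
  · intro hW
    obtain ⟨v, hv, hv1⟩ : ∃ v ∈ W, v ≠ 1 := by
      by_contra hcon
      push Not at hcon
      exact hW ((Subgroup.eq_bot_iff_forall W).mpr hcon)
    have hvp : v ^ p ≠ 1 := fun hvp => hv1 (h.hpinj v hv hvp)
    obtain ⟨i, hi, hne⟩ : ∃ i ∈ Finset.range p, xspN p (x * ζ ^ i) v ≠ 1 := by
      by_contra hcon
      push Not at hcon
      exact hvp ((xsp_sum h hv).symm.trans (Finset.prod_eq_one hcon))
    have hc : Commute x ζ := h.hxζ
    have hpow : (x * ζ ^ i) ^ p = 1 := by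
      rw [(hc.pow_right i).mul_pow, h.hxp, ← pow_mul, pow_mul', h.hζp, one_pow, mul_one]
    obtain ⟨u, hu⟩ : ∃ u, u = xspN p (x * ζ ^ i) v := ⟨_, rfl⟩
    rw [← hu] at hne
    have hu1 : (x * ζ ^ i) u = u := by rw [hu]; exact xspN_fixed hpow v
    have huW : u ∈ W := by
      rw [hu]
      exact xspN_mem ((xspStab W).mul_mem h.hxW ((xspStab W).pow_mem h.hζW i)) hv
    obtain ⟨u', hu'⟩ : ∃ u', u' = (y ^ i)⁻¹ u := ⟨_, rfl⟩
    have hyu : (y ^ i) u' = u := by rw [hu', MulAut.apply_inv_self]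
    have hu'W : u' ∈ W := by rw [← hyst i u', hyu]; exact huW
    have hxu' : x u' = u' := by
      have h1 := xsp_conj_apply h i u'
      rw [hyu, hu1, ← hyu] at h1
      exact ((y ^ i).injective h1).symm
    have hu'1 : u' ≠ 1 := by
      intro h1
      rw [h1, map_one] at hyu
      exact hne hyu.symm
    intro hbot
    have h1 : u' ∈ W ⊓ xspFix x := ⟨hu'W, hxu'⟩
    rw [hbot, Subgroup.mem_bot] at h1
    exact hu'1 h1

/-- Base case: a fixed-point-free automorphism of order `p` on a nontrivial `r`-group `W`. -/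
theorem xsp_base {p r : ℕ} [hp : Fact p.Prime] [hr : Fact r.Prime] (hexp : ∀ v : V, v ^ r = 1)
    (W : Subgroup V) (ζ : MulAut V) (hζW : ζ ∈ xspStab W) (hζp : ζ ^ p = 1)
    (hfpf : ∀ v ∈ W, ζ v = v → v = 1) (hW : W ≠ ⊥) (n : ℕ)
    (hmin : ∀ k : ℕ, 1 ≤ k → p ∣ r ^ k - 1 → n ≤ k) : r ^ n ≤ Nat.card ↥W := by
  have hS : zpowers ζ ≤ xspStab W := zpowers_le.mpr hζW
  letI : MulAction (zpowers ζ) ↥W :=
    { smul := fun a k => ⟨(a : MulAut V) k, ((mem_xspStab W _).mp (hS a.2) k).mpr k.2⟩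
      one_smul := fun k => Subtype.ext (by
        show ((1 : zpowers ζ) : MulAut V) (k : V) = k
        simp)
      mul_smul := fun a b k => Subtype.ext (by
        show ((a * b : zpowers ζ) : MulAut V) (k : V) = (a : MulAut V) ((b : MulAut V) k)
        simp) }
  have hP : IsPGroup p (zpowers ζ) := by
    rintro ⟨a, ha⟩
    obtain ⟨i, rfl⟩ := mem_zpowers_iff.mp ha
    refine ⟨1, Subtype.ext ?_⟩
    show (ζ ^ i) ^ p ^ 1 = 1
    rw [pow_one, ← zpow_natCast, ← zpow_mul, mul_comm, zpow_mul, zpow_natCast, hζp, one_zpow]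
  have hmod := hP.card_modEq_card_fixedPoints ↥W
  have hfp : MulAction.fixedPoints (zpowers ζ) ↥W = {1} := by
    ext k
    rw [MulAction.mem_fixedPoints, Set.mem_singleton_iff]
    constructor
    · intro hk
      have h1 := hk ⟨ζ, mem_zpowers ζ⟩
      have h2 : ζ (k : V) = k := congrArg Subtype.val h1
      exact Subtype.ext (hfpf k k.2 h2)
    · rintro rfl a
      apply Subtype.ext
      show (a : MulAut V) ((1 : ↥W) : V) = ((1 : ↥W) : V)
      simp
  rw [hfp, Nat.card_coe_set_eq, Set.ncard_singleton] at hmod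
  have hWp : IsPGroup r ↥W := fun w => ⟨1, Subtype.ext (by
    show (w : V) ^ r ^ 1 = 1
    rw [pow_one]; exact hexp w)⟩
  obtain ⟨d, hd⟩ := IsPGroup.iff_card.mp hWp
  have hd1 : 1 ≤ d := by
    rcases Nat.eq_zero_or_pos d with h0 | h0
    · rw [h0, pow_zero] at hd
      exact absurd (Subgroup.eq_bot_of_card_eq W hd) hW
    · exact h0
  rw [hd] at hmod ⊢
  have hdvd : p ∣ r ^ d - 1 :=
    (Nat.modEq_iff_dvd' (Nat.one_le_pow d r hr.out.pos)).mp hmod.symm
  exact Nat.pow_le_pow_right hr.out.pos (hmin d hd1 hdvd)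

end xsp1

end Cfsg.Agent.Helper17
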