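import Mathlib
import Cfsg.Agent.Helper17.Npc1
import Cfsg.Agent.Helper24.ExtraCent

/-!
# Class-two calculus relative to a central element `z` of order `p`

`H` is a subgroup of a finite group `E`, `z` a central element with `z ^ p = 1`, all conjugates
`a b a⁻¹` (`a, b ∈ H`) lie in `⟨z⟩ b`, and the centre of `H` is `⟨z⟩`.
-/

set_option autoImplicit false

namespace Cfsg.Agent.Helper17

open Subgroup

section xsp2

variable {E : Type*} [Group E] {p : ℕ} {z : E}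

theorem xsp_zconj (hzc : ∀ g : E, g * z = z * g) (g : E) (j : ℕ) : g * z ^ j * g⁻¹ = z ^ j := by
  have h : Commute g (z ^ j) := (show Commute g z from hzc g).pow_right j
  rw [h.eq, mul_inv_cancel_right]

theorem xsp_R_mul (hzc : ∀ g : E, g * z = z * g) {a a' b : E} {k k' : ℕ}
    (h : a * b * a⁻¹ = z ^ k * b) (h' : a' * b * a'⁻¹ = z ^ k' * b) :
    (a * a') * b * (a * a')⁻¹ = z ^ (k' + k) * b := by
  have e : (a * a') * b * (a * a')⁻¹ = a * (a' * b * a'⁻¹) * a⁻¹ := by group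
  rw [e, h', ← conj_mul, xsp_zconj hzc, h, pow_add, mul_assoc]

theorem xsp_R_pow_left (hzc : ∀ g : E, g * z = z * g) {a b : E} {k : ℕ}
    (h : a * b * a⁻¹ = z ^ k * b) (m : ℕ) : a ^ m * b * (a ^ m)⁻¹ = z ^ (k * m) * b := by
  induction m with
  | zero => simp
  | succ m ih =>
    rw [pow_succ' a, xsp_R_mul hzc h ih]
    congr 2

theorem xsp_R_pow_right (hzc : ∀ g : E, g * z = z * g) {a b : E} {k : ℕ}
    (h : a * b * a⁻¹ = z ^ k * b) (m : ℕ) : a * b ^ m * a⁻¹ = z ^ (k * m) * b ^ m := by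
  rw [← conj_pow, h, ((show Commute z b from (hzc b).symm).pow_left k).mul_pow, ← pow_mul]

theorem xsp_R_symm [hp : Fact p.Prime] (hzc : ∀ g : E, g * z = z * g) (hzp : z ^ p = 1)
    {a b : E} {k : ℕ} (h : a * b * a⁻¹ = z ^ k * b) : b * a * b⁻¹ = z ^ ((p - 1) * k) * a := by
  have h1 : a * b = z ^ k * b * a := by rw [← h]; group
  have hp1 : p - 1 + 1 = p := Nat.sub_add_cancel hp.out.one_le
  have e : (p - 1) * k + k = p * k := by
    calc (p - 1) * k + k = (p - 1 + 1) * k := by ring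
      _ = p * k := by rw [hp1]
  rw [mul_inv_eq_iff_eq_mul]
  calc b * a = z ^ (p * k) * (b * a) := by rw [pow_mul, hzp, one_pow, one_mul]
    _ = z ^ ((p - 1) * k) * (z ^ k * b * a) := by rw [← e, pow_add]; simp only [mul_assoc]
    _ = z ^ ((p - 1) * k) * (a * b) := by rw [h1]
    _ = z ^ ((p - 1) * k) * a * b := by rw [mul_assoc]

variable [Finite E]

theorem xsp_pow_p_mem (hzc : ∀ g : E, g * z = z * g) (hzp : z ^ p = 1) (H : Subgroup E)
    (hc1 : ∀ a ∈ H, ∀ b ∈ H, ∃ k : ℕ, a * b * a⁻¹ = z ^ k * b)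
    (hc2 : ∀ c ∈ H, (∀ h ∈ H, h * c * h⁻¹ = c) → c ∈ zpowers z) {x : E} (hx : x ∈ H) :
    x ^ p ∈ zpowers z := by
  apply hc2 _ (H.pow_mem hx p)
  intro h hh
  obtain ⟨k, hk⟩ := hc1 h hh x hx
  rw [xsp_R_pow_right hzc hk p, mul_comm k p, pow_mul, hzp, one_pow, one_mul]

theorem xsp_exists_y [hp : Fact p.Prime] (hzc : ∀ g : E, g * z = z * g) (hzp : z ^ p = 1)
    (H : Subgroup E) (hc1 : ∀ a ∈ H, ∀ b ∈ H, ∃ k : ℕ, a * b * a⁻¹ = z ^ k * b)
    (hc2 : ∀ c ∈ H, (∀ h ∈ H, h * c * h⁻¹ = c) → c ∈ zpowers z) {x : E} (hx : x ∈ H)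
    (hxz : x ∉ zpowers z) : ∃ y ∈ H, y * x * y⁻¹ = z ^ 1 * x := by
  have h0 : ∃ h ∈ H, h * x * h⁻¹ ≠ x := by
    by_contra hcon
    push Not at hcon
    exact hxz (hc2 x hx hcon)
  obtain ⟨h, hh, hne⟩ := h0
  obtain ⟨k, hk⟩ := hc1 h hh x hx
  have hpk : ¬ p ∣ k := by
    rintro ⟨j, rfl⟩
    apply hne
    rw [hk, pow_mul, hzp, one_pow, one_mul]
  have hcop : Nat.Coprime k p := ((Nat.Prime.coprime_iff_not_dvd hp.out).mpr hpk).symm
  obtain ⟨m, -, hm⟩ := Nat.exists_mul_mod_eq_one_of_coprime hcop hp.out.one_lt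
  refine ⟨h ^ m, H.pow_mem hh m, ?_⟩
  rw [xsp_R_pow_left hzc hk m, pow_eq_pow_mod (k * m) hzp, hm]

theorem xsp_card_zpowers_le [hp : Fact p.Prime] (hzp : z ^ p = 1) :
    Nat.card ↥(zpowers z) ≤ p := by
  rw [Nat.card_zpowers]
  exact Nat.le_of_dvd hp.out.pos (orderOf_dvd_of_pow_eq_one hzp)

theorem xsp_card_le_centralizer [hp : Fact p.Prime] (hzp : z ^ p = 1) (K : Subgroup E) (x : E)
    (hK : ∀ h ∈ K, ∃ k : ℕ, h * x * h⁻¹ = z ^ k * x) :
    Nat.card K ≤ p * Nat.card ↥(K ⊓ centralizer {x}) := by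
  have hmem : ∀ h : ↥K, (h : E) * x * (h : E)⁻¹ * x⁻¹ ∈ zpowers z := by
    intro h
    obtain ⟨k, hk⟩ := hK h h.2
    rw [hk, mul_inv_cancel_right]
    exact pow_mem (mem_zpowers z) k
  have hidx := Helper24.index_le_card_of_fiber ((K ⊓ centralizer {x}).subgroupOf K)
    (fun h : ↥K => (⟨_, hmem h⟩ : ↥(zpowers z))) (by
      intro a b hab
      have h1 : (a : E) * x * (a : E)⁻¹ * x⁻¹ = (b : E) * x * (b : E)⁻¹ * x⁻¹ :=
        congrArg Subtype.val hab
      have h2 : (a : E) * x * (a : E)⁻¹ = (b : E) * x * (b : E)⁻¹ := mul_right_cancel h1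
      have hcz : (a : E)⁻¹ * (b : E) ∈ centralizer ({x} : Set E) := by
        rw [Subgroup.mem_centralizer_iff]
        intro s hs
        rw [Set.mem_singleton_iff] at hs
        rw [hs]
        have h3 : (b : E) * x = (a : E) * x * (a : E)⁻¹ * (b : E) := by rw [h2]; group
        calc x * ((a : E)⁻¹ * (b : E))
            = (a : E)⁻¹ * ((a : E) * x * (a : E)⁻¹ * (b : E)) := by group
          _ = (a : E)⁻¹ * ((b : E) * x) := by rw [h3]
          _ = (a : E)⁻¹ * (b : E) * x := by rw [mul_assoc]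
      rw [Subgroup.mem_subgroupOf]
      exact ⟨(a⁻¹ * b).2, hcz⟩)
  have hz := xsp_card_zpowers_le (z := z) hzp
  have hcard := npc_card_eq (inf_le_left : K ⊓ centralizer {x} ≤ K)
  rw [hcard, mul_comm]
  exact Nat.mul_le_mul_right _ (hidx.trans hz)

theorem xsp_center_H1 [hp : Fact p.Prime] (hzc : ∀ g : E, g * z = z * g) (hzp : z ^ p = 1)
    (H : Subgroup E) (hc1 : ∀ a ∈ H, ∀ b ∈ H, ∃ k : ℕ, a * b * a⁻¹ = z ^ k * b)
    (hc2 : ∀ c ∈ H, (∀ h ∈ H, h * c * h⁻¹ = c) → c ∈ zpowers z) {x y : E} (hx : x ∈ H)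
    (hy : y ∈ H) (hyx : y * x * y⁻¹ = z ^ 1 * x) :
    ∀ c ∈ H ⊓ centralizer {x} ⊓ centralizer {y},
      (∀ h ∈ H ⊓ centralizer {x} ⊓ centralizer {y}, h * c * h⁻¹ = c) → c ∈ zpowers z := by
  intro c hc hcen
  apply hc2 c hc.1.1
  intro h hh
  obtain ⟨i, hi⟩ := hc1 h hh x hx
  obtain ⟨j, hj⟩ := hc1 h hh y hy
  have hxy : x * y * x⁻¹ = z ^ ((p - 1) * 1) * y := xsp_R_symm hzc hzp hyx
  have hxx : x * x * x⁻¹ = z ^ 0 * x := by simp
  have hyy : y * y * y⁻¹ = z ^ 0 * y := by simp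
  obtain ⟨a, ha⟩ : ∃ a, a = j := ⟨_, rfl⟩
  obtain ⟨b, hb⟩ : ∃ b, b = (p - 1) * i := ⟨_, rfl⟩
  have e2 := xsp_R_mul hzc hi
    (xsp_R_mul hzc (xsp_R_pow_left hzc hxx a) (xsp_R_pow_left hzc hyx b))
  have e4 := xsp_R_mul hzc hj
    (xsp_R_mul hzc (xsp_R_pow_left hzc hxy a) (xsp_R_pow_left hzc hyy b))
  have hp1 : p - 1 + 1 = p := Nat.sub_add_cancel hp.out.one_le
  have x1 : 1 * b + 0 * a + i = p * i := by
    calc 1 * b + 0 * a + i = (p - 1 + 1) * i := by rw [hb]; ring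
      _ = p * i := by rw [hp1]
  have x2 : 0 * b + (p - 1) * 1 * a + j = p * j := by
    calc 0 * b + (p - 1) * 1 * a + j = (p - 1 + 1) * j := by rw [ha]; ring
      _ = p * j := by rw [hp1]
  rw [x1, pow_mul, hzp, one_pow, one_mul] at e2
  rw [x2, pow_mul, hzp, one_pow, one_mul] at e4
  obtain ⟨h', hh'⟩ : ∃ h', h' = h * (x ^ a * y ^ b) := ⟨_, rfl⟩
  rw [← hh'] at e2 e4
  have hh'H : h' ∈ H := by
    rw [hh']
    exact H.mul_mem hh (H.mul_mem (H.pow_mem hx a) (H.pow_mem hy b))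
  have hcx : Commute h' x := mul_inv_eq_iff_eq_mul.mp e2
  have hcy : Commute h' y := mul_inv_eq_iff_eq_mul.mp e4
  have hmx : h' ∈ centralizer ({x} : Set E) := by
    rw [Subgroup.mem_centralizer_iff]
    intro s hs
    rw [Set.mem_singleton_iff] at hs
    rw [hs]
    exact hcx.eq.symm
  have hmy : h' ∈ centralizer ({y} : Set E) := by
    rw [Subgroup.mem_centralizer_iff]
    intro s hs
    rw [Set.mem_singleton_iff] at hs
    rw [hs]
    exact hcy.eq.symm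
  have hh'1 : h' ∈ H ⊓ centralizer {x} ⊓ centralizer {y} := ⟨⟨hh'H, hmx⟩, hmy⟩
  have hc' : Commute h' c := mul_inv_eq_iff_eq_mul.mp (hcen h' hh'1)
  have hxc : Commute x c :=
    (Subgroup.mem_centralizer_iff.mp hc.1.2) x (Set.mem_singleton x)
  have hyc : Commute y c := (Subgroup.mem_centralizer_iff.mp hc.2) y (Set.mem_singleton y)
  have hhc : Commute h c := by
    have e5 : h = h' * (x ^ a * y ^ b)⁻¹ := by rw [hh', mul_inv_cancel_right]
    rw [e5]
    exact hc'.mul_left (((hxc.pow_left a).mul_left (hyc.pow_left b)).inv_left)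
  exact mul_inv_eq_iff_eq_mul.mpr hhc.eq

theorem xsp_mul_pow (hzc : ∀ g : E, g * z = z * g) {a b : E} {k : ℕ}
    (h : b * a * b⁻¹ = z ^ k * a) (m : ℕ) :
    (a * b) ^ m = z ^ (k * ∑ i ∈ Finset.range m, i) * (a ^ m * b ^ m) := by
  induction m with
  | zero => simp
  | succ m ih =>
    have hb : b ^ m * a = z ^ (k * m) * a * b ^ m := by
      rw [← xsp_R_pow_left hzc h m]; group
    have hz' : ∀ (j : ℕ) (g : E), g * z ^ j = z ^ j * g := fun j g =>
      ((show Commute g z from hzc g).pow_right j).eq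
    rw [pow_succ, ih, Finset.sum_range_succ, mul_add, pow_add]
    calc z ^ (k * ∑ i ∈ Finset.range m, i) * (a ^ m * b ^ m) * (a * b)
        = z ^ (k * ∑ i ∈ Finset.range m, i) * (a ^ m * (b ^ m * a) * b) := by
          simp only [mul_assoc]
      _ = z ^ (k * ∑ i ∈ Finset.range m, i) * (a ^ m * (z ^ (k * m) * a * b ^ m) * b) := by
          rw [hb]
      _ = z ^ (k * ∑ i ∈ Finset.range m, i) * ((a ^ m * z ^ (k * m)) * (a * b ^ m) * b) := by
          simp only [mul_assoc]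
      _ = z ^ (k * ∑ i ∈ Finset.range m, i) * ((z ^ (k * m) * a ^ m) * (a * b ^ m) * b) := by
          rw [hz' (k * m) (a ^ m)]
      _ = z ^ (k * ∑ i ∈ Finset.range m, i) * z ^ (k * m) * (a ^ (m + 1) * b ^ (m + 1)) := by
          rw [pow_succ a, pow_succ b]; simp only [mul_assoc]

theorem xsp_exists_order_p_odd [hp : Fact p.Prime] (hzc : ∀ g : E, g * z = z * g)
    (hzp : z ^ p = 1) (H : Subgroup E)
    (hc1 : ∀ a ∈ H, ∀ b ∈ H, ∃ k : ℕ, a * b * a⁻¹ = z ^ k * b)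
    (hc2 : ∀ c ∈ H, (∀ h ∈ H, h * c * h⁻¹ = c) → c ∈ zpowers z) (hodd : p ≠ 2)
    (hcard : p ^ 3 ≤ Nat.card H) : ∃ x ∈ H, x ∉ zpowers z ∧ x ^ p = 1 := by
  by_contra hcon
  push Not at hcon
  have hS : p ∣ ∑ i ∈ Finset.range p, i := by
    have h2 := Finset.sum_range_id_mul_two p
    have h3 : p ∣ (∑ i ∈ Finset.range p, i) * 2 := by rw [h2]; exact dvd_mul_right p _
    have hcop : Nat.Coprime p 2 := (Nat.coprime_primes hp.out Nat.prime_two).mpr hodd
    exact hcop.dvd_of_dvd_mul_right h3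
  have hmulpow : ∀ a ∈ H, ∀ b ∈ H, (a * b) ^ p = a ^ p * b ^ p := by
    intro a ha b hb
    obtain ⟨k, hk⟩ := hc1 b hb a ha
    obtain ⟨q, hq⟩ := hS
    have e : z ^ (k * (p * q)) = 1 := by rw [mul_comm k, mul_assoc, pow_mul, hzp, one_pow]
    rw [xsp_mul_pow hzc hk p, hq, e, one_mul]
  obtain ⟨Ω, hΩ⟩ : ∃ Ω : Subgroup ↥H, ∀ h : ↥H, h ∈ Ω ↔ (h : E) ^ p = 1 :=
    ⟨{ carrier := {h | (h : E) ^ p = 1}
       mul_mem' := by
         intro a b ha hb
         show ((a * b : ↥H) : E) ^ p = 1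
         rw [Subgroup.coe_mul, hmulpow a a.2 b b.2, ha, hb, one_mul]
       one_mem' := by
         show ((1 : ↥H) : E) ^ p = 1
         simp
       inv_mem' := by
         intro a ha
         show ((a⁻¹ : ↥H) : E) ^ p = 1
         rw [Subgroup.coe_inv, inv_pow, ha, inv_one] }, fun h => Iff.rfl⟩
  have hidx := Helper24.index_le_card_of_fiber Ω
    (fun h : ↥H => (⟨(h : E) ^ p, xsp_pow_p_mem hzc hzp H hc1 hc2 h.2⟩ : ↥(zpowers z))) (by
      intro a b hab
      have h1 : (a : E) ^ p = (b : E) ^ p := congrArg Subtype.val hab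
      rw [hΩ, Subgroup.coe_mul, Subgroup.coe_inv, hmulpow _ (H.inv_mem a.2) _ b.2, inv_pow, h1,
        inv_mul_cancel])
  have hz := xsp_card_zpowers_le (z := z) hzp
  have hmul := Subgroup.card_mul_index Ω
  have hinj : Nat.card Ω ≤ Nat.card ↥(zpowers z) := by
    apply Nat.card_le_card_of_injective (fun h : Ω => (⟨((h : ↥H) : E), by
      by_contra hne
      exact hcon _ (h : ↥H).2 hne ((hΩ h).mp h.2)⟩ : ↥(zpowers z)))
    intro a b hab
    have h1 := congrArg Subtype.val hab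
    exact Subtype.ext (Subtype.ext h1)
  have h4 : Nat.card ↥H ≤ p * p := by
    rw [← hmul]
    exact Nat.mul_le_mul (hinj.trans hz) (hidx.trans hz)
  have hp2 := hp.out.two_le
  have h5 : p ^ 3 ≤ p * p := hcard.trans h4
  have h6 : p ^ 3 = p * p * p := by ring
  nlinarith [Nat.mul_pos hp.out.pos hp.out.pos]

theorem xsp_exists_order_p_two (hzc : ∀ g : E, g * z = z * g) (hz2 : z ^ 2 = 1)
    (H : Subgroup E) (hc1 : ∀ a ∈ H, ∀ b ∈ H, ∃ k : ℕ, a * b * a⁻¹ = z ^ k * b)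
    (hc2 : ∀ c ∈ H, (∀ h ∈ H, h * c * h⁻¹ = c) → c ∈ zpowers z)
    (hcard : 2 ^ 5 ≤ Nat.card H) : ∃ x ∈ H, x ∉ zpowers z ∧ x ^ 2 = 1 := by
  haveI : Fact (Nat.Prime 2) := ⟨Nat.prime_two⟩
  by_contra hcon
  push Not at hcon
  have hz := xsp_card_zpowers_le (p := 2) (z := z) hz2
  obtain ⟨x, hxH, hxz⟩ : ∃ x ∈ H, x ∉ zpowers z := by
    by_contra hno
    push Not at hno
    have h1 : Nat.card H ≤ Nat.card ↥(zpowers z) := Subgroup.card_le_of_le hno
    omega
  have hzmem : ∀ u ∈ zpowers z, u = 1 ∨ u = z := by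
    intro u hu
    obtain ⟨k, hk⟩ := mem_powers_iff_mem_zpowers.mpr hu
    have hk' : z ^ k = u := hk
    rw [pow_eq_pow_mod k hz2] at hk'
    rcases Nat.mod_two_eq_zero_or_one k with h0 | h0
    · left; rw [← hk', h0, pow_zero]
    · right; rw [← hk', h0, pow_one]
  have sq : ∀ g ∈ H, g ∉ zpowers z → g ^ 2 = z := by
    intro g hg hgz
    rcases hzmem _ (xsp_pow_p_mem hzc hz2 H hc1 hc2 hg) with h1 | h1
    · exact absurd h1 (hcon g hg hgz)
    · exact h1
  have hC := xsp_card_le_centralizer (p := 2) hz2 H x (fun h hh => hc1 h hh x hxH)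
  have hCsub : ∀ c ∈ H ⊓ centralizer {x}, c ∈ zpowers z ∨ x * c ∈ zpowers z := by
    intro c hc
    by_contra hno
    push Not at hno
    have hxc : Commute x c :=
      (Subgroup.mem_centralizer_iff.mp hc.2) x (Set.mem_singleton x)
    have h1 := sq x hxH hxz
    have h2 := sq c hc.1 hno.1
    have h3 := sq (x * c) (H.mul_mem hxH hc.1) hno.2
    rw [hxc.mul_pow, h1, h2, ← pow_two, hz2] at h3
    rw [← h3] at h1
    exact hcon x hxH hxz h1
  have hC4 : Nat.card ↥(H ⊓ centralizer {x}) ≤ 4 := by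
    have hsub : ((H ⊓ centralizer {x} : Subgroup E) : Set E) ⊆
        (zpowers z : Set E) ∪ (fun u => x⁻¹ * u) '' (zpowers z : Set E) := by
      intro c hc
      rcases hCsub c hc with h1 | h1
      · exact Or.inl h1
      · exact Or.inr ⟨x * c, h1, by simp⟩
    have h1 : Nat.card ↥(H ⊓ centralizer {x}) =
        ((H ⊓ centralizer {x} : Subgroup E) : Set E).ncard := Nat.card_coe_set_eq _
    have h2 : Nat.card ↥(zpowers z) = (zpowers z : Set E).ncard := Nat.card_coe_set_eq _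
    rw [h1]
    calc ((H ⊓ centralizer {x} : Subgroup E) : Set E).ncard
        ≤ ((zpowers z : Set E) ∪ (fun u => x⁻¹ * u) '' (zpowers z : Set E)).ncard :=
          Set.ncard_le_ncard hsub (Set.toFinite _)
      _ ≤ (zpowers z : Set E).ncard + ((fun u => x⁻¹ * u) '' (zpowers z : Set E)).ncard :=
          Set.ncard_union_le _ _
      _ ≤ (zpowers z : Set E).ncard + (zpowers z : Set E).ncard :=
          Nat.add_le_add_left (Set.ncard_image_le (Set.toFinite _)) _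
      _ ≤ 4 := by omega
  omega

end xsp2

end Cfsg.Agent.Helper17
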