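import Mathlib
import Cfsg.Prelude.Def_Transfer
import Cfsg.Agent.Helper17.Xsp1
import Cfsg.Agent.Helper17.Xsp2

/-!
# Lower bound for faithful modules of extraspecial groups in coprime characteristic
-/

set_option autoImplicit false
set_option maxHeartbeats 1600000

namespace Cfsg.Agent.Helper17

open Subgroup

/-- Main induction. -/
theorem xsp_main {E : Type*} [Group E] [Finite E] {V : Type*} [CommGroup V] [Finite V]
    {p r : ℕ} [hp : Fact p.Prime] [hr : Fact r.Prime] (hpr : p ≠ r)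
    (hexp : ∀ v : V, v ^ r = 1) (ρ : E →* MulAut V) (z : E) (hzc : ∀ g : E, g * z = z * g)
    (hzp : z ^ p = 1) (n : ℕ) (hn : 1 ≤ n)
    (hmin : ∀ k : ℕ, 1 ≤ k → p ∣ r ^ k - 1 → n ≤ k) :
    ∀ (w : ℕ) (H : Subgroup E) (W : Subgroup V), z ∈ H →
      (∀ a ∈ H, ∀ b ∈ H, ∃ k : ℕ, a * b * a⁻¹ = z ^ k * b) →
      (∀ c ∈ H, (∀ h ∈ H, h * c * h⁻¹ = c) → c ∈ zpowers z) →
      p ^ (2 * w + 1) ≤ Nat.card H →
      (∀ h ∈ H, ρ h ∈ xspStab W) →
      (∀ v ∈ W, ρ z v = v → v = 1) → W ≠ ⊥ → r ^ (n * p ^ w) ≤ Nat.card ↥W := by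
  intro w
  induction w with
  | zero =>
    intro H W hzH hc1 hc2 hcard hst hfpf hW
    rw [pow_zero, mul_one]
    exact xsp_base hexp W (ρ z) (hst z hzH) (by rw [← map_pow, hzp, map_one]) hfpf hW n hmin
  | succ w ih =>
    intro H W hzH hc1 hc2 hcard hst hfpf hW
    have hζp : (ρ z) ^ p = 1 := by rw [← map_pow, hzp, map_one]
    have hpinj : ∀ v ∈ W, v ^ p = 1 → v = 1 := by
      intro v _ hv
      have h1 := orderOf_dvd_of_pow_eq_one hv
      have h2 := orderOf_dvd_of_pow_eq_one (hexp v)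
      exact orderOf_eq_one_iff.mp
        (Nat.eq_one_of_dvd_coprimes ((Nat.coprime_primes hp.out hr.out).mpr hpr) h1 h2)
    by_cases hA : ∃ x ∈ H, x ∉ zpowers z ∧ x ^ p = 1
    · obtain ⟨x, hxH, hxz, hxp⟩ := hA
      obtain ⟨y, hyH, hyx⟩ := xsp_exists_y hzc hzp H hc1 hc2 hxH hxz
      have hstep : XspStep p W (ρ z) (ρ x) (ρ y) :=
        { hζW := hst z hzH
          hxW := hst x hxH
          hyW := hst y hyH
          hζp := hζp
          hxp := by rw [← map_pow, hxp, map_one]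
          hxζ := by rw [← map_mul, ← map_mul, hzc x]
          hyζ := by rw [← map_mul, ← map_mul, hzc y]
          hyx := by
            rw [← map_mul, ← map_mul, ← map_mul]
            congr 1
            have h1 : y * x = z ^ 1 * x * y := by rw [← hyx]; group
            rw [h1, pow_one, ← hzc x]
          hfpf := hfpf
          hpinj := hpinj }
      obtain ⟨hcardW, hW1⟩ := xsp_step hstep
      obtain ⟨H₁, hH₁⟩ : ∃ H₁, H₁ = H ⊓ centralizer {x} ⊓ centralizer {y} := ⟨_, rfl⟩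
      have hzH₁ : z ∈ H₁ := by
        rw [hH₁]
        refine ⟨⟨hzH, ?_⟩, ?_⟩
        · show z ∈ centralizer ({x} : Set E)
          rw [Subgroup.mem_centralizer_iff]
          intro s _
          exact hzc s
        · show z ∈ centralizer ({y} : Set E)
          rw [Subgroup.mem_centralizer_iff]
          intro s _
          exact hzc s
      have hH₁H : H₁ ≤ H := by rw [hH₁]; exact inf_le_left.trans inf_le_left
      have hc1' : ∀ a ∈ H₁, ∀ b ∈ H₁, ∃ k : ℕ, a * b * a⁻¹ = z ^ k * b :=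
        fun a ha b hb => hc1 a (hH₁H ha) b (hH₁H hb)
      have hc2' : ∀ c ∈ H₁, (∀ h ∈ H₁, h * c * h⁻¹ = c) → c ∈ zpowers z := by
        rw [hH₁]
        exact xsp_center_H1 hzc hzp H hc1 hc2 hxH hyH hyx
      have hcard' : p ^ (2 * w + 1) ≤ Nat.card H₁ := by
        have h1 := xsp_card_le_centralizer hzp H x (fun h hh => hc1 h hh x hxH)
        have h2 := xsp_card_le_centralizer hzp (H ⊓ centralizer {x}) y
          (fun h hh => hc1 h hh.1 y hyH)
        rw [← hH₁] at h2
        have h3 : p ^ (2 * (w + 1) + 1) ≤ p * (p * Nat.card H₁) :=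
          hcard.trans (h1.trans (Nat.mul_le_mul_left p h2))
        have h4 : p ^ (2 * (w + 1) + 1) = p * (p * p ^ (2 * w + 1)) := by ring
        rw [h4] at h3
        exact Nat.le_of_mul_le_mul_left (Nat.le_of_mul_le_mul_left h3 hp.out.pos) hp.out.pos
      have hst' : ∀ h ∈ H₁, ρ h ∈ xspStab (W ⊓ xspFix (ρ x)) := by
        intro h hh
        rw [mem_xspStab]
        intro v
        have hhx : x * h = h * x := by
          rw [hH₁] at hh
          exact (Subgroup.mem_centralizer_iff.mp hh.1.2) x (Set.mem_singleton x)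
        have e1 : ρ x (ρ h v) = ρ h (ρ x v) := by
          rw [← MulAut.mul_apply, ← MulAut.mul_apply, ← map_mul, ← map_mul, hhx]
        constructor
        · rintro ⟨h1, h2⟩
          refine ⟨((mem_xspStab W _).mp (hst h (hH₁H hh)) v).mp h1, ?_⟩
          have h3 : ρ x (ρ h v) = ρ h v := h2
          rw [e1] at h3
          exact (ρ h).injective h3
        · rintro ⟨h1, h2⟩
          refine ⟨((mem_xspStab W _).mp (hst h (hH₁H hh)) v).mpr h1, ?_⟩
          have h3 : ρ x v = v := h2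
          show ρ x (ρ h v) = ρ h v
          rw [e1, h3]
      have hfpf' : ∀ v ∈ W ⊓ xspFix (ρ x), ρ z v = v → v = 1 := fun v hv => hfpf v hv.1
      have hIH := ih H₁ (W ⊓ xspFix (ρ x)) hzH₁ hc1' hc2' hcard' hst' hfpf' (hW1 hW)
      calc r ^ (n * p ^ (w + 1)) = (r ^ (n * p ^ w)) ^ p := by
            rw [← pow_mul, pow_succ, mul_assoc]
        _ ≤ (Nat.card ↥(W ⊓ xspFix (ρ x))) ^ p := Nat.pow_le_pow_left hIH p
        _ ≤ Nat.card ↥W := hcardW
    · -- no noncentral element of order `p`: then `p = 2` and `w = 0`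
      have hp2 : p = 2 := by
        by_contra hodd
        exact hA (xsp_exists_order_p_odd hzc hzp H hc1 hc2 hodd
          ((Nat.pow_le_pow_right hp.out.pos (by omega)).trans hcard))
      subst hp2
      have hw0 : w = 0 := by
        by_contra hw
        exact hA (xsp_exists_order_p_two hzc hzp H hc1 hc2
          ((Nat.pow_le_pow_right (by norm_num) (by omega)).trans hcard))
      subst hw0
      have hr2 : r % 2 = 1 := by
        rcases hr.out.eq_two_or_odd with h | h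
        · exact absurd h.symm hpr
        · exact h
      have hn1 : n = 1 := by
        have h1 : n ≤ 1 := hmin 1 le_rfl (by rw [pow_one]; omega)
        omega
      subst hn1
      -- `W` is an `r`-group of order at least `r ^ 2`
      have hWp : IsPGroup r ↥W := fun v => ⟨1, Subtype.ext (by
        show (v : V) ^ r ^ 1 = 1
        rw [pow_one]; exact hexp v)⟩
      obtain ⟨d, hd⟩ := IsPGroup.iff_card.mp hWp
      have hz := xsp_card_zpowers_le (p := 2) (z := z) hzp
      obtain ⟨a, haH, haz⟩ : ∃ a ∈ H, a ∉ zpowers z := by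
        by_contra hno
        push Not at hno
        have h1 : Nat.card H ≤ Nat.card ↥(zpowers z) := Subgroup.card_le_of_le hno
        have h2 : 2 ^ 3 ≤ Nat.card H := hcard
        omega
      obtain ⟨b, hbH, hba⟩ : ∃ b ∈ H, b * a * b⁻¹ ≠ a := by
        by_contra hno
        push Not at hno
        exact haz (hc2 a haH hno)
      obtain ⟨k, hk⟩ := hc1 b hbH a haH
      have hk2 : ¬ 2 ∣ k := by
        rintro ⟨j, rfl⟩
        apply hba
        rw [hk, pow_mul, hzp, one_pow, one_mul]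
      have hd2 : 2 ≤ d := by
        by_contra hlt
        have hd01 : d = 0 ∨ d = 1 := by omega
        rcases hd01 with h0 | h1
        · rw [h0, pow_zero] at hd
          exact hW (Subgroup.eq_bot_of_card_eq W hd)
        · rw [h1, pow_one] at hd
          obtain ⟨g, hgW, hg1⟩ : ∃ g ∈ W, g ≠ 1 := by
            by_contra hcon
            push Not at hcon
            exact hW ((Subgroup.eq_bot_iff_forall W).mpr hcon)
          have hgen : zpowers g = W := by
            apply Subgroup.eq_of_le_of_card_ge (zpowers_le.mpr hgW)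
            rw [hd, Nat.card_zpowers, orderOf_eq_prime (hexp g) hg1]
          have hpw : ∀ h ∈ H, ∃ s : ℕ, ρ h g = g ^ s := by
            intro h hh
            have h2 : ρ h g ∈ zpowers g := by
              rw [hgen]
              exact ((mem_xspStab W _).mp (hst h hh) g).mpr hgW
            obtain ⟨s, hs⟩ := mem_powers_iff_mem_zpowers.mpr h2
            exact ⟨s, hs.symm⟩
          obtain ⟨s, hs⟩ := hpw a haH
          obtain ⟨t, ht⟩ := hpw b hbH
          have e1 : ρ b (ρ a g) = ρ a (ρ b g) := by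
            rw [hs, ht, map_pow, map_pow, hs, ht, ← pow_mul, ← pow_mul, mul_comm]
          have e2 : b * a = z ^ k * (a * b) := by
            rw [← mul_assoc, ← hk]; group
          have e3 : ρ b (ρ a g) = ((ρ z) ^ k) (ρ a (ρ b g)) := by
            rw [← MulAut.mul_apply, ← map_mul, e2, map_mul, map_pow, map_mul, MulAut.mul_apply,
              MulAut.mul_apply]
          rw [e1] at e3
          have huW : ρ a (ρ b g) ∈ W :=
            ((mem_xspStab W _).mp (hst a haH) _).mpr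
              (((mem_xspStab W _).mp (hst b hbH) g).mpr hgW)
          have h3 := xsp_fpf_pow W (ρ z) hζp hfpf hk2 _ huW e3.symm
          apply hg1
          apply (ρ b).injective
          apply (ρ a).injective
          rw [h3, map_one, map_one]
      rw [hd]
      exact Nat.pow_le_pow_right hr.out.pos (by omega)

/-- The bound for a faithful-on-the-centre action of a group of extraspecial type. -/
theorem xsp_top {E : Type*} [Group E] [Finite E] {V : Type*} [CommGroup V] [Finite V]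
    {p r : ℕ} [hp : Fact p.Prime] [hr : Fact r.Prime] (hpr : p ≠ r)
    (hexp : ∀ v : V, v ^ r = 1) (ρ : E →* MulAut V) (z : E) (hzc : ∀ g : E, g * z = z * g)
    (hzp : z ^ p = 1) (hznt : ∃ v : V, ρ z v ≠ v)
    (hc1 : ∀ a b : E, ∃ k : ℕ, a * b * a⁻¹ = z ^ k * b)
    (hc2 : ∀ c : E, (∀ h : E, h * c * h⁻¹ = c) → c ∈ zpowers z) (w : ℕ)
    (hcard : p ^ (2 * w + 1) ≤ Nat.card E) (n : ℕ) (hn : 1 ≤ n)
    (hmin : ∀ k : ℕ, 1 ≤ k → p ∣ r ^ k - 1 → n ≤ k) : r ^ (n * p ^ w) ≤ Nat.card V := by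
  obtain ⟨ζ, hζ⟩ : ∃ ζ, ζ = ρ z := ⟨_, rfl⟩
  have hζp : ζ ^ p = 1 := by rw [hζ, ← map_pow, hzp, map_one]
  obtain ⟨δ, hδ⟩ : ∃ δ : V →* V, ∀ v, δ v = v * (ζ v)⁻¹ :=
    ⟨MonoidHom.mk' (fun v => v * (ζ v)⁻¹) (by
      intro a b
      show a * b * (ζ (a * b))⁻¹ = a * (ζ a)⁻¹ * (b * (ζ b)⁻¹)
      rw [map_mul, mul_inv, mul_mul_mul_comm]), fun v => rfl⟩
  have hfor : ∀ h : E, ∀ v ∈ δ.range, ρ h v ∈ δ.range := by
    rintro h v ⟨u, rfl⟩
    refine ⟨ρ h u, ?_⟩
    rw [hδ, hδ, map_mul, map_inv, hζ, ← MulAut.mul_apply, ← MulAut.mul_apply, ← map_mul,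
      ← map_mul, hzc h]
  have hst : ∀ h ∈ (⊤ : Subgroup E), ρ h ∈ xspStab δ.range := by
    intro h _
    rw [mem_xspStab]
    intro v
    constructor
    · intro hv
      have h1 := hfor h⁻¹ _ hv
      rwa [← MulAut.mul_apply, ← map_mul, inv_mul_cancel, map_one, MulAut.one_apply] at h1
    · exact hfor h v
  have hfpf : ∀ v ∈ δ.range, ρ z v = v → v = 1 := by
    rintro v ⟨u, rfl⟩ hfix
    rw [← hζ] at hfix
    have h1 : xspN p ζ (δ u) = (δ u) ^ p := xspN_of_fixed hfix
    have h2 : xspN p ζ (δ u) = 1 := by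
      rw [hδ, map_mul, map_inv, ← xspN_comm ζ ζ (Commute.refl ζ), xspN_fixed hζp,
        mul_inv_cancel]
    rw [h2] at h1
    have h3 := orderOf_dvd_of_pow_eq_one h1.symm
    have h4 := orderOf_dvd_of_pow_eq_one (hexp (δ u))
    exact orderOf_eq_one_iff.mp
      (Nat.eq_one_of_dvd_coprimes ((Nat.coprime_primes hp.out hr.out).mpr hpr) h3 h4)
  have hW : δ.range ≠ ⊥ := by
    obtain ⟨v, hv⟩ := hznt
    intro hbot
    have h1 : δ v ∈ δ.range := ⟨v, rfl⟩
    rw [hbot, Subgroup.mem_bot, hδ, mul_inv_eq_one, hζ] at h1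
    exact hv h1.symm
  have hmain := xsp_main hpr hexp ρ z hzc hzp n hn hmin w ⊤ δ.range (Subgroup.mem_top z)
    (fun a _ b _ => hc1 a b) (fun c _ hc => hc2 c (fun h => hc h (Subgroup.mem_top h)))
    (by rw [Subgroup.card_top]; exact hcard) hst hfpf hW
  exact hmain.trans (Nat.card_le_card_of_injective _ δ.range.subtype_injective)

/-- The same for a group `V` that is commutative by hypothesis only. -/
theorem xsp_top' {E : Type*} [Group E] [Finite E] {V : Type*} [Group V] [Finite V]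
    (hcomm : ∀ a b : V, a * b = b * a)
    {p r : ℕ} [hp : Fact p.Prime] [hr : Fact r.Prime] (hpr : p ≠ r)
    (hexp : ∀ v : V, v ^ r = 1) (ρ : E →* MulAut V) (z : E) (hzc : ∀ g : E, g * z = z * g)
    (hzp : z ^ p = 1) (hznt : ∃ v : V, ρ z v ≠ v)
    (hc1 : ∀ a b : E, ∃ k : ℕ, a * b * a⁻¹ = z ^ k * b)
    (hc2 : ∀ c : E, (∀ h : E, h * c * h⁻¹ = c) → c ∈ zpowers z) (w : ℕ)
    (hcard : p ^ (2 * w + 1) ≤ Nat.card E) (n : ℕ) (hn : 1 ≤ n)
    (hmin : ∀ k : ℕ, 1 ≤ k → p ∣ r ^ k - 1 → n ≤ k) : r ^ (n * p ^ w) ≤ Nat.card V :=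
  @xsp_top E _ _ V { ‹Group V› with mul_comm := hcomm } _ p r hp hr hpr hexp ρ z hzc hzp hznt
    hc1 hc2 w hcard n hn hmin

open scoped commutatorElement in
/-- Faithful elementary abelian `r`-modules of an extraspecial group of order `p ^ (2 w + 1)`
have order at least `r ^ (n p ^ w)`. -/
theorem xsp_final {G : Type*} [Group G] [Finite G] {p r : ℕ} [hp : Fact p.Prime]
    [hr : Fact r.Prime] (hpr : p ≠ r) (E A : Subgroup G) (w : ℕ)
    (hE : Cfsg.IsExtraspecial p ↥E) (hEcard : Nat.card ↥E = p ^ (2 * w + 1))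
    (hA : Cfsg.IsElementaryAbelian r A) (hnorm : E ≤ Subgroup.normalizer (A : Set G))
    (hfaith : E ⊓ Subgroup.centralizer (A : Set G) = ⊥) (n : ℕ) (hn : 1 ≤ n)
    (hmin : ∀ k : ℕ, 1 ≤ k → p ∣ r ^ k - 1 → n ≤ k) : r ^ (n * p ^ w) ≤ Nat.card ↥A := by
  obtain ⟨⟨hPg, hfr, hcomm⟩, hZcard⟩ := hE
  have hAcomm : ∀ a b : ↥A, a * b = b * a := fun a b => hA.1.is_comm.comm a b
  have hexpA : ∀ v : ↥A, v ^ r = 1 := fun v => Subtype.ext (hA.2 v v.2)
  haveI : Nontrivial (center ↥E) := by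
    rw [← Finite.one_lt_card_iff_nontrivial, hZcard]
    exact hp.out.one_lt
  obtain ⟨⟨z, hzcen⟩, hz1⟩ := exists_ne (1 : center ↥E)
  have hzc : ∀ g : ↥E, g * z = z * g := fun g => Subgroup.mem_center_iff.mp hzcen g
  have hz1' : z ≠ 1 := fun h => hz1 (Subtype.ext h)
  have hzp : z ^ p = 1 := by
    have h1 := _root_.orderOf_dvd_natCard (⟨z, hzcen⟩ : center ↥E)
    rw [hZcard] at h1
    have h2 : (⟨z, hzcen⟩ : center ↥E) ^ p = 1 := orderOf_dvd_iff_pow_eq_one.mp h1
    exact congrArg Subtype.val h2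
  have hgen : ∀ c ∈ center ↥E, c ∈ zpowers z := by
    intro c hc
    have h1 : (⟨c, hc⟩ : center ↥E) ∈ zpowers (⟨z, hzcen⟩ : center ↥E) :=
      mem_zpowers_of_prime_card hZcard hz1
    obtain ⟨k, hk⟩ := mem_zpowers_iff.mp h1
    rw [mem_zpowers_iff]
    exact ⟨k, congrArg Subtype.val hk⟩
  have hc1 : ∀ a b : ↥E, ∃ k : ℕ, a * b * a⁻¹ = z ^ k * b := by
    intro a b
    have h1 : ⁅a, b⁆ ∈ commutator ↥E := by
      rw [commutator_def]
      exact Subgroup.commutator_mem_commutator (Subgroup.mem_top a) (Subgroup.mem_top b)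
    rw [hcomm] at h1
    obtain ⟨k, hk⟩ := mem_powers_iff_mem_zpowers.mpr (hgen _ h1)
    have hk' : z ^ k = ⁅a, b⁆ := hk
    refine ⟨k, ?_⟩
    rw [hk', commutatorElement_def]
    group
  have hc2 : ∀ c : ↥E, (∀ h : ↥E, h * c * h⁻¹ = c) → c ∈ zpowers z := by
    intro c hc
    apply hgen
    rw [Subgroup.mem_center_iff]
    intro g
    exact (mul_inv_eq_iff_eq_mul.mp (hc g))
  obtain ⟨ρ, hρ⟩ : ∃ ρ : ↥E →* MulAut ↥A, ∀ (e : ↥E) (v : ↥A),
      ((ρ e v : ↥A) : G) = (e : G) * (v : G) * (e : G)⁻¹ :=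
    ⟨A.normalizerMonoidHom.comp (Subgroup.inclusion hnorm), fun e v => rfl⟩
  have hznt : ∃ v : ↥A, ρ z v ≠ v := by
    by_contra hcon
    push Not at hcon
    have hzC : (z : G) ∈ Subgroup.centralizer (A : Set G) := by
      rw [Subgroup.mem_centralizer_iff]
      intro a ha
      have h2 := congrArg Subtype.val (hcon ⟨a, ha⟩)
      rw [hρ] at h2
      exact (mul_inv_eq_iff_eq_mul.mp h2).symm
    have h1 : (z : G) ∈ E ⊓ Subgroup.centralizer (A : Set G) := ⟨z.2, hzC⟩
    rw [hfaith, Subgroup.mem_bot] at h1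
    exact hz1' (Subtype.ext h1)
  exact xsp_top' hAcomm hpr hexpA ρ z hzc hzp hznt hc1 hc2 w hEcard.ge n hn hmin

end Cfsg.Agent.Helper17
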