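import Mathlib
import Cfsg.Prelude.Def_BaumannBlocks
import Cfsg.Agent.Helper17.CD

set_option autoImplicit false

open scoped Pointwise commutatorElement

namespace Cfsg.Agent.Helper17

variable {G : Type*} [Group G]

theorem mem_conj_iff (C : Subgroup G) (x y : G) :
    y ∈ C.map (MulAut.conj x).toMonoidHom ↔ x⁻¹ * y * x ∈ C := by
  constructor
  · rintro ⟨c, hc, rfl⟩
    show x⁻¹ * (x * c * x⁻¹) * x ∈ C
    have e : x⁻¹ * (x * c * x⁻¹) * x = c := by group
    rw [e]; exact hc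
  · intro h
    refine ⟨x⁻¹ * y * x, h, ?_⟩
    show x * (x⁻¹ * y * x) * x⁻¹ = y
    group

theorem nz_mem {D : Subgroup G} {g d : G} (hg : g ∈ Subgroup.normalizer (D : Set G))
    (hd : d ∈ D) : g * d * g⁻¹ ∈ D :=
  (Subgroup.mem_normalizer_iff.mp hg d).mp hd

theorem nz_mem' {D : Subgroup G} {g d : G} (hg : g ∈ Subgroup.normalizer (D : Set G))
    (hd : d ∈ D) : g⁻¹ * d * g ∈ D := by
  have h := nz_mem (inv_mem hg) hd
  simpa using h

theorem mem_nz_of {D : Subgroup G} {g : G} (h1 : ∀ d ∈ D, g * d * g⁻¹ ∈ D)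
    (h2 : ∀ d ∈ D, g⁻¹ * d * g ∈ D) : g ∈ Subgroup.normalizer (D : Set G) := by
  rw [Subgroup.mem_normalizer_iff]
  intro d
  refine ⟨h1 d, fun hd => ?_⟩
  have h := h2 _ hd
  have e : g⁻¹ * (g * d * g⁻¹) * g = d := by group
  rwa [e] at h

theorem le_nz_of {K D : Subgroup G} (h : ∀ g ∈ K, ∀ d ∈ D, g * d * g⁻¹ ∈ D) :
    K ≤ Subgroup.normalizer (D : Set G) := by
  intro g hg
  refine mem_nz_of (h g hg) (fun d hd => ?_)
  have h' := h g⁻¹ (inv_mem hg) d hd
  simpa using h'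

theorem conj_abelian {C : Subgroup G} (hC : C ≤ Subgroup.centralizer (C : Set G)) (g : G) :
    C.map (MulAut.conj g).toMonoidHom ≤
      Subgroup.centralizer ((C.map (MulAut.conj g).toMonoidHom : Subgroup G) : Set G) := by
  rintro _ ⟨c, hc, rfl⟩
  rw [Subgroup.mem_centralizer_iff]
  rintro _ ⟨c', hc', rfl⟩
  have h := Subgroup.mem_centralizer_iff.mp (hC hc) c' hc'
  show g * c' * g⁻¹ * (g * c * g⁻¹) = g * c * g⁻¹ * (g * c' * g⁻¹)
  have e1 : g * c' * g⁻¹ * (g * c * g⁻¹) = g * (c' * c) * g⁻¹ := by group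
  have e2 : g * c * g⁻¹ * (g * c' * g⁻¹) = g * (c * c') * g⁻¹ := by group
  rw [e1, e2, h]

/-- maximal abelian members of the Chermak–Delgado lattice -/
def ZM (B : Subgroup G) : Prop :=
  Cfsg.IsCentralizerLarge B ∧ B ≤ Subgroup.centralizer (B : Set G) ∧
    ∀ W : Subgroup G, Cfsg.IsCentralizerLarge W → W ≤ Subgroup.centralizer (W : Set G) →
      B ≤ W → W = B

theorem zm_mcl [Finite G] {B : Subgroup G} (hB : ZM B) :
    Cfsg.IsMinimalCentrallyLarge (Subgroup.centralizer (B : Set G)) ∧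
    Subgroup.centralizer ((Subgroup.centralizer (B : Set G) : Subgroup G) : Set G) = B := by
  obtain ⟨h1, h2, h3⟩ := hB
  obtain ⟨hc1, hc2⟩ := cd_centralizer h1
  refine ⟨⟨(cl_iff _).mpr ⟨hc1, hc2.le.trans h2⟩, fun R' hle hR' => ?_⟩, hc2⟩
  obtain ⟨hR1, hR2⟩ := (cl_iff R').mp hR'
  obtain ⟨hd1, hd2⟩ := cd_centralizer hR1
  have hW : Subgroup.centralizer (R' : Set G) = B := by
    apply h3 _ hd1 (centralizer_anti hR2)
    have h4 := centralizer_anti hle
    rwa [hc2] at h4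
  exact hd2.symm.trans (by rw [hW])

theorem zm_of_mcl [Finite G] {R : Subgroup G} (hR : Cfsg.IsMinimalCentrallyLarge R) :
    ZM (Subgroup.centralizer (R : Set G)) := by
  obtain ⟨hR1, hR2⟩ := (cl_iff R).mp hR.1
  obtain ⟨hc1, hc2⟩ := cd_centralizer hR1
  refine ⟨hc1, centralizer_anti hR2, fun W hW hWab hle => ?_⟩
  obtain ⟨hw1, hw2⟩ := cd_centralizer hW
  have hle' : Subgroup.centralizer (W : Set G) ≤ R := by
    have h4 := centralizer_anti hle
    rwa [hc2] at h4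
  have hcl : Cfsg.IsCentrallyLarge (Subgroup.centralizer (W : Set G)) :=
    (cl_iff _).mpr ⟨hw1, hw2.le.trans hWab⟩
  have heq := hR.2 _ hle' hcl
  exact hw2.symm.trans (by rw [heq])

theorem zm_max [Finite G] {B W : Subgroup G} (hB : ZM B) (hW : Cfsg.IsCentralizerLarge W)
    (hWab : W ≤ Subgroup.centralizer (W : Set G))
    (hle : W ≤ Subgroup.centralizer (B : Set G)) : W ≤ B := by
  have h1 : B ⊔ W ≤ Subgroup.centralizer ((B ⊔ W : Subgroup G) : Set G) := by
    rw [centralizer_sup_eq]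
    exact sup_le (le_inf hB.2.1 (Subgroup.le_centralizer_iff.mp hle)) (le_inf hle hWab)
  have h2 := hB.2.2 _ (cd_main hB.1 hW).1 h1 le_sup_left
  exact le_sup_right.trans h2.le

theorem zm_exists_ge [Finite G] {W : Subgroup G} (hW : Cfsg.IsCentralizerLarge W)
    (hWab : W ≤ Subgroup.centralizer (W : Set G)) : ∃ B : Subgroup G, ZM B ∧ W ≤ B := by
  obtain ⟨B, hB, hmax⟩ := Set.exists_max_image
    {B : Subgroup G | Cfsg.IsCentralizerLarge B ∧ B ≤ Subgroup.centralizer (B : Set G) ∧ W ≤ B}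
    (fun B => Nat.card B) (Set.toFinite _) ⟨W, hW, hWab, le_rfl⟩
  refine ⟨B, ⟨hB.1, hB.2.1, fun W' hW' hW'ab hle => ?_⟩, hB.2.2⟩
  have h1 : Nat.card ↥W' ≤ Nat.card ↥B := hmax W' ⟨hW', hW'ab, hB.2.2.trans hle⟩
  exact (Subgroup.eq_of_le_of_card_ge hle h1).symm

theorem zm_card_eq [Finite G] {B B' : Subgroup G} (hB : ZM B) (hB' : ZM B') :
    Nat.card B = Nat.card B' := by
  obtain ⟨h1, h2⟩ := zm_mcl hB
  obtain ⟨h1', h2'⟩ := zm_mcl hB'
  have h := (mcl_card_eq h1 h1').1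
  rwa [h2, h2'] at h

theorem retract_arith {b q m d s w i b' j : ℕ} (hs : 0 < s) (hi : 0 < i) (h1 : b * q = m)
    (h2 : d * s = m) (h3 : q * w = s * i) (h4 : d * w = b' * j) (h5 : j ≤ i) : b ≤ b' := by
  have e1 : s * (b * i) = s * (d * w) := by
    calc s * (b * i) = b * (s * i) := by ring
      _ = b * (q * w) := by rw [h3]
      _ = (b * q) * w := by ring
      _ = (d * s) * w := by rw [h1, h2]
      _ = s * (d * w) := by ring
  have e2 : b * i = d * w := Nat.eq_of_mul_eq_mul_left hs e1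
  have e3 : b * i ≤ b' * i := by
    rw [e2, h4]; exact Nat.mul_le_mul le_rfl h5
  exact Nat.le_of_mul_le_mul_right e3 hi

theorem zm_retract [Finite G] {C W : Subgroup G} (hC : ZM C) (hW : Cfsg.IsCentralizerLarge W)
    (hWab : W ≤ Subgroup.centralizer (W : Set G)) :
    ZM ((C ⊓ Subgroup.centralizer (W : Set G)) ⊔ W) := by
  obtain ⟨hw1, hw2⟩ := cd_centralizer hW
  obtain ⟨hc1, hc2⟩ := cd_centralizer hC.1
  have hT := cd_main hC.1 hw1
  have hD := cd_main hT.2.1 hW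
  have hQW := cd_main hc1 hW
  have hab : (C ⊓ Subgroup.centralizer (W : Set G)) ⊔ W ≤ Subgroup.centralizer
      (((C ⊓ Subgroup.centralizer (W : Set G)) ⊔ W : Subgroup G) : Set G) := by
    rw [centralizer_sup_eq]
    exact sup_le
      (le_inf ((inf_le_left.trans hC.2.1).trans (centralizer_anti inf_le_left)) inf_le_right)
      (le_inf (Subgroup.le_centralizer_iff.mp inf_le_right) hWab)
  have hcard : Nat.card C ≤ Nat.card ↥((C ⊓ Subgroup.centralizer (W : Set G)) ⊔ W) := by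
    have e2 : Nat.card ↥(C ⊓ Subgroup.centralizer (W : Set G)) *
        Nat.card ↥(Subgroup.centralizer
          ((C ⊓ Subgroup.centralizer (W : Set G) : Subgroup G) : Set G))
        = Cfsg.maxCentralizerProduct G := hT.2.1
    rw [hT.2.2.2, hw2] at e2
    have e1 : Nat.card ↥C * Nat.card ↥(Subgroup.centralizer (C : Set G))
        = Cfsg.maxCentralizerProduct G := hC.1
    have h5 : Nat.card ↥((C ⊓ Subgroup.centralizer (W : Set G)) ⊓ W)
        ≤ Nat.card ↥(Subgroup.centralizer (C : Set G) ⊓ W) :=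
      Subgroup.card_le_of_le (inf_le_inf_right W (inf_le_left.trans hC.2.1))
    exact retract_arith (Nat.card_pos (α := ↥(Subgroup.centralizer (C : Set G) ⊔ W)))
      (Nat.card_pos (α := ↥(Subgroup.centralizer (C : Set G) ⊓ W))) e1 e2 hQW.2.2.1 hD.2.2.1 h5
  refine ⟨hD.1, hab, fun W' hW' hW'ab hle => ?_⟩
  obtain ⟨B', hB', hle'⟩ := zm_exists_ge hW' hW'ab
  have h6 : Nat.card B' ≤ Nat.card ↥((C ⊓ Subgroup.centralizer (W : Set G)) ⊔ W) := by
    rw [zm_card_eq hB' hC]; exact hcard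
  have h7 := Subgroup.eq_of_le_of_card_ge (hle.trans hle') h6
  exact le_antisymm (hle'.trans h7.ge) hle

theorem zm_conj [Finite G] {C : Subgroup G} (hC : ZM C) (g : G) :
    ZM (C.map (MulAut.conj g).toMonoidHom) := by
  refine ⟨cd_conj hC.1 g, conj_abelian hC.2.1 g, fun W hW hWab hle => ?_⟩
  obtain ⟨B', hB', hle'⟩ := zm_exists_ge hW hWab
  have h6 : Nat.card B' ≤ Nat.card ↥(C.map (MulAut.conj g).toMonoidHom) := by
    rw [card_map_conj, zm_card_eq hB' hC]
  have h7 := Subgroup.eq_of_le_of_card_ge (hle.trans hle') h6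
  exact le_antisymm (hle'.trans h7.ge) hle

theorem maxab_conj [Finite G] {A : Subgroup G} (hA : A ∈ Cfsg.maxAbelianSubgroups G) (g : G) :
    A.map (MulAut.conj g).toMonoidHom ∈ Cfsg.maxAbelianSubgroups G := by
  refine ⟨Subgroup.le_centralizer_iff_isMulCommutative.mp
    (conj_abelian (Subgroup.le_centralizer_iff_isMulCommutative.mpr hA.1) g), fun B hB => ?_⟩
  rw [card_map_conj]
  exact hA.2 B hB

/-- the generating family: maximal abelian CD-members and abelian subgroups of largest order -/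
def Fam (X : Subgroup G) : Prop := ZM X ∨ X ∈ Cfsg.maxAbelianSubgroups G

theorem fam_conj [Finite G] {X : Subgroup G} (hX : Fam X) (g : G) :
    Fam (X.map (MulAut.conj g).toMonoidHom) :=
  hX.elim (fun h => Or.inl (zm_conj h g)) (fun h => Or.inr (maxab_conj h g))

theorem fam_ab {X : Subgroup G} (hX : Fam X) : X ≤ Subgroup.centralizer (X : Set G) :=
  hX.elim (fun h => h.2.1) (fun h => Subgroup.le_centralizer_iff_isMulCommutative.mpr h.1)

theorem fam_mul [Finite G] {C X : Subgroup G} (hC : ZM C) (hX : Fam X) :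
    ((C ⊔ X : Subgroup G) : Set G) = (C : Set G) * (X : Set G) := by
  rcases hX with hX | hX
  · exact cd_sup_eq_mul hC.1 hX.1
  · have h := (cl_maxAbelian_inf (zm_mcl hC).1.1 hX).2
    rw [(zm_mcl hC).2] at h
    exact h

theorem zm_exists_least [Finite G] (S : Set (Subgroup G)) (hne : S.Nonempty)
    (hinf : ∀ A ∈ S, ∀ B ∈ S, A ⊓ B ∈ S) : ∃ W ∈ S, ∀ D ∈ S, W ≤ D := by
  obtain ⟨M, hM, hmin⟩ := Set.exists_min_image S (fun R => Nat.card R) (Set.toFinite S) hne
  refine ⟨M, hM, fun D hD => ?_⟩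
  have h2 : Nat.card M ≤ Nat.card ↥(M ⊓ D) := hmin _ (hinf M hM D hD)
  have h3 : M ⊓ D = M := Subgroup.eq_of_le_of_card_ge inf_le_left h2
  exact h3.ge.trans inf_le_right

theorem card_le_of_subset_mul [Finite G] (H K L : Subgroup G) (hH : H ≤ L) (hK : K ≤ L)
    (hL : (L : Set G) ⊆ (H : Set G) * (K : Set G)) :
    Nat.card L * Nat.card ↥(H ⊓ K) ≤ Nat.card H * Nat.card K := by
  have hsurj : Function.Surjective (Subgroup.quotientSubgroupOfEmbeddingOfLE K hH) := by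
    intro q
    obtain ⟨x, rfl⟩ := QuotientGroup.mk_surjective q
    obtain ⟨a, ha, b, hb, hab⟩ := Set.mem_mul.mp (hL x.2)
    refine ⟨QuotientGroup.mk ⟨a, ha⟩, ?_⟩
    rw [Subgroup.quotientSubgroupOfEmbeddingOfLE_apply_mk, QuotientGroup.eq,
      Subgroup.mem_subgroupOf]
    have e : a⁻¹ * (x : G) = b := by rw [← hab]; group
    simpa [e] using hb
  have h1 : K.relIndex L ≤ K.relIndex H := Nat.card_le_card_of_surjective _ hsurj
  have h2 := card_eq_card_inf_mul_relIndex H K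
  have h3 := card_eq_card_mul_relIndex hK
  calc Nat.card L * Nat.card ↥(H ⊓ K)
      = Nat.card K * K.relIndex L * Nat.card ↥(H ⊓ K) := by rw [← h3]
    _ ≤ Nat.card K * K.relIndex H * Nat.card ↥(H ⊓ K) :=
        Nat.mul_le_mul (Nat.mul_le_mul le_rfl h1) le_rfl
    _ = (Nat.card ↥(H ⊓ K) * K.relIndex H) * Nat.card K := by ring
    _ = Nat.card H * Nat.card K := by rw [← h2]

theorem a3_arith {n h M k ck c i1 z i2 f fh cf i3 : ℕ} (hh : 0 < h) (hc : 0 < c) (hz : 0 < z)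
    (ha : n * h = M) (hb : k * ck ≤ M) (hcc : c ≤ ck) (hd : c * h ≤ k * i1) (he : i1 ≤ z)
    (hf : n * i2 ≤ c * f) (hg : z ≤ i2) (hh' : fh ≤ cf) (hi : f * h ≤ fh * i3) (hj : i3 ≤ z)
    (hk : f * cf ≤ M) : f * cf = M := by
  have s1 : c * c ≤ n * z := by
    have e : (c * c) * h ≤ (n * z) * h := by
      calc (c * c) * h = c * (c * h) := by ring
        _ ≤ c * (k * i1) := Nat.mul_le_mul le_rfl hd
        _ ≤ c * (k * z) := Nat.mul_le_mul le_rfl (Nat.mul_le_mul le_rfl he)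
        _ = (k * c) * z := by ring
        _ ≤ (k * ck) * z := Nat.mul_le_mul (Nat.mul_le_mul le_rfl hcc) le_rfl
        _ ≤ M * z := Nat.mul_le_mul hb le_rfl
        _ = (n * z) * h := by rw [← ha]; ring
    exact Nat.le_of_mul_le_mul_right e hh
  have s2 : n * z ≤ c * f := (Nat.mul_le_mul le_rfl hg).trans hf
  have s3 : c ≤ f := Nat.le_of_mul_le_mul_left (s1.trans s2) hc
  have s4 : n * z ≤ f * f := s2.trans (Nat.mul_le_mul s3 le_rfl)
  have s5 : M * z ≤ (f * cf) * z := by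
    calc M * z = (n * z) * h := by rw [← ha]; ring
      _ ≤ (f * f) * h := Nat.mul_le_mul s4 le_rfl
      _ = f * (f * h) := by ring
      _ ≤ f * (fh * i3) := Nat.mul_le_mul le_rfl hi
      _ ≤ f * (cf * z) := Nat.mul_le_mul le_rfl (Nat.mul_le_mul hh' hj)
      _ = (f * cf) * z := by ring
  exact le_antisymm hk (Nat.le_of_mul_le_mul_right s5 hz)

theorem cd_of_factor [Finite G] {N C F₀ : Subgroup G} (hN : Cfsg.IsCentralizerLarge N)
    (hCN : C ≤ N) (hCab : C ≤ Subgroup.centralizer (C : Set G))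
    (hF₀N : F₀ ≤ N) (hF₀ab : F₀ ≤ Subgroup.centralizer (F₀ : Set G))
    (hmul : (N : Set G) ⊆ (C : Set G) * (F₀ : Set G))
    (hZ : N ⊓ Subgroup.centralizer (N : Set G) ≤ C) :
    Cfsg.IsCentralizerLarge (F₀ ⊔ (N ⊓ Subgroup.centralizer (N : Set G))) ∧
    F₀ ⊔ (N ⊓ Subgroup.centralizer (N : Set G)) ≤ Subgroup.centralizer
      ((F₀ ⊔ (N ⊓ Subgroup.centralizer (N : Set G)) : Subgroup G) : Set G) := by
  have hFN : F₀ ⊔ (N ⊓ Subgroup.centralizer (N : Set G)) ≤ N := sup_le hF₀N inf_le_left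
  have hZF₀ : N ⊓ Subgroup.centralizer (N : Set G) ≤ Subgroup.centralizer (F₀ : Set G) :=
    inf_le_right.trans (centralizer_anti hF₀N)
  have hFab : F₀ ⊔ (N ⊓ Subgroup.centralizer (N : Set G)) ≤ Subgroup.centralizer
      ((F₀ ⊔ (N ⊓ Subgroup.centralizer (N : Set G)) : Subgroup G) : Set G) := by
    rw [centralizer_sup_eq]
    exact sup_le (le_inf hF₀ab (Subgroup.le_centralizer_iff.mp hZF₀))
      (le_inf hZF₀ (inf_le_right.trans (centralizer_anti inf_le_left)))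
  refine ⟨?_, hFab⟩
  have ha : Nat.card ↥N * Nat.card ↥(Subgroup.centralizer (N : Set G))
      = Cfsg.maxCentralizerProduct G := hN
  have hb := cdm_le_max (C ⊔ Subgroup.centralizer (N : Set G))
  have hcc : Nat.card ↥C ≤ Nat.card ↥(Subgroup.centralizer
      ((C ⊔ Subgroup.centralizer (N : Set G) : Subgroup G) : Set G)) := by
    apply Subgroup.card_le_of_le
    rw [centralizer_sup_eq]
    exact le_inf hCab (hCN.trans (le_cc N))
  have hd := card_mul_card_le_card_mul_card_inf C (Subgroup.centralizer (N : Set G))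
    (C ⊔ Subgroup.centralizer (N : Set G)) le_sup_left le_sup_right
  have he : Nat.card ↥(C ⊓ Subgroup.centralizer (N : Set G))
      ≤ Nat.card ↥(N ⊓ Subgroup.centralizer (N : Set G)) :=
    Subgroup.card_le_of_le (inf_le_inf_right _ hCN)
  have hf := card_le_of_subset_mul C (F₀ ⊔ (N ⊓ Subgroup.centralizer (N : Set G))) N hCN hFN
    (hmul.trans (Set.mul_subset_mul_left (SetLike.coe_subset_coe.mpr le_sup_left)))
  have hg : Nat.card ↥(N ⊓ Subgroup.centralizer (N : Set G))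
      ≤ Nat.card ↥(C ⊓ (F₀ ⊔ (N ⊓ Subgroup.centralizer (N : Set G)))) :=
    Subgroup.card_le_of_le (le_inf hZ le_sup_right)
  have hh' : Nat.card ↥((F₀ ⊔ (N ⊓ Subgroup.centralizer (N : Set G)))
        ⊔ Subgroup.centralizer (N : Set G))
      ≤ Nat.card ↥(Subgroup.centralizer
        ((F₀ ⊔ (N ⊓ Subgroup.centralizer (N : Set G)) : Subgroup G) : Set G)) :=
    Subgroup.card_le_of_le (sup_le hFab (centralizer_anti hFN))
  have hi := card_mul_card_le_card_mul_card_inf (F₀ ⊔ (N ⊓ Subgroup.centralizer (N : Set G)))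
    (Subgroup.centralizer (N : Set G))
    ((F₀ ⊔ (N ⊓ Subgroup.centralizer (N : Set G))) ⊔ Subgroup.centralizer (N : Set G))
    le_sup_left le_sup_right
  have hj : Nat.card ↥((F₀ ⊔ (N ⊓ Subgroup.centralizer (N : Set G)))
        ⊓ Subgroup.centralizer (N : Set G))
      ≤ Nat.card ↥(N ⊓ Subgroup.centralizer (N : Set G)) :=
    Subgroup.card_le_of_le (inf_le_inf_right _ hFN)
  have hk := cdm_le_max (F₀ ⊔ (N ⊓ Subgroup.centralizer (N : Set G)))
  exact a3_arith (Nat.card_pos (α := ↥(Subgroup.centralizer (N : Set G))))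
    (Nat.card_pos (α := ↥C))
    (Nat.card_pos (α := ↥(N ⊓ Subgroup.centralizer (N : Set G))))
    ha hb hcc hd he hf hg hh' hi hj hk

theorem exists_central_mod [Finite G] {p : ℕ} [Fact p.Prime] (hG : IsPGroup p G)
    {T N V : Subgroup G} (hNT : N ≤ T) (hVN : ¬ N ≤ V)
    (hTN : T ≤ Subgroup.normalizer (N : Set G)) :
    ∃ v ∈ N, v ∉ V ∧ ∀ y ∈ T, v * y * v⁻¹ * y⁻¹ ∈ V := by
  classical
  have : Group.IsNilpotent ↥T := (hG.to_subgroup T).isNilpotent
  obtain ⟨n, hn⟩ := Group.IsNilpotent.nilpotent ↥T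
  have hQn : ∃ i, ∃ t : ↥T, t ∈ Subgroup.upperCentralSeries ↥T i ∧ (t : G) ∈ N ∧ (t : G) ∉ V := by
    obtain ⟨x, hxN, hxV⟩ := SetLike.not_le_iff_exists.mp hVN
    exact ⟨n, ⟨x, hNT hxN⟩, by rw [hn]; exact Subgroup.mem_top _, hxN, hxV⟩
  obtain ⟨t, ht1, ht2, ht3⟩ := Nat.find_spec hQn
  by_cases hm0 : Nat.find hQn = 0
  · exfalso
    rw [hm0, Subgroup.upperCentralSeries_zero, Subgroup.mem_bot] at ht1
    apply ht3
    rw [ht1]
    exact one_mem V
  · obtain ⟨m, hm⟩ := Nat.exists_eq_succ_of_ne_zero hm0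
    rw [hm] at ht1
    refine ⟨t, ht2, ht3, fun y hy => ?_⟩
    have h1 := Subgroup.mem_upperCentralSeries_succ_iff.mp ht1 ⟨y, hy⟩
    by_contra hcon
    have hlt : m < Nat.find hQn := by rw [hm]; exact Nat.lt_succ_self m
    apply Nat.find_min hQn hlt
    refine ⟨⁅t, ⟨y, hy⟩⁆, h1, ?_, hcon⟩
    show (t : G) * y * (t : G)⁻¹ * y⁻¹ ∈ N
    have h2 : y * (t : G)⁻¹ * y⁻¹ ∈ N := nz_mem (hTN hy) (inv_mem ht2)
    have e : (t : G) * y * (t : G)⁻¹ * y⁻¹ = (t : G) * (y * (t : G)⁻¹ * y⁻¹) := by group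
    rw [e]; exact mul_mem ht2 h2

theorem pgroup_normalizer_grows [Finite G] {p : ℕ} [Fact p.Prime] (hG : IsPGroup p G)
    {M H : Subgroup G} (hMH : M ≤ H) (hne : M ≠ H) :
    ∃ g ∈ H, g ∈ Subgroup.normalizer (M : Set G) ∧ g ∉ M := by
  have : Group.IsNilpotent ↥H := (hG.to_subgroup H).isNilpotent
  have hlt : M.subgroupOf H < ⊤ := by
    rw [lt_top_iff_ne_top, Ne, Subgroup.subgroupOf_eq_top]
    exact fun h => hne (le_antisymm hMH h)
  have hgrow := Group.normalizerCondition_of_isNilpotent (G := ↥H) (M.subgroupOf H) hlt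
  obtain ⟨t, ht1, ht2⟩ := SetLike.exists_of_lt hgrow
  refine ⟨t, t.2, mem_nz_of (fun d hd => ?_) (fun d hd => ?_),
    fun h => ht2 (Subgroup.mem_subgroupOf.mpr h)⟩
  · have h3 := (Subgroup.mem_normalizer_iff.mp ht1 ⟨d, hMH hd⟩).mp
      (Subgroup.mem_subgroupOf.mpr hd)
    exact Subgroup.mem_subgroupOf.mp h3
  · have h3 := (Subgroup.mem_normalizer_iff.mp (inv_mem ht1) ⟨d, hMH hd⟩).mp
      (Subgroup.mem_subgroupOf.mpr hd)
    have h4 := Subgroup.mem_subgroupOf.mp h3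
    simpa using h4

end Cfsg.Agent.Helper17
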