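import Mathlib
import Cfsg.Prelude.Def_BaumannBlocks
import Cfsg.Agent.Helper17.CD
import Cfsg.Agent.Helper17.ZmA

set_option autoImplicit false

open scoped Pointwise commutatorElement

namespace Cfsg.Agent.Helper17

variable {G : Type*} [Group G]

/-- the largest `X`-invariant subgroup of `C` -/
def coreX (C X : Subgroup G) : Subgroup G where
  carrier := {v | ∀ x ∈ X, x * v * x⁻¹ ∈ C}
  mul_mem' := by
    intro a b ha hb x hx
    have e : x * (a * b) * x⁻¹ = (x * a * x⁻¹) * (x * b * x⁻¹) := by group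
    rw [e]; exact mul_mem (ha x hx) (hb x hx)
  one_mem' := by
    intro x hx
    have e : x * 1 * x⁻¹ = 1 := by group
    rw [e]; exact one_mem C
  inv_mem' := by
    intro a ha x hx
    have e : x * a⁻¹ * x⁻¹ = (x * a * x⁻¹)⁻¹ := by group
    rw [e]; exact inv_mem (ha x hx)

theorem mem_coreX {C X : Subgroup G} {v : G} :
    v ∈ coreX C X ↔ ∀ x ∈ X, x * v * x⁻¹ ∈ C := Iff.rfl

theorem coreX_le (C X : Subgroup G) : coreX C X ≤ C := by
  intro v hv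
  have h := mem_coreX.mp hv 1 (one_mem X)
  simpa using h

theorem coreX_inv_X {C X : Subgroup G} {v y : G} (hv : v ∈ coreX C X) (hy : y ∈ X) :
    y * v * y⁻¹ ∈ coreX C X := by
  rw [mem_coreX]
  intro x hx
  have h := mem_coreX.mp hv (x * y) (mul_mem hx hy)
  have e : x * (y * v * y⁻¹) * x⁻¹ = (x * y) * v * (x * y)⁻¹ := by group
  rw [e]; exact h

theorem coreX_inv_S {C X S : Subgroup G} (hXS : X ≤ Subgroup.normalizer (S : Set G))
    (hSC : S ≤ Subgroup.normalizer (C : Set G)) {v s : G} (hv : v ∈ coreX C X) (hs : s ∈ S) :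
    s * v * s⁻¹ ∈ coreX C X := by
  rw [mem_coreX]
  intro x hx
  have h1 : x * s * x⁻¹ ∈ S := nz_mem (hXS hx) hs
  have h2 : x * v * x⁻¹ ∈ C := mem_coreX.mp hv x hx
  have h3 := nz_mem (hSC h1) h2
  have e : x * (s * v * s⁻¹) * x⁻¹
      = (x * s * x⁻¹) * (x * v * x⁻¹) * (x * s * x⁻¹)⁻¹ := by group
  rw [e]; exact h3

theorem comm_mul_right_of_commute {y a b : G} (h : y * a = a * y) :
    y * (b * a) * y⁻¹ * (b * a)⁻¹ = y * b * y⁻¹ * b⁻¹ := by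
  have h' : a * y⁻¹ = y⁻¹ * a := by
    calc a * y⁻¹ = y⁻¹ * (y * a) * y⁻¹ := by group
      _ = y⁻¹ * (a * y) * y⁻¹ := by rw [h]
      _ = y⁻¹ * a := by group
  calc y * (b * a) * y⁻¹ * (b * a)⁻¹ = y * b * (a * y⁻¹) * a⁻¹ * b⁻¹ := by group
    _ = y * b * (y⁻¹ * a) * a⁻¹ * b⁻¹ := by rw [h']
    _ = y * b * y⁻¹ * b⁻¹ := by group

theorem conj_comm_of_commute {x s a : G} (h : x * a = a * x) :
    x * (s * a * s⁻¹ * a⁻¹) * x⁻¹ = (x * s * x⁻¹) * a * (x * s * x⁻¹)⁻¹ * a⁻¹ := by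
  have h1 : x⁻¹ * a * x = a := by
    calc x⁻¹ * a * x = x⁻¹ * (a * x) := by group
      _ = x⁻¹ * (x * a) := by rw [h]
      _ = a := by group
  have h2 : x⁻¹ * a⁻¹ = a⁻¹ * x⁻¹ := by
    calc x⁻¹ * a⁻¹ = (a * x)⁻¹ := by group
      _ = (x * a)⁻¹ := by rw [h]
      _ = a⁻¹ * x⁻¹ := by group
  calc x * (s * a * s⁻¹ * a⁻¹) * x⁻¹ = x * s * a * s⁻¹ * (a⁻¹ * x⁻¹) := by group
    _ = x * s * (x⁻¹ * a * x) * s⁻¹ * (x⁻¹ * a⁻¹) := by rw [h1, h2]
    _ = (x * s * x⁻¹) * a * (x * s * x⁻¹)⁻¹ * a⁻¹ := by group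

theorem retract_normal {C W K : Subgroup G}
    (hKC : K ≤ Subgroup.normalizer (C : Set G)) (hKW : ∀ g ∈ K, ∀ w ∈ W, g * w * g⁻¹ ∈ W) :
    K ≤ Subgroup.normalizer
      (((C ⊓ Subgroup.centralizer (W : Set G)) ⊔ W : Subgroup G) : Set G) := by
  apply le_nz_of
  intro g hg d hd
  have key : (C ⊓ Subgroup.centralizer (W : Set G)) ⊔ W ≤
      ((C ⊓ Subgroup.centralizer (W : Set G)) ⊔ W).comap (MulAut.conj g).toMonoidHom := by
    apply sup_le
    · intro d hd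
      rw [Subgroup.mem_comap]
      apply Subgroup.mem_sup_left
      obtain ⟨hd1, hd2⟩ := Subgroup.mem_inf.mp hd
      refine Subgroup.mem_inf.mpr ⟨nz_mem (hKC hg) hd1, ?_⟩
      show g * d * g⁻¹ ∈ Subgroup.centralizer (W : Set G)
      rw [Subgroup.mem_centralizer_iff]
      intro w hw
      have hw' : g⁻¹ * w * g ∈ W := by
        have h := hKW g⁻¹ (inv_mem hg) w hw
        simpa using h
      have h1 := Subgroup.mem_centralizer_iff.mp hd2 _ hw'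
      have e1 : w * (g * d * g⁻¹) = g * ((g⁻¹ * w * g) * d) * g⁻¹ := by group
      have e2 : g * d * g⁻¹ * w = g * (d * (g⁻¹ * w * g)) * g⁻¹ := by group
      rw [e1, e2, h1]
    · intro d hd
      rw [Subgroup.mem_comap]
      exact Subgroup.mem_sup_right (hKW g hg d hd)
  exact Subgroup.mem_comap.mp (key hd)

theorem exists_conj_join [Finite G] {S X C : Subgroup G}
    (hXS : X ≤ Subgroup.normalizer (S : Set G)) (hC : Cfsg.IsCentralizerLarge C)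
    (hCab : C ≤ Subgroup.centralizer (C : Set G)) (hCS : C ≤ S)
    (hSC : S ≤ Subgroup.normalizer (C : Set G)) :
    ∃ N : Subgroup G, Cfsg.IsCentralizerLarge N ∧ C ≤ N ∧ N ≤ S ∧ N ≤ C ⊔ X ∧
      (∀ y ∈ X, ∀ n ∈ N, y * n * y⁻¹ ∈ N) ∧ (∀ s ∈ S, ∀ n ∈ N, s * n * s⁻¹ ∈ N) ∧
      N ≤ Subgroup.centralizer (coreX C X : Set G) := by
  obtain ⟨F, hF⟩ : ∃ F : ↥X → Subgroup G,
      F = fun x : ↥X => C.map (MulAut.conj (x : G)).toMonoidHom := ⟨_, rfl⟩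
  have hFx : ∀ (x : ↥X) (z : G), z ∈ F x ↔ (x : G)⁻¹ * z * (x : G) ∈ C := by
    intro x z
    rw [hF]
    exact mem_conj_iff C _ z
  have hFcd : ∀ x : ↥X, Cfsg.IsCentralizerLarge (F x) := by
    intro x
    rw [hF]
    exact cd_conj hC _
  have hFle : ∀ x : ↥X, F x ≤ sSup (Set.range F) := fun x => le_sSup (Set.mem_range_self x)
  refine ⟨sSup (Set.range F), ?_, ?_, ?_, ?_, ?_, ?_, ?_⟩
  · exact sSup_mem_of_subset_sup_closed {A : Subgroup G | Cfsg.IsCentralizerLarge A}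
      (Set.range F) (by rintro _ ⟨x, rfl⟩; exact hFcd x)
      ⟨_, Set.mem_range_self (1 : ↥X)⟩ (fun A hA B hB => (cd_main hA hB).1)
  · intro c hc
    apply hFle (1 : ↥X)
    rw [hFx]
    simpa using hc
  · apply sSup_le
    rintro _ ⟨x, rfl⟩
    intro y hy
    have h1 : (x : G)⁻¹ * y * x ∈ S := hCS ((hFx x y).mp hy)
    have h2 := nz_mem (hXS x.2) h1
    have e : (x : G) * ((x : G)⁻¹ * y * x) * (x : G)⁻¹ = y := by group
    rwa [e] at h2
  · apply sSup_le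
    rintro _ ⟨x, rfl⟩
    intro y hy
    have h1 : (x : G)⁻¹ * y * x ∈ C := (hFx x y).mp hy
    have e : y = (x : G) * ((x : G)⁻¹ * y * x) * (x : G)⁻¹ := by group
    rw [e]
    exact mul_mem (mul_mem (Subgroup.mem_sup_right x.2) (Subgroup.mem_sup_left h1))
      (inv_mem (Subgroup.mem_sup_right x.2))
  · intro y hy n hn
    have key : sSup (Set.range F) ≤ (sSup (Set.range F)).comap (MulAut.conj y).toMonoidHom := by
      apply sSup_le
      rintro _ ⟨x, rfl⟩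
      intro z hz
      rw [Subgroup.mem_comap]
      have h1 : (x : G)⁻¹ * z * x ∈ C := (hFx x z).mp hz
      have h2 : y * z * y⁻¹ ∈ F ⟨y * x, mul_mem hy x.2⟩ := by
        rw [hFx]
        have e : (y * (x : G))⁻¹ * (y * z * y⁻¹) * (y * (x : G)) = (x : G)⁻¹ * z * x := by
          group
        show (y * (x : G))⁻¹ * (y * z * y⁻¹) * (y * (x : G)) ∈ C
        rw [e]; exact h1
      exact hFle _ h2
    exact Subgroup.mem_comap.mp (key hn)
  · intro s hs n hn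
    have key : sSup (Set.range F) ≤ (sSup (Set.range F)).comap (MulAut.conj s).toMonoidHom := by
      apply sSup_le
      rintro _ ⟨x, rfl⟩
      intro z hz
      rw [Subgroup.mem_comap]
      have h1 : (x : G)⁻¹ * z * x ∈ C := (hFx x z).mp hz
      have h0 : (x : G)⁻¹ * s * x ∈ S := nz_mem' (hXS x.2) hs
      have h3 := nz_mem (hSC h0) h1
      have h2 : s * z * s⁻¹ ∈ F x := by
        rw [hFx]
        have e : (x : G)⁻¹ * (s * z * s⁻¹) * x
            = ((x : G)⁻¹ * s * x) * ((x : G)⁻¹ * z * x) * ((x : G)⁻¹ * s * x)⁻¹ := by group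
        rw [e]; exact h3
      exact hFle _ h2
    exact Subgroup.mem_comap.mp (key hn)
  · apply sSup_le
    rintro _ ⟨x, rfl⟩
    intro z hz
    rw [Subgroup.mem_centralizer_iff]
    intro v hv
    have h1 : (x : G)⁻¹ * z * x ∈ C := (hFx x z).mp hz
    have h2 : (x : G)⁻¹ * v * x ∈ C := by
      have h := mem_coreX.mp hv (x : G)⁻¹ (inv_mem x.2)
      simpa using h
    have h3 := Subgroup.mem_centralizer_iff.mp (hCab h1) _ h2
    have e1 : v * z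
        = (x : G) * (((x : G)⁻¹ * v * x) * ((x : G)⁻¹ * z * x)) * (x : G)⁻¹ := by group
    have e2 : z * v
        = (x : G) * (((x : G)⁻¹ * z * x) * ((x : G)⁻¹ * v * x)) * (x : G)⁻¹ := by group
    rw [e1, e2, h3]

theorem comm_split {S X C : Subgroup G}
    (hXab : X ≤ Subgroup.centralizer (X : Set G)) (hCab : C ≤ Subgroup.centralizer (C : Set G))
    (hXS : X ≤ Subgroup.normalizer (S : Set G)) (hSC : S ≤ Subgroup.normalizer (C : Set G))
    {c x₀ : G} (hc : c ∈ C) (hx₀ : x₀ ∈ X)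
    (hKS : ∀ y ∈ S, y * (c * x₀) * y⁻¹ * (c * x₀)⁻¹ ∈ coreX C X)
    (hKX : ∀ y ∈ X, y * (c * x₀) * y⁻¹ * (c * x₀)⁻¹ ∈ coreX C X) :
    (∀ y ∈ S, y * c * y⁻¹ * c⁻¹ ∈ coreX C X) ∧ (∀ y ∈ X, y * c * y⁻¹ * c⁻¹ ∈ coreX C X) ∧
    (∀ y ∈ S, y * x₀ * y⁻¹ * x₀⁻¹ ∈ coreX C X) ∧
    (∀ y ∈ X, y * x₀ * y⁻¹ * x₀⁻¹ ∈ coreX C X) := by
  have hA : ∀ y ∈ X, y * c * y⁻¹ * c⁻¹ ∈ coreX C X := by
    intro y hy
    have hcomm : y * x₀ = x₀ * y := Subgroup.mem_centralizer_iff.mp (hXab hx₀) y hy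
    have h := hKX y hy
    rwa [comm_mul_right_of_commute hcomm] at h
  have hCq : ∀ s ∈ S, s * x₀ * s⁻¹ * x₀⁻¹ ∈ C := by
    intro s hs
    have h1 : s * c * s⁻¹ ∈ C := nz_mem (hSC hs) hc
    have h2 : s * (c * x₀) * s⁻¹ * (c * x₀)⁻¹ ∈ C := coreX_le C X (hKS s hs)
    have e : s * x₀ * s⁻¹ * x₀⁻¹
        = (s * c * s⁻¹)⁻¹ * (s * (c * x₀) * s⁻¹ * (c * x₀)⁻¹) * c := by group
    rw [e]
    exact mul_mem (mul_mem (inv_mem h1) h2) hc
  have hD : ∀ s ∈ S, s * x₀ * s⁻¹ * x₀⁻¹ ∈ coreX C X := by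
    intro s hs
    rw [mem_coreX]
    intro x hx
    have hcomm : x * x₀ = x₀ * x := Subgroup.mem_centralizer_iff.mp (hXab hx₀) x hx
    rw [conj_comm_of_commute hcomm]
    exact hCq _ (nz_mem (hXS hx) hs)
  have hE : ∀ s ∈ S, s * c * s⁻¹ * c⁻¹ ∈ coreX C X := by
    intro s hs
    have hq := hD s hs
    have hqC : s * x₀ * s⁻¹ * x₀⁻¹ ∈ C := hCq s hs
    have hcomm : c * (s * x₀ * s⁻¹ * x₀⁻¹) = (s * x₀ * s⁻¹ * x₀⁻¹) * c :=
      Subgroup.mem_centralizer_iff.mp (hCab hqC) c hc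
    have e : s * c * s⁻¹ * c⁻¹ = (s * (c * x₀) * s⁻¹ * (c * x₀)⁻¹)
        * (c * (s * x₀ * s⁻¹ * x₀⁻¹) * c⁻¹)⁻¹ := by group
    have e2 : c * (s * x₀ * s⁻¹ * x₀⁻¹) * c⁻¹ = s * x₀ * s⁻¹ * x₀⁻¹ := by
      rw [hcomm]; group
    rw [e, e2]
    exact mul_mem (hKS s hs) (inv_mem hq)
  refine ⟨hE, hA, hD, ?_⟩
  intro y hy
  have hcomm : y * x₀ = x₀ * y := Subgroup.mem_centralizer_iff.mp (hXab hx₀) y hy
  have e : y * x₀ * y⁻¹ * x₀⁻¹ = 1 := by rw [hcomm]; group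
  rw [e]; exact one_mem _

theorem key_finish [Finite G] {S X C : Subgroup G}
    (hXS : X ≤ Subgroup.normalizer (S : Set G)) (hC : ZM C) (hCS : C ≤ S)
    (hSC : S ≤ Subgroup.normalizer (C : Set G))
    {u : G} (hu : u ∉ coreX C X)
    (huS : ∀ y ∈ S, y * u * y⁻¹ * u⁻¹ ∈ coreX C X)
    (huX : ∀ y ∈ X, y * u * y⁻¹ * u⁻¹ ∈ coreX C X)
    {N D : Subgroup G} (hN : Cfsg.IsCentralizerLarge N) (hNS : N ≤ S)
    (hČN : coreX C X ≤ N) (huN : u ∈ N)
    (hD : Cfsg.IsCentralizerLarge D) (hDab : D ≤ Subgroup.centralizer (D : Set G))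
    (hČD : coreX C X ≤ D) (huD : u ∈ D) :
    ∃ C' : Subgroup G, ZM C' ∧ C' ≤ S ∧ S ≤ Subgroup.normalizer (C' : Set G) ∧
      Nat.card ↥(coreX C X) < Nat.card ↥(coreX C' X) := by
  obtain ⟨W, hW, hWmin⟩ := zm_exists_least
    {D' : Subgroup G | Cfsg.IsCentralizerLarge D' ∧ coreX C X ≤ D' ∧ u ∈ D'}
    ⟨N, hN, hČN, huN⟩
    (by
      rintro A ⟨hA1, hA2, hA3⟩ B ⟨hB1, hB2, hB3⟩
      exact ⟨(cd_main hA1 hB1).2.1, le_inf hA2 hB2, Subgroup.mem_inf.mpr ⟨hA3, hB3⟩⟩)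
  obtain ⟨hW1, hW2, hW3⟩ := hW
  have hWD : W ≤ D := hWmin D ⟨hD, hČD, huD⟩
  have hWN : W ≤ N := hWmin N ⟨hN, hČN, huN⟩
  have hWab : W ≤ Subgroup.centralizer (W : Set G) :=
    hWD.trans (hDab.trans (centralizer_anti hWD))
  have hinv : ∀ g : G, (∀ v ∈ coreX C X, g * v * g⁻¹ ∈ coreX C X) →
      g * u * g⁻¹ * u⁻¹ ∈ coreX C X → ∀ w ∈ W, g * w * g⁻¹ ∈ W := by
    intro g hg1 hg2 w hw
    have hmem : W.map (MulAut.conj g⁻¹).toMonoidHom ∈
        {D' : Subgroup G | Cfsg.IsCentralizerLarge D' ∧ coreX C X ≤ D' ∧ u ∈ D'} := by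
      refine ⟨cd_conj hW1 g⁻¹, ?_, ?_⟩
      · intro v hv
        rw [mem_conj_iff]
        have h := hW2 (hg1 v hv)
        simpa using h
      · rw [mem_conj_iff]
        have h := mul_mem (hW2 hg2) hW3
        have e : g * u * g⁻¹ * u⁻¹ * u = g⁻¹⁻¹ * u * g⁻¹ := by group
        rwa [e] at h
    have h := (mem_conj_iff W g⁻¹ w).mp (hWmin _ hmem hw)
    simpa using h
  have hWS : ∀ g ∈ S, ∀ w ∈ W, g * w * g⁻¹ ∈ W := fun g hg =>
    hinv g (fun v hv => coreX_inv_S hXS hSC hv hg) (huS g hg)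
  have hWX : ∀ g ∈ X, ∀ w ∈ W, g * w * g⁻¹ ∈ W := fun g hg =>
    hinv g (fun v hv => coreX_inv_X hv hg) (huX g hg)
  refine ⟨(C ⊓ Subgroup.centralizer (W : Set G)) ⊔ W, zm_retract hC hW1 hWab,
    sup_le (inf_le_left.trans hCS) (hWN.trans hNS), retract_normal hSC hWS, ?_⟩
  have hWcore : W ≤ coreX ((C ⊓ Subgroup.centralizer (W : Set G)) ⊔ W) X := by
    intro w hw
    rw [mem_coreX]
    intro x hx
    exact Subgroup.mem_sup_right (hWX x hx w hw)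
  have hle : coreX C X ≤ coreX ((C ⊓ Subgroup.centralizer (W : Set G)) ⊔ W) X :=
    hW2.trans hWcore
  by_contra hcon
  have hge : Nat.card ↥(coreX ((C ⊓ Subgroup.centralizer (W : Set G)) ⊔ W) X)
      ≤ Nat.card ↥(coreX C X) := not_lt.mp hcon
  have heq := Subgroup.eq_of_le_of_card_ge hle hge
  apply hu
  rw [heq]
  exact hWcore hW3

theorem key_step [Finite G] {p : ℕ} [Fact p.Prime] (hG : IsPGroup p G) {S X C : Subgroup G}
    (hXab : X ≤ Subgroup.centralizer (X : Set G)) (hXS : X ≤ Subgroup.normalizer (S : Set G))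
    (hmul : ((C ⊔ X : Subgroup G) : Set G) = (C : Set G) * (X : Set G))
    (hC : ZM C) (hCS : C ≤ S) (hSC : S ≤ Subgroup.normalizer (C : Set G))
    (hXC : ¬ X ≤ Subgroup.normalizer (C : Set G)) :
    ∃ C' : Subgroup G, ZM C' ∧ C' ≤ S ∧ S ≤ Subgroup.normalizer (C' : Set G) ∧
      Nat.card ↥(coreX C X) < Nat.card ↥(coreX C' X) := by
  obtain ⟨N, hN, hCN, hNS, hNCX, hNX, hNSinv, hNcent⟩ :=
    exists_conj_join (X := X) hXS hC.1 hC.2.1 hCS hSC
  have hČN : coreX C X ≤ N := (coreX_le C X).trans hCN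
  have hnot : ¬ N ≤ coreX C X := by
    intro hle
    apply hXC
    apply le_nz_of
    intro x hx c hc
    exact mem_coreX.mp (hle (hCN hc)) x hx
  have hNT : N ≤ S ⊔ X := hNS.trans le_sup_left
  have hTN : S ⊔ X ≤ Subgroup.normalizer (N : Set G) :=
    sup_le (le_nz_of hNSinv) (le_nz_of hNX)
  obtain ⟨v, hvN, hvČ, hv⟩ := exists_central_mod hG hNT hnot hTN
  have hK : ∀ y ∈ S ⊔ X, y * v * y⁻¹ * v⁻¹ ∈ coreX C X := by
    intro y hy
    have h := inv_mem (hv y hy)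
    have e : (v * y * v⁻¹ * y⁻¹)⁻¹ = y * v * y⁻¹ * v⁻¹ := by group
    rwa [e] at h
  have hvCX : v ∈ ((C ⊔ X : Subgroup G) : Set G) := hNCX hvN
  rw [hmul] at hvCX
  obtain ⟨c, hc', x₀, hx₀', rfl⟩ := Set.mem_mul.mp hvCX
  have hc : c ∈ C := hc'
  have hx₀ : x₀ ∈ X := hx₀'
  have hx₀N : x₀ ∈ N := by
    have h := mul_mem (inv_mem (hCN hc)) hvN
    have e : c⁻¹ * (c * x₀) = x₀ := by group
    rwa [e] at h
  obtain ⟨hcS, hcX, hxS, hxX⟩ := comm_split hXab hC.2.1 hXS hSC hc hx₀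
    (fun y hy => hK y (Subgroup.mem_sup_left hy)) (fun y hy => hK y (Subgroup.mem_sup_right hy))
  by_cases hcČ : c ∈ coreX C X
  · have hx₀Č : x₀ ∉ coreX C X := fun h => hvČ (mul_mem hcČ h)
    have hZC : N ⊓ Subgroup.centralizer (N : Set G) ≤ C :=
      zm_max hC (cd_main hN (cd_centralizer hN).1).2.1
        (inf_le_right.trans (centralizer_anti inf_le_left))
        (inf_le_right.trans (centralizer_anti hCN))
    have hmulN : (N : Set G) ⊆ (C : Set G) * ((X ⊓ N : Subgroup G) : Set G) := by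
      intro n hn
      have hn' : n ∈ ((C ⊔ X : Subgroup G) : Set G) := hNCX hn
      rw [hmul] at hn'
      obtain ⟨c', hc'', x', hx'', rfl⟩ := Set.mem_mul.mp hn'
      have hc2 : c' ∈ C := hc''
      have hx2 : x' ∈ X := hx''
      have hn2 : c' * x' ∈ N := hn
      refine Set.mem_mul.mpr ⟨c', hc'', x', Subgroup.mem_inf.mpr ⟨hx2, ?_⟩, rfl⟩
      have h := mul_mem (inv_mem (hCN hc2)) hn2
      have e : c'⁻¹ * (c' * x') = x' := by group
      rwa [e] at h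
    obtain ⟨hD1, hD2⟩ := cd_of_factor hN hCN hC.2.1 (inf_le_right : X ⊓ N ≤ N)
      ((inf_le_left : X ⊓ N ≤ X).trans (hXab.trans (centralizer_anti inf_le_left))) hmulN hZC
    have hČZ : coreX C X ≤ N ⊓ Subgroup.centralizer (N : Set G) :=
      le_inf hČN (Subgroup.le_centralizer_iff.mp hNcent)
    exact key_finish hXS hC hCS hSC hx₀Č hxS hxX hN hNS hČN hx₀N hD1 hD2
      (hČZ.trans le_sup_right) (Subgroup.mem_sup_left (Subgroup.mem_inf.mpr ⟨hx₀, hx₀N⟩))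
  · exact key_finish hXS hC hCS hSC hcČ hcS hcX hN hNS hČN (hCN hc) hC.1 hC.2.1
      (coreX_le C X) hc

end Cfsg.Agent.Helper17
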