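import Mathlib
import Cfsg.Prelude.Def_BaumannBlocks
import Cfsg.Agent.Helper17.CD
import Cfsg.Agent.Helper17.ZmA
import Cfsg.Agent.Helper17.ZmB

set_option autoImplicit false

open scoped Pointwise commutatorElement

namespace Cfsg.Agent.Helper17

variable {G : Type*} [Group G]

theorem fam_join_normal [Finite G] {H M : Subgroup G}
    (hHM : H ≤ Subgroup.normalizer (M : Set G)) :
    H ≤ Subgroup.normalizer ((sSup {X : Subgroup G | Fam X ∧ X ≤ M} : Subgroup G) : Set G) := by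
  apply le_nz_of
  intro g hg d hd
  have key : sSup {X : Subgroup G | Fam X ∧ X ≤ M} ≤
      (sSup {X : Subgroup G | Fam X ∧ X ≤ M}).comap (MulAut.conj g).toMonoidHom := by
    apply sSup_le
    rintro X ⟨hX1, hX2⟩
    rw [← Subgroup.map_le_iff_le_comap]
    apply le_sSup
    refine ⟨fam_conj hX1 g, ?_⟩
    rintro _ ⟨x, hx, rfl⟩
    exact nz_mem (hHM hg) (hX2 hx)
  exact Subgroup.mem_comap.mp (key hd)

theorem normalizer_le_normalizer_centralizer' (C : Subgroup G) :
    Subgroup.normalizer (C : Set G) ≤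
      Subgroup.normalizer ((Subgroup.centralizer (C : Set G) : Subgroup G) : Set G) := by
  apply le_nz_of
  intro g hg z hz
  rw [Subgroup.mem_centralizer_iff]
  intro c hc
  have hc' : g⁻¹ * c * g ∈ C := nz_mem' hg hc
  have h1 := Subgroup.mem_centralizer_iff.mp hz _ hc'
  have e1 : c * (g * z * g⁻¹) = g * ((g⁻¹ * c * g) * z) * g⁻¹ := by group
  have e2 : g * z * g⁻¹ * c = g * (z * (g⁻¹ * c * g)) * g⁻¹ := by group
  rw [e1, e2, h1]

theorem main_ind [Finite G] {p : ℕ} [Fact p.Prime] (hG : IsPGroup p G) :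
    ∀ (n : ℕ) (H : Subgroup G), Nat.card H = n → (∃ B : Subgroup G, ZM B ∧ B ≤ H) →
      H ≤ sSup {X : Subgroup G | Fam X ∧ X ≤ H} →
      ∃ C : Subgroup G, ZM C ∧ C ≤ H ∧ H ≤ Subgroup.normalizer (C : Set G) := by
  intro n
  induction n using Nat.strong_induction_on with
  | _ n ih =>
    intro H hcard hB hgen
    by_cases hK : ∃ K : Subgroup G, (∃ B : Subgroup G, ZM B ∧ B ≤ K) ∧
        K ≤ sSup {X : Subgroup G | Fam X ∧ X ≤ K} ∧ K ≤ H ∧ K ≠ H
    · obtain ⟨K, hKmem, hKmax⟩ := Set.exists_max_image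
        {K : Subgroup G | (∃ B : Subgroup G, ZM B ∧ B ≤ K) ∧
          K ≤ sSup {X : Subgroup G | Fam X ∧ X ≤ K} ∧ K ≤ H ∧ K ≠ H}
        (fun K => Nat.card K) (Set.toFinite _) hK
      obtain ⟨hKB, hKgen, hKH, hKne⟩ := hKmem
      obtain ⟨M, hMmem, hMmax⟩ := Set.exists_max_image
        {M : Subgroup G | K ≤ M ∧ M ≤ H ∧ M ≠ H}
        (fun M => Nat.card M) (Set.toFinite _) ⟨K, le_rfl, hKH, hKne⟩
      obtain ⟨hKM, hMH, hMne⟩ := hMmem
      have hHM : H ≤ Subgroup.normalizer (M : Set G) := by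
        obtain ⟨g, hgH, hgN, hgM⟩ := pgroup_normalizer_grows hG hMH hMne
        by_contra hcon
        have hne' : H ⊓ Subgroup.normalizer (M : Set G) ≠ H :=
          fun h => hcon (h.ge.trans inf_le_right)
        have hMle : M ≤ H ⊓ Subgroup.normalizer (M : Set G) :=
          le_inf hMH Subgroup.le_normalizer
        have hmem : H ⊓ Subgroup.normalizer (M : Set G) ∈
            {M : Subgroup G | K ≤ M ∧ M ≤ H ∧ M ≠ H} := ⟨hKM.trans hMle, inf_le_left, hne'⟩
        have h1 : Nat.card ↥(H ⊓ Subgroup.normalizer (M : Set G)) ≤ Nat.card M :=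
          hMmax _ hmem
        have h2 := Subgroup.eq_of_le_of_card_ge hMle h1
        exact hgM (h2.ge (Subgroup.mem_inf.mpr ⟨hgH, hgN⟩))
      have hKK' : K ≤ sSup {X : Subgroup G | Fam X ∧ X ≤ M} :=
        hKgen.trans (sSup_le_sSup (fun X hX => ⟨hX.1, hX.2.trans hKM⟩))
      have hK'M : sSup {X : Subgroup G | Fam X ∧ X ≤ M} ≤ M := sSup_le (fun X hX => hX.2)
      have hK'mem : sSup {X : Subgroup G | Fam X ∧ X ≤ M} ∈
          {K : Subgroup G | (∃ B : Subgroup G, ZM B ∧ B ≤ K) ∧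
            K ≤ sSup {X : Subgroup G | Fam X ∧ X ≤ K} ∧ K ≤ H ∧ K ≠ H} := by
        obtain ⟨B, hBz, hBK⟩ := hKB
        exact ⟨⟨B, hBz, hBK.trans hKK'⟩, sSup_le (fun X hX => le_sSup ⟨hX.1, le_sSup hX⟩),
          hK'M.trans hMH, fun h => hMne (le_antisymm hMH (h.ge.trans hK'M))⟩
      have hK'card : Nat.card ↥(sSup {X : Subgroup G | Fam X ∧ X ≤ M}) ≤ Nat.card K :=
        hKmax _ hK'mem
      have hKeq : K = sSup {X : Subgroup G | Fam X ∧ X ≤ M} :=
        Subgroup.eq_of_le_of_card_ge hKK' hK'card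
      have hHK : H ≤ Subgroup.normalizer (K : Set G) := by
        have h := fam_join_normal hHM
        rw [← hKeq] at h
        exact h
      have hexX : ∃ X : Subgroup G, Fam X ∧ X ≤ H ∧ ¬ X ≤ K := by
        by_contra hcon
        apply hKne
        refine le_antisymm hKH (hgen.trans (sSup_le (fun X hX => ?_)))
        by_contra hXK
        exact hcon ⟨X, hX.1, hX.2, hXK⟩
      obtain ⟨X, hXfam, hXH, hXK⟩ := hexX
      have hsup : K ⊔ X = H := by
        by_contra hne
        have hmem : K ⊔ X ∈ {K : Subgroup G | (∃ B : Subgroup G, ZM B ∧ B ≤ K) ∧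
            K ≤ sSup {X : Subgroup G | Fam X ∧ X ≤ K} ∧ K ≤ H ∧ K ≠ H} := by
          obtain ⟨B, hBz, hBK⟩ := hKB
          refine ⟨⟨B, hBz, hBK.trans le_sup_left⟩, sup_le ?_ ?_, sup_le hKH hXH, hne⟩
          · exact hKgen.trans (sSup_le_sSup (fun Y hY => ⟨hY.1, hY.2.trans le_sup_left⟩))
          · exact le_sSup ⟨hXfam, le_sup_right⟩
        have h1 : Nat.card ↥(K ⊔ X) ≤ Nat.card K := hKmax _ hmem
        have h2 := Subgroup.eq_of_le_of_card_ge (le_sup_left : K ≤ K ⊔ X) h1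
        exact hXK (le_sup_right.trans h2.ge)
      have hKlt : Nat.card K < n := by
        rw [← hcard]
        by_contra hcon
        exact hKne (Subgroup.eq_of_le_of_card_ge hKH (not_lt.mp hcon))
      have hgood : ∃ C : Subgroup G, ZM C ∧ C ≤ K ∧ K ≤ Subgroup.normalizer (C : Set G) :=
        ih (Nat.card K) hKlt K rfl hKB hKgen
      obtain ⟨C, hCmem, hCmax⟩ := Set.exists_max_image
        {C : Subgroup G | ZM C ∧ C ≤ K ∧ K ≤ Subgroup.normalizer (C : Set G)}
        (fun C => Nat.card ↥(coreX C X)) (Set.toFinite _) hgood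
      obtain ⟨hCz, hCK, hKC⟩ := hCmem
      have hXC : X ≤ Subgroup.normalizer (C : Set G) := by
        by_contra hcon
        obtain ⟨C', hC'z, hC'K, hKC', hlt⟩ := key_step hG (fam_ab hXfam) (hXH.trans hHK)
          (fam_mul hCz hXfam) hCz hCK hKC hcon
        have hmem : C' ∈ {C : Subgroup G | ZM C ∧ C ≤ K ∧
            K ≤ Subgroup.normalizer (C : Set G)} := ⟨hC'z, hC'K, hKC'⟩
        have h1 : Nat.card ↥(coreX C' X) ≤ Nat.card ↥(coreX C X) := hCmax C' hmem
        exact absurd hlt (not_lt.mpr h1)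
      refine ⟨C, hCz, hCK.trans hKH, ?_⟩
      rw [← hsup]
      exact sup_le hKC hXC
    · obtain ⟨B, hBz, hBH⟩ := hB
      have hBeq : B = H := by
        by_contra hne
        exact hK ⟨B, ⟨B, hBz, le_rfl⟩, le_sSup ⟨Or.inl hBz, le_rfl⟩, hBH, hne⟩
      refine ⟨B, hBz, hBH, ?_⟩
      rw [← hBeq]
      exact Subgroup.le_normalizer

/-- Part 2 of S3008: some minimal centrally large subgroup is normalized by `J` and by the
join of the minimal centrally large subgroups. -/
theorem s3008_part2 [Finite G] {p : ℕ} [Fact p.Prime] (hG : IsPGroup p G) :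
    ∃ Q : Subgroup G, Cfsg.IsMinimalCentrallyLarge Q ∧
      Cfsg.thompsonSubgroupA G ≤ Subgroup.normalizer (Q : Set G) ∧
      Cfsg.minimalCentrallyLargeJoin G ≤ Subgroup.normalizer (Q : Set G) := by
  obtain ⟨R₀, hR₀⟩ := exists_mcl (G := G)
  have hB₀ : ZM (Subgroup.centralizer (R₀ : Set G)) := zm_of_mcl hR₀
  have hgen : sSup {X : Subgroup G | Fam X} ≤
      sSup {X : Subgroup G | Fam X ∧ X ≤ sSup {X : Subgroup G | Fam X}} :=
    sSup_le_sSup (fun X hX => ⟨hX, le_sSup hX⟩)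
  obtain ⟨C, hCz, hCH, hHC⟩ := main_ind hG _ (sSup {X : Subgroup G | Fam X}) rfl
    ⟨_, hB₀, le_sSup (Or.inl hB₀)⟩ hgen
  obtain ⟨hQ, hCC⟩ := zm_mcl hCz
  have hNN := normalizer_le_normalizer_centralizer' C
  refine ⟨Subgroup.centralizer (C : Set G), hQ, ?_, ?_⟩
  · refine le_trans ?_ (hHC.trans hNN)
    show sSup (Cfsg.maxAbelianSubgroups G) ≤ _
    exact sSup_le_sSup (fun A hA => Or.inr hA)
  · show sSup {R : Subgroup G | Cfsg.IsMinimalCentrallyLarge R} ≤ _
    apply sSup_le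
    intro R hR
    have hdec := mcl_decomp hR hQ.1
    have hle : (R ⊓ Subgroup.centralizer (C : Set G)) ⊔ Subgroup.centralizer (R : Set G) ≤
        Subgroup.normalizer ((Subgroup.centralizer (C : Set G) : Subgroup G) : Set G) := by
      apply sup_le
      · exact inf_le_right.trans Subgroup.le_normalizer
      · have hmemR : Subgroup.centralizer (R : Set G) ∈ {X : Subgroup G | Fam X} :=
          Or.inl (zm_of_mcl hR)
        exact (le_sSup hmemR).trans (hHC.trans hNN)
    exact hdec.symm.le.trans hle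

end Cfsg.Agent.Helper17
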